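import Mathlib
import Cfsg.Prelude.Def_LieTypeDatum
import Cfsg.Agent.Lib.helper4.USimple
import Cfsg.Agent.Lib.helper4.UFrames
import Cfsg.Agent.Lib.helper4.UMax2
import Cfsg.Agent.Lib.helper4.UPerp
import Cfsg.Agent.Lib.helper13.PSpSylow

set_option autoImplicit false
set_option linter.unusedSectionVars false
set_option linter.unusedVariables false
set_option linter.style.longLine false

/-!
Basic infrastructure for automorphisms of `PSU_n(q)` (standard Hermitian form): the automorphisms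
induced by the general unitary group and by field automorphisms.
-/

namespace Cfsg.Agent.Lib.helper13.PU

open Matrix
open Cfsg.Agent.Lib.helper4

variable {F : Type*} [Field F] [Fintype F] {q n : ℕ}

abbrev Mn (n : ℕ) (F : Type*) : Type _ := Matrix (Fin n) (Fin n) F

theorem central_of_scalar (z : Cfsg.SU n F q) (c : F) (h : ∀ x, suM z *ᵥ x = c • x) :
    z ∈ Subgroup.center (Cfsg.SU n F q) := by
  rw [Subgroup.mem_center_iff]
  intro g
  apply su_ext
  intro x
  rw [suM_mul, suM_mul, ← Matrix.mulVec_mulVec, ← Matrix.mulVec_mulVec, h, h, Matrix.mulVec_smul]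

theorem diag_mulVec (c : F) (x : Fin n → F) :
    (Matrix.diagonal (fun _ => c) : Mn n F) *ᵥ x = c • x := by
  ext i
  rw [Matrix.mulVec_diagonal, Pi.smul_apply, smul_eq_mul]

/-- equality of classes in `PSU`: the matrices differ by a scalar -/
theorem mk_eq_iff (hF : Fintype.card F = q ^ 2) (hn : 2 ≤ n) (A B : Cfsg.SU n F q) :
    (QuotientGroup.mk A : Cfsg.PSU n F q) = QuotientGroup.mk B ↔
      ∃ c : F, ∀ x, suM B *ᵥ x = c • (suM A *ᵥ x) := by
  rw [QuotientGroup.eq]
  constructor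
  · intro h
    obtain ⟨c, hc⟩ := su_center_scalar hF hn _ h
    refine ⟨c, fun x => ?_⟩
    have h1 : suM B *ᵥ x = suM A *ᵥ (suM (A⁻¹ * B) *ᵥ x) := by
      rw [Matrix.mulVec_mulVec, ← suM_mul, mul_inv_cancel_left]
    have h2 : suM (A⁻¹ * B) = Matrix.diagonal (fun _ => c) := hc
    rw [h1, h2, diag_mulVec, Matrix.mulVec_smul]
  · rintro ⟨c, hc⟩
    apply central_of_scalar _ c
    intro x
    rw [suM_mul, ← Matrix.mulVec_mulVec, hc, Matrix.mulVec_smul, suM_inv_mulVec]

theorem exists_rep (x : Cfsg.PSU n F q) : ∃ A : Cfsg.SU n F q, x = QuotientGroup.mk A := by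
  induction x using QuotientGroup.induction_on with
  | H A => exact ⟨A, rfl⟩

/-- an automorphism of `SU` induces an automorphism of `PSU` -/
def liftAut (e : Cfsg.SU n F q ≃* Cfsg.SU n F q) : MulAut (Cfsg.PSU n F q) :=
  QuotientGroup.congr _ _ e (PN.map_center_eq e)

theorem liftAut_mk (e : Cfsg.SU n F q ≃* Cfsg.SU n F q) (M : Cfsg.SU n F q) :
    liftAut e (QuotientGroup.mk M) = QuotientGroup.mk (e M) := rfl

theorem gu_inv_mulVec' (g : GL (Fin n) F) (x : Fin n → F) :
    ((g⁻¹ : GL (Fin n) F) : Mn n F) *ᵥ ((g : Mn n F) *ᵥ x) = x := by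
  rw [Matrix.mulVec_mulVec, Units.inv_mul, Matrix.one_mulVec]

theorem gu_mulVec_inv' (g : GL (Fin n) F) (x : Fin n → F) :
    (g : Mn n F) *ᵥ (((g⁻¹ : GL (Fin n) F) : Mn n F) *ᵥ x) = x := by
  rw [Matrix.mulVec_mulVec, Units.mul_inv, Matrix.one_mulVec]

theorem gu_pres (g : GL (Fin n) F) (hg : g ∈ Cfsg.GU n F q) (u v : Fin n → F) :
    Cfsg.hermForm n F q ((g : Mn n F) *ᵥ u) ((g : Mn n F) *ᵥ v) = Cfsg.hermForm n F q u v :=
  (mem_GU_iff g).mp hg u v

theorem gu_conj_pres (g : GL (Fin n) F) (hg : g ∈ Cfsg.GU n F q) (s : Cfsg.SU n F q)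
    (u v : Fin n → F) :
    Cfsg.hermForm n F q (((g : Mn n F) * suM s * ((g⁻¹ : GL (Fin n) F) : Mn n F)) *ᵥ u)
      (((g : Mn n F) * suM s * ((g⁻¹ : GL (Fin n) F) : Mn n F)) *ᵥ v) = Cfsg.hermForm n F q u v := by
  rw [← Matrix.mulVec_mulVec, ← Matrix.mulVec_mulVec, ← Matrix.mulVec_mulVec,
    ← Matrix.mulVec_mulVec, gu_pres g hg, su_pres s, gu_pres _ (inv_mem hg)]

/-- conjugation by a general unitary matrix on `SU` -/
def conjSU (g : ↥(Cfsg.GU n F q)) : Cfsg.SU n F q ≃* Cfsg.SU n F q where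
  toFun s := ⟨⟨((g : GL (Fin n) F) : Mn n F) * suM s * (((g : GL (Fin n) F)⁻¹ : GL (Fin n) F) : Mn n F),
    by rw [Matrix.det_units_conj]; exact s.1.2⟩, gu_conj_pres _ g.2 s⟩
  invFun s := ⟨⟨(((g : GL (Fin n) F)⁻¹ : GL (Fin n) F) : Mn n F) * suM s * ((g : GL (Fin n) F) : Mn n F),
    by rw [Matrix.det_units_conj']; exact s.1.2⟩, by
      have h := gu_conj_pres (g : GL (Fin n) F)⁻¹ (inv_mem g.2) s
      rwa [inv_inv] at h⟩
  left_inv M := by
    apply suM_injective
    show (((g : GL (Fin n) F)⁻¹ : GL (Fin n) F) : Mn n F) * (((g : GL (Fin n) F) : Mn n F) * suM M *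
      (((g : GL (Fin n) F)⁻¹ : GL (Fin n) F) : Mn n F)) * ((g : GL (Fin n) F) : Mn n F) = suM M
    rw [← mul_assoc, ← mul_assoc, Units.inv_mul, one_mul, mul_assoc, Units.inv_mul, mul_one]
  right_inv M := by
    apply suM_injective
    show ((g : GL (Fin n) F) : Mn n F) * ((((g : GL (Fin n) F)⁻¹ : GL (Fin n) F) : Mn n F) * suM M *
      ((g : GL (Fin n) F) : Mn n F)) * (((g : GL (Fin n) F)⁻¹ : GL (Fin n) F) : Mn n F) = suM M
    rw [← mul_assoc, ← mul_assoc, Units.mul_inv, one_mul, mul_assoc, Units.mul_inv, mul_one]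
  map_mul' M N := by
    apply suM_injective
    show ((g : GL (Fin n) F) : Mn n F) * (suM M * suM N) * (((g : GL (Fin n) F)⁻¹ : GL (Fin n) F) : Mn n F) =
      ((g : GL (Fin n) F) : Mn n F) * suM M * (((g : GL (Fin n) F)⁻¹ : GL (Fin n) F) : Mn n F) *
      (((g : GL (Fin n) F) : Mn n F) * suM N * (((g : GL (Fin n) F)⁻¹ : GL (Fin n) F) : Mn n F))
    have h : (((g : GL (Fin n) F)⁻¹ : GL (Fin n) F) : Mn n F) * ((g : GL (Fin n) F) : Mn n F) = 1 :=
      Units.inv_mul _
    calc ((g : GL (Fin n) F) : Mn n F) * (suM M * suM N) * (((g : GL (Fin n) F)⁻¹ : GL (Fin n) F) : Mn n F)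
        = ((g : GL (Fin n) F) : Mn n F) * suM M * 1 * suM N * (((g : GL (Fin n) F)⁻¹ : GL (Fin n) F) : Mn n F) := by
          simp only [mul_assoc, one_mul]
      _ = _ := by rw [← h]; simp only [mul_assoc]

theorem conjSU_coe (g : ↥(Cfsg.GU n F q)) (M : Cfsg.SU n F q) :
    suM (conjSU g M) = ((g : GL (Fin n) F) : Mn n F) * suM M *
      (((g : GL (Fin n) F)⁻¹ : GL (Fin n) F) : Mn n F) := rfl

theorem conjSU_mulVec (g : ↥(Cfsg.GU n F q)) (M : Cfsg.SU n F q) (x : Fin n → F) :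
    suM (conjSU g M) *ᵥ (((g : GL (Fin n) F) : Mn n F) *ᵥ x) =
      ((g : GL (Fin n) F) : Mn n F) *ᵥ (suM M *ᵥ x) := by
  rw [conjSU_coe, ← Matrix.mulVec_mulVec, ← Matrix.mulVec_mulVec, gu_inv_mulVec']

/-- conjugation by general unitary matrices on `PSU` -/
def conjAut : ↥(Cfsg.GU n F q) →* MulAut (Cfsg.PSU n F q) where
  toFun A := liftAut (conjSU A)
  map_one' := by
    apply MulEquiv.ext
    intro x
    induction x using QuotientGroup.induction_on with
    | H M =>
      rw [liftAut_mk]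
      congr 1
      apply suM_injective
      rw [conjSU_coe]
      simp
  map_mul' A B := by
    apply MulEquiv.ext
    intro x
    induction x using QuotientGroup.induction_on with
    | H M =>
      rw [MulAut.mul_apply, liftAut_mk, liftAut_mk, liftAut_mk]
      congr 1
      apply suM_injective
      rw [conjSU_coe, conjSU_coe, conjSU_coe]
      have e1 : ((A * B : ↥(Cfsg.GU n F q)) : GL (Fin n) F) = (A : GL (Fin n) F) * (B : GL (Fin n) F) := rfl
      rw [e1, _root_.mul_inv_rev, Units.val_mul, Units.val_mul]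
      simp only [mul_assoc]

theorem conjAut_mk (A : ↥(Cfsg.GU n F q)) (M : Cfsg.SU n F q) :
    conjAut A (QuotientGroup.mk M) = QuotientGroup.mk (conjSU A M) := rfl

theorem map_mulVec (σ : F ≃+* F) (M : Mn n F) (x : Fin n → F) :
    (M.map σ) *ᵥ x = fun i => σ ((M *ᵥ (fun j => σ.symm (x j))) i) := by
  ext i
  simp only [Matrix.mulVec, dotProduct, Matrix.map_apply, map_sum, map_mul, RingEquiv.apply_symm_apply]

theorem map_mulVec' (σ : F ≃+* F) (M : Mn n F) (x : Fin n → F) :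
    (M.map σ) *ᵥ (fun i => σ (x i)) = fun i => σ ((M *ᵥ x) i) := by
  rw [map_mulVec]
  simp only [RingEquiv.symm_apply_apply]

theorem herm_map (σ : F ≃+* F) (u v : Fin n → F) :
    Cfsg.hermForm n F q (fun i => σ (u i)) (fun i => σ (v i)) = σ (Cfsg.hermForm n F q u v) := by
  simp only [Cfsg.hermForm, map_sum, map_mul, map_pow]

theorem map_pres (σ : F ≃+* F) (s : Cfsg.SU n F q) (u v : Fin n → F) :
    Cfsg.hermForm n F q (((suM s).map σ) *ᵥ u) (((suM s).map σ) *ᵥ v) = Cfsg.hermForm n F q u v := by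
  rw [map_mulVec, map_mulVec, herm_map, su_pres, ← herm_map]
  simp only [RingEquiv.apply_symm_apply]

theorem map_det_one (σ : F ≃+* F) (s : Cfsg.SU n F q) : ((suM s).map σ).det = 1 := by
  have h := RingHom.map_det (σ : F →+* F) (suM s)
  rw [RingHom.mapMatrix_apply] at h
  have h2 : (suM s).det = 1 := s.1.2
  rw [h2, map_one] at h
  exact h.symm

/-- a field automorphism acting on `SU` -/
def fieldSU (σ : F ≃+* F) : Cfsg.SU n F q ≃* Cfsg.SU n F q where
  toFun s := ⟨⟨(suM s).map σ, map_det_one σ s⟩, map_pres σ s⟩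
  invFun s := ⟨⟨(suM s).map σ.symm, map_det_one σ.symm s⟩, map_pres σ.symm s⟩
  left_inv M := by
    apply suM_injective
    ext i j
    show σ.symm (σ (suM M i j)) = suM M i j
    simp
  right_inv M := by
    apply suM_injective
    ext i j
    show σ (σ.symm (suM M i j)) = suM M i j
    simp
  map_mul' M N := by
    apply suM_injective
    show (suM M * suM N).map σ = (suM M).map σ * (suM N).map σ
    exact Matrix.map_mul

theorem fieldSU_coe (σ : F ≃+* F) (M : Cfsg.SU n F q) : suM (fieldSU σ M) = (suM M).map σ := rfl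

/-- a field automorphism acting on `PSU` -/
def fieldAut : (F ≃+* F) →* MulAut (Cfsg.PSU n F q) where
  toFun σ := liftAut (fieldSU σ)
  map_one' := by
    apply MulEquiv.ext
    intro x
    induction x using QuotientGroup.induction_on with
    | H M =>
      rw [liftAut_mk]
      congr 1
  map_mul' σ τ := by
    apply MulEquiv.ext
    intro x
    induction x using QuotientGroup.induction_on with
    | H M =>
      rw [MulAut.mul_apply, liftAut_mk, liftAut_mk, liftAut_mk]
      congr 1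

theorem fieldAut_mk (σ : F ≃+* F) (M : Cfsg.SU n F q) :
    fieldAut σ (QuotientGroup.mk M) = QuotientGroup.mk (fieldSU σ M) := rfl

/-! ### the frozen predicates -/

theorem conjAut_innerDiag (g : ↥(Cfsg.GU n F q)) : Cfsg.IsInnerDiagonalAutPSU (conjAut g) := by
  refine ⟨g, g.2, fun s s' h => ?_⟩
  rw [conjAut_mk]
  congr 1
  apply suM_injective
  rw [conjSU_coe]
  exact h.symm

theorem fieldAut_isField (σ : F ≃+* F) :
    Cfsg.IsFieldAutPSUOf σ (fieldAut σ : MulAut (Cfsg.PSU n F q)) := by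
  intro s s' h
  rw [fieldAut_mk]
  congr 1
  apply suM_injective
  rw [fieldSU_coe]
  exact h.symm

theorem eq_conjAut_of_innerDiag (β : MulAut (Cfsg.PSU n F q)) (h : Cfsg.IsInnerDiagonalAutPSU β) :
    ∃ g : ↥(Cfsg.GU n F q), β = conjAut g := by
  obtain ⟨g, hg, h⟩ := h
  refine ⟨⟨g, hg⟩, ?_⟩
  apply MulEquiv.ext
  intro x
  obtain ⟨A, rfl⟩ := exists_rep x
  rw [conjAut_mk]
  exact h A _ rfl

theorem eq_fieldAut_of (σ : F ≃+* F) (β : MulAut (Cfsg.PSU n F q))
    (h : Cfsg.IsFieldAutPSUOf σ β) : β = fieldAut σ := by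
  apply MulEquiv.ext
  intro x
  obtain ⟨A, rfl⟩ := exists_rep x
  rw [fieldAut_mk]
  exact h A _ rfl

theorem induced_conj_field (g : ↥(Cfsg.GU n F q)) (σ : F ≃+* F) :
    Cfsg.IsInducedBySemilinearPSU (g : GL (Fin n) F) σ
      (conjAut g * fieldAut σ : MulAut (Cfsg.PSU n F q)) := by
  intro s s' h
  rw [MulAut.mul_apply, fieldAut_mk, conjAut_mk]
  congr 1
  apply suM_injective
  rw [conjSU_coe, fieldSU_coe]
  exact h.symm

theorem eq_of_induced (g : ↥(Cfsg.GU n F q)) (σ : F ≃+* F) (β : MulAut (Cfsg.PSU n F q))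
    (h : Cfsg.IsInducedBySemilinearPSU (g : GL (Fin n) F) σ β) :
    β = conjAut g * fieldAut σ := by
  apply MulEquiv.ext
  intro x
  obtain ⟨A, rfl⟩ := exists_rep x
  rw [MulAut.mul_apply, fieldAut_mk, conjAut_mk]
  exact h A _ rfl

/-- `SU` inside `GU` -/
def suToGU (A : Cfsg.SU n F q) : ↥(Cfsg.GU n F q) :=
  ⟨suToGL n F q A, (suToGL_mem A).1⟩

theorem suToGU_coe (A : Cfsg.SU n F q) :
    (((suToGU A : ↥(Cfsg.GU n F q)) : GL (Fin n) F) : Mn n F) = suM A := rfl

theorem conjSU_suToGU (A M : Cfsg.SU n F q) : conjSU (suToGU A) M = A * M * A⁻¹ := by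
  apply suM_injective
  rw [conjSU_coe, suToGU_coe, suM_mul, suM_mul]
  congr 1

theorem conjAut_suToGU (A : Cfsg.SU n F q) (x : Cfsg.PSU n F q) :
    conjAut (suToGU A) x = QuotientGroup.mk A * x * (QuotientGroup.mk A)⁻¹ := by
  obtain ⟨M, rfl⟩ := exists_rep x
  rw [conjAut_mk, conjSU_suToGU]
  rfl

end Cfsg.Agent.Lib.helper13.PU
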