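import Mathlib

set_option autoImplicit false

namespace Cfsg.Agent.Lib.helper13

open Equiv

section AbPerm

variable {α : Type*}

/-- elements of an abelian permutation group fixing `x` fix the orbit of `x` pointwise -/
lemma ab_stab_fix (A : Subgroup (Perm α)) (hA : ∀ a ∈ A, ∀ b ∈ A, a * b = b * a) (x : α)
    (s : Perm α) (hs : s ∈ A) (hsx : s x = x) (y : α) (hy : y ∈ MulAction.orbit A x) :
    s y = y := by
  obtain ⟨a, rfl⟩ := hy
  show s ((a : Perm α) x) = (a : Perm α) x
  have h1 := hA s hs a a.2
  have h2 : (s * (a : Perm α)) x = ((a : Perm α) * s) x := by rw [h1]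
  simpa [Perm.mul_apply, hsx] using h2

/-- Reduction along an orbit: an abelian permutation group `A` has order
`|orbit| * |B|` for an abelian group `B` of permutations of the complement of the orbit,
each member of which is the restriction of an element of `A` fixing the orbit pointwise. -/
theorem ab_orbit_reduce [Finite α] (A : Subgroup (Perm α))
    (hA : ∀ a ∈ A, ∀ b ∈ A, a * b = b * a) (x : α) :
    ∃ B : Subgroup (Perm {y // y ∉ MulAction.orbit A x}),
      (∀ a ∈ B, ∀ b ∈ B, a * b = b * a) ∧
      Nat.card A = Nat.card (MulAction.orbit A x) * Nat.card B ∧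
      ∀ b ∈ B, ∃ a ∈ A, ∃ h : ∀ y, a y ∉ MulAction.orbit A x ↔ y ∉ MulAction.orbit A x,
        b = a.subtypePerm h ∧ ∀ y ∈ MulAction.orbit A x, a y = y := by
  classical
  have hfix : ∀ s : MulAction.stabilizer A x, ∀ y ∈ MulAction.orbit A x,
      ((s : A) : Perm α) y = y := by
    intro s y hy
    have hs : (s : A) • x = x := s.2
    exact ab_stab_fix A hA x _ (s : A).2 hs y hy
  have hinv : ∀ s : MulAction.stabilizer A x, ∀ y,
      ((s : A) : Perm α) y ∉ MulAction.orbit A x ↔ y ∉ MulAction.orbit A x := by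
    intro s y
    rw [not_iff_not]
    constructor
    · intro h
      have h1 := hfix s _ h
      have h2 : ((s : A) : Perm α) y = y := ((s : A) : Perm α).injective h1
      rw [← h2]; exact h
    · intro h
      rw [hfix s y h]; exact h
  let ψ : MulAction.stabilizer A x →* Perm {y // y ∉ MulAction.orbit A x} :=
    { toFun := fun s => Perm.subtypePerm ((s : A) : Perm α) (hinv s)
      map_one' := by
        ext y; simp
      map_mul' := by
        intro s t
        apply Equiv.ext
        intro y
        apply Subtype.ext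
        rfl }
  have hψinj : Function.Injective ψ := by
    rw [injective_iff_map_eq_one]
    intro s hs
    have h1 : ∀ y, ((s : A) : Perm α) y = y := by
      intro y
      by_cases hy : y ∈ MulAction.orbit A x
      · exact hfix s y hy
      · have := congrArg (fun f : Perm {y // y ∉ MulAction.orbit A x} => (f ⟨y, hy⟩ : α)) hs
        simpa [ψ] using this
    apply Subtype.ext
    apply Subtype.ext
    ext y
    simpa using h1 y
  refine ⟨ψ.range, ?_, ?_, ?_⟩
  · rintro _ ⟨s, rfl⟩ _ ⟨t, rfl⟩
    rw [← map_mul, ← map_mul]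
    congr 1
    apply Subtype.ext
    apply Subtype.ext
    exact hA _ (s : A).2 _ (t : A).2
  · have h1 := Nat.card_congr (MulAction.orbitProdStabilizerEquivGroup A x)
    rw [Nat.card_prod] at h1
    rw [← h1]
    congr 1
    exact Nat.card_congr (MonoidHom.ofInjective hψinj).toEquiv
  · rintro _ ⟨s, rfl⟩
    exact ⟨((s : A) : Perm α), (s : A).2, hinv s, rfl, hfix s⟩

/-- generic bound: abelian permutation groups of degree `n` have order at most `f n`
whenever `m * f n ≤ f (n + m)` for all `m ≥ 1`. -/
theorem ab_bound (f : ℕ → ℕ) (hf : ∀ m n, 1 ≤ m → m * f n ≤ f (n + m)) (h0 : 1 ≤ f 0) :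
    ∀ (n : ℕ) (α : Type) [Finite α], Nat.card α = n → ∀ A : Subgroup (Perm α),
      (∀ a ∈ A, ∀ b ∈ A, a * b = b * a) → Nat.card A ≤ f n := by
  intro n
  induction n using Nat.strong_induction_on with
  | _ n ih =>
    intro α _ hα A hA
    classical
    rcases isEmpty_or_nonempty α with hem | hne
    · have hn : n = 0 := by rw [← hα]; exact Nat.card_of_isEmpty
      have : Subsingleton (Perm α) := ⟨fun a b => by ext y; exact isEmptyElim y⟩
      have : Nat.card A = 1 := Nat.card_unique
      rw [this, hn]; exact h0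
    · obtain ⟨x⟩ := hne
      obtain ⟨B, hB, hcard, -⟩ := ab_orbit_reduce A hA x
      have hsum : Nat.card (MulAction.orbit A x) + Nat.card {y // y ∉ MulAction.orbit A x} = n := by
        rw [← hα, ← Nat.card_sum]
        exact Nat.card_congr (Equiv.Set.sumCompl (MulAction.orbit A x))
      have hpos : 1 ≤ Nat.card (MulAction.orbit A x) := by
        have : Nonempty (MulAction.orbit A x) := ⟨⟨x, MulAction.mem_orbit_self x⟩⟩
        exact Nat.card_pos
      have hlt : Nat.card {y // y ∉ MulAction.orbit A x} < n := by omega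
      have h1 := ih _ hlt {y // y ∉ MulAction.orbit A x} rfl B hB
      have h2 := hf (Nat.card (MulAction.orbit A x)) (Nat.card {y // y ∉ MulAction.orbit A x}) hpos
      rw [hcard]
      calc Nat.card (MulAction.orbit A x) * Nat.card B
          ≤ Nat.card (MulAction.orbit A x) * f (Nat.card {y // y ∉ MulAction.orbit A x}) :=
            Nat.mul_le_mul_left _ h1
        _ ≤ f (Nat.card {y // y ∉ MulAction.orbit A x} + Nat.card (MulAction.orbit A x)) := h2
        _ = f n := by rw [add_comm, hsum]

/-- the largest order of an abelian subgroup of the symmetric group of degree `n` -/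
def fS : ℕ → ℕ
  | 0 => 1
  | 1 => 1
  | 2 => 2
  | 3 => 3
  | 4 => 4
  | (n + 5) => 3 * fS (n + 2)

lemma fS_add_five (n : ℕ) : fS (n + 5) = 3 * fS (n + 2) := by
  rw [fS]

lemma ind5 (P : ℕ → Prop) (h0 : P 0) (h1 : P 1) (h2 : P 2) (h3 : P 3) (h4 : P 4)
    (hs : ∀ n, P (n + 2) → P (n + 5)) : ∀ n, P n := by
  intro n
  induction n using Nat.strong_induction_on with
  | _ n ih =>
    rcases n with _ | _ | _ | _ | _ | n
    · exact h0
    · exact h1
    · exact h2
    · exact h3
    · exact h4
    · exact hs n (ih _ (by omega))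

lemma fS_three_mul (k : ℕ) (hk : 1 ≤ k) : fS (3 * k) = 3 ^ k := by
  induction k with
  | zero => omega
  | succ k ih =>
    rcases k with _ | k
    · rfl
    · have : 3 * (k + 1 + 1) = (3 * k + 1) + 5 := by ring
      rw [this, fS_add_five]
      have h2 : 3 * k + 1 + 2 = 3 * (k + 1) := by ring
      rw [h2, ih (by omega)]
      ring

lemma fS_three_mul_add_one (k : ℕ) (hk : 1 ≤ k) : fS (3 * k + 1) = 4 * 3 ^ (k - 1) := by
  induction k with
  | zero => omega
  | succ k ih =>
    rcases k with _ | k
    · rfl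
    · have : 3 * (k + 1 + 1) + 1 = (3 * k + 2) + 5 := by ring
      rw [this, fS_add_five]
      have h2 : 3 * k + 2 + 2 = 3 * (k + 1) + 1 := by ring
      rw [h2, ih (by omega)]
      simp only [Nat.add_sub_cancel]
      ring

lemma fS_three_mul_add_two (k : ℕ) : fS (3 * k + 2) = 2 * 3 ^ k := by
  induction k with
  | zero => rfl
  | succ k ih =>
    have : 3 * (k + 1) + 2 = (3 * k) + 5 := by ring
    rw [this, fS_add_five, ih]
    ring

lemma fS_mono (n : ℕ) : fS n ≤ fS (n + 1) := by
  refine ind5 (fun n => fS n ≤ fS (n + 1)) (by decide) (by decide) (by decide) (by decide)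
    (by decide) ?_ n
  intro n h
  show fS (n + 5) ≤ fS (n + 1 + 5)
  rw [fS_add_five, fS_add_five]
  exact Nat.mul_le_mul_left _ h

lemma fS_pos (n : ℕ) : 1 ≤ fS n := by
  induction n with
  | zero => decide
  | succ n ih => exact ih.trans (fS_mono n)

lemma fS_two (n : ℕ) : 2 * fS n ≤ fS (n + 2) := by
  refine ind5 (fun n => 2 * fS n ≤ fS (n + 2)) (by decide) (by decide) (by decide) (by decide)
    (by decide) ?_ n
  intro n h
  show 2 * fS (n + 5) ≤ fS (n + 2 + 5)
  rw [fS_add_five, fS_add_five]
  have := Nat.mul_le_mul_left 3 h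
  linarith

lemma fS_three (n : ℕ) : 3 * fS n ≤ fS (n + 3) := by
  rcases n with _ | _ | n
  · decide
  · decide
  · show 3 * fS (n + 2) ≤ fS (n + 5)
    rw [fS_add_five]

lemma fS_four (n : ℕ) : 4 * fS n ≤ fS (n + 4) := by
  refine ind5 (fun n => 4 * fS n ≤ fS (n + 4)) (by decide) (by decide) (by decide) (by decide)
    (by decide) ?_ n
  intro n h
  show 4 * fS (n + 5) ≤ fS (n + 4 + 5)
  rw [fS_add_five, fS_add_five]
  have := Nat.mul_le_mul_left 3 h
  linarith

lemma fS_mul (m n : ℕ) (hm : 1 ≤ m) : m * fS n ≤ fS (n + m) := by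
  induction m using Nat.strong_induction_on generalizing n with
  | _ m ih =>
    rcases m with _ | _ | _ | _ | _ | m
    · omega
    · simpa using fS_mono n
    · exact fS_two n
    · exact fS_three n
    · exact fS_four n
    · -- m + 5 = (m + 2) + 3
      have h1 := ih (m + 2) (by omega) n (by omega)
      have h2 := fS_three (n + (m + 2))
      have h3 : n + (m + 5) = n + (m + 2) + 3 := by ring
      rw [h3]
      have h4 : (m + 5) * fS n ≤ 3 * ((m + 2) * fS n) := by nlinarith [fS_pos n]
      exact h4.trans ((Nat.mul_le_mul_left 3 h1).trans h2)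

/-- abelian subgroups of a symmetric group of degree `n` have order at most `fS n` -/
theorem ab_bound_fS (n : ℕ) (A : Subgroup (Perm (Fin n))) (hA : IsMulCommutative A) :
    Nat.card A ≤ fS n :=
  ab_bound fS fS_mul (by decide) n (Fin n) (by simp) A (fun _ ha _ hb => setLike_mul_comm ha hb)

/-- existence predicate -/
def HasAb (n c : ℕ) : Prop :=
  ∃ A : Subgroup (Perm (Fin n)), IsMulCommutative A ∧ Nat.card A = c

lemma hasAb_cyclic (n : ℕ) (hn : 2 ≤ n) : HasAb n n := by
  refine ⟨Subgroup.zpowers (finRotate n), inferInstance, ?_⟩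
  rw [Nat.card_zpowers, (isCycle_finRotate_of_le hn).orderOf, support_finRotate_of_le hn]
  simp

lemma hasAb_add {a b c d : ℕ} (h1 : HasAb a c) (h2 : HasAb b d) : HasAb (a + b) (c * d) := by
  obtain ⟨A, hA, rfl⟩ := h1
  obtain ⟨B, hB, rfl⟩ := h2
  let φ : Perm (Fin a) × Perm (Fin b) →* Perm (Fin (a + b)) :=
    (finSumFinEquiv.permCongrHom.toMonoidHom).comp (Perm.sumCongrHom (Fin a) (Fin b))
  have hφ : Function.Injective φ :=
    (finSumFinEquiv.permCongrHom.injective).comp Perm.sumCongrHom_injective
  refine ⟨(A.prod B).map φ, ?_, ?_⟩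
  · have : IsMulCommutative (A.prod B) := by
      refine IsMulCommutative.of_setLike_mul_comm ?_
      rintro ⟨x1, x2⟩ ⟨h1, h2⟩ ⟨y1, y2⟩ ⟨h3, h4⟩
      exact Prod.ext (setLike_mul_comm h1 h3) (setLike_mul_comm h2 h4)
    infer_instance
  · rw [Subgroup.card_map_of_injective hφ]
    rw [Nat.card_congr (Subgroup.prodEquiv A B).toEquiv, Nat.card_prod]

lemma hasAb_three_mul (k : ℕ) (hk : 1 ≤ k) : HasAb (3 * k) (3 ^ k) := by
  induction k with
  | zero => omega
  | succ k ih =>
    rcases k with _ | k
    · exact hasAb_cyclic 3 (by norm_num)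
    · have := hasAb_add (ih (by omega)) (hasAb_cyclic 3 (by norm_num))
      have e1 : 3 * (k + 1) + 3 = 3 * (k + 1 + 1) := by ring
      have e2 : 3 ^ (k + 1) * 3 = 3 ^ (k + 1 + 1) := by ring
      rw [e1, e2] at this
      exact this

end AbPerm

end Cfsg.Agent.Lib.helper13
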