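import Mathlib
import Cfsg.Agent.Lib.helper13.AbPerm

set_option autoImplicit false

namespace Cfsg.Agent.Lib.helper13

open Equiv

section AbAlt

/-- an even permutation moving at most two points is trivial -/
lemma even_fix_compl_two {α : Type*} [Fintype α] [DecidableEq α] (a : Perm α) (p q : α)
    (hpq : p ≠ q) (hfix : ∀ y, y ≠ p → y ≠ q → a y = y) (hs : Perm.sign a = 1) : a = 1 := by
  have hp : a p = p ∨ a p = q := by
    by_contra h
    push Not at h
    have := hfix (a p) h.1 h.2
    exact h.1 (a.injective this)
  have hq : a q = p ∨ a q = q := by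
    by_contra h
    push Not at h
    have := hfix (a q) h.1 h.2
    exact h.2 (a.injective this)
  rcases hp with hp | hp
  · have hq' : a q = q := by
      rcases hq with hq | hq
      · exact absurd (a.injective (hq.trans hp.symm)) (Ne.symm hpq)
      · exact hq
    ext y
    by_cases h1 : y = p
    · rw [h1, hp]; rfl
    by_cases h2 : y = q
    · rw [h2, hq']; rfl
    · rw [hfix y h1 h2]; rfl
  · have hq' : a q = p := by
      rcases hq with hq | hq
      · exact hq
      · exact absurd (a.injective (hp.trans hq.symm)) hpq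
    have : a = swap p q := by
      ext y
      by_cases h1 : y = p
      · rw [h1, hp, swap_apply_left]
      by_cases h2 : y = q
      · rw [h2, hq', swap_apply_right]
      · rw [hfix y h1 h2, swap_apply_of_ne_of_ne h1 h2]
    rw [this, Perm.sign_swap hpq] at hs
    exact absurd hs (by decide)

/-- generic bound for abelian groups of even permutations -/
theorem alt_bound (f g : ℕ → ℕ) (h0 : 1 ≤ f 0)
    (hm : ∀ m n, 1 ≤ m → m ≠ 2 → m * f n ≤ f (n + m)) (h2 : ∀ n, g n ≤ f (n + 2))
    (hg : ∀ (n : ℕ) (α : Type) [Finite α], Nat.card α = n → ∀ A : Subgroup (Perm α),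
      (∀ a ∈ A, ∀ b ∈ A, a * b = b * a) → Nat.card A ≤ g n) :
    ∀ (n : ℕ) (α : Type) [Fintype α] [DecidableEq α], Fintype.card α = n →
      ∀ A : Subgroup (Perm α), (∀ a ∈ A, ∀ b ∈ A, a * b = b * a) →
        (∀ a ∈ A, Perm.sign a = 1) → Nat.card A ≤ f n := by
  intro n
  induction n using Nat.strong_induction_on with
  | _ n ih =>
    intro α _ _ hα A hA hsign
    classical
    rcases isEmpty_or_nonempty α with hem | hne
    · have hn : n = 0 := by rw [← hα]; exact Fintype.card_eq_zero
      have : Subsingleton (Perm α) := ⟨fun a b => by ext y; exact isEmptyElim y⟩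
      have : Nat.card A = 1 := Nat.card_unique
      rw [this, hn]; exact h0
    · obtain ⟨x⟩ := hne
      have hsum : Nat.card (MulAction.orbit A x) + Nat.card {y // y ∉ MulAction.orbit A x} = n := by
        rw [← hα, Fintype.card_eq_nat_card, ← Nat.card_sum]
        exact Nat.card_congr (Equiv.Set.sumCompl (MulAction.orbit A x))
      have hpos : 1 ≤ Nat.card (MulAction.orbit A x) := by
        have : Nonempty (MulAction.orbit A x) := ⟨⟨x, MulAction.mem_orbit_self x⟩⟩
        exact Nat.card_pos
      by_cases hO2 : Nat.card (MulAction.orbit A x) = 2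
      · -- restriction to the complement is injective
        have hinv : ∀ a : A, ∀ y,
            (a : Perm α) y ∉ MulAction.orbit A x ↔ y ∉ MulAction.orbit A x := by
          intro a y
          rw [not_iff_not]
          have : (a : Perm α) y = a • y := rfl
          rw [this, ← MulAction.orbit_eq_iff, ← MulAction.orbit_eq_iff, MulAction.orbit_smul]
        let ψ : A →* Perm {y // y ∉ MulAction.orbit A x} :=
          { toFun := fun a => Perm.subtypePerm (a : Perm α) (hinv a)
            map_one' := by
              apply Equiv.ext; intro y; apply Subtype.ext; rfl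
            map_mul' := by
              intro s t
              apply Equiv.ext; intro y; apply Subtype.ext; rfl }
        have hψinj : Function.Injective ψ := by
          rw [injective_iff_map_eq_one]
          intro a ha
          have hcard : (MulAction.orbit A x).ncard = 2 := by
            rw [← hO2]; exact (Nat.card_coe_set_eq _).symm
          obtain ⟨p, q, hpq, hO⟩ := Set.ncard_eq_two.mp hcard
          have h1 : ∀ y, y ≠ p → y ≠ q → (a : Perm α) y = y := by
            intro y hy1 hy2
            have hy : y ∉ MulAction.orbit A x := by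
              rw [hO]; simp [hy1, hy2]
            have := congrArg (fun f : Perm {y // y ∉ MulAction.orbit A x} => (f ⟨y, hy⟩ : α)) ha
            simpa [ψ] using this
          have := even_fix_compl_two (a : Perm α) p q hpq h1 (hsign _ a.2)
          exact Subtype.ext this
        have hB : ∀ a ∈ ψ.range, ∀ b ∈ ψ.range, a * b = b * a := by
          rintro _ ⟨s, rfl⟩ _ ⟨t, rfl⟩
          rw [← map_mul, ← map_mul]
          congr 1
          exact Subtype.ext (hA _ s.2 _ t.2)
        have h1 := hg _ {y // y ∉ MulAction.orbit A x} rfl ψ.range hB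
        have h3 : Nat.card A = Nat.card ψ.range :=
          Nat.card_congr (MonoidHom.ofInjective hψinj).toEquiv
        rw [h3]
        refine h1.trans ?_
        have := h2 (Nat.card {y // y ∉ MulAction.orbit A x})
        rw [hO2] at hsum
        have e : Nat.card {y // y ∉ MulAction.orbit A x} + 2 = n := by omega
        rw [e] at this
        exact this
      · obtain ⟨B, hB, hcard, hBA⟩ := ab_orbit_reduce A hA x
        have hlt : Nat.card {y // y ∉ MulAction.orbit A x} < n := by omega
        have hBs : ∀ b ∈ B, Perm.sign b = 1 := by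
          intro b hb
          obtain ⟨a, ha, h, rfl, hfix⟩ := hBA b hb
          rw [Perm.sign_subtypePerm]
          · exact hsign a ha
          · intro y hy hy'
            exact hy (hfix y hy')
        have h1 := ih _ hlt {y // y ∉ MulAction.orbit A x} (Fintype.card_eq_nat_card) B hB hBs
        have h3 := hm (Nat.card (MulAction.orbit A x)) (Nat.card {y // y ∉ MulAction.orbit A x})
          hpos hO2
        rw [hcard]
        calc Nat.card (MulAction.orbit A x) * Nat.card B
            ≤ Nat.card (MulAction.orbit A x) * f (Nat.card {y // y ∉ MulAction.orbit A x}) :=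
              Nat.mul_le_mul_left _ h1
          _ ≤ f (Nat.card {y // y ∉ MulAction.orbit A x} + Nat.card (MulAction.orbit A x)) := h3
          _ = f n := by rw [add_comm, hsum]

/-- the largest order of an abelian subgroup of the alternating group of degree `n` -/
def fA : ℕ → ℕ
  | 0 => 1
  | 1 => 1
  | 2 => 1
  | 3 => 3
  | 4 => 4
  | 5 => 5
  | 6 => 9
  | 7 => 12
  | 8 => 16
  | (n + 9) => 3 * fA (n + 6)

lemma fA_add_nine (n : ℕ) : fA (n + 9) = 3 * fA (n + 6) := by
  rw [fA]

lemma ind9 (P : ℕ → Prop) (h0 : P 0) (h1 : P 1) (h2 : P 2) (h3 : P 3) (h4 : P 4) (h5 : P 5)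
    (h6 : P 6) (h7 : P 7) (h8 : P 8)
    (hs : ∀ n, P (n + 6) → P (n + 9)) : ∀ n, P n := by
  intro n
  induction n using Nat.strong_induction_on with
  | _ n ih =>
    rcases n with _ | _ | _ | _ | _ | _ | _ | _ | _ | n
    · exact h0
    · exact h1
    · exact h2
    · exact h3
    · exact h4
    · exact h5
    · exact h6
    · exact h7
    · exact h8
    · exact hs n (ih _ (by omega))

lemma fA_three_mul_add_two (k : ℕ) (hk : 2 ≤ k) : fA (3 * k + 2) = 16 * 3 ^ (k - 2) := by
  induction k with
  | zero => omega
  | succ k ih =>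
    rcases k with _ | _ | k
    · omega
    · rfl
    · have : 3 * (k + 1 + 1 + 1) + 2 = (3 * k + 2) + 9 := by ring
      rw [this, fA_add_nine]
      have h2 : 3 * k + 2 + 6 = 3 * (k + 1 + 1) + 2 := by ring
      rw [h2, ih (by omega)]
      have e1 : k + 1 + 1 - 2 = k := by omega
      have e2 : k + 1 + 1 + 1 - 2 = k + 1 := by omega
      rw [e1, e2]
      ring

lemma fA_mono (n : ℕ) : fA n ≤ fA (n + 1) := by
  refine ind9 (fun n => fA n ≤ fA (n + 1)) (by decide) (by decide) (by decide) (by decide)
    (by decide) (by decide) (by decide) (by decide) (by decide) ?_ n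
  intro n h
  show fA (n + 9) ≤ fA (n + 1 + 9)
  rw [fA_add_nine, fA_add_nine]
  exact Nat.mul_le_mul_left _ h

lemma fA_pos (n : ℕ) : 1 ≤ fA n := by
  induction n with
  | zero => decide
  | succ n ih => exact ih.trans (fA_mono n)

lemma fA_three (n : ℕ) : 3 * fA n ≤ fA (n + 3) := by
  rcases n with _ | _ | _ | _ | _ | _ | n
  · decide
  · decide
  · decide
  · decide
  · decide
  · decide
  · show 3 * fA (n + 6) ≤ fA (n + 9)
    rw [fA_add_nine]

lemma fA_four (n : ℕ) : 4 * fA n ≤ fA (n + 4) := by
  refine ind9 (fun n => 4 * fA n ≤ fA (n + 4)) (by decide) (by decide) (by decide) (by decide)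
    (by decide) (by decide) (by decide) (by decide) (by decide) ?_ n
  intro n h
  show 4 * fA (n + 9) ≤ fA (n + 4 + 9)
  rw [fA_add_nine, fA_add_nine]
  have := Nat.mul_le_mul_left 3 h
  linarith

lemma fA_five (n : ℕ) : 5 * fA n ≤ fA (n + 5) := by
  refine ind9 (fun n => 5 * fA n ≤ fA (n + 5)) (by decide) (by decide) (by decide) (by decide)
    (by decide) (by decide) (by decide) (by decide) (by decide) ?_ n
  intro n h
  show 5 * fA (n + 9) ≤ fA (n + 5 + 9)
  rw [fA_add_nine, fA_add_nine]
  have := Nat.mul_le_mul_left 3 h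
  linarith

lemma fA_mul (m n : ℕ) (hm : 1 ≤ m) (hm2 : m ≠ 2) : m * fA n ≤ fA (n + m) := by
  induction m using Nat.strong_induction_on generalizing n with
  | _ m ih =>
    rcases m with _ | _ | _ | _ | _ | _ | m
    · omega
    · simpa using fA_mono n
    · omega
    · exact fA_three n
    · exact fA_four n
    · exact fA_five n
    · -- m + 6 = (m + 3) + 3
      have h1 := ih (m + 3) (by omega) n (by omega) (by omega)
      have h2 := fA_three (n + (m + 3))
      have h3 : n + (m + 6) = n + (m + 3) + 3 := by ring
      rw [h3]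
      have h4 : (m + 6) * fA n ≤ 3 * ((m + 3) * fA n) := by nlinarith [fA_pos n]
      exact h4.trans ((Nat.mul_le_mul_left 3 h1).trans h2)

lemma fS_le_fA (n : ℕ) : fS n ≤ fA (n + 2) := by
  induction n using Nat.strong_induction_on with
  | _ n ih =>
    rcases n with _ | _ | _ | _ | _ | _ | _ | n
    · decide
    · decide
    · decide
    · decide
    · decide
    · decide
    · decide
    · -- n + 7 = (n + 2) + 5 ; n + 7 + 2 = n + 9
      have h1 := ih (n + 4) (by omega)
      show fS (n + 2 + 5) ≤ fA (n + 9)
      rw [fS_add_five, fA_add_nine]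
      exact Nat.mul_le_mul_left 3 h1

/-- abelian subgroups of the alternating group of degree `n` have order at most `fA n` -/
theorem ab_bound_fA (n : ℕ) (A : Subgroup (Perm (Fin n))) (hA : IsMulCommutative A)
    (hs : A ≤ alternatingGroup (Fin n)) : Nat.card A ≤ fA n :=
  alt_bound fA fS (by decide) fA_mul fS_le_fA (ab_bound fS fS_mul (by decide)) n (Fin n) (by simp)
    A (fun _ ha _ hb => setLike_mul_comm ha hb) (fun a ha => Perm.mem_alternatingGroup.mp (hs ha))

/-- existence predicate for abelian groups of even permutations -/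
def HasAbE (n c : ℕ) : Prop :=
  ∃ A : Subgroup (Perm (Fin n)), IsMulCommutative A ∧ A ≤ alternatingGroup (Fin n) ∧ Nat.card A = c

lemma hasAbE_three : HasAbE 3 3 := by
  refine ⟨Subgroup.zpowers (finRotate 3), inferInstance, ?_, ?_⟩
  · rw [Subgroup.zpowers_le, Perm.mem_alternatingGroup, sign_finRotate]
    norm_num
  · rw [Nat.card_zpowers, (isCycle_finRotate_of_le (by norm_num)).orderOf,
      support_finRotate_of_le (by norm_num)]
    simp

lemma hasAbE_four : HasAbE 4 4 := by
  have h4 : Nat.card (Fin 4) = 4 := by simp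
  refine ⟨(alternatingGroup.kleinFour (Fin 4)).map (alternatingGroup (Fin 4)).subtype, ?_, ?_, ?_⟩
  · have : IsMulCommutative (alternatingGroup.kleinFour (Fin 4)) :=
      IsPGroup.isMulCommutative_of_card_eq_prime_sq (p := 2)
        (by rw [alternatingGroup.kleinFour_card_of_card_eq_four h4]; norm_num)
    infer_instance
  · rintro _ ⟨a, -, rfl⟩
    exact a.2
  · rw [Subgroup.card_map_of_injective (Subgroup.subtype_injective _)]
    exact alternatingGroup.kleinFour_card_of_card_eq_four h4

lemma hasAbE_add {a b c d : ℕ} (h1 : HasAbE a c) (h2 : HasAbE b d) :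
    HasAbE (a + b) (c * d) := by
  obtain ⟨A, hA, hAe, rfl⟩ := h1
  obtain ⟨B, hB, hBe, rfl⟩ := h2
  let φ : Perm (Fin a) × Perm (Fin b) →* Perm (Fin (a + b)) :=
    (finSumFinEquiv.permCongrHom.toMonoidHom).comp (Perm.sumCongrHom (Fin a) (Fin b))
  have hφ : Function.Injective φ :=
    (finSumFinEquiv.permCongrHom.injective).comp Perm.sumCongrHom_injective
  refine ⟨(A.prod B).map φ, ?_, ?_, ?_⟩
  · have : IsMulCommutative (A.prod B) := by
      refine IsMulCommutative.of_setLike_mul_comm ?_
      rintro ⟨x1, x2⟩ ⟨h1, h2⟩ ⟨y1, y2⟩ ⟨h3, h4⟩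
      exact Prod.ext (setLike_mul_comm h1 h3) (setLike_mul_comm h2 h4)
    infer_instance
  · rintro _ ⟨⟨x, y⟩, ⟨hx, hy⟩, rfl⟩
    rw [Perm.mem_alternatingGroup]
    have h1 : φ (x, y) = finSumFinEquiv.permCongr (sumCongr x y) := rfl
    rw [h1, Perm.sign_permCongr, Perm.sign_sumCongr, Perm.mem_alternatingGroup.mp (hAe hx),
      Perm.mem_alternatingGroup.mp (hBe hy), mul_one]
  · rw [Subgroup.card_map_of_injective hφ]
    rw [Nat.card_congr (Subgroup.prodEquiv A B).toEquiv, Nat.card_prod]

lemma hasAbE_three_mul (k : ℕ) (hk : 1 ≤ k) : HasAbE (3 * k) (3 ^ k) := by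
  induction k with
  | zero => omega
  | succ k ih =>
    rcases k with _ | k
    · exact hasAbE_three
    · have := hasAbE_add (ih (by omega)) hasAbE_three
      have e1 : 3 * (k + 1) + 3 = 3 * (k + 1 + 1) := by ring
      have e2 : 3 ^ (k + 1) * 3 = 3 ^ (k + 1 + 1) := by ring
      rw [e1, e2] at this
      exact this

/-- conversion to subgroups of the alternating group -/
lemma hasAbE_sub {n c : ℕ} (h : HasAbE n c) :
    ∃ A : Subgroup (alternatingGroup (Fin n)), IsMulCommutative A ∧ Nat.card A = c := by
  obtain ⟨A, hA, hAe, rfl⟩ := h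
  exact ⟨A.subgroupOf (alternatingGroup (Fin n)), inferInstance,
    Nat.card_congr (Subgroup.subgroupOfEquivOfLe hAe).toEquiv⟩

/-- upper bounds for subgroups of the alternating group -/
lemma alt_sub_bounds {n : ℕ} (A : Subgroup (alternatingGroup (Fin n))) (hA : IsMulCommutative A) :
    Nat.card A ≤ fS n ∧ Nat.card A ≤ fA n := by
  have h1 : Nat.card (A.map (alternatingGroup (Fin n)).subtype) = Nat.card A :=
    Subgroup.card_map_of_injective (Subgroup.subtype_injective _)
  have h2 : A.map (alternatingGroup (Fin n)).subtype ≤ alternatingGroup (Fin n) := by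
    rintro _ ⟨a, -, rfl⟩
    exact a.2
  rw [← h1]
  exact ⟨ab_bound_fS n _ inferInstance, ab_bound_fA n _ inferInstance h2⟩

end AbAlt

end Cfsg.Agent.Lib.helper13
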