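import Mathlib

set_option autoImplicit false

namespace Cfsg.Agent.Lib.helper13

open Polynomial

section LangGL

variable {K : Type*} [Field K] [IsAlgClosed K] (p : ℕ) [Fact p.Prime] [CharP K p]

/-- an injective Frobenius-semilinear endomorphism of a nonzero finite-dimensional space over
an algebraically closed field has a nonzero fixed vector -/
lemma exists_fixed {V : Type*} [AddCommGroup V] [Module K V] [FiniteDimensional K V] [Nontrivial V]
    (f : ℕ) (hf : 1 ≤ f) (φ : V →ₛₗ[iterateFrobenius K p f] V) (hφ : Function.Injective φ) :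
    ∃ w : V, w ≠ 0 ∧ φ w = w := by
  classical
  obtain ⟨q, hq⟩ : ∃ q, q = p ^ f := ⟨_, rfl⟩
  have hp2 : 2 ≤ p := (Fact.out : p.Prime).two_le
  have hq2 : 2 ≤ q := by
    rw [hq]
    calc 2 ≤ p := hp2
      _ = p ^ 1 := (pow_one p).symm
      _ ≤ p ^ f := Nat.pow_le_pow_right (by omega) hf
  have hsemi : ∀ (c : K) (v : V), φ (c • v) = c ^ q • φ v := by
    intro c v
    rw [map_smulₛₗ, iterateFrobenius_def, hq]
  obtain ⟨v, hv⟩ := exists_ne (0 : V)
  have hex : ∃ m, ¬ LinearIndependent K (fun i : Fin (m + 1) => (⇑φ)^[i] v) := by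
    refine ⟨Module.finrank K V, fun h => ?_⟩
    have := h.fintype_card_le_finrank
    simp at this
  have hr0 : Nat.find hex ≠ 0 := by
    intro h0
    have := Nat.find_spec hex
    rw [h0] at this
    apply this
    show LinearIndependent K (fun i : Fin 1 => (⇑φ)^[(i : ℕ)] v)
    rw [linearIndependent_unique_iff]
    simpa using hv
  obtain ⟨r', hr'⟩ : ∃ r', Nat.find hex = r' + 1 := Nat.exists_eq_succ_of_ne_zero hr0
  have hind : LinearIndependent K (fun i : Fin (r' + 1) => (⇑φ)^[i] v) := by
    have := Nat.find_min hex (m := r') (by omega)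
    exact not_not.mp this
  have hdep : ¬ LinearIndependent K (fun i : Fin (r' + 1 + 1) => (⇑φ)^[i] v) := by
    have := Nat.find_spec hex
    rw [hr'] at this
    exact this
  obtain ⟨b, hb⟩ : ∃ b : Fin (r' + 1) → V, b = fun i : Fin (r' + 1) => (⇑φ)^[(i : ℕ)] v :=
    ⟨_, rfl⟩
  rw [← hb] at hind
  have hbi : ∀ i : Fin (r' + 1), b i = (⇑φ)^[i] v := fun i => by rw [hb]
  have hmem : (⇑φ)^[r' + 1] v ∈ Submodule.span K (Set.range b) := by
    by_contra hnot
    apply hdep
    rw [linearIndependent_finSucc']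
    refine ⟨?_, ?_⟩
    · rw [hb] at hind
      exact hind
    · rw [hb] at hnot
      exact hnot
  obtain ⟨a, ha⟩ := (Submodule.mem_span_range_iff_exists_fun K).mp hmem
  have hbsucc : ∀ i : Fin r', φ (b i.castSucc) = b i.succ := by
    intro i
    rw [hbi, hbi, Fin.val_succ, Function.iterate_succ_apply']
    rfl
  have hblast : φ (b (Fin.last r')) = ∑ i, a i • b i := by
    rw [ha, hbi, Function.iterate_succ_apply']
    rfl
  have ha0 : a 0 ≠ 0 := by
    intro h0
    choose s hs using fun c : K => IsAlgClosed.exists_pow_nat_eq c (n := q) (by omega)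
    have h1 : φ (∑ i : Fin r', s (a i.succ) • b i.castSucc) = φ (b (Fin.last r')) := by
      rw [hblast, Fin.sum_univ_succ, h0, zero_smul, zero_add, map_sum]
      apply Finset.sum_congr rfl
      intro i _
      rw [hsemi, hs, hbsucc]
    have h2 := hφ h1
    have h3 := (linearIndependent_finSucc'.mp hind).2
    apply h3
    rw [← h2]
    apply Submodule.sum_mem
    intro i _
    exact Submodule.smul_mem _ _ (Submodule.subset_span ⟨i, rfl⟩)
  let a' : ℕ → K := fun i => if h : i < r' + 1 then a ⟨i, h⟩ else 0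
  have ha' : ∀ i : Fin (r' + 1), a' i = a i := by
    intro i
    show (if h : (i : ℕ) < r' + 1 then a ⟨i, h⟩ else 0) = a i
    rw [dif_pos i.2]
  let Cp : ℕ → K[X] := fun i =>
    Nat.rec (C (a' 0) * X ^ q) (fun j Cj => Cj ^ q + C (a' (j + 1)) * X ^ q) i
  have hC0 : Cp 0 = C (a' 0) * X ^ q := rfl
  have hCs : ∀ i, Cp (i + 1) = Cp i ^ q + C (a' (i + 1)) * X ^ q := fun i => rfl
  have hX2 : ∀ i, (X : K[X]) ^ 2 ∣ Cp i := by
    intro i
    induction i with
    | zero =>
      rw [hC0]
      exact Dvd.dvd.mul_left (pow_dvd_pow X hq2) _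
    | succ i ih =>
      rw [hCs]
      apply dvd_add
      · exact ih.trans (dvd_pow_self _ (by omega))
      · exact Dvd.dvd.mul_left (pow_dvd_pow X hq2) _
  have hqpow : ∀ i, 2 ≤ q ^ (i + 1) := fun i => le_trans hq2 (Nat.le_self_pow (by omega) q)
  have hdeg : ∀ i, (Cp i).natDegree = q ^ (i + 1) := by
    intro i
    induction i with
    | zero =>
      have h0 : a' 0 ≠ 0 := by
        have := ha' 0
        simp only [Fin.val_zero] at this
        rw [this]; exact ha0
      rw [hC0, natDegree_C_mul_X_pow _ _ h0, zero_add, pow_one]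
    | succ i ih =>
      have hlt : (C (a' (i + 1)) * X ^ q).natDegree < (Cp i ^ q).natDegree := by
        rw [natDegree_pow, ih]
        calc (C (a' (i + 1)) * X ^ q).natDegree ≤ q := natDegree_C_mul_X_pow_le _ _
          _ < q * 2 := by omega
          _ ≤ q * q ^ (i + 1) := Nat.mul_le_mul_left q (hqpow i)
      rw [hCs, natDegree_add_eq_left_of_natDegree_lt hlt, natDegree_pow, ih]
      ring
  obtain ⟨D, hD⟩ := hX2 r'
  have hQ : Cp r' - X = X * (X * D - 1) := by rw [hD]; ring
  have hQdeg : (Cp r' - X).natDegree = q ^ (r' + 1) := by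
    rw [natDegree_sub_eq_left_of_natDegree_lt, hdeg]
    rw [hdeg, natDegree_X]
    have := hqpow r'
    omega
  have hR0 : X * D - 1 ≠ (0 : K[X]) := by
    intro h
    rw [h, mul_zero] at hQ
    rw [hQ, natDegree_zero] at hQdeg
    have := hqpow r'
    omega
  have hRdeg : (X * D - 1 : K[X]).degree ≠ 0 := by
    have h1 : (Cp r' - X).natDegree = (X * D - 1 : K[X]).natDegree + 1 := by
      rw [hQ, natDegree_X_mul hR0]
    have h2 := hqpow r'
    have h3 : (X * D - 1 : K[X]).natDegree ≠ 0 := by omega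
    intro hd
    exact h3 (natDegree_eq_zero_iff_degree_le_zero.mpr (le_of_eq hd))
  obtain ⟨t, ht⟩ := IsAlgClosed.exists_root _ hRdeg
  have ht0 : t ≠ 0 := by
    rintro rfl
    have : (X * D - 1 : K[X]).eval 0 = 0 := ht
    simp at this
  have hCt : (Cp r').eval t = t := by
    have h1 : (Cp r' - X).eval t = 0 := by
      rw [hQ, eval_mul, show (X * D - 1 : K[X]).eval t = 0 from ht, mul_zero]
    rw [eval_sub, eval_X] at h1
    exact sub_eq_zero.mp h1
  obtain ⟨c, hc⟩ : ∃ c : ℕ → K, c = fun i => (Cp i).eval t := ⟨_, rfl⟩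
  have hc0 : c 0 = a 0 * t ^ q := by
    have := ha' 0
    simp only [Fin.val_zero] at this
    rw [hc]
    simp only [hC0, eval_mul, eval_C, eval_pow, eval_X, this]
  have hcs : ∀ i : Fin r', c (i.succ : ℕ) = c (i.castSucc : ℕ) ^ q + a i.succ * t ^ q := by
    intro i
    have := ha' i.succ
    simp only [Fin.val_succ] at this
    rw [hc]
    simp only [Fin.val_succ, Fin.val_castSucc, hCs, eval_add, eval_mul, eval_C, eval_pow, eval_X,
      this]
  have hclast : c r' = t := by rw [hc]; exact hCt
  refine ⟨∑ i : Fin (r' + 1), c i • b i, ?_, ?_⟩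
  · intro h
    have := (Fintype.linearIndependent_iff.mp hind) (fun i => c i) h (Fin.last r')
    simp only [Fin.val_last] at this
    rw [hclast] at this
    exact ht0 this
  · rw [map_sum]
    simp only [hsemi]
    rw [Fin.sum_univ_castSucc, Fin.sum_univ_succ (fun i : Fin (r' + 1) => c i • b i)]
    simp only [hbsucc, hblast, Fin.val_last, hclast, hcs, Fin.val_zero, hc0]
    rw [Fin.sum_univ_succ (fun i => a i • b i)]
    simp only [add_smul, mul_smul, smul_add, Finset.sum_add_distrib, Finset.smul_sum]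
    simp only [smul_comm (t ^ q)]
    abel

/-- Lang--Steinberg for vector spaces: the fixed vectors of an injective Frobenius-semilinear
endomorphism span the space -/
theorem span_fixed_eq_top {V : Type*} [AddCommGroup V] [Module K V] [FiniteDimensional K V]
    (f : ℕ) (hf : 1 ≤ f) (φ : V →ₛₗ[iterateFrobenius K p f] V) (hφ : Function.Injective φ) :
    Submodule.span K {w : V | φ w = w} = ⊤ := by
  classical
  obtain ⟨q, hq⟩ : ∃ q, q = p ^ f := ⟨_, rfl⟩
  have hp2 : 2 ≤ p := (Fact.out : p.Prime).two_le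
  have hq2 : 2 ≤ q := by
    rw [hq]
    calc 2 ≤ p := hp2
      _ = p ^ 1 := (pow_one p).symm
      _ ≤ p ^ f := Nat.pow_le_pow_right (by omega) hf
  have hsemi : ∀ (c : K) (v : V), φ (c • v) = c ^ q • φ v := by
    intro c v
    rw [map_smulₛₗ, iterateFrobenius_def, hq]
  obtain ⟨U, hU⟩ : ∃ U : Submodule K V, U = Submodule.span K {w : V | φ w = w} := ⟨_, rfl⟩
  rw [← hU]
  have hgen : ∀ w : V, φ w = w → w ∈ U := fun w hw => by rw [hU]; exact Submodule.subset_span hw
  by_contra hne
  have hUφ : ∀ u ∈ U, φ u ∈ U := by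
    intro u hu
    rw [hU] at hu
    induction hu using Submodule.span_induction with
    | mem w hw =>
      have hw' : φ w = w := hw
      rw [hw']; exact hgen w hw'
    | zero => rw [map_zero]; exact U.zero_mem
    | add x y _ _ hx hy => rw [map_add]; exact U.add_mem hx hy
    | smul c x _ hx => rw [hsemi]; exact U.smul_mem _ hx
  have hUsurj : ∀ x ∈ U, ∃ u ∈ U, φ u = x := by
    intro x hx
    rw [hU] at hx
    induction hx using Submodule.span_induction with
    | mem w hw => exact ⟨w, hgen w hw, hw⟩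
    | zero => exact ⟨0, U.zero_mem, map_zero φ⟩
    | add x y _ _ hx hy =>
      obtain ⟨u1, h1, h1'⟩ := hx
      obtain ⟨u2, h2, h2'⟩ := hy
      exact ⟨u1 + u2, U.add_mem h1 h2, by rw [map_add, h1', h2']⟩
    | smul c x _ hx =>
      obtain ⟨u1, h1, h1'⟩ := hx
      obtain ⟨z, hz⟩ := IsAlgClosed.exists_pow_nat_eq c (n := q) (by omega)
      exact ⟨z • u1, U.smul_mem _ h1, by rw [hsemi, hz, h1']⟩
  have hAS : ∀ y ∈ U, ∀ c : K, ∃ u ∈ U, φ u - u = c • y := by
    intro y hy
    rw [hU] at hy
    induction hy using Submodule.span_induction with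
    | mem w hw =>
      intro c
      have hw' : φ w = w := hw
      have hdeg : (X ^ q - X - C c : K[X]).degree ≠ 0 := by
        have h1 : (X ^ q - X - C c : K[X]).natDegree = q := by
          rw [sub_sub, natDegree_sub_eq_left_of_natDegree_lt, natDegree_X_pow]
          rw [natDegree_X_pow]
          calc (X + C c : K[X]).natDegree ≤ 1 := by
                exact (natDegree_add_le _ _).trans (by simp)
            _ < q := by omega
        intro hd
        have := natDegree_eq_zero_iff_degree_le_zero.mpr (le_of_eq hd)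
        omega
      obtain ⟨d, hd⟩ := IsAlgClosed.exists_root _ hdeg
      have hd' : d ^ q - d = c := by
        have : (X ^ q - X - C c : K[X]).eval d = 0 := hd
        simp only [eval_sub, eval_pow, eval_X, eval_C] at this
        exact sub_eq_zero.mp this
      refine ⟨d • w, U.smul_mem _ (hgen w hw'), ?_⟩
      rw [hsemi, hw', ← sub_smul, hd']
    | zero => intro c; exact ⟨0, U.zero_mem, by simp⟩
    | add x y _ _ hx hy =>
      intro c
      obtain ⟨u1, h1, h1'⟩ := hx c
      obtain ⟨u2, h2, h2'⟩ := hy c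
      exact ⟨u1 + u2, U.add_mem h1 h2, by rw [map_add, smul_add, ← h1', ← h2']; abel⟩
    | smul a x _ hx =>
      intro c
      obtain ⟨u1, h1, h1'⟩ := hx (c * a)
      exact ⟨u1, h1, by rw [h1', mul_smul]⟩
  have hUcomap : U ≤ U.comap φ := fun u hu => hUφ u hu
  let φbar : (V ⧸ U) →ₛₗ[iterateFrobenius K p f] (V ⧸ U) := U.mapQ U φ hUcomap
  have hbar : ∀ v : V, φbar (Submodule.Quotient.mk v) = Submodule.Quotient.mk (φ v) := fun v => rfl
  have hbarinj : Function.Injective φbar := by
    rw [injective_iff_map_eq_zero]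
    intro x hx
    obtain ⟨v, rfl⟩ := Submodule.Quotient.mk_surjective U x
    rw [hbar, Submodule.Quotient.mk_eq_zero] at hx
    obtain ⟨u, hu, hu'⟩ := hUsurj _ hx
    have : u = v := hφ hu'
    rw [Submodule.Quotient.mk_eq_zero, ← this]
    exact hu
  have : Nontrivial (V ⧸ U) :=
    Submodule.Quotient.nontrivial_iff.mpr hne
  obtain ⟨x, hx0, hxfix⟩ := exists_fixed p f hf φbar hbarinj
  obtain ⟨v, rfl⟩ := Submodule.Quotient.mk_surjective U x
  rw [hbar] at hxfix
  have h1 : φ v - v ∈ U := (Submodule.Quotient.eq U).mp hxfix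
  obtain ⟨u, hu, hu'⟩ := hAS _ h1 (-1)
  rw [neg_one_smul] at hu'
  have h2 : φ (v + u) = v + u := by
    rw [map_add]
    calc φ v + φ u = (φ u - u) + (φ v + u) := by abel
      _ = -(φ v - v) + (φ v + u) := by rw [hu']
      _ = v + u := by abel
  have h3 : v + u ∈ U := hgen _ h2
  have h4 : v ∈ U := by
    have := U.sub_mem h3 hu
    simpa using this
  exact hx0 ((Submodule.Quotient.mk_eq_zero U).mpr h4)

/-- a basis indexed by `Fin n` inside a spanning set -/
lemma exists_basis_of_span_eq_top {K V : Type*} [Field K] [AddCommGroup V] [Module K V]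
    [FiniteDimensional K V] (s : Set V) (hs : Submodule.span K s = ⊤) {n : ℕ}
    (hn : Module.finrank K V = n) : ∃ b : Module.Basis (Fin n) K V, ∀ j, b j ∈ s := by
  classical
  obtain ⟨ι, B, hB⟩ : ∃ (ι : Type _) (B : Module.Basis ι K V), ∀ i, B i ∈ s :=
    ⟨_, Module.Basis.ofSpan (le_of_eq hs.symm), fun i => Module.Basis.ofSpan_subset _ ⟨i, rfl⟩⟩
  have := Module.Finite.finite_basis B
  have := Fintype.ofFinite ι
  have hcard : Fintype.card ι = n := by
    rw [← Module.finrank_eq_card_basis B, hn]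
  refine ⟨B.reindex (Fintype.equivFinOfCardEq hcard), ?_⟩
  intro j
  rw [Module.Basis.reindex_apply]
  exact hB _

end LangGL

end Cfsg.Agent.Lib.helper13
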