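import Mathlib
import Cfsg.Agent.Lib.helper13.LangGL
import Cfsg.Agent.S0755

set_option autoImplicit false

/-!
Hilbert 90 for `GL_n` over a field with an automorphism of finite order, and surjectivity of the
norm for finite fields.
-/

namespace Cfsg.Agent.Lib.helper13.H90

open Matrix

variable {F : Type*} [Field F]

/-- Galois descent: the fixed vectors of a `σ`-semilinear map of finite order span -/
theorem span_fixed {V : Type*} [AddCommGroup V] [Module F V] (σ : F ≃+* F) (r : ℕ) (hr : 0 < r)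
    (hσ : ∀ i j : Fin r, σ ^ (i : ℕ) = σ ^ (j : ℕ) → i = j)
    (T : V →+ V) (hT : ∀ (c : F) (v : V), T (c • v) = σ c • T v) (hTr : ∀ v, T^[r] v = v) :
    Submodule.span F {v : V | T v = v} = ⊤ := by
  classical
  by_contra h
  obtain ⟨ℓ, hℓ0, hℓ⟩ := Submodule.exists_le_ker_of_lt_top _ (lt_top_iff_ne_top.2 h)
  apply hℓ0
  -- iterates
  have hTi : ∀ (i : ℕ) (c : F) (v : V), T^[i] (c • v) = (σ ^ i) c • T^[i] v := by
    intro i
    induction i with
    | zero => intro c v; simp
    | succ i ih =>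
      intro c v
      rw [Function.iterate_succ_apply', Function.iterate_succ_apply', ih, hT, pow_succ']
      rfl
  have hP : ∀ w : V, T (∑ i ∈ Finset.range r, T^[i] w) = ∑ i ∈ Finset.range r, T^[i] w := by
    intro w
    rw [map_sum]
    have h1 : ∑ i ∈ Finset.range r, T (T^[i] w) = ∑ i ∈ Finset.range r, T^[i + 1] w :=
      Finset.sum_congr rfl (fun i _ => (Function.iterate_succ_apply' T i w).symm)
    rw [h1]
    have h2 := Finset.sum_range_succ (fun i => T^[i] w) r
    have h3 := Finset.sum_range_succ' (fun i => T^[i] w) r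
    rw [h2] at h3
    simp only [Function.iterate_zero, id_eq] at h3
    rw [hTr] at h3
    exact (add_right_cancel h3).symm
  have hli : LinearIndependent F (fun i : Fin r => ((σ ^ (i : ℕ) : F ≃+* F) : F → F)) := by
    have h1 := linearIndependent_monoidHom F F
    have hinj : Function.Injective
        (fun i : Fin r => (((σ ^ (i : ℕ) : F ≃+* F) : F →+* F) : F →* F)) := by
      intro i j hij
      apply hσ
      apply RingEquiv.ext
      intro x
      exact congrArg (fun f : F →* F => f x) hij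
    exact h1.comp _ hinj
  apply LinearMap.ext
  intro v
  have hsum : ∑ i : Fin r, ℓ (T^[(i : ℕ)] v) • ((σ ^ (i : ℕ) : F ≃+* F) : F → F) = 0 := by
    funext c
    have h1 : ∑ i ∈ Finset.range r, T^[i] (c • v) ∈ LinearMap.ker ℓ :=
      hℓ (Submodule.subset_span (hP (c • v)))
    rw [LinearMap.mem_ker, map_sum] at h1
    rw [Finset.sum_apply, Pi.zero_apply, ← h1, Finset.sum_range]
    apply Finset.sum_congr rfl
    intro i _
    rw [hTi, map_smul]
    simp only [Pi.smul_apply, smul_eq_mul]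
    rw [mul_comm]
  have h0 := Fintype.linearIndependent_iff.1 hli _ hsum
  have := h0 ⟨0, hr⟩
  simpa using this

theorem pow_inj_of_orderOf (σ : F ≃+* F) (r : ℕ) (hσ : orderOf σ = r) :
    ∀ i j : Fin r, σ ^ (i : ℕ) = σ ^ (j : ℕ) → i = j := by
  intro i j hij
  apply Fin.ext
  have hi : (i : ℕ) ∈ Set.Iio (orderOf σ) := by rw [hσ]; exact i.2
  have hj : (j : ℕ) ∈ Set.Iio (orderOf σ) := by rw [hσ]; exact j.2
  exact pow_injOn_Iio_orderOf hi hj hij

/-- scalar Hilbert 90 -/
theorem hilbert90_scalar (σ : F ≃+* F) (r : ℕ) (hr : 0 < r) (hσ : orderOf σ = r) (c : F)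
    (hN : ∏ i ∈ Finset.range r, (σ ^ i) c = 1) : ∃ d : F, d ≠ 0 ∧ c * σ d = d := by
  let T : F →+ F :=
    { toFun := fun v => c * σ v
      map_zero' := by simp
      map_add' := by intro x y; simp [mul_add] }
  have hTapp : ∀ v, T v = c * σ v := fun v => rfl
  have hTi : ∀ (k : ℕ) (v : F), T^[k] v = (∏ i ∈ Finset.range k, (σ ^ i) c) * (σ ^ k) v := by
    intro k
    induction k with
    | zero => intro v; simp
    | succ k ih =>
      intro v
      rw [Function.iterate_succ_apply', ih, hTapp, map_mul, map_prod, Finset.prod_range_succ',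
        pow_succ' σ k]
      have e1 : ∀ i, σ ((σ ^ i) c) = (σ ^ (i + 1)) c := by
        intro i
        rw [pow_succ' σ i]
        rfl
      simp only [e1]
      have e2 : σ ((σ ^ k) v) = (σ * σ ^ k) v := rfl
      have e3 : (σ ^ 0) c = c := by rw [pow_zero]; rfl
      rw [e2, e3]
      ring
  have hspan := span_fixed σ r hr (pow_inj_of_orderOf σ r hσ) T
    (by intro a v; rw [hTapp, hTapp, smul_eq_mul, smul_eq_mul, map_mul]; ring)
    (by intro v; rw [hTi, hN, one_mul, ← hσ, pow_orderOf_eq_one]; rfl)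
  by_contra hcon
  push Not at hcon
  have h1 : Submodule.span F {v : F | T v = v} ≤ ⊥ := by
    rw [Submodule.span_le]
    intro v hv
    by_contra hv0
    exact hcon v hv0 hv
  rw [hspan] at h1
  have h2 : (1 : F) ∈ (⊥ : Submodule F F) := h1 Submodule.mem_top
  rw [Submodule.mem_bot] at h2
  exact one_ne_zero h2

/-- surjectivity of the norm onto the fixed field, for finite fields -/
theorem norm_surj [Finite F] (σ : F ≃+* F) (r : ℕ) (hr : 0 < r) (hσ : orderOf σ = r) (a : F)
    (ha : σ a = a) (ha0 : a ≠ 0) : ∃ c : F, c ≠ 0 ∧ ∏ i ∈ Finset.range r, (σ ^ i) c = a := by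
  classical
  obtain ⟨S, hS⟩ : ∃ S : (F ≃+* F) → (Fˣ →* Fˣ),
      ∀ (τ : F ≃+* F) (c : Fˣ), ((S τ c : Fˣ) : F) = τ (c : F) :=
    ⟨fun τ => Units.map ((τ : F →+* F) : F →* F), fun τ c => rfl⟩
  have hSmul : ∀ (τ τ' : F ≃+* F) (c : Fˣ), S τ (S τ' c) = S (τ * τ') c := by
    intro τ τ' c
    apply Units.ext
    rw [hS, hS, hS]
    rfl
  obtain ⟨N, hN⟩ : ∃ N : Fˣ →* Fˣ, ∀ c, N c = ∏ i ∈ Finset.range r, S (σ ^ i) c :=
    ⟨∏ i ∈ Finset.range r, S (σ ^ i), fun c => MonoidHom.finsetProd_apply _ _ _⟩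
  obtain ⟨ψ, hψ⟩ : ∃ ψ : Fˣ →* Fˣ, ∀ c, ψ c = c * (S σ c)⁻¹ :=
    ⟨MonoidHom.mk' (fun c => c * (S σ c)⁻¹) (by
        intro x y; simp only [map_mul, mul_inv]; exact mul_mul_mul_comm _ _ _ _),
      fun c => rfl⟩
  have hNS : ∀ c, N (S σ c) = N c := by
    intro c
    rw [hN, hN]
    have h1 : ∀ i, S (σ ^ i) (S σ c) = S (σ ^ (i + 1)) c := by
      intro i
      rw [hSmul, ← pow_succ]
    simp only [h1]
    have h2 := Finset.prod_range_succ (fun i => S (σ ^ i) c) r
    have h3 := Finset.prod_range_succ' (fun i => S (σ ^ i) c) r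
    rw [h2] at h3
    have h4 : S (σ ^ r) c = S (σ ^ 0) c := by
      rw [← hσ, pow_orderOf_eq_one, pow_zero]
    rw [h4] at h3
    exact (mul_right_cancel h3).symm
  have hSN : ∀ c, S σ (N c) = N c := by
    intro c
    have h1 : S σ (N c) = N (S σ c) := by
      rw [hN, hN, map_prod]
      apply Finset.prod_congr rfl
      intro i _
      rw [hSmul, hSmul, ← pow_succ, ← pow_succ']
    rw [h1, hNS]
  have hNval : ∀ c : Fˣ, ((N c : Fˣ) : F) = ∏ i ∈ Finset.range r, (σ ^ i) (c : F) := by
    intro c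
    rw [hN, Units.coe_prod]
    apply Finset.prod_congr rfl
    intro i _
    exact hS _ _
  have h23 : ψ.range = N.ker := by
    ext c
    rw [MonoidHom.mem_range, MonoidHom.mem_ker]
    constructor
    · rintro ⟨d, rfl⟩
      rw [hψ, map_mul, map_inv, hNS, mul_inv_cancel]
    · intro hc
      have hc' : ∏ i ∈ Finset.range r, (σ ^ i) (c : F) = 1 := by
        rw [← hNval, hc]; rfl
      obtain ⟨d, hd0, hd⟩ := hilbert90_scalar σ r hr hσ (c : F) hc'
      refine ⟨Units.mk0 d hd0, ?_⟩
      rw [hψ]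
      apply Units.ext
      rw [Units.val_mul, Units.val_inv_eq_inv_val, hS, Units.val_mk0]
      have hσd : σ d ≠ 0 := by
        intro h0
        rw [h0, mul_zero] at hd
        exact hd0 hd.symm
      rw [eq_comm, eq_mul_inv_iff_mul_eq₀ hσd]
      exact hd
  have h3 : N.range ≤ ψ.ker := by
    rintro _ ⟨c, rfl⟩
    rw [MonoidHom.mem_ker, hψ, hSN, mul_inv_cancel]
  have hc1 : Nat.card ψ.ker * Nat.card ψ.range = Nat.card Fˣ := by
    rw [← Subgroup.index_ker]; exact Subgroup.card_mul_index _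
  have hc2 : Nat.card N.ker * Nat.card N.range = Nat.card Fˣ := by
    rw [← Subgroup.index_ker]; exact Subgroup.card_mul_index _
  have hc3 : Nat.card ψ.ker = Nat.card N.range := by
    rw [h23] at hc1
    have hpos : 0 < Nat.card N.ker := Nat.card_pos
    have : Nat.card N.ker * Nat.card ψ.ker = Nat.card N.ker * Nat.card N.range := by
      rw [hc2, mul_comm, hc1]
    exact Nat.eq_of_mul_eq_mul_left hpos this
  have h4 : N.range = ψ.ker := Subgroup.eq_of_le_of_card_ge h3 (le_of_eq hc3)
  have hmem : Units.mk0 a ha0 ∈ ψ.ker := by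
    rw [MonoidHom.mem_ker, hψ]
    apply Units.ext
    rw [Units.val_mul, Units.val_inv_eq_inv_val, hS, Units.val_mk0, ha, Units.val_one,
      mul_inv_cancel₀ ha0]
  rw [← h4] at hmem
  obtain ⟨c, hc⟩ := hmem
  refine ⟨(c : F), c.ne_zero, ?_⟩
  rw [← hNval, hc]
  rfl

variable {n : ℕ}

/-- twisted norm `g σ(g) ⋯ σ^{k-1}(g)` -/
def Nm (σ : F ≃+* F) (g : GL (Fin n) F) : ℕ → GL (Fin n) F
  | 0 => 1
  | k + 1 => g * Matrix.GeneralLinearGroup.map (σ : F →+* F) (Nm σ g k)

theorem Nm_zero (σ : F ≃+* F) (g : GL (Fin n) F) : Nm σ g 0 = 1 := rfl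

theorem Nm_succ (σ : F ≃+* F) (g : GL (Fin n) F) (k : ℕ) :
    Nm σ g (k + 1) = g * Matrix.GeneralLinearGroup.map (σ : F →+* F) (Nm σ g k) := rfl

theorem map_mulVec' (σ : F ≃+* F) (M : Matrix (Fin n) (Fin n) F) (w : Fin n → F) :
    (fun a => σ ((M *ᵥ w) a)) = (M.map σ) *ᵥ (fun a => σ (w a)) := by
  funext a
  simp [Matrix.mulVec, dotProduct, map_sum]

/-- **Hilbert 90 for `GL_n`** -/
theorem hilbert90 (σ : F ≃+* F) (r : ℕ) (hr : 0 < r) (hσ : orderOf σ = r) (g : GL (Fin n) F)
    (hN : Nm σ g r = 1) :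
    ∃ h : GL (Fin n) F, g = h * (Matrix.GeneralLinearGroup.map (σ : F →+* F) h)⁻¹ := by
  classical
  let T : (Fin n → F) →+ (Fin n → F) :=
    { toFun := fun v => (g : Matrix (Fin n) (Fin n) F) *ᵥ (fun a => σ (v a))
      map_zero' := by
        have : (fun a : Fin n => σ ((0 : Fin n → F) a)) = 0 := by funext a; simp
        rw [this, Matrix.mulVec_zero]
      map_add' := by
        intro x y
        have : (fun a : Fin n => σ ((x + y) a)) = (fun a => σ (x a)) + (fun a => σ (y a)) := by
          funext a; simp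
        rw [this, Matrix.mulVec_add] }
  have hTapp : ∀ v, T v = (g : Matrix (Fin n) (Fin n) F) *ᵥ (fun a => σ (v a)) := fun v => rfl
  have hTi : ∀ (k : ℕ) (v : Fin n → F), T^[k] v =
      ((Nm σ g k : GL (Fin n) F) : Matrix (Fin n) (Fin n) F) *ᵥ (fun a => (σ ^ k) (v a)) := by
    intro k
    induction k with
    | zero =>
      intro v
      rw [Nm_zero, Units.val_one, Function.iterate_zero, id_eq]
      have : (fun a : Fin n => (σ ^ 0) (v a)) = v := by funext a; rw [pow_zero]; rfl
      rw [this, Matrix.one_mulVec]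
    | succ k ih =>
      intro v
      rw [Function.iterate_succ_apply', ih, hTapp, map_mulVec', Matrix.mulVec_mulVec, Nm_succ,
        Units.val_mul]
      have : (fun a : Fin n => σ ((σ ^ k) (v a))) = (fun a => (σ ^ (k + 1)) (v a)) := by
        funext a
        rw [pow_succ' σ k]
        rfl
      rw [this]
      rfl
  have hT : ∀ (c : F) (v : Fin n → F), T (c • v) = σ c • T v := by
    intro c v
    rw [hTapp, hTapp, ← Matrix.mulVec_smul]
    congr 1
    funext a
    simp
  have hTr : ∀ v, T^[r] v = v := by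
    intro v
    rw [hTi, hN, Units.val_one, Matrix.one_mulVec, ← hσ, pow_orderOf_eq_one]
    rfl
  have hspan := span_fixed σ r hr (pow_inj_of_orderOf σ r hσ) T hT hTr
  obtain ⟨b, hb⟩ := exists_basis_of_span_eq_top {v : Fin n → F | T v = v} hspan
    (Module.finrank_fin_fun F)
  obtain ⟨e, he⟩ : ∃ e : Module.Basis (Fin n) F (Fin n → F), e = Pi.basisFun F (Fin n) := ⟨_, rfl⟩
  obtain ⟨h, hh⟩ : ∃ h : GL (Fin n) F, (h : Matrix (Fin n) (Fin n) F) = e.toMatrix b :=
    ⟨⟨e.toMatrix b, b.toMatrix e, e.toMatrix_mul_toMatrix_flip b, b.toMatrix_mul_toMatrix_flip e⟩,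
      rfl⟩
  have hentry : ∀ a j, (h : Matrix (Fin n) (Fin n) F) a j = b j a := by
    intro a j
    rw [hh, Module.Basis.toMatrix_apply, he, Pi.basisFun_repr]
  refine ⟨h, ?_⟩
  apply eq_mul_inv_of_mul_eq
  apply Units.ext
  rw [Units.val_mul]
  ext a j
  have h1 : T (b j) = b j := hb j
  have h2 := congrFun h1 a
  rw [hTapp] at h2
  rw [hentry, ← h2, Matrix.mul_apply]
  simp only [Matrix.mulVec, dotProduct]
  apply Finset.sum_congr rfl
  intro c _
  congr 1
  show σ ((h : Matrix (Fin n) (Fin n) F) c j) = σ (b j c)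
  rw [hentry]

/-- a nondegenerate Hermitian matrix over a finite field is `h * σ(h)ᵀ` -/
theorem hermitian_decomp [Finite F] (σ : F ≃+* F) (hσ : σ ≠ 1) (hσ2 : ∀ a, σ (σ a) = a)
    (g : GL (Fin n) F)
    (hH : ((g : Matrix (Fin n) (Fin n) F).map σ).transpose = (g : Matrix (Fin n) (Fin n) F)) :
    ∃ h : GL (Fin n) F, (g : Matrix (Fin n) (Fin n) F) =
      (h : Matrix (Fin n) (Fin n) F) * ((h : Matrix (Fin n) (Fin n) F).map σ).transpose := by
  classical
  obtain ⟨G, hG⟩ : ∃ G : Matrix (Fin n) (Fin n) F, G = (g : Matrix (Fin n) (Fin n) F) := ⟨_, rfl⟩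
  rw [← hG] at hH ⊢
  have hGe : ∀ a c, σ (G a c) = G c a := by
    intro a c
    have := congrFun (congrFun hH c) a
    exact this
  let B : (Fin n → F) →ₛₗ[(σ : F →+* F)] (Fin n → F) →ₗ[F] F :=
    LinearMap.mk₂'ₛₗ (σ : F →+* F) (RingHom.id F)
      (fun u v => (fun a => σ (u a)) ⬝ᵥ (G *ᵥ v))
      (by
        intro u u' v
        have : (fun a : Fin n => σ ((u + u') a)) = (fun a => σ (u a)) + (fun a => σ (u' a)) := by
          funext a; simp
        rw [this, add_dotProduct])
      (by
        intro c u v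
        have : (fun a : Fin n => σ ((c • u) a)) = σ c • (fun a => σ (u a)) := by
          funext a; simp
        rw [this, smul_dotProduct]
        rfl)
      (by
        intro u v v'
        rw [Matrix.mulVec_add, dotProduct_add])
      (by
        intro c u v
        rw [Matrix.mulVec_smul, dotProduct_smul]
        rfl)
  have hBapp : ∀ u v, B u v = (fun a => σ (u a)) ⬝ᵥ (G *ᵥ v) := fun u v => rfl
  have hBsum : ∀ u v, B u v = ∑ a, ∑ c, σ (u a) * G a c * v c := by
    intro u v
    rw [hBapp]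
    simp only [dotProduct, Matrix.mulVec, Finset.mul_sum, mul_assoc]
  have hsymm : B.IsSymm := by
    refine ⟨fun u v => ?_⟩
    rw [hBsum, hBsum]
    show σ (∑ a, ∑ c, σ (u a) * G a c * v c) = _
    rw [map_sum, Finset.sum_comm]
    apply Finset.sum_congr rfl
    intro c _
    rw [map_sum]
    apply Finset.sum_congr rfl
    intro a _
    rw [map_mul, map_mul, hσ2, hGe]
    ring
  have hnd : B.Nondegenerate := by
    constructor
    · intro u hu
      -- (σ u)ᵀ G = 0
      have h1 : (fun a => σ (u a)) ᵥ* G = 0 := by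
        funext c
        have := hu (Pi.single c 1)
        rw [hBapp] at this
        rw [Matrix.mulVec_single_one] at this
        simpa [Matrix.vecMul, dotProduct] using this
      have h2 := congrArg (fun x => x ᵥ* ((g⁻¹ : GL (Fin n) F) : Matrix (Fin n) (Fin n) F)) h1
      simp only [Matrix.vecMul_vecMul, Matrix.zero_vecMul] at h2
      rw [hG, Units.mul_inv, Matrix.vecMul_one] at h2
      funext a
      have := congrFun h2 a
      simpa using this
    · intro v hv
      have h1 : G *ᵥ v = 0 := by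
        funext a
        have := hv (Pi.single a 1)
        rw [hBapp] at this
        have e1 : (fun c : Fin n => σ ((Pi.single a (1 : F) : Fin n → F) c)) = Pi.single a 1 := by
          funext c
          by_cases hc : c = a
          · subst hc; simp
          · simp [Pi.single_apply, hc]
        rw [e1, single_one_dotProduct] at this
        simpa using this
      have h2 := congrArg (fun x => ((g⁻¹ : GL (Fin n) F) : Matrix (Fin n) (Fin n) F) *ᵥ x) h1
      simp only [Matrix.mulVec_mulVec, Matrix.mulVec_zero] at h2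
      rw [hG, Units.inv_mul, Matrix.one_mulVec] at h2
      exact h2
  have hσ' : (σ : F →+* F) ≠ RingHom.id F := by
    intro h
    apply hσ
    apply RingEquiv.ext
    intro x
    exact congrArg (fun f : F →+* F => f x) h
  obtain ⟨b, hb⟩ := Cfsg.Agent.S0755.result (σ : F →+* F) hσ' hσ2 B hsymm hnd
  have hfr : Module.finrank F (Fin n → F) = n := Module.finrank_fin_fun F
  -- the matrix P with columns b j (reindexed)
  obtain ⟨P, hP⟩ : ∃ P : Matrix (Fin n) (Fin n) F, P = Matrix.of (fun a j => b (Fin.cast hfr.symm j) a) :=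
    ⟨_, rfl⟩
  have hPGP : (P.map σ).transpose * G * P = 1 := by
    ext i j
    have h1 := hb (Fin.cast hfr.symm i) (Fin.cast hfr.symm j)
    rw [hBsum] at h1
    rw [Matrix.mul_apply]
    simp only [Matrix.mul_apply, Matrix.transpose_apply, Matrix.map_apply, hP, Matrix.of_apply,
      Finset.sum_mul]
    rw [Finset.sum_comm, h1, Matrix.one_apply]
    simp only [Fin.cast_inj]
  -- P is invertible
  have hPG' : P * ((P.map σ).transpose * G) = 1 := by
    rw [mul_eq_one_comm, ← hPGP, mul_assoc]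
  obtain ⟨pg, hpg⟩ : ∃ pg : GL (Fin n) F, (pg : Matrix (Fin n) (Fin n) F) = P :=
    ⟨⟨P, (P.map σ).transpose * G, hPG', by rw [← hPGP, mul_assoc]⟩, rfl⟩
  refine ⟨g * pg, ?_⟩
  rw [Units.val_mul, hpg, ← hG]
  have e1 : ((G * P).map σ).transpose = (P.map σ).transpose * G := by
    have e2 : (G * P).map σ = G.map σ * P.map σ := by
      ext i j
      simp [Matrix.mul_apply, map_sum]
    rw [e2, Matrix.transpose_mul, hH]
  rw [e1, mul_assoc, hPG', mul_one]

end Cfsg.Agent.Lib.helper13.H90
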