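import Mathlib
import Cfsg.Agent.Lib.helper13.PSLnSylow

set_option autoImplicit false

/-!
Automorphisms of `PSL_n(q)`, `n ≥ 3`: every automorphism is `conjAut g * fieldAut σ` or
`conjAut g * fieldAut σ * itAut`.
-/

namespace Cfsg.Agent.Lib.helper13.PN

open Matrix

variable {F : Type*} [Field F] {n : ℕ}

theorem exists_third (hn : 3 ≤ n) (i j : Fin n) : ∃ k : Fin n, k ≠ i ∧ k ≠ j := by
  by_contra h
  push Not at h
  have h1 : (Finset.univ : Finset (Fin n)) ⊆ {i, j} := by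
    intro k _
    by_cases hk : k = i
    · simp [hk]
    · simp [h k hk]
  have h2 := Finset.card_le_card h1
  rw [Finset.card_univ, Fintype.card_fin] at h2
  have h3 : ({i, j} : Finset (Fin n)).card ≤ 2 := Finset.card_le_two
  omega

theorem exists_oth (hn : 3 ≤ n) : ∃ oth : Fin n → Fin n, ∀ i, oth i ≠ i := by
  have h : ∀ i : Fin n, ∃ k : Fin n, k ≠ i := fun i => by
    obtain ⟨k, hk, -⟩ := exists_third hn i i
    exact ⟨k, hk⟩
  choose oth hoth using h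
  exact ⟨oth, hoth⟩

/-- connectivity of ordered pairs of distinct indices under row and column moves -/
theorem pair_conn (hn : 3 ≤ n) (R : Fin n → Fin n → Prop)
    (hrow : ∀ i j k, i ≠ j → i ≠ k → j ≠ k → R i j → R i k)
    (hcol : ∀ i j k, i ≠ j → k ≠ j → i ≠ k → R i j → R k j) :
    ∀ i j k l, i ≠ j → k ≠ l → R i j → R k l := by
  intro i j k l hij hkl h
  by_cases hki : k = i
  · subst hki
    by_cases hlj : l = j
    · subst hlj
      exact h
    · exact hrow k j l hij hkl (Ne.symm hlj) h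
  · by_cases hlj : l = j
    · subst hlj
      exact hcol i l k hij hkl (Ne.symm hki) h
    · by_cases hli : l = i
      · subst hli
        by_cases hkj : k = j
        · subst hkj
          obtain ⟨m, hml, hmk⟩ := exists_third hn l k
          have h1 : R l m := hrow l k m hij (Ne.symm hml) (Ne.symm hmk) h
          have h2 : R k m := hcol l m k (Ne.symm hml) (Ne.symm hmk) hij h1
          exact hrow k m l (Ne.symm hmk) hkl hml h2
        · have h1 : R k j := hcol l j k hij hkj (Ne.symm hki) h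
          exact hrow k j l hkj hkl (Ne.symm hlj) h1
      · have h1 : R i l := hrow i j l hij (Ne.symm hli) (Ne.symm hlj) h
        exact hcol i l k (Ne.symm hli) hkl (Ne.symm hki) h1

/-- root data of the image of the frame root set `(i, j)` under `α` -/
def RD (α : MulAut (PSLn n F)) (i j : Fin n) (w ψ : Fin n → F) : Prop :=
  ψ ⬝ᵥ w = 0 ∧ w ≠ 0 ∧ ψ ≠ 0 ∧
    α '' Set.range (xb i j : F → PSLn n F) = Set.range (tvb w ψ)

theorem RD.elt {α : MulAut (PSLn n F)} {i j : Fin n} {w ψ : Fin n → F} (h : RD α i j w ψ)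
    (hij : i ≠ j) (s : F) (hs : s ≠ 0) : ∃ t : F, t ≠ 0 ∧ α (xb i j s) = tvb w ψ t := by
  have h1 : α (xb i j s) ∈ α '' Set.range (xb i j : F → PSLn n F) := ⟨_, ⟨s, rfl⟩, rfl⟩
  rw [h.2.2.2] at h1
  obtain ⟨t, ht⟩ := h1
  refine ⟨t, ?_, ht.symm⟩
  rintro rfl
  rw [tvb_zero] at ht
  have h2 : α (xb i j s) = α 1 := by rw [← ht, map_one]
  have h3 := α.injective h2
  rw [← xb_zero i j] at h3
  exact hs (xb_inj hij _ _ h3)

theorem RD.center (hn : 3 ≤ n) (hG : ∀ i j : Fin n, i ≠ j → Good (E i : Fin n → F) (E j))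
    {α : MulAut (PSLn n F)} {i j k : Fin n} (hij : i ≠ j) (hik : i ≠ k) (hjk : j ≠ k)
    {w ψ w' ψ' : Fin n → F} (h : RD α i j w ψ) (h' : RD α i k w' ψ') :
    Par w w' ∨ Par ψ ψ' := by
  obtain ⟨s, hs, es⟩ := h.elt hij 1 one_ne_zero
  obtain ⟨t, ht, et⟩ := h'.elt hik 1 one_ne_zero
  have hcomm : tvb w ψ s * tvb w' ψ' t = tvb w' ψ' t * tvb w ψ s := by
    rw [← es, ← et, ← map_mul, ← map_mul, xb_center_comm hij hik]
  obtain ⟨hd1, hd2⟩ := comm_dot hn w ψ w' ψ' h.1 h'.1 h.2.1 h'.2.1 h.2.2.1 h'.2.2.1 s t hs ht hcomm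
  obtain ⟨u, χ, hu, -, -, himg⟩ := good_center hij hik hjk (hG i j hij) α
  have h3 : α (tvb (E i) (E j + E k) 1) ∈ Set.range (tvb u χ) := by
    rw [← himg]
    exact ⟨_, ⟨1, rfl⟩, rfl⟩
  obtain ⟨r, hr⟩ := h3
  have h4 : tvb w ψ s * tvb w' ψ' t = tvb u χ r := by
    rw [hr, ← es, ← et, ← map_mul, xb_center_mul hij hik, one_smul, one_smul]
  exact same_of_third hn w ψ w' ψ' u χ h.1 h'.1 hu hd1 s t r hs ht h4

theorem RD.axis (hn : 3 ≤ n) (hG : ∀ i j : Fin n, i ≠ j → Good (E i : Fin n → F) (E j))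
    {α : MulAut (PSLn n F)} {i j k : Fin n} (hij : i ≠ j) (hik : i ≠ k) (hkj : k ≠ j)
    {w ψ w' ψ' : Fin n → F} (h : RD α i j w ψ) (h' : RD α k j w' ψ') :
    Par w w' ∨ Par ψ ψ' := by
  obtain ⟨s, hs, es⟩ := h.elt hij 1 one_ne_zero
  obtain ⟨t, ht, et⟩ := h'.elt hkj 1 one_ne_zero
  have hcomm : tvb w ψ s * tvb w' ψ' t = tvb w' ψ' t * tvb w ψ s := by
    rw [← es, ← et, ← map_mul, ← map_mul, xb_axis_comm hij hkj]
  obtain ⟨hd1, hd2⟩ := comm_dot hn w ψ w' ψ' h.1 h'.1 h.2.1 h'.2.1 h.2.2.1 h'.2.2.1 s t hs ht hcomm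
  obtain ⟨u, χ, hu, -, -, himg⟩ := good_axis hij hik hkj (hG i j hij) α
  have h3 : α (tvb (E i + E k) (E j) 1) ∈ Set.range (tvb u χ) := by
    rw [← himg]
    exact ⟨_, ⟨1, rfl⟩, rfl⟩
  obtain ⟨r, hr⟩ := h3
  have h4 : tvb w ψ s * tvb w' ψ' t = tvb u χ r := by
    rw [hr, ← es, ← et, ← map_mul, xb_axis_mul hij hkj, one_smul, one_smul]
  exact same_of_third hn w ψ w' ψ' u χ h.1 h'.1 hu hd1 s t r hs ht h4

theorem RD.distinct {α : MulAut (PSLn n F)} {i j k l : Fin n} (hij : i ≠ j) (hkl : k ≠ l)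
    (hne : ¬ (i = k ∧ j = l)) {w ψ w' ψ' : Fin n → F} (h : RD α i j w ψ) (h' : RD α k l w' ψ') :
    ¬ (Par w w' ∧ Par ψ ψ') := by
  rintro ⟨p1, p2⟩
  obtain ⟨s, hs, es⟩ := h.elt hij 1 one_ne_zero
  obtain ⟨t', ht'⟩ := tvb_par h.1 h.2.1 h'.2.1 h.2.2.1 h'.2.2.1 p1 p2 s
  have h1 : tvb w' ψ' t' ∈ α '' Set.range (xb k l : F → PSLn n F) := by
    rw [h'.2.2.2]
    exact ⟨t', rfl⟩
  obtain ⟨_, ⟨t'', rfl⟩, h2⟩ := h1
  have h3 : α (xb i j 1) = α (xb k l t'') := by rw [es, ht', h2]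
  exact one_ne_zero (xb_ne hij hkl hne 1 t'' (α.injective h3))

theorem RD.not_comm (hn : 3 ≤ n) {α : MulAut (PSLn n F)} {i j k : Fin n} (hij : i ≠ j)
    (hjk : j ≠ k) {w ψ w' ψ' : Fin n → F} (h : RD α i j w ψ) (h' : RD α j k w' ψ') :
    ¬ (ψ ⬝ᵥ w' = 0 ∧ ψ' ⬝ᵥ w = 0) := by
  rintro ⟨d1, d2⟩
  obtain ⟨s, hs, es⟩ := h.elt hij 1 one_ne_zero
  obtain ⟨t, ht, et⟩ := h'.elt hjk 1 one_ne_zero
  have h1 := tvb_comm w ψ w' ψ' d1 d2 s t
  rw [← es, ← et, ← map_mul, ← map_mul] at h1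
  exact xb_not_comm hn hij hjk 1 1 one_ne_zero one_ne_zero (α.injective h1)

/-- the frame theorem: up to composing with inverse-transpose, an automorphism maps the frame
root elements `x_ij(s)` to root elements with centre depending only on `i` and axis only on `j` -/
theorem frame (hn : 3 ≤ n) (hG : ∀ i j : Fin n, i ≠ j → Good (E i : Fin n → F) (E j))
    (α : MulAut (PSLn n F)) :
    ∃ β : MulAut (PSLn n F), (β = α ∨ β = α * itAut) ∧
      ∃ V Φ : Fin n → (Fin n → F), (∀ i j, i ≠ j → Φ j ⬝ᵥ V i = 0) ∧ (∀ j, Φ j ⬝ᵥ V j ≠ 0) ∧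
        ∀ i j, i ≠ j → ∀ s : F, ∃ t : F, β (xb i j s) = tvb (V i) (Φ j) t := by
  have h0 : ∀ i j : Fin n, ∃ w ψ : Fin n → F, i ≠ j → RD α i j w ψ := by
    intro i j
    by_cases hij : i = j
    · exact ⟨0, 0, fun h => absurd hij h⟩
    · obtain ⟨u, χ, h⟩ := hG i j hij α
      exact ⟨u, χ, fun _ => h⟩
  choose v φ hD using h0
  obtain ⟨oth, hoth⟩ := exists_oth hn
  have hv : ∀ i j, i ≠ j → v i j ≠ 0 := fun i j h => (hD i j h).2.1
  have hφ : ∀ i j, i ≠ j → φ i j ≠ 0 := fun i j h => (hD i j h).2.2.1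
  have hdot : ∀ i j, i ≠ j → φ i j ⬝ᵥ v i j = 0 := fun i j h => (hD i j h).1
  have B1 : ∀ i j k, i ≠ j → i ≠ k → j ≠ k → (Par (v i j) (v i k) ∨ Par (φ i j) (φ i k)) :=
    fun i j k hij hik hjk => RD.center hn hG hij hik hjk (hD i j hij) (hD i k hik)
  have B1' : ∀ i j k, i ≠ j → i ≠ k → j ≠ k → ¬ (Par (v i j) (v i k) ∧ Par (φ i j) (φ i k)) :=
    fun i j k hij hik hjk => RD.distinct hij hik (fun h => hjk h.2) (hD i j hij) (hD i k hik)
  have B2 : ∀ i j k, i ≠ j → i ≠ k → k ≠ j → (Par (v i j) (v k j) ∨ Par (φ i j) (φ k j)) :=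
    fun i j k hij hik hkj => RD.axis hn hG hij hik hkj (hD i j hij) (hD k j hkj)
  have B3 : ∀ i j k, i ≠ j → i ≠ k → j ≠ k → ¬ (Par (v i j) (v i k) ∧ Par (v i j) (v k j)) := by
    intro i j k hij hik hjk ⟨p1, p2⟩
    have p3 : Par (v i k) (v k j) := p1.symm.trans p2 (hv i j hij)
    apply RD.not_comm hn hik (Ne.symm hjk) (hD i k hik) (hD k j (Ne.symm hjk))
    exact ⟨p3.dot (hv i k hik) _ (hdot i k hik),
      p3.symm.dot (hv k j (Ne.symm hjk)) _ (hdot k j (Ne.symm hjk))⟩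
  have B4 : ∀ i j k, i ≠ j → i ≠ k → j ≠ k → ¬ (Par (φ i j) (φ i k) ∧ Par (φ i j) (φ k j)) := by
    intro i j k hij hik hjk ⟨p1, p2⟩
    have p3 : Par (φ i k) (φ k j) := p1.symm.trans p2 (hφ i j hij)
    apply RD.not_comm hn hik (Ne.symm hjk) (hD i k hik) (hD k j (Ne.symm hjk))
    exact ⟨p3.symm.dot' (hφ k j (Ne.symm hjk)) _ (hdot k j (Ne.symm hjk)),
      p3.dot' (hφ i k hik) _ (hdot i k hik)⟩
  obtain ⟨τ, hτ⟩ : ∃ τ : Fin n → Fin n → Prop,
      τ = fun i j => ∀ k, k ≠ i → k ≠ j → Par (v i j) (v i k) := ⟨_, rfl⟩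
  have C1 : ∀ i j k, i ≠ j → i ≠ k → j ≠ k → Par (v i j) (v i k) → τ i j := by
    intro i j k hij hik hjk hc
    rw [hτ]
    intro l hli hlj
    by_cases hlk : l = k
    · subst hlk
      exact hc
    rcases B1 i j l hij (Ne.symm hli) (Ne.symm hlj) with h | h
    · exact h
    · exfalso
      rcases B1 i k l hik (Ne.symm hli) (Ne.symm hlk) with h2 | h2
      · exact B1' i j l hij (Ne.symm hli) (Ne.symm hlj) ⟨hc.trans h2 (hv i k hik), h⟩
      · exact B1' i j k hij hik hjk ⟨hc, h.trans h2.symm (hφ i l (Ne.symm hli))⟩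
  have τdef : ∀ i j k, τ i j → k ≠ i → k ≠ j → Par (v i j) (v i k) := by
    intro i j k h
    rw [hτ] at h
    exact h k
  have C2 : ∀ i j k, i ≠ j → i ≠ k → j ≠ k → τ i j → τ i k := fun i j k hij hik hjk h =>
    C1 i k j hik hij (Ne.symm hjk) (τdef i j k h (Ne.symm hik) (Ne.symm hjk)).symm
  have C3 : ∀ i j k, i ≠ j → k ≠ j → i ≠ k → τ i j → τ k j := by
    intro i j k hij hkj hik h
    have hc : Par (v i j) (v i k) := τdef i j k h (Ne.symm hik) hkj
    have h1 : ¬ Par (v i j) (v k j) := fun h' => B3 i j k hij hik (Ne.symm hkj) ⟨hc, h'⟩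
    have h2 : Par (φ i j) (φ k j) := (B2 i j k hij hik hkj).resolve_left h1
    have h3 : ¬ Par (φ k j) (φ k i) := fun h' =>
      B4 k j i hkj (Ne.symm hik) (Ne.symm hij) ⟨h', h2.symm⟩
    have h4 : Par (v k j) (v k i) :=
      (B1 k j i hkj (Ne.symm hik) (Ne.symm hij)).resolve_right h3
    exact C1 k j i hkj (Ne.symm hik) (Ne.symm hij) h4
  by_cases hex : ∃ i j, i ≠ j ∧ τ i j
  · obtain ⟨i₀, j₀, h₀, hτ₀⟩ := hex
    have hall : ∀ i j, i ≠ j → τ i j := fun i j hij =>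
      pair_conn hn τ C2 C3 i₀ j₀ i j h₀ hij hτ₀
    have pV : ∀ i j, i ≠ j → Par (v i j) (v i (oth i)) := by
      intro i j hij
      by_cases h : oth i = j
      · rw [h]
        exact Par.refl _
      · exact τdef i j (oth i) (hall i j hij) (hoth i) h
    have pΦ : ∀ i j, i ≠ j → Par (φ i j) (φ (oth j) j) := by
      intro i j hij
      by_cases h : oth j = i
      · rw [h]
        exact Par.refl _
      · have hc : Par (v i j) (v i (oth j)) := τdef i j (oth j) (hall i j hij) h (hoth j)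
        have h1 : ¬ Par (v i j) (v (oth j) j) := fun h' =>
          B3 i j (oth j) hij (Ne.symm h) (Ne.symm (hoth j)) ⟨hc, h'⟩
        exact (B2 i j (oth j) hij (Ne.symm h) (hoth j)).resolve_left h1
    have hz : ∀ i j, i ≠ j → φ (oth j) j ⬝ᵥ v i (oth i) = 0 := by
      intro i j hij
      have h1 := (pV i j hij).dot (hv i j hij) (φ i j) (hdot i j hij)
      exact (pΦ i j hij).dot' (hφ i j hij) _ h1
    refine ⟨α, Or.inl rfl, fun i => v i (oth i), fun j => φ (oth j) j, hz, ?_, ?_⟩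
    · intro j hzero
      obtain ⟨i, hij, -⟩ := exists_third hn j j
      obtain ⟨k, hki, hkj⟩ := exists_third hn i j
      apply RD.not_comm hn hij (Ne.symm hkj) (hD i j hij) (hD j k (Ne.symm hkj))
      constructor
      · have h1 := (pV j k (Ne.symm hkj)).symm.dot (hv j (oth j) (hoth j).symm) (φ (oth j) j) hzero
        exact (pΦ i j hij).symm.dot' (hφ (oth j) j (hoth j)) _ h1
      · have h1 := (pV i j hij).symm.dot (hv i (oth i) (hoth i).symm) (φ (oth k) k)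
          (hz i k (Ne.symm hki))
        exact (pΦ j k (Ne.symm hkj)).symm.dot' (hφ (oth k) k (hoth k)) _ h1
    · intro i j hij s
      by_cases hs : s = 0
      · exact ⟨0, by rw [hs, xb_zero, tvb_zero, map_one]⟩
      · obtain ⟨t, -, et⟩ := (hD i j hij).elt hij s hs
        obtain ⟨t', ht'⟩ := tvb_par (hdot i j hij) (hv i j hij) (hv i (oth i) (hoth i).symm)
          (hφ i j hij) (hφ (oth j) j (hoth j)) (pV i j hij) (pΦ i j hij) t
        exact ⟨t', by rw [et, ht']⟩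
  · push Not at hex
    have sA : ∀ i j k, i ≠ j → i ≠ k → j ≠ k → Par (φ i j) (φ i k) := by
      intro i j k hij hik hjk
      exact (B1 i j k hij hik hjk).resolve_left (fun hc => hex i j hij (C1 i j k hij hik hjk hc))
    have sC : ∀ i j k, i ≠ j → i ≠ k → k ≠ j → Par (v i j) (v k j) := by
      intro i j k hij hik hkj
      exact (B2 i j k hij hik hkj).resolve_right (fun ha =>
        B4 i j k hij hik (Ne.symm hkj) ⟨sA i j k hij hik (Ne.symm hkj), ha⟩)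
    have pΨ : ∀ i j, i ≠ j → Par (φ i j) (φ i (oth i)) := by
      intro i j hij
      by_cases h : oth i = j
      · rw [h]
        exact Par.refl _
      · exact sA i j (oth i) hij (hoth i).symm (Ne.symm h)
    have pW : ∀ i j, i ≠ j → Par (v i j) (v (oth j) j) := by
      intro i j hij
      by_cases h : oth j = i
      · rw [h]
        exact Par.refl _
      · exact sC i j (oth j) hij (Ne.symm h) (hoth j)
    have hz : ∀ i j, i ≠ j → φ j (oth j) ⬝ᵥ v (oth i) i = 0 := by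
      intro i j hij
      have h1 := (pW j i (Ne.symm hij)).dot (hv j i (Ne.symm hij)) (φ j i) (hdot j i (Ne.symm hij))
      exact (pΨ j i (Ne.symm hij)).dot' (hφ j i (Ne.symm hij)) _ h1
    refine ⟨α * itAut, Or.inr rfl, fun i => v (oth i) i, fun j => φ j (oth j), hz, ?_, ?_⟩
    · intro j hzero
      obtain ⟨i, hij, -⟩ := exists_third hn j j
      obtain ⟨k, hki, hkj⟩ := exists_third hn i j
      apply RD.not_comm hn hij (Ne.symm hkj) (hD i j hij) (hD j k (Ne.symm hkj))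
      constructor
      · have h1 := (pW j k (Ne.symm hkj)).symm.dot (hv (oth k) k (hoth k)) (φ i (oth i))
          (hz k i hki)
        exact (pΨ i j hij).symm.dot' (hφ i (oth i) (hoth i).symm) _ h1
      · have h1 := (pW i j hij).symm.dot (hv (oth j) j (hoth j)) (φ j (oth j)) hzero
        exact (pΨ j k (Ne.symm hkj)).symm.dot' (hφ j (oth j) (hoth j).symm) _ h1
    · intro i j hij s
      rw [MulAut.mul_apply, itAut_xb hij]
      by_cases hs : s = 0
      · exact ⟨0, by rw [hs, neg_zero, xb_zero, tvb_zero, map_one]⟩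
      · obtain ⟨t, -, et⟩ := (hD j i (Ne.symm hij)).elt (Ne.symm hij) (-s) (neg_ne_zero.2 hs)
        obtain ⟨t', ht'⟩ := tvb_par (hdot j i (Ne.symm hij)) (hv j i (Ne.symm hij))
          (hv (oth i) i (hoth i)) (hφ j i (Ne.symm hij)) (hφ j (oth j) (hoth j).symm)
          (pW j i (Ne.symm hij)) (pΨ j i (Ne.symm hij)) t
        exact ⟨t', by rw [et, ht']⟩

/-- automorphisms preserving each frame root set are diagonal-field -/
theorem norm_diag [Fintype F] (hn : 3 ≤ n) (γ : MulAut (PSLn n F))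
    (h : ∀ i j : Fin n, i ≠ j → ∀ s : F, ∃ t : F, γ (xb i j s) = xb i j t) :
    ∃ (d : Fin n → F) (hd : ∀ i, d i ≠ 0) (σ : F ≃+* F),
      γ = conjAut (diagGL d hd) * fieldAut σ := by
  have h' : ∀ (i j : Fin n) (s : F), ∃ t : F, i ≠ j → γ (xb i j s) = xb i j t := by
    intro i j s
    by_cases hij : i = j
    · exact ⟨0, fun h => absurd hij h⟩
    · obtain ⟨t, ht⟩ := h i j hij s
      exact ⟨t, fun _ => ht⟩
  choose sg hsg using h'
  have hadd : ∀ i j, i ≠ j → ∀ s t, sg i j (s + t) = sg i j s + sg i j t := by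
    intro i j hij s t
    apply xb_inj hij
    rw [← hsg i j (s + t) hij, xb_add, map_mul, hsg i j s hij, hsg i j t hij, ← xb_add]
  have hinj : ∀ i j, i ≠ j → ∀ s t, sg i j s = sg i j t → s = t := by
    intro i j hij s t hst
    apply xb_inj hij
    apply γ.injective
    rw [hsg i j s hij, hsg i j t hij, hst]
  have hzero : ∀ i j, i ≠ j → sg i j 0 = 0 := by
    intro i j hij
    have := hadd i j hij 0 0
    rw [add_zero] at this
    linear_combination -this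
  have hmul : ∀ i j k, i ≠ j → j ≠ k → i ≠ k → ∀ s t,
      sg i k (s * t) = sg i j s * sg j k t := by
    intro i j k hij hjk hik s t
    apply xb_inj hik
    have h1 := congrArg γ (xb_comm_rel hij hjk hik s t)
    rw [map_mul, map_mul, map_mul, hsg i j s hij, hsg j k t hjk, hsg i k (s * t) hik,
      xb_comm_rel hij hjk hik (sg i j s) (sg j k t), mul_assoc, mul_assoc] at h1
    exact (mul_right_cancel h1).symm
  have hc : ∀ i j, i ≠ j → sg i j 1 ≠ 0 := by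
    intro i j hij h0
    rw [← hzero i j hij] at h0
    exact one_ne_zero (hinj i j hij 1 0 h0)
  have D1 : ∀ i j k, i ≠ j → j ≠ k → i ≠ k → sg i k 1 = sg i j 1 * sg j k 1 := by
    intro i j k hij hjk hik
    have := hmul i j k hij hjk hik 1 1
    rwa [mul_one] at this
  have D2 : ∀ i j, i ≠ j → sg i j 1 * sg j i 1 = 1 := by
    intro i j hij
    obtain ⟨k, hki, hkj⟩ := exists_third hn i j
    have e1 := D1 i j k hij (Ne.symm hkj) (Ne.symm hki)
    have e2 := D1 j i k (Ne.symm hij) (Ne.symm hki) (Ne.symm hkj)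
    have e3 : sg i k 1 * (sg i j 1 * sg j i 1 - 1) = 0 := by
      rw [e2] at e1
      linear_combination -e1
    have := (mul_eq_zero.1 e3).resolve_left (hc i k (Ne.symm hki))
    linear_combination this
  obtain ⟨i₀, j₀, hij₀⟩ : ∃ i₀ j₀ : Fin n, i₀ ≠ j₀ := by
    obtain ⟨k, hk, -⟩ := exists_third hn ⟨0, by omega⟩ ⟨0, by omega⟩
    exact ⟨k, _, hk⟩
  obtain ⟨k₀, hk₀i, hk₀j⟩ := exists_third hn i₀ j₀
  have hT : ∀ i j, i ≠ j → ∀ t, sg i j t / sg i j 1 = sg i₀ j₀ t / sg i₀ j₀ 1 := by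
    intro i j hij
    refine pair_conn hn (fun i j => ∀ t, sg i j t / sg i j 1 = sg i₀ j₀ t / sg i₀ j₀ 1) ?_ ?_
      i₀ j₀ i j hij₀ hij (fun t => rfl)
    · intro i j k hij hik hjk hR t
      rw [← hR t]
      have e1 := hmul i j k hij hjk hik t 1
      rw [mul_one] at e1
      rw [e1, D1 i j k hij hjk hik]
      have := hc i j hij
      have := hc j k hjk
      field_simp
    · intro i j k hij hkj hik hR t
      rw [← hR t]
      have e1 := hmul i k j hik hkj hij 1 t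
      rw [one_mul] at e1
      rw [e1, D1 i k j hik hkj hij]
      have := hc i k hik
      have := hc k j hkj
      field_simp
  obtain ⟨σ₀, hσ₀⟩ : ∃ σ₀ : F → F, σ₀ = fun t => sg i₀ j₀ t / sg i₀ j₀ 1 := ⟨_, rfl⟩
  have hsg' : ∀ i j, i ≠ j → ∀ t, sg i j t = sg i j 1 * σ₀ t := by
    intro i j hij t
    have := hT i j hij t
    rw [hσ₀]
    have h1 := hc i j hij
    field_simp at this ⊢
    linear_combination this
  have σ_one : σ₀ 1 = 1 := by
    rw [hσ₀]
    exact div_self (hc i₀ j₀ hij₀)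
  have σ_add : ∀ s t, σ₀ (s + t) = σ₀ s + σ₀ t := by
    intro s t
    rw [hσ₀]
    show sg i₀ j₀ (s + t) / sg i₀ j₀ 1 = sg i₀ j₀ s / sg i₀ j₀ 1 + sg i₀ j₀ t / sg i₀ j₀ 1
    rw [hadd i₀ j₀ hij₀, add_div]
  have σ_zero : σ₀ 0 = 0 := by
    rw [hσ₀]
    show sg i₀ j₀ 0 / sg i₀ j₀ 1 = 0
    rw [hzero i₀ j₀ hij₀, zero_div]
  have σ_mul : ∀ s t, σ₀ (s * t) = σ₀ s * σ₀ t := by
    intro s t
    have e1 := hmul i₀ j₀ k₀ hij₀ (Ne.symm hk₀j) (Ne.symm hk₀i) s t
    rw [hsg' i₀ k₀ (Ne.symm hk₀i), hsg' i₀ j₀ hij₀ s, hsg' j₀ k₀ (Ne.symm hk₀j) t,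
      D1 i₀ j₀ k₀ hij₀ (Ne.symm hk₀j) (Ne.symm hk₀i)] at e1
    have h1 := hc i₀ j₀ hij₀
    have h2 := hc j₀ k₀ (Ne.symm hk₀j)
    have e2 : sg i₀ j₀ 1 * sg j₀ k₀ 1 * (σ₀ (s * t) - σ₀ s * σ₀ t) = 0 := by
      linear_combination e1
    have := (mul_eq_zero.1 e2).resolve_left (mul_ne_zero h1 h2)
    linear_combination this
  let σh : F →+* F :=
    { toFun := σ₀
      map_one' := σ_one
      map_mul' := σ_mul
      map_zero' := σ_zero
      map_add' := σ_add }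
  have hbij : Function.Bijective σh :=
    ⟨σh.injective, Finite.injective_iff_surjective.1 σh.injective⟩
  let σ : F ≃+* F := RingEquiv.ofBijective σh hbij
  have hσ : ∀ t, σ t = σ₀ t := fun t => rfl
  obtain ⟨d, hd⟩ : ∃ d : Fin n → F, d = fun i => if i = i₀ then 1 else sg i i₀ 1 := ⟨_, rfl⟩
  have hd0 : ∀ i, d i ≠ 0 := by
    intro i
    rw [hd]
    by_cases hi : i = i₀
    · simp [hi]
    · simp only [if_neg hi]
      exact hc i i₀ hi
  have D3 : ∀ i j, i ≠ j → sg i j 1 = d i * (d j)⁻¹ := by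
    intro i j hij
    rw [hd]
    by_cases hi : i = i₀
    · have hj : ¬ j = i₀ := fun h => hij (hi.trans h.symm)
      simp only [if_pos hi, if_neg hj, one_mul]
      rw [hi]
      have := D2 i₀ j (fun h => hj h.symm)
      exact eq_inv_of_mul_eq_one_left this
    · by_cases hj : j = i₀
      · simp only [if_neg hi, if_pos hj, inv_one, mul_one]
        rw [hj]
      · simp only [if_neg hi, if_neg hj]
        have e := D1 i j i₀ hij hj hi
        rw [e, mul_assoc, mul_inv_cancel₀ (hc j i₀ hj), mul_one]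
  refine ⟨d, hd0, σ, ?_⟩
  apply aut_ext (by omega)
  intro i j hij t
  rw [MulAut.mul_apply, fieldAut_xb σ hij, conjAut_diag_xb d hd0 hij, hsg i j t hij,
    hsg' i j hij t, D3 i j hij, hσ]

/-- automorphisms with frame data are `conjAut g * fieldAut σ` -/
theorem norm_frame [Fintype F] (hn : 3 ≤ n) (β : MulAut (PSLn n F)) (V Φ : Fin n → (Fin n → F))
    (h0 : ∀ i j, i ≠ j → Φ j ⬝ᵥ V i = 0) (h1 : ∀ j, Φ j ⬝ᵥ V j ≠ 0)
    (h2 : ∀ i j, i ≠ j → ∀ s : F, ∃ t : F, β (xb i j s) = tvb (V i) (Φ j) t) :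
    ∃ (g : GL (Fin n) F) (σ : F ≃+* F), β = conjAut g * fieldAut σ := by
  obtain ⟨G, hG⟩ : ∃ G : Matrix (Fin n) (Fin n) F, G = Matrix.of (fun a i => V i a) := ⟨_, rfl⟩
  obtain ⟨G', hG'⟩ : ∃ G' : Matrix (Fin n) (Fin n) F,
      G' = Matrix.of (fun j b => Φ j b / (Φ j ⬝ᵥ V j)) := ⟨_, rfl⟩
  have hG'G : G' * G = 1 := by
    ext j i
    have e : ∑ b, Φ j b / (Φ j ⬝ᵥ V j) * V i b = (Φ j ⬝ᵥ V i) / (Φ j ⬝ᵥ V j) := by
      rw [show Φ j ⬝ᵥ V i = ∑ b, Φ j b * V i b from rfl, Finset.sum_div]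
      exact Finset.sum_congr rfl (fun b _ => by ring)
    rw [hG, hG']
    rw [Matrix.mul_apply]
    simp only [Matrix.of_apply]
    rw [e]
    by_cases hji : j = i
    · subst hji
      rw [Matrix.one_apply_eq, div_self (h1 j)]
    · rw [Matrix.one_apply_ne hji, h0 i j (Ne.symm hji), zero_div]
  have hGG' : G * G' = 1 := _root_.mul_eq_one_comm.1 hG'G
  obtain ⟨g, hg⟩ : ∃ g : GL (Fin n) F, g = ⟨G, G', hGG', hG'G⟩ := ⟨_, rfl⟩
  have hg1 : (g : Matrix (Fin n) (Fin n) F) = G := by rw [hg]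
  have hg2 : ((g⁻¹ : GL (Fin n) F) : Matrix (Fin n) (Fin n) F) = G' := by rw [hg]; rfl
  have hgE : ∀ i, (g : Matrix (Fin n) (Fin n) F) *ᵥ E i = V i := by
    intro i
    funext a
    rw [mulVec_E, hg1, hG]
    rfl
  have hEg : ∀ j, (E j : Fin n → F) ᵥ* ((g⁻¹ : GL (Fin n) F) : Matrix (Fin n) (Fin n) F) =
      (Φ j ⬝ᵥ V j)⁻¹ • Φ j := by
    intro j
    funext b
    rw [E_vecMul, hg2, hG']
    show Φ j b / (Φ j ⬝ᵥ V j) = (Φ j ⬝ᵥ V j)⁻¹ * Φ j b
    rw [div_eq_inv_mul]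
  have hconj : ∀ i j, i ≠ j → ∀ t,
      conjAut g (xb i j t) = tvb (V i) (Φ j) ((Φ j ⬝ᵥ V j)⁻¹ * t) := by
    intro i j hij t
    rw [xb, conjAut_tvb g _ _ (E_dot_ne hij), hgE, hEg]
    have := tvb_smul (V i) (Φ j) (h0 i j hij) 1 (Φ j ⬝ᵥ V j)⁻¹ t
    rw [one_smul, one_mul] at this
    exact this
  obtain ⟨d, hd, σ, hγ⟩ := norm_diag hn ((conjAut g)⁻¹ * β) (by
    intro i j hij s
    obtain ⟨t, ht⟩ := h2 i j hij s
    refine ⟨(Φ j ⬝ᵥ V j) * t, ?_⟩
    rw [MulAut.mul_apply, ht]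
    have h3 := hconj i j hij ((Φ j ⬝ᵥ V j) * t)
    rw [← mul_assoc, inv_mul_cancel₀ (h1 j), one_mul] at h3
    rw [← h3, MulAut.inv_apply, MulEquiv.symm_apply_apply])
  refine ⟨g * diagGL d hd, σ, ?_⟩
  rw [map_mul, mul_assoc, ← hγ, ← mul_assoc, mul_inv_cancel, one_mul]

/-- **Automorphisms of `PSL_n(q)`, `n ≥ 3`.** -/
theorem aut_decomp_n [Fintype F] (p f : ℕ) [Fact p.Prime] (hF : Fintype.card F = p ^ f)
    (hf : 1 ≤ f) (hn : 3 ≤ n) (α : MulAut (PSLn n F)) :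
    ∃ (g : GL (Fin n) F) (σ : F ≃+* F),
      α = conjAut g * fieldAut σ ∨ α = conjAut g * fieldAut σ * itAut := by
  obtain ⟨m, rfl⟩ : ∃ m, n = m + 2 := ⟨n - 2, by omega⟩
  have hG : ∀ i j : Fin (m + 2), i ≠ j → Good (E i : Fin (m + 2) → F) (E j) := fun i j hij =>
    good_frame E0_ne_last (good_base p f hF hf) hij
  obtain ⟨β, hβ, V, Φ, h0, h1, h2⟩ := frame hn hG α
  obtain ⟨g, σ, hg⟩ := norm_frame hn β V Φ h0 h1 h2
  refine ⟨g, σ, ?_⟩
  rcases hβ with rfl | rfl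
  · exact Or.inl hg
  · right
    rw [← hg, mul_assoc, itAut_sq, mul_one]

end Cfsg.Agent.Lib.helper13.PN
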