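import Mathlib
import Cfsg.Prelude.Def_KGroupFacts
import Cfsg.Agent.Lib.helper13.PSLnAut

set_option autoImplicit false

/-!
Structure of `Aut(PSL_n(F))`: uniqueness of the decomposition, the homomorphism to
`Aut(F) × C₂`, its kernel.
-/

namespace Cfsg.Agent.Lib.helper13.PN

open Matrix

variable {F : Type*} [Field F] {n : ℕ}

/-- equal nontrivial transvection classes have parallel centres and axes -/
theorem tvb_eq_par {v w φ ψ : Fin n → F} (h : φ ⬝ᵥ v = 0) (h' : ψ ⬝ᵥ w = 0) (hv : v ≠ 0)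
    (hφ : φ ≠ 0) (s t : F) (hs : s ≠ 0) (he : tvb v φ s = tvb w ψ t) : Par v w ∧ Par φ ψ := by
  have hw : w ≠ 0 := by
    intro hw
    have h1 : tvb w ψ t = 1 := by
      rw [tvb_of w ψ h']
      have : tv w ψ h' t = 1 := by
        apply Subtype.ext
        rw [tv_coe, hw]
        simp
      rw [this]; rfl
    rw [h1] at he
    exact hs (tvb_eq_one v φ h hv hφ s he)
  rw [tvb_of v φ h, tvb_of w ψ h', mk_eq_iff] at he
  obtain ⟨r, -, hr⟩ := he
  have hr1 : r = 1 := scalar_one_of_tv v φ h s _ r w hw (by rw [tv_mulVec, h']; simp) hr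
  rw [hr1, one_smul, tv_coe, tv_coe] at hr
  have key : ∀ a b, t * (w a * ψ b) = s * (v a * φ b) := by
    intro a b
    have := congrFun (congrFun hr a) b
    simp only [Matrix.add_apply, Matrix.smul_apply, vecMulVec_apply, smul_eq_mul] at this
    exact add_left_cancel this
  obtain ⟨b, hb⟩ := exists_ne_of_ne_zero hφ
  obtain ⟨a, ha⟩ := exists_ne_of_ne_zero hv
  constructor
  · intro a' c
    have e1 := key a' b
    have e2 := key c b
    have : s * φ b * (v a' * w c - v c * w a') = 0 := by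
      linear_combination w a' * e2 - w c * e1
    have h3 := (mul_eq_zero.1 this).resolve_left (mul_ne_zero hs hb)
    linear_combination h3
  · intro b' c
    have e1 := key a b'
    have e2 := key a c
    have : s * v a * (φ b' * ψ c - φ c * ψ b') = 0 := by
      linear_combination ψ b' * e2 - ψ c * e1
    have h3 := (mul_eq_zero.1 this).resolve_left (mul_ne_zero hs ha)
    linear_combination h3

theorem gl_mulVec_ne_zero (g : GL (Fin n) F) {v : Fin n → F} (hv : v ≠ 0) :
    (g : Matrix (Fin n) (Fin n) F) *ᵥ v ≠ 0 := by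
  intro h
  apply hv
  have := congrArg (fun x => ((g⁻¹ : GL (Fin n) F) : Matrix (Fin n) (Fin n) F) *ᵥ x) h
  simp only [mulVec_mulVec, Units.inv_mul, one_mulVec, mulVec_zero] at this
  exact this

theorem gl_vecMul_ne_zero (g : GL (Fin n) F) {φ : Fin n → F} (hφ : φ ≠ 0) :
    φ ᵥ* ((g⁻¹ : GL (Fin n) F) : Matrix (Fin n) (Fin n) F) ≠ 0 := by
  intro h
  apply hφ
  have := congrArg (fun x => x ᵥ* (g : Matrix (Fin n) (Fin n) F)) h
  simp only [vecMul_vecMul, Units.inv_mul, vecMul_one, zero_vecMul] at this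
  exact this

/-- scalar matrices act trivially -/
theorem conjAut_scalar (C : GL (Fin n) F) (a : F)
    (h : (C : Matrix (Fin n) (Fin n) F) = a • (1 : Matrix (Fin n) (Fin n) F)) : conjAut C = 1 := by
  apply MulEquiv.ext
  intro x
  induction x using QuotientGroup.induction_on with
  | H M =>
    rw [conjAut_mk, MulAut.one_apply]
    congr 1
    apply Subtype.ext
    rw [conjSL_coe]
    have h1 : (C : Matrix (Fin n) (Fin n) F) * (M : Matrix (Fin n) (Fin n) F) =
        (M : Matrix (Fin n) (Fin n) F) * (C : Matrix (Fin n) (Fin n) F) := by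
      rw [h, Matrix.smul_mul, Matrix.mul_smul, one_mul, mul_one]
    rw [h1, mul_assoc, Units.mul_inv, mul_one]

/-- (K): `conjAut g * fieldAut σ = 1` forces `σ = 1` and `g` scalar -/
theorem conj_field_eq_one (hn : 2 ≤ n) (g : GL (Fin n) F) (σ : F ≃+* F)
    (h : conjAut g * fieldAut σ = 1) :
    σ = 1 ∧ ∃ a : F, (g : Matrix (Fin n) (Fin n) F) = a • (1 : Matrix (Fin n) (Fin n) F) := by
  have hx : ∀ i j : Fin n, i ≠ j → ∀ t : F,
      tvb ((g : Matrix (Fin n) (Fin n) F) *ᵥ E i)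
        ((E j : Fin n → F) ᵥ* ((g⁻¹ : GL (Fin n) F) : Matrix (Fin n) (Fin n) F)) (σ t) =
        xb i j t := by
    intro i j hij t
    have := congrArg (fun α : MulAut (PSLn n F) => α (xb i j t)) h
    simp only [MulAut.mul_apply, MulAut.one_apply] at this
    rw [fieldAut_xb σ hij, xb, conjAut_tvb g _ _ (E_dot_ne hij)] at this
    exact this
  -- parallelism
  have hpar : ∀ i j : Fin n, i ≠ j →
      Par (E i : Fin n → F) ((g : Matrix (Fin n) (Fin n) F) *ᵥ E i) ∧
      Par (E j : Fin n → F)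
        ((E j : Fin n → F) ᵥ* ((g⁻¹ : GL (Fin n) F) : Matrix (Fin n) (Fin n) F)) := by
    intro i j hij
    have h1 := hx i j hij 1
    rw [map_one] at h1
    exact tvb_eq_par (E_dot_ne hij) (by rw [dot_conj]; exact E_dot_ne hij) (E_ne_zero i)
      (E_ne_zero j) 1 1 one_ne_zero h1.symm
  have hoth : ∀ i : Fin n, ∃ j : Fin n, j ≠ i := by
    intro i
    have : Nontrivial (Fin n) := Fin.nontrivial_iff_two_le.2 hn
    exact exists_ne i
  have hc : ∀ i : Fin n, ∃ c : F, c ≠ 0 ∧ (g : Matrix (Fin n) (Fin n) F) *ᵥ E i = c • E i := by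
    intro i
    obtain ⟨j, hj⟩ := hoth i
    exact (hpar i j (Ne.symm hj)).1.exists_smul (E_ne_zero i) (gl_mulVec_ne_zero g (E_ne_zero i))
  have he : ∀ j : Fin n, ∃ e : F, e ≠ 0 ∧
      (E j : Fin n → F) ᵥ* ((g⁻¹ : GL (Fin n) F) : Matrix (Fin n) (Fin n) F) = e • E j := by
    intro j
    obtain ⟨i, hi⟩ := hoth j
    exact (hpar i j hi).2.exists_smul (E_ne_zero j) (gl_vecMul_ne_zero g (E_ne_zero j))
  choose c hc0 hc using hc
  choose e he0 he using he
  have hce : ∀ i j : Fin n, i ≠ j → ∀ t : F, c i * e j * σ t = t := by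
    intro i j hij t
    have h1 := hx i j hij t
    rw [hc, he, tvb_smul _ _ (E_dot_ne hij)] at h1
    exact xb_inj hij _ _ h1
  have hce1 : ∀ i j : Fin n, i ≠ j → c i * e j = 1 := by
    intro i j hij
    have := hce i j hij 1
    rw [map_one, mul_one] at this
    exact this
  have hcc : ∀ j : Fin n, c j * e j = 1 := by
    intro j
    have h1 := dot_conj g (E j) (E j)
    rw [hc, he, smul_dotProduct, dotProduct_smul, E_dot, if_pos rfl] at h1
    simp only [smul_eq_mul, mul_one] at h1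
    rw [mul_comm]
    exact h1
  have hceq : ∀ i j : Fin n, c i = c j := by
    intro i j
    by_cases hij : i = j
    · rw [hij]
    · have h1 := hce1 i j hij
      have h2 := hcc j
      have : (c i - c j) * e j = 0 := by linear_combination h1 - h2
      have := (mul_eq_zero.1 this).resolve_right (he0 j)
      linear_combination this
  constructor
  · apply RingEquiv.ext
    intro t
    obtain ⟨i, j, hij⟩ : ∃ i j : Fin n, i ≠ j := by
      have : Nontrivial (Fin n) := Fin.nontrivial_iff_two_le.2 hn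
      exact exists_pair_ne (Fin n)
    have := hce i j hij t
    rw [hce1 i j hij, one_mul] at this
    exact this
  · obtain ⟨i₀⟩ : Nonempty (Fin n) := ⟨⟨0, by omega⟩⟩
    refine ⟨c i₀, ?_⟩
    ext a i
    have h1 := congrFun (hc i) a
    rw [mulVec_E, hceq i i₀] at h1
    rw [h1]
    simp only [Pi.smul_apply, Matrix.smul_apply, smul_eq_mul, E, Matrix.one_apply, Pi.single_apply]

/-- (G): for `n ≥ 3` the inverse-transpose automorphism is not induced by a semilinear map -/
theorem it_ne_conj_field (hn : 3 ≤ n) (g : GL (Fin n) F) (σ : F ≃+* F) :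
    (itAut : MulAut (PSLn n F)) ≠ conjAut g * fieldAut σ := by
  intro h
  have hx : ∀ i j : Fin n, i ≠ j → Par (E j : Fin n → F) ((g : Matrix (Fin n) (Fin n) F) *ᵥ E i) := by
    intro i j hij
    have h1 := congrArg (fun α : MulAut (PSLn n F) => α (xb i j 1)) h
    simp only [MulAut.mul_apply] at h1
    rw [itAut_xb hij, fieldAut_xb σ hij, map_one, xb, xb, conjAut_tvb g _ _ (E_dot_ne hij)] at h1
    exact (tvb_eq_par (E_dot_ne (Ne.symm hij)) (by rw [dot_conj]; exact E_dot_ne hij) (E_ne_zero j)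
      (E_ne_zero i) (-1) 1 (neg_ne_zero.2 one_ne_zero) h1).1
  obtain ⟨i⟩ : Nonempty (Fin n) := ⟨⟨0, by omega⟩⟩
  obtain ⟨j, hji⟩ : ∃ j : Fin n, j ≠ i := by
    have : Nontrivial (Fin n) := Fin.nontrivial_iff_two_le.2 (by omega)
    exact exists_ne i
  obtain ⟨k, hki, hkj⟩ := exists_third hn i j
  have h1 := hx i j (Ne.symm hji)
  have h2 := hx i k (Ne.symm hki)
  apply gl_mulVec_ne_zero g (E_ne_zero i)
  funext a
  by_cases haj : a = j
  · have := h2 k a
    have hak : a ≠ k := by rw [haj]; exact Ne.symm hkj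
    simp only [E, Pi.single_apply, if_neg hak] at this
    show ((g : Matrix (Fin n) (Fin n) F) *ᵥ E i) a = 0
    rw [mulVec_E]
    simpa using this
  · have := h1 j a
    simp only [E, Pi.single_apply, if_neg haj] at this
    show ((g : Matrix (Fin n) (Fin n) F) *ᵥ E i) a = 0
    rw [mulVec_E]
    simpa using this

/-! ### commutation relations -/

theorem field_conj (σ : F ≃+* F) (B : GL (Fin n) F) :
    (fieldAut σ : MulAut (PSLn n F)) * conjAut B =
      conjAut (Matrix.GeneralLinearGroup.map (σ : F →+* F) B) * fieldAut σ := by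
  apply MulEquiv.ext
  intro x
  induction x using QuotientGroup.induction_on with
  | H M =>
    rw [MulAut.mul_apply, MulAut.mul_apply, conjAut_mk, fieldAut_mk, fieldAut_mk, conjAut_mk]
    congr 1
    apply Subtype.ext
    rw [fieldSL_coe, conjSL_coe, conjSL_coe, fieldSL_coe, ← map_inv]
    show (σ : F →+* F).mapMatrix (_ * _ * _) = _
    rw [map_mul, map_mul]
    rfl

/-- inverse-transpose on `GL_n` -/
def itGL : GL (Fin n) F →* GL (Fin n) F where
  toFun g := ⟨((g⁻¹ : GL (Fin n) F) : Matrix (Fin n) (Fin n) F).transpose,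
    (g : Matrix (Fin n) (Fin n) F).transpose,
    by rw [← Matrix.transpose_mul, Units.mul_inv, Matrix.transpose_one],
    by rw [← Matrix.transpose_mul, Units.inv_mul, Matrix.transpose_one]⟩
  map_one' := by
    apply Units.ext
    show ((1⁻¹ : GL (Fin n) F) : Matrix (Fin n) (Fin n) F).transpose = 1
    rw [inv_one, Units.val_one, Matrix.transpose_one]
  map_mul' g h := by
    apply Units.ext
    show (((g * h)⁻¹ : GL (Fin n) F) : Matrix (Fin n) (Fin n) F).transpose =
      ((g⁻¹ : GL (Fin n) F) : Matrix (Fin n) (Fin n) F).transpose *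
        ((h⁻¹ : GL (Fin n) F) : Matrix (Fin n) (Fin n) F).transpose
    rw [_root_.mul_inv_rev, Units.val_mul, Matrix.transpose_mul]

theorem itGL_coe (g : GL (Fin n) F) :
    ((itGL g : GL (Fin n) F) : Matrix (Fin n) (Fin n) F) =
      ((g⁻¹ : GL (Fin n) F) : Matrix (Fin n) (Fin n) F).transpose := rfl

theorem toGL_conjSL (B : GL (Fin n) F) (M : SLn n F) :
    Matrix.SpecialLinearGroup.toGL (conjSL B M) = B * Matrix.SpecialLinearGroup.toGL M * B⁻¹ := by
  apply Units.ext
  rfl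

theorem toGL_itSL (M : SLn n F) :
    Matrix.SpecialLinearGroup.toGL (itSL M) = itGL (Matrix.SpecialLinearGroup.toGL M) := by
  apply Units.ext
  rw [itGL_coe, ← map_inv]
  rfl

theorem toGL_inj : Function.Injective
    (Matrix.SpecialLinearGroup.toGL : SLn n F →* GL (Fin n) F) := by
  intro M N h
  apply Subtype.ext
  exact congrArg (fun u : GL (Fin n) F => (u : Matrix (Fin n) (Fin n) F)) h

theorem it_conj (B : GL (Fin n) F) :
    (itAut : MulAut (PSLn n F)) * conjAut B = conjAut (itGL B) * itAut := by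
  apply MulEquiv.ext
  intro x
  induction x using QuotientGroup.induction_on with
  | H M =>
    rw [MulAut.mul_apply, MulAut.mul_apply, conjAut_mk, itAut_mk, itAut_mk, conjAut_mk]
    congr 1
    apply toGL_inj
    rw [toGL_itSL, toGL_conjSL, toGL_conjSL, toGL_itSL, map_mul, map_mul, map_inv]

theorem it_field (σ : F ≃+* F) :
    (itAut : MulAut (PSLn n F)) * fieldAut σ = fieldAut σ * itAut := by
  apply MulEquiv.ext
  intro x
  induction x using QuotientGroup.induction_on with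
  | H M =>
    rw [MulAut.mul_apply, MulAut.mul_apply, fieldAut_mk, itAut_mk, itAut_mk, fieldAut_mk]
    congr 1
    rw [itSL_apply, itSL_apply, ← map_inv]
    apply Subtype.ext
    rfl

/-- the subgroup of automorphisms induced by semilinear maps -/
def PG (n : ℕ) (F : Type*) [Field F] : Subgroup (MulAut (PSLn n F)) where
  carrier := {α | ∃ (g : GL (Fin n) F) (σ : F ≃+* F), α = conjAut g * fieldAut σ}
  one_mem' := ⟨1, 1, by rw [map_one, map_one, one_mul]⟩
  mul_mem' := by
    rintro _ _ ⟨g, σ, rfl⟩ ⟨h, τ, rfl⟩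
    refine ⟨g * Matrix.GeneralLinearGroup.map (σ : F →+* F) h, σ * τ, ?_⟩
    calc conjAut g * fieldAut σ * (conjAut h * fieldAut τ)
        = conjAut g * (fieldAut σ * conjAut h) * fieldAut τ := by simp only [mul_assoc]
      _ = conjAut g * (conjAut (Matrix.GeneralLinearGroup.map (σ : F →+* F) h) * fieldAut σ) *
            fieldAut τ := by rw [field_conj]
      _ = _ := by rw [map_mul, map_mul]; simp only [mul_assoc]
  inv_mem' := by
    rintro _ ⟨g, σ, rfl⟩
    refine ⟨Matrix.GeneralLinearGroup.map ((σ⁻¹ : F ≃+* F) : F →+* F) g⁻¹, σ⁻¹, ?_⟩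
    rw [← field_conj, _root_.mul_inv_rev, map_inv, map_inv]

theorem mem_PG (α : MulAut (PSLn n F)) :
    α ∈ PG n F ↔ ∃ (g : GL (Fin n) F) (σ : F ≃+* F), α = conjAut g * fieldAut σ := Iff.rfl

theorem it_notMem_PG (hn : 3 ≤ n) : (itAut : MulAut (PSLn n F)) ∉ PG n F := by
  rintro ⟨g, σ, h⟩
  exact it_ne_conj_field hn g σ h

/-- powers of the inverse-transpose automorphism -/
noncomputable def itP (ε : ZMod 2) : MulAut (PSLn n F) := if ε = 0 then 1 else itAut

theorem zmod2_cases (ε : ZMod 2) : ε = 0 ∨ ε = 1 := by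
  revert ε
  decide

theorem itP_zero : (itP 0 : MulAut (PSLn n F)) = 1 := if_pos rfl

theorem itP_one : (itP 1 : MulAut (PSLn n F)) = itAut := if_neg (by decide)

theorem itP_add (ε δ : ZMod 2) : (itP (ε + δ) : MulAut (PSLn n F)) = itP ε * itP δ := by
  rcases zmod2_cases ε with rfl | rfl <;> rcases zmod2_cases δ with rfl | rfl
  · rw [add_zero, itP_zero, one_mul]
  · rw [zero_add, itP_zero, one_mul]
  · rw [add_zero, itP_zero, mul_one]
  · rw [show (1 + 1 : ZMod 2) = 0 from by decide, itP_zero, itP_one, itAut_sq]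

theorem itP_conj (ε : ZMod 2) (B : GL (Fin n) F) :
    ∃ B' : GL (Fin n) F, (itP ε : MulAut (PSLn n F)) * conjAut B = conjAut B' * itP ε := by
  rcases zmod2_cases ε with rfl | rfl
  · exact ⟨B, by rw [itP_zero, one_mul, mul_one]⟩
  · exact ⟨itGL B, by rw [itP_one, it_conj]⟩

theorem itP_field (ε : ZMod 2) (σ : F ≃+* F) :
    (itP ε : MulAut (PSLn n F)) * fieldAut σ = fieldAut σ * itP ε := by
  rcases zmod2_cases ε with rfl | rfl
  · rw [itP_zero, one_mul, mul_one]
  · rw [itP_one, it_field]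

/-- uniqueness of the field automorphism and the graph bit -/
theorem decomp_unique (hn : 3 ≤ n) (A B : GL (Fin n) F) (σ τ : F ≃+* F) (ε δ : ZMod 2)
    (h : conjAut A * fieldAut σ * itP ε = conjAut B * fieldAut τ * itP δ) : σ = τ ∧ ε = δ := by
  have hmem : ∀ (A : GL (Fin n) F) (σ : F ≃+* F), conjAut A * fieldAut σ ∈ PG n F :=
    fun A σ => ⟨A, σ, rfl⟩
  have hεδ : ε = δ := by
    rcases zmod2_cases ε with rfl | rfl <;> rcases zmod2_cases δ with rfl | rfl
    · rfl
    · exfalso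
      rw [itP_zero, mul_one, itP_one] at h
      apply it_notMem_PG (F := F) hn
      have : (itAut : MulAut (PSLn n F)) = (conjAut B * fieldAut τ)⁻¹ * (conjAut A * fieldAut σ) := by
        rw [h, inv_mul_cancel_left]
      rw [this]
      exact Subgroup.mul_mem _ (Subgroup.inv_mem _ (hmem B τ)) (hmem A σ)
    · exfalso
      rw [itP_zero, mul_one, itP_one] at h
      apply it_notMem_PG (F := F) hn
      have : (itAut : MulAut (PSLn n F)) = (conjAut A * fieldAut σ)⁻¹ * (conjAut B * fieldAut τ) := by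
        rw [← h, inv_mul_cancel_left]
      rw [this]
      exact Subgroup.mul_mem _ (Subgroup.inv_mem _ (hmem A σ)) (hmem B τ)
    · rfl
  refine ⟨?_, hεδ⟩
  subst hεδ
  have h1 : conjAut A * fieldAut σ = conjAut B * fieldAut τ := mul_right_cancel h
  have h2 : conjAut (B⁻¹ * A) * fieldAut (σ * τ⁻¹) = (1 : MulAut (PSLn n F)) := by
    rw [map_mul, map_mul, map_inv, map_inv, mul_assoc, ← mul_assoc (conjAut A), h1]
    group
  have h3 := (conj_field_eq_one (by omega) _ _ h2).1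
  exact mul_inv_eq_one.mp h3

/-- **the structure homomorphism** `Aut(PSL_n(F)) → Aut(F) × C₂`, `n ≥ 3` -/
theorem exists_Phi [Fintype F] (p f : ℕ) [Fact p.Prime] (hF : Fintype.card F = p ^ f)
    (hf : 1 ≤ f) (hn : 3 ≤ n) :
    ∃ Φ : MulAut (PSLn n F) →* (F ≃+* F) × Multiplicative (ZMod 2),
      (∀ A : GL (Fin n) F, Φ (conjAut A) = 1) ∧
      (∀ (τ : F ≃+* F) (ε : ZMod 2), Φ (fieldAut τ * itP ε) = (τ, Multiplicative.ofAdd ε)) ∧
      (∀ α, Φ α = 1 → ∃ A : GL (Fin n) F, α = conjAut A) := by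
  classical
  have hdec : ∀ α : MulAut (PSLn n F), ∃ x : (F ≃+* F) × Multiplicative (ZMod 2),
      ∃ A : GL (Fin n) F, α = conjAut A * fieldAut x.1 * itP (Multiplicative.toAdd x.2) := by
    intro α
    obtain ⟨A, τ, h | h⟩ := aut_decomp_n p f hF hf hn α
    · exact ⟨(τ, Multiplicative.ofAdd 0), A, by
        show α = conjAut A * fieldAut τ * itP 0
        rw [itP_zero, mul_one, h]⟩
    · exact ⟨(τ, Multiplicative.ofAdd 1), A, by
        show α = conjAut A * fieldAut τ * itP 1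
        rw [itP_one, h]⟩
  choose Φf hΦf using hdec
  have hΦ_eq : ∀ (α : MulAut (PSLn n F)) (A : GL (Fin n) F) (τ : F ≃+* F) (ε : ZMod 2),
      α = conjAut A * fieldAut τ * itP ε → Φf α = (τ, Multiplicative.ofAdd ε) := by
    intro α A τ ε h
    obtain ⟨A', hA'⟩ := hΦf α
    obtain ⟨h1, h2⟩ := decomp_unique hn A' A (Φf α).1 τ _ ε (hA'.symm.trans h)
    apply Prod.ext
    · exact h1
    · show (Φf α).2 = Multiplicative.ofAdd ε
      rw [← h2]
      rfl
  let Φ : MulAut (PSLn n F) →* (F ≃+* F) × Multiplicative (ZMod 2) := MonoidHom.mk' Φf (by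
    intro α β
    obtain ⟨A, hA⟩ := hΦf α
    obtain ⟨B, hB⟩ := hΦf β
    obtain ⟨σ, ε, hσε⟩ : ∃ (σ : F ≃+* F) (ε : ZMod 2), Φf α = (σ, Multiplicative.ofAdd ε) :=
      ⟨(Φf α).1, Multiplicative.toAdd (Φf α).2, rfl⟩
    obtain ⟨τ, δ, hτδ⟩ : ∃ (τ : F ≃+* F) (δ : ZMod 2), Φf β = (τ, Multiplicative.ofAdd δ) :=
      ⟨(Φf β).1, Multiplicative.toAdd (Φf β).2, rfl⟩
    rw [hσε] at hA ⊢
    rw [hτδ] at hB ⊢
    simp only [toAdd_ofAdd] at hA hB
    obtain ⟨B', hB'⟩ := itP_conj (F := F) ε B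
    apply hΦ_eq (α * β) (A * Matrix.GeneralLinearGroup.map (σ : F →+* F) B') (σ * τ) (ε + δ)
    calc α * β = (conjAut A * fieldAut σ * itP ε) * (conjAut B * fieldAut τ * itP δ) := by
          rw [← hA, ← hB]
      _ = conjAut A * fieldAut σ * (itP ε * conjAut B) * fieldAut τ * itP δ := by
          simp only [mul_assoc]
      _ = conjAut A * fieldAut σ * conjAut B' * (itP ε * fieldAut τ) * itP δ := by
          rw [hB']; simp only [mul_assoc]
      _ = conjAut A * (fieldAut σ * conjAut B') * fieldAut τ * (itP ε * itP δ) := by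
          rw [itP_field]; simp only [mul_assoc]
      _ = conjAut (A * Matrix.GeneralLinearGroup.map (σ : F →+* F) B') * fieldAut (σ * τ) *
            itP (ε + δ) := by
          rw [field_conj, itP_add, map_mul, map_mul]; simp only [mul_assoc])
  have hΦ_apply : ∀ α, Φ α = Φf α := fun α => rfl
  refine ⟨Φ, ?_, ?_, ?_⟩
  · intro A
    rw [hΦ_apply]
    apply hΦ_eq (conjAut A) A 1 0
    rw [map_one, mul_one, itP_zero, mul_one]
  · intro τ ε
    rw [hΦ_apply]
    apply hΦ_eq _ 1 τ ε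
    rw [map_one, one_mul]
  · intro α h
    obtain ⟨A, hA⟩ := hΦf α
    refine ⟨A, ?_⟩
    have h' : Φf α = 1 := h
    rw [h'] at hA
    have e1 : ((1 : (F ≃+* F) × Multiplicative (ZMod 2))).1 = 1 := rfl
    have e2 : Multiplicative.toAdd ((1 : (F ≃+* F) × Multiplicative (ZMod 2))).2 = 0 := rfl
    rw [e1, e2, map_one, mul_one, itP_zero, mul_one] at hA
    exact hA

/-- the kernel of `conjAut` is the centre of `GL_n` -/
theorem conjAut_eq_one_iff (hn : 2 ≤ n) (g : GL (Fin n) F) :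
    (conjAut g : MulAut (PSLn n F)) = 1 ↔ g ∈ Subgroup.center (GL (Fin n) F) := by
  rw [Matrix.GeneralLinearGroup.mem_center_iff_val_mem_range_scalar]
  constructor
  · intro h
    have h1 : conjAut g * fieldAut (1 : F ≃+* F) = (1 : MulAut (PSLn n F)) := by
      rw [map_one, mul_one, h]
    obtain ⟨a, ha⟩ := (conj_field_eq_one hn g 1 h1).2
    refine ⟨a, ?_⟩
    rw [ha, Matrix.scalar_apply, Matrix.smul_one_eq_diagonal]
  · rintro ⟨a, ha⟩
    apply conjAut_scalar g a
    rw [← ha, Matrix.scalar_apply, Matrix.smul_one_eq_diagonal]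

theorem conjAut_ker (hn : 2 ≤ n) :
    (conjAut : GL (Fin n) F →* MulAut (PSLn n F)).ker = Subgroup.center (GL (Fin n) F) := by
  ext g
  rw [MonoidHom.mem_ker, conjAut_eq_one_iff hn]

/-- `diag(c, 1, …, 1)` as a homomorphism -/
def dgn (n : ℕ) (F : Type*) [Field F] : Fˣ →* GL (Fin n) F where
  toFun c := diagGL (fun i => if (i : ℕ) = 0 then (c : F) else 1) (by
    intro i
    by_cases hi : (i : ℕ) = 0
    · rw [if_pos hi]; exact c.ne_zero
    · rw [if_neg hi]; exact one_ne_zero)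
  map_one' := by
    apply Units.ext
    show Matrix.diagonal (fun i : Fin n => if (i : ℕ) = 0 then ((1 : Fˣ) : F) else 1) = 1
    rw [← Matrix.diagonal_one]
    congr 1
    funext i
    simp
  map_mul' c c' := by
    apply Units.ext
    show Matrix.diagonal (fun i : Fin n => if (i : ℕ) = 0 then ((c * c' : Fˣ) : F) else 1) =
      Matrix.diagonal (fun i : Fin n => if (i : ℕ) = 0 then (c : F) else 1) *
      Matrix.diagonal (fun i : Fin n => if (i : ℕ) = 0 then (c' : F) else 1)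
    rw [Matrix.diagonal_mul_diagonal]
    congr 1
    funext i
    by_cases hi : (i : ℕ) = 0
    · simp [hi]
    · simp [hi]

theorem dgn_coe (c : Fˣ) : ((dgn n F c : GL (Fin n) F) : Matrix (Fin n) (Fin n) F) =
    Matrix.diagonal (fun i : Fin n => if (i : ℕ) = 0 then (c : F) else 1) := rfl

theorem dgn_det (hn : 1 ≤ n) (c : Fˣ) :
    ((dgn n F c : GL (Fin n) F) : Matrix (Fin n) (Fin n) F).det = (c : F) := by
  rw [dgn_coe, Matrix.det_diagonal]
  obtain ⟨m, rfl⟩ : ∃ m, n = m + 1 := ⟨n - 1, by omega⟩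
  rw [Fin.prod_univ_succ]
  simp

/-- every element of `GL_n` is `diag(det, 1, …, 1)` times an element of `SL_n` -/
theorem exists_dgn_mul (hn : 1 ≤ n) (A : GL (Fin n) F) :
    ∃ (c : Fˣ) (M : SLn n F), A = dgn n F c * Matrix.SpecialLinearGroup.toGL M := by
  obtain ⟨d, hd⟩ : ∃ d : Fˣ, d = Matrix.GeneralLinearGroup.det A := ⟨_, rfl⟩
  have hdd : Matrix.GeneralLinearGroup.det (dgn n F d) = d := by
    apply Units.ext
    exact dgn_det hn d
  have hBdet : (((dgn n F d)⁻¹ * A : GL (Fin n) F) : Matrix (Fin n) (Fin n) F).det = 1 := by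
    have h2 : Matrix.GeneralLinearGroup.det ((dgn n F d)⁻¹ * A) = 1 := by
      rw [map_mul, map_inv, hdd, hd]
      exact inv_mul_cancel _
    have h3 : ((Matrix.GeneralLinearGroup.det ((dgn n F d)⁻¹ * A) : Fˣ) : F) = 1 := by
      rw [h2]; rfl
    exact h3
  refine ⟨d, ⟨(((dgn n F d)⁻¹ * A : GL (Fin n) F) : Matrix (Fin n) (Fin n) F), hBdet⟩, ?_⟩
  have hBM : (dgn n F d)⁻¹ * A = Matrix.SpecialLinearGroup.toGL
      (⟨(((dgn n F d)⁻¹ * A : GL (Fin n) F) : Matrix (Fin n) (Fin n) F), hBdet⟩ : SLn n F) :=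
    Units.ext rfl
  rw [← hBM, mul_inv_cancel_left]

/-- `conjAut (diag(c,1,…,1))` is inner iff `c` is an `n`-th power -/
theorem conjAut_dgn_inn_iff (hn : 2 ≤ n) (c : Fˣ) :
    (∃ x : PSLn n F, MulAut.conj x = conjAut (dgn n F c)) ↔ ∃ a : Fˣ, a ^ n = c := by
  constructor
  · rintro ⟨x, hx⟩
    obtain ⟨M, rfl⟩ := QuotientGroup.mk_surjective x
    rw [inn_eq] at hx
    have h1 : conjAut ((Matrix.SpecialLinearGroup.toGL M)⁻¹ * dgn n F c) *
        fieldAut (1 : F ≃+* F) = (1 : MulAut (PSLn n F)) := by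
      rw [map_mul, map_inv, hx, inv_mul_cancel, map_one, mul_one]
    obtain ⟨a, ha⟩ := (conj_field_eq_one hn _ 1 h1).2
    have h2 : ((dgn n F c : GL (Fin n) F) : Matrix (Fin n) (Fin n) F) =
        a • (M : Matrix (Fin n) (Fin n) F) := by
      have h3 : ((Matrix.SpecialLinearGroup.toGL M : GL (Fin n) F) : Matrix (Fin n) (Fin n) F) *
          (((Matrix.SpecialLinearGroup.toGL M)⁻¹ * dgn n F c : GL (Fin n) F) :
            Matrix (Fin n) (Fin n) F) =
          ((Matrix.SpecialLinearGroup.toGL M : GL (Fin n) F) : Matrix (Fin n) (Fin n) F) *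
          (a • (1 : Matrix (Fin n) (Fin n) F)) := by rw [ha]
      rw [← Units.val_mul, mul_inv_cancel_left, Matrix.mul_smul, mul_one] at h3
      exact h3
    have h4 := congrArg Matrix.det h2
    rw [Matrix.det_smul, M.2, mul_one, dgn_det (by omega)] at h4
    simp only [Fintype.card_fin] at h4
    have ha0 : a ≠ 0 := by
      intro h0
      rw [h0, zero_pow (by omega)] at h4
      exact c.ne_zero h4
    exact ⟨Units.mk0 a ha0, Units.ext (by simpa using h4.symm)⟩
  · rintro ⟨a, rfl⟩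
    have hdet : ((a : F)⁻¹ • ((dgn n F (a ^ n) : GL (Fin n) F) : Matrix (Fin n) (Fin n) F)).det = 1 := by
      rw [Matrix.det_smul, dgn_det (by omega)]
      simp only [Fintype.card_fin, Units.val_pow_eq_pow_val]
      rw [← mul_pow, inv_mul_cancel₀ a.ne_zero, one_pow]
    obtain ⟨M, hM⟩ : ∃ M : SLn n F, (M : Matrix (Fin n) (Fin n) F) =
        (a : F)⁻¹ • ((dgn n F (a ^ n) : GL (Fin n) F) : Matrix (Fin n) (Fin n) F) :=
      ⟨⟨_, hdet⟩, rfl⟩
    refine ⟨QuotientGroup.mk M, ?_⟩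
    rw [inn_eq]
    have h1 : conjAut ((dgn n F (a ^ n))⁻¹ * Matrix.SpecialLinearGroup.toGL M) =
        (1 : MulAut (PSLn n F)) := by
      apply conjAut_scalar _ (a : F)⁻¹
      rw [Units.val_mul]
      show (((dgn n F (a ^ n))⁻¹ : GL (Fin n) F) : Matrix (Fin n) (Fin n) F) *
        (M : Matrix (Fin n) (Fin n) F) = _
      rw [hM, Matrix.mul_smul, Units.inv_mul]
    rw [map_mul, map_inv, inv_mul_eq_one] at h1
    exact h1.symm

/-- **Structure of `Out(PSL_n(q))`, `n ≥ 3`.** -/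
theorem out_psln [Fintype F] {p f : ℕ} [Fact p.Prime] (hf : 1 ≤ f)
    (hF : Fintype.card F = p ^ f) (hn : 3 ≤ n) :
    ∃ φ : Cfsg.Out (PSLn n F) →* Multiplicative (ZMod f × ZMod 2),
      Function.Surjective φ ∧ IsCyclic φ.ker ∧ Nat.card φ.ker = Nat.gcd n (p ^ f - 1) := by
  classical
  obtain ⟨Φ, hΦ_conj, hΦ_fi, hΦ_ker⟩ := exists_Phi (n := n) p f hF hf hn
  obtain ⟨e⟩ := PSL2Aut.ringAut_equiv hF hf
  let e2 : (F ≃+* F) × Multiplicative (ZMod 2) ≃* Multiplicative (ZMod f × ZMod 2) :=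
    (MulEquiv.prodCongr e (MulEquiv.refl _)).trans
      (MulEquiv.prodMultiplicative (G := ZMod f) (H := ZMod 2)).symm
  have hInn : Cfsg.Inn (PSLn n F) ≤ (e2.toMonoidHom.comp Φ).ker := by
    rintro _ ⟨g, rfl⟩
    obtain ⟨M, rfl⟩ := QuotientGroup.mk_surjective g
    rw [MonoidHom.mem_ker, MonoidHom.comp_apply, inn_eq, hΦ_conj]
    exact map_one _
  let φ : Cfsg.Out (PSLn n F) →* Multiplicative (ZMod f × ZMod 2) :=
    QuotientGroup.lift (Cfsg.Inn (PSLn n F)) (e2.toMonoidHom.comp Φ) hInn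
  have hφ_mk : ∀ α : MulAut (PSLn n F), φ (QuotientGroup.mk α) = e2 (Φ α) := fun α => rfl
  let ψ₀ : Fˣ →* Cfsg.Out (PSLn n F) :=
    (QuotientGroup.mk' (Cfsg.Inn (PSLn n F))).comp (conjAut.comp (dgn n F))
  have hψ₀ : ∀ c : Fˣ, ψ₀ c = QuotientGroup.mk (conjAut (dgn n F c)) := fun c => rfl
  have hker : φ.ker = ψ₀.range := by
    ext x
    constructor
    · intro hx
      obtain ⟨α, rfl⟩ := QuotientGroup.mk_surjective x
      rw [MonoidHom.mem_ker, hφ_mk] at hx
      have h1 : Φ α = 1 := e2.injective (hx.trans (map_one e2).symm)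
      obtain ⟨A, rfl⟩ := hΦ_ker α h1
      obtain ⟨c, M, rfl⟩ := exists_dgn_mul (by omega) A
      refine ⟨c, ?_⟩
      rw [hψ₀, QuotientGroup.eq]
      have h4 : (conjAut (dgn n F c))⁻¹ * conjAut (dgn n F c * Matrix.SpecialLinearGroup.toGL M) =
          MulAut.conj (QuotientGroup.mk M : PSLn n F) := by
        rw [inn_eq, map_mul, inv_mul_cancel_left]
      rw [h4]
      exact ⟨_, rfl⟩
    · rintro ⟨c, rfl⟩
      rw [MonoidHom.mem_ker, hψ₀, hφ_mk, hΦ_conj, map_one]
  refine ⟨φ, ?_, ?_, ?_⟩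
  · intro z
    obtain ⟨⟨τ, ε⟩, rfl⟩ := e2.surjective z
    refine ⟨QuotientGroup.mk (fieldAut τ * itP (Multiplicative.toAdd ε)), ?_⟩
    rw [hφ_mk, hΦ_fi]
    rfl
  · rw [hker]
    exact isCyclic_of_surjective ψ₀.rangeRestrict ψ₀.rangeRestrict_surjective
  · rw [hker, ← Subgroup.index_ker]
    have hk : ψ₀.ker = (powMonoidHom n : Fˣ →* Fˣ).range := by
      ext c
      rw [MonoidHom.mem_ker, hψ₀, QuotientGroup.eq_one_iff]
      constructor
      · rintro ⟨g, hg⟩
        obtain ⟨a, ha⟩ := (conjAut_dgn_inn_iff (by omega) c).mp ⟨g, hg⟩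
        exact ⟨a, ha⟩
      · rintro ⟨a, ha⟩
        obtain ⟨g, hg⟩ := (conjAut_dgn_inn_iff (by omega) c).mpr ⟨a, ha⟩
        exact ⟨g, hg⟩
    rw [hk, IsCyclic.index_powMonoidHom_range, Nat.card_units, Nat.card_eq_fintype_card, hF,
      Nat.gcd_comm]

/-! ### the order of the automorphism group -/

theorem conj_field_inj (hn : 2 ≤ n) (g h : GL (Fin n) F) (σ τ : F ≃+* F)
    (e : (conjAut g : MulAut (PSLn n F)) * fieldAut σ = conjAut h * fieldAut τ) :
    σ = τ ∧ g⁻¹ * h ∈ Subgroup.center (GL (Fin n) F) := by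
  have h2 : conjAut (g⁻¹ * h) * fieldAut (τ * σ⁻¹) = (1 : MulAut (PSLn n F)) := by
    rw [map_mul, map_mul, map_inv, map_inv, mul_assoc, ← mul_assoc (conjAut h), ← e]
    group
  obtain ⟨h3, a, ha⟩ := conj_field_eq_one hn _ _ h2
  refine ⟨(mul_inv_eq_one.mp h3).symm, ?_⟩
  rw [Matrix.GeneralLinearGroup.mem_center_iff_val_mem_range_scalar]
  exact ⟨a, by rw [ha, Matrix.scalar_apply, Matrix.smul_one_eq_diagonal]⟩

theorem card_PG [Fintype F] {p f : ℕ} [Fact p.Prime] (hF : Fintype.card F = p ^ f) (hf : 1 ≤ f)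
    (hn : 2 ≤ n) :
    Nat.card (PG n F) = f * Nat.card (GL (Fin n) F ⧸ Subgroup.center (GL (Fin n) F)) := by
  classical
  obtain ⟨e⟩ := PSL2Aut.ringAut_equiv hF hf
  have hcenter : Subgroup.center (GL (Fin n) F) ≤
      (conjAut : GL (Fin n) F →* MulAut (PSLn n F)).ker := by
    rw [conjAut_ker hn]
  let conjP : GL (Fin n) F ⧸ Subgroup.center (GL (Fin n) F) →* MulAut (PSLn n F) :=
    QuotientGroup.lift _ conjAut hcenter
  have hconjP : ∀ g, conjP (QuotientGroup.mk g) = conjAut g := fun g => rfl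
  let Θ : (GL (Fin n) F ⧸ Subgroup.center (GL (Fin n) F)) × (F ≃+* F) → PG n F :=
    fun x => ⟨conjP x.1 * fieldAut x.2, by
      obtain ⟨g, hg⟩ := QuotientGroup.mk_surjective x.1
      exact ⟨g, x.2, by rw [← hg, hconjP]⟩⟩
  have hΘ : Function.Bijective Θ := by
    constructor
    · rintro ⟨x, σ⟩ ⟨y, τ⟩ hxy
      obtain ⟨g, rfl⟩ := QuotientGroup.mk_surjective x
      obtain ⟨h, rfl⟩ := QuotientGroup.mk_surjective y
      have h1 : (conjAut g : MulAut (PSLn n F)) * fieldAut σ = conjAut h * fieldAut τ :=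
        congrArg Subtype.val hxy
      obtain ⟨h2, h3⟩ := conj_field_inj hn g h σ τ h1
      rw [Prod.mk.injEq]
      exact ⟨QuotientGroup.eq.2 h3, h2⟩
    · rintro ⟨α, g, σ, rfl⟩
      exact ⟨(QuotientGroup.mk g, σ), rfl⟩
  have hcf : Nat.card (F ≃+* F) = f := by
    rw [Nat.card_congr e.toEquiv]
    show Nat.card (ZMod f) = f
    exact Nat.card_zmod f
  rw [← Nat.card_congr (Equiv.ofBijective Θ hΘ), Nat.card_prod, hcf, mul_comm]

theorem index_PG [Fintype F] {p f : ℕ} [Fact p.Prime] (hF : Fintype.card F = p ^ f) (hf : 1 ≤ f)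
    (hn : 3 ≤ n) : (PG n F).index = 2 := by
  rw [Subgroup.index_eq_two_iff]
  refine ⟨itAut, fun b => ?_⟩
  by_cases hb : b ∈ PG n F
  · refine Or.inr ⟨hb, fun h => ?_⟩
    exact it_notMem_PG (F := F) hn ((Subgroup.mul_mem_cancel_left _ hb).1 h)
  · refine Or.inl ⟨?_, hb⟩
    obtain ⟨g, σ, h | h⟩ := aut_decomp_n p f hF hf hn b
    · exact absurd ⟨g, σ, h⟩ hb
    · rw [h, mul_assoc, itAut_sq, mul_one]
      exact ⟨g, σ, rfl⟩

theorem PG_two_eq_top [Fintype F] {p f : ℕ} [Fact p.Prime] (hF : Fintype.card F = p ^ f)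
    (hf : 1 ≤ f) : PG 2 F = ⊤ := by
  rw [eq_top_iff]
  intro α _
  obtain ⟨A, τ, h⟩ := PSL2Aut.aut_decomp hF hf α
  refine ⟨A, τ, ?_⟩
  rw [h]
  congr 1

/-- **`|Aut(PSL_n(q))|`** -/
theorem card_aut_psln [Fintype F] {p f : ℕ} [Fact p.Prime] (hF : Fintype.card F = p ^ f)
    (hf : 1 ≤ f) (hn : 2 ≤ n) :
    Nat.card (MulAut (PSLn n F)) =
      (if n = 2 then 1 else 2) * f *
        Nat.card (GL (Fin n) F ⧸ Subgroup.center (GL (Fin n) F)) := by
  rcases Nat.lt_or_ge n 3 with h3 | h3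
  · obtain rfl : n = 2 := by omega
    rw [if_pos rfl, one_mul, ← card_PG hF hf hn, PG_two_eq_top hF hf, Subgroup.card_top]
  · rw [if_neg (by omega), mul_assoc, ← card_PG hF hf hn, ← index_PG hF hf h3,
      Subgroup.index_mul_card]

end Cfsg.Agent.Lib.helper13.PN
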