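import Mathlib
import Cfsg.Prelude.Def_LieTypeDatum
import Cfsg.Agent.Lib.helper13.PSLnAut

set_option autoImplicit false

/-!
The automorphisms `conjAut`, `fieldAut`, `itAut` of `PSL_n(F)` satisfy the predicates of the
statements; the decomposition of automorphisms for all `n ≥ 2`.
-/

namespace Cfsg.Agent.Lib.helper13.PN

open Matrix

variable {F : Type*} [Field F] {n : ℕ}

theorem isInnerDiag_conjAut (g : GL (Fin n) F) : Cfsg.IsInnerDiagonalAutPSL (conjAut g) := by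
  refine ⟨g, fun s s' h => ?_⟩
  rw [conjAut_mk]
  congr 1
  apply Subtype.ext
  rw [h, conjSL_coe]

theorem isStdField_fieldAut (σ : F ≃+* F) :
    Cfsg.IsStdFieldAutPSL (n := n) σ (fieldAut σ) := by
  intro s s' h
  rw [fieldAut_mk]
  congr 1
  apply Subtype.ext
  rw [h, fieldSL_coe]

theorem isInvTr_itAut : Cfsg.IsInverseTransposeAutPSL (itAut : MulAut (PSLn n F)) := by
  intro s s' h
  rw [itAut_mk]
  congr 1
  apply Subtype.ext
  rw [h]
  rfl

theorem isInduced_mul (g : GL (Fin n) F) (σ : F ≃+* F) :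
    Cfsg.IsInducedBySemilinearPSL g σ (conjAut g * fieldAut σ) := by
  intro s s' h
  rw [MulAut.mul_apply, fieldAut_mk, conjAut_mk]
  congr 1
  apply Subtype.ext
  rw [h, conjSL_coe, fieldSL_coe]

theorem isInnerDiag_conjAut2 (g : GL (Fin 2) F) :
    Cfsg.IsInnerDiagonalAutPSL (PSL2Aut.conjAut g) := by
  refine ⟨g, fun s s' h => ?_⟩
  rw [PSL2Aut.conjAut_mk]
  congr 1
  apply Subtype.ext
  rw [h, PSL2Aut.conjSL_coe]

theorem isStdField_fieldAut2 (σ : F ≃+* F) :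
    Cfsg.IsStdFieldAutPSL (n := 2) σ (PSL2Aut.fieldAut σ) := by
  intro s s' h
  rw [PSL2Aut.fieldAut_mk]
  congr 1
  apply Subtype.ext
  rw [h, PSL2Aut.fieldSL_coe]
  rfl

theorem isInduced_mul2 (g : GL (Fin 2) F) (σ : F ≃+* F) :
    Cfsg.IsInducedBySemilinearPSL g σ (PSL2Aut.conjAut g * PSL2Aut.fieldAut σ) := by
  intro s s' h
  rw [MulAut.mul_apply, PSL2Aut.fieldAut_mk, PSL2Aut.conjAut_mk]
  congr 1
  apply Subtype.ext
  rw [h, PSL2Aut.conjSL_coe, PSL2Aut.fieldSL_coe]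
  rfl

end Cfsg.Agent.Lib.helper13.PN
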