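import Mathlib
import Cfsg.Prelude.Def_LieTypeDatum
import Cfsg.Agent.Lib.helper13.PSLnOut
import Cfsg.Agent.Lib.helper13.PSLnPred
import Cfsg.Agent.Lib.helper13.Hilbert90

set_option autoImplicit false

/-!
Field and graph-field automorphisms of `PSL_n(F)`: normal forms and coset conjugacy.
-/

namespace Cfsg.Agent.Lib.helper13.PN

open Matrix

variable {F : Type*} [Field F] {n : ℕ}

theorem isInnerDiag_iff (δ : MulAut (PSLn n F)) :
    Cfsg.IsInnerDiagonalAutPSL δ ↔ ∃ g : GL (Fin n) F, δ = conjAut g := by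
  constructor
  · rintro ⟨g, hg⟩
    refine ⟨g, ?_⟩
    apply MulEquiv.ext
    intro x
    induction x using QuotientGroup.induction_on with
    | H M =>
      rw [conjAut_mk]
      exact hg M (conjSL g M) (conjSL_coe g M)
  · rintro ⟨g, rfl⟩
    exact isInnerDiag_conjAut g

theorem isStdField_iff (σ : F ≃+* F) (φ : MulAut (PSLn n F)) :
    Cfsg.IsStdFieldAutPSL σ φ ↔ φ = fieldAut σ := by
  constructor
  · intro h
    apply MulEquiv.ext
    intro x
    induction x using QuotientGroup.induction_on with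
    | H M =>
      rw [fieldAut_mk]
      exact h M (fieldSL σ M) (fieldSL_coe σ M)
  · rintro rfl
    exact isStdField_fieldAut σ

theorem isInvTr_iff (γ : MulAut (PSLn n F)) :
    Cfsg.IsInverseTransposeAutPSL γ ↔ γ = itAut := by
  constructor
  · intro h
    apply MulEquiv.ext
    intro x
    induction x using QuotientGroup.induction_on with
    | H M =>
      rw [itAut_mk]
      exact h M (itSL M) rfl
  · rintro rfl
    exact isInvTr_itAut

theorem inndiag_eq :
    Cfsg.inndiagPSL n F = (conjAut : GL (Fin n) F →* MulAut (PSLn n F)).range := by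
  unfold Cfsg.inndiagPSL Cfsg.autSubgroupOf
  have : {β : MulAut (PSLn n F) | Cfsg.IsInnerDiagonalAutPSL β} =
      ((conjAut : GL (Fin n) F →* MulAut (PSLn n F)).range : Set (MulAut (PSLn n F))) := by
    ext β
    show Cfsg.IsInnerDiagonalAutPSL β ↔ _
    rw [isInnerDiag_iff]
    constructor
    · rintro ⟨g, rfl⟩; exact ⟨g, rfl⟩
    · rintro ⟨g, rfl⟩; exact ⟨g, rfl⟩
  rw [this, Subgroup.closure_eq]

theorem mem_inndiag (δ : MulAut (PSLn n F)) :
    δ ∈ Cfsg.inndiagPSL n F ↔ ∃ g : GL (Fin n) F, δ = conjAut g := by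
  rw [inndiag_eq]
  constructor
  · rintro ⟨g, rfl⟩; exact ⟨g, rfl⟩
  · rintro ⟨g, rfl⟩; exact ⟨g, rfl⟩

theorem aut_decomp_all [Fintype F] {p f : ℕ} [Fact p.Prime] (hF : Fintype.card F = p ^ f)
    (hf : 1 ≤ f) (hn : 2 ≤ n) (α : MulAut (PSLn n F)) :
    ∃ (g : GL (Fin n) F) (τ : F ≃+* F) (ε : ZMod 2), α = conjAut g * fieldAut τ * itP ε := by
  rcases Nat.lt_or_ge n 3 with h3 | h3
  · obtain rfl : n = 2 := by omega
    have hα : α ∈ PG 2 F := by rw [PG_two_eq_top hF hf]; trivial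
    obtain ⟨g, τ, h⟩ := hα
    exact ⟨g, τ, 0, by rw [itP_zero, mul_one, h]⟩
  · obtain ⟨g, τ, h | h⟩ := aut_decomp_n p f hF hf h3 α
    · exact ⟨g, τ, 0, by rw [itP_zero, mul_one, h]⟩
    · exact ⟨g, τ, 1, by rw [itP_one, h]⟩

theorem itP_inv (ε : ZMod 2) : ((itP ε : MulAut (PSLn n F)))⁻¹ = itP ε := by
  apply inv_eq_of_mul_eq_one_right
  rw [← itP_add]
  rcases zmod2_cases ε with rfl | rfl
  · rw [add_zero, itP_zero]
  · rw [show (1 + 1 : ZMod 2) = 0 from by decide, itP_zero]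

/-- the image of `GL_n` is normal in the automorphism group -/
theorem conj_range_normal [Fintype F] {p f : ℕ} [Fact p.Prime] (hF : Fintype.card F = p ^ f)
    (hf : 1 ≤ f) (hn : 2 ≤ n) (α : MulAut (PSLn n F)) (g : GL (Fin n) F) :
    ∃ g' : GL (Fin n) F, α * conjAut g * α⁻¹ = conjAut g' := by
  obtain ⟨a, τ, ε, rfl⟩ := aut_decomp_all hF hf hn α
  obtain ⟨g₁, h1⟩ := itP_conj (F := F) ε g
  refine ⟨a * Matrix.GeneralLinearGroup.map (τ : F →+* F) g₁ * a⁻¹, ?_⟩
  have e1 : itP ε * conjAut g * (itP ε)⁻¹ = (conjAut g₁ : MulAut (PSLn n F)) := by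
    rw [h1, mul_inv_cancel_right]
  have e2 : fieldAut τ * conjAut g₁ * (fieldAut τ)⁻¹ =
      (conjAut (Matrix.GeneralLinearGroup.map (τ : F →+* F) g₁) : MulAut (PSLn n F)) := by
    rw [field_conj, mul_inv_cancel_right]
  calc conjAut a * fieldAut τ * itP ε * conjAut g * (conjAut a * fieldAut τ * itP ε)⁻¹
      = conjAut a * (fieldAut τ * (itP ε * conjAut g * (itP ε)⁻¹) * (fieldAut τ)⁻¹) *
          (conjAut a)⁻¹ := by
        simp only [_root_.mul_inv_rev, mul_assoc]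
    _ = conjAut (a * Matrix.GeneralLinearGroup.map (τ : F →+* F) g₁ * a⁻¹) := by
        rw [e1, e2, map_mul, map_mul, map_inv]

theorem ringAut_comm [Fintype F] {p f : ℕ} [Fact p.Prime] (hF : Fintype.card F = p ^ f)
    (hf : 1 ≤ f) (σ τ : F ≃+* F) : σ * τ = τ * σ := by
  obtain ⟨e⟩ := PSL2Aut.ringAut_equiv hF hf
  apply e.injective
  rw [map_mul, map_mul, mul_comm]

/-- normal form of an automorphism conjugate to `x₀` commuting with field and graph parts -/
theorem class_nf [Fintype F] {p f : ℕ} [Fact p.Prime] (hF : Fintype.card F = p ^ f)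
    (hf : 1 ≤ f) (hn : 2 ≤ n) (x x₀ α : MulAut (PSLn n F)) (h : α * x * α⁻¹ = x₀)
    (hcomm : ∀ (τ : F ≃+* F) (ε : ZMod 2),
      (fieldAut τ * itP ε) * x₀ = x₀ * (fieldAut τ * itP ε)) :
    ∃ d : GL (Fin n) F, x = conjAut d * x₀ * (conjAut d)⁻¹ := by
  obtain ⟨a, τ, ε, rfl⟩ := aut_decomp_all hF hf hn α
  obtain ⟨γ, hγ⟩ : ∃ γ : MulAut (PSLn n F), γ = fieldAut τ * itP ε := ⟨_, rfl⟩
  have hc : γ * x₀ = x₀ * γ := by rw [hγ]; exact hcomm τ ε
  obtain ⟨d, hd⟩ := conj_range_normal hF hf hn γ⁻¹ a⁻¹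
  rw [inv_inv, map_inv] at hd
  refine ⟨d, ?_⟩
  have hx : x = (conjAut a * γ)⁻¹ * x₀ * (conjAut a * γ) := by
    rw [← h, hγ]
    simp only [mul_assoc]
    group
  have hc' : γ * x₀ * γ⁻¹ = x₀ := by rw [hc, mul_inv_cancel_right]
  rw [hx, ← hd]
  calc (conjAut a * γ)⁻¹ * x₀ * (conjAut a * γ)
      = γ⁻¹ * (conjAut a)⁻¹ * x₀ * conjAut a * γ := by
        simp only [_root_.mul_inv_rev, mul_assoc]
    _ = γ⁻¹ * (conjAut a)⁻¹ * (γ * x₀ * γ⁻¹) * conjAut a * γ := by rw [hc']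
    _ = γ⁻¹ * (conjAut a)⁻¹ * γ * x₀ * (γ⁻¹ * (conjAut a)⁻¹ * γ)⁻¹ := by
        simp only [_root_.mul_inv_rev, mul_assoc, inv_inv]

theorem field_class_nf [Fintype F] {p f : ℕ} [Fact p.Prime] (hF : Fintype.card F = p ^ f)
    (hf : 1 ≤ f) (hn : 2 ≤ n) (x : MulAut (PSLn n F)) (hx : Cfsg.IsFieldAutClassPSL x) :
    ∃ (d : GL (Fin n) F) (σ : F ≃+* F), σ ≠ 1 ∧ x = conjAut d * fieldAut σ * (conjAut d)⁻¹ := by
  obtain ⟨α, σ, hσ, hstd⟩ := hx
  rw [isStdField_iff] at hstd
  obtain ⟨d, hd⟩ := class_nf hF hf hn x (fieldAut σ) α hstd (by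
    intro τ ε
    rw [mul_assoc, itP_field, ← mul_assoc, ← map_mul, ringAut_comm hF hf τ σ, map_mul, mul_assoc])
  exact ⟨d, σ, hσ, hd⟩

theorem graphfield_class_nf [Fintype F] {p f : ℕ} [Fact p.Prime] (hF : Fintype.card F = p ^ f)
    (hf : 1 ≤ f) (x : MulAut (PSLn n F)) (hx : Cfsg.IsGraphFieldAutClassPSL x) :
    3 ≤ n ∧ ∃ (d : GL (Fin n) F) (σ : F ≃+* F), σ ≠ 1 ∧
      x = conjAut d * (fieldAut σ * itAut) * (conjAut d)⁻¹ := by
  obtain ⟨hn, α, φ, γ, σ, hσ, hφ, hγ, h⟩ := hx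
  rw [isStdField_iff] at hφ
  rw [isInvTr_iff] at hγ
  subst hφ hγ
  refine ⟨hn, ?_⟩
  obtain ⟨d, hd⟩ := class_nf hF hf (by omega) x (fieldAut σ * itAut) α h (by
    intro τ ε
    have e1 : (itP ε : MulAut (PSLn n F)) * itAut = itAut * itP ε := by
      rw [← itP_one, ← itP_add, ← itP_add, add_comm]
    calc fieldAut τ * itP ε * (fieldAut σ * itAut)
        = fieldAut τ * (itP ε * fieldAut σ) * itAut := by simp only [mul_assoc]
      _ = fieldAut τ * fieldAut σ * (itP ε * itAut) := by rw [itP_field]; simp only [mul_assoc]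
      _ = fieldAut σ * (fieldAut τ * itAut) * itP ε := by
          rw [e1, ← map_mul, ringAut_comm hF hf τ σ, map_mul]; simp only [mul_assoc]
      _ = fieldAut σ * itAut * (fieldAut τ * itP ε) := by
          rw [← it_field]; simp only [mul_assoc])
  exact ⟨d, σ, hσ, hd⟩

/-! ### powers of `conjAut g * fieldAut σ` -/

theorem conj_field_pow (σ : F ≃+* F) (g : GL (Fin n) F) (k : ℕ) :
    ((conjAut g : MulAut (PSLn n F)) * fieldAut σ) ^ k =
      conjAut (H90.Nm σ g k) * fieldAut (σ ^ k) := by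
  induction k with
  | zero => rw [pow_zero, pow_zero, H90.Nm_zero, map_one, map_one, mul_one]
  | succ k ih =>
    rw [pow_succ', ih, H90.Nm_succ, pow_succ' σ k, map_mul, map_mul]
    calc conjAut g * fieldAut σ * (conjAut (H90.Nm σ g k) * fieldAut (σ ^ k))
        = conjAut g * (fieldAut σ * conjAut (H90.Nm σ g k)) * fieldAut (σ ^ k) := by
          simp only [mul_assoc]
      _ = _ := by rw [field_conj]; simp only [mul_assoc]

theorem fieldAut_injective (hn : 2 ≤ n) :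
    Function.Injective (fieldAut : (F ≃+* F) →* MulAut (PSLn n F)) := by
  rw [injective_iff_map_eq_one]
  intro σ h
  have h1 : conjAut (1 : GL (Fin n) F) * fieldAut σ = (1 : MulAut (PSLn n F)) := by
    rw [map_one, one_mul, h]
  exact (conj_field_eq_one hn 1 σ h1).1

/-- scalar twisted norm -/
def nm (σ : F ≃+* F) (μ : Fˣ) : ℕ → Fˣ
  | 0 => 1
  | k + 1 => μ * Units.map ((σ : F →+* F) : F →* F) (nm σ μ k)

theorem nm_val (σ : F ≃+* F) (μ : Fˣ) (k : ℕ) :
    ((nm σ μ k : Fˣ) : F) = ∏ i ∈ Finset.range k, (σ ^ i) (μ : F) := by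
  induction k with
  | zero => simp [nm]
  | succ k ih =>
    show (μ : F) * σ ((nm σ μ k : Fˣ) : F) = _
    rw [ih, map_prod, Finset.prod_range_succ']
    have e1 : ∀ i, σ ((σ ^ i) (μ : F)) = (σ ^ (i + 1)) (μ : F) := by
      intro i
      rw [pow_succ' σ i]
      rfl
    simp only [e1]
    have e3 : (σ ^ 0) (μ : F) = (μ : F) := by rw [pow_zero]; rfl
    rw [e3, mul_comm]

theorem Nm_scalar_mul (σ : F ≃+* F) (μ : Fˣ) (g : GL (Fin n) F) (k : ℕ) :
    H90.Nm σ (Matrix.GeneralLinearGroup.scalar (Fin n) μ * g) k =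
      Matrix.GeneralLinearGroup.scalar (Fin n) (nm σ μ k) * H90.Nm σ g k := by
  induction k with
  | zero => rw [H90.Nm_zero, H90.Nm_zero]; show _ = Matrix.GeneralLinearGroup.scalar (Fin n) 1 * 1; rw [map_one, one_mul]
  | succ k ih =>
    rw [H90.Nm_succ, ih, H90.Nm_succ, map_mul, Matrix.GeneralLinearGroup.map_scalar]
    show _ = Matrix.GeneralLinearGroup.scalar (Fin n)
      (μ * Units.map ((σ : F →+* F) : F →* F) (nm σ μ k)) * _
    rw [map_mul]
    have hc := Matrix.GeneralLinearGroup.scalar_commute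
      (Units.map ((σ : F →+* F) : F →* F) (nm σ μ k)) g
    calc Matrix.GeneralLinearGroup.scalar (Fin n) μ * g *
          (Matrix.GeneralLinearGroup.scalar (Fin n)
            (Units.map ((σ : F →+* F) : F →* F) (nm σ μ k)) *
            Matrix.GeneralLinearGroup.map (σ : F →+* F) (H90.Nm σ g k))
        = Matrix.GeneralLinearGroup.scalar (Fin n) μ *
          (g * Matrix.GeneralLinearGroup.scalar (Fin n)
            (Units.map ((σ : F →+* F) : F →* F) (nm σ μ k))) *
            Matrix.GeneralLinearGroup.map (σ : F →+* F) (H90.Nm σ g k) := by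
          simp only [mul_assoc]
      _ = _ := by rw [← hc]; simp only [mul_assoc]

theorem Nm_succ_right (σ : F ≃+* F) (g : GL (Fin n) F) (k : ℕ) :
    H90.Nm σ g (k + 1) =
      H90.Nm σ g k * Matrix.GeneralLinearGroup.map ((σ ^ k : F ≃+* F) : F →+* F) g := by
  induction k with
  | zero =>
    rw [H90.Nm_succ, H90.Nm_zero, map_one, mul_one, one_mul]
    apply Units.ext
    ext i j
    rfl
  | succ k ih =>
    rw [H90.Nm_succ, ih, map_mul, ← mul_assoc, ← H90.Nm_succ]
    congr 1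
    apply Units.ext
    ext i j
    show σ ((σ ^ k) (g i j)) = (σ ^ (k + 1)) (g i j)
    rw [pow_succ' σ k]
    rfl

theorem conjAut_scalar_mul (μ : Fˣ) (g : GL (Fin n) F) :
    (conjAut (Matrix.GeneralLinearGroup.scalar (Fin n) μ * g) : MulAut (PSLn n F)) = conjAut g := by
  rw [map_mul]
  have : (conjAut (Matrix.GeneralLinearGroup.scalar (Fin n) μ) : MulAut (PSLn n F)) = 1 := by
    apply conjAut_scalar _ (μ : F)
    rw [Matrix.GeneralLinearGroup.coe_scalar, Matrix.scalar_apply, Matrix.smul_one_eq_diagonal]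
  rw [this, one_mul]

theorem scalar_inj (hn : 1 ≤ n) (a b : Fˣ)
    (h : Matrix.GeneralLinearGroup.scalar (Fin n) a = Matrix.GeneralLinearGroup.scalar (Fin n) b) :
    a = b := by
  have h1 := congrArg (fun u : GL (Fin n) F => (u : Matrix (Fin n) (Fin n) F) ⟨0, hn⟩ ⟨0, hn⟩) h
  simp only [Matrix.GeneralLinearGroup.coe_scalar, Matrix.scalar_apply,
    Matrix.diagonal_apply_eq] at h1
  exact Units.ext h1

/-- **field coset conjugacy** -/
theorem field_coset_conj [Fintype F] (hn : 2 ≤ n) (σ : F ≃+* F) (r : ℕ) (hr : 0 < r)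
    (hσ : orderOf σ = r) (g : GL (Fin n) F)
    (hy : ((conjAut g : MulAut (PSLn n F)) * fieldAut σ) ^ r = 1) :
    ∃ h : GL (Fin n) F, (conjAut g : MulAut (PSLn n F)) * fieldAut σ =
      conjAut h * fieldAut σ * (conjAut h)⁻¹ := by
  have hσr : σ ^ r = 1 := by rw [← hσ, pow_orderOf_eq_one]
  rw [conj_field_pow, hσr, map_one, mul_one, conjAut_eq_one_iff hn,
    Matrix.GeneralLinearGroup.center_eq_range_scalar] at hy
  obtain ⟨lam, hlam⟩ := hy
  -- `lam` is fixed by `σ`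
  have hfix : σ (lam : F) = lam := by
    have h1 := Nm_succ_right σ g r
    rw [H90.Nm_succ, hσr] at h1
    have h2 : Matrix.GeneralLinearGroup.map ((1 : F ≃+* F) : F →+* F) g = g := by
      apply Units.ext
      ext i j
      rfl
    rw [h2, ← hlam, Matrix.GeneralLinearGroup.map_scalar,
      Matrix.GeneralLinearGroup.scalar_commute lam g] at h1
    have h3 := mul_left_cancel h1
    have h4 := scalar_inj (by omega) _ _ h3
    exact congrArg (fun u : Fˣ => (u : F)) h4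
  obtain ⟨c, hc0, hc⟩ := H90.norm_surj σ r hr hσ ((lam : F)⁻¹) (by rw [map_inv₀, hfix])
    (inv_ne_zero lam.ne_zero)
  obtain ⟨μ, hμ⟩ : ∃ μ : Fˣ, (μ : F) = c := ⟨Units.mk0 c hc0, rfl⟩
  have hnm : nm σ μ r = lam⁻¹ := by
    apply Units.ext
    rw [nm_val, hμ, hc, Units.val_inv_eq_inv_val]
  have hN1 : H90.Nm σ (Matrix.GeneralLinearGroup.scalar (Fin n) μ * g) r = 1 := by
    rw [Nm_scalar_mul, hnm, ← hlam, ← map_mul, inv_mul_cancel, map_one]
  obtain ⟨h, hh⟩ := H90.hilbert90 σ r hr hσ _ hN1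
  refine ⟨h, ?_⟩
  have e1 : (fieldAut σ : MulAut (PSLn n F)) * (conjAut h)⁻¹ =
      (conjAut (Matrix.GeneralLinearGroup.map (σ : F →+* F) h))⁻¹ * fieldAut σ := by
    rw [← map_inv, field_conj, map_inv, map_inv]
  rw [mul_assoc, e1, ← mul_assoc, ← map_inv, ← map_mul, ← hh, conjAut_scalar_mul]

/-! ### graph-field automorphisms -/

theorem gf_conj (σ : F ≃+* F) (h : GL (Fin n) F) :
    (fieldAut σ * itAut : MulAut (PSLn n F)) * conjAut h =
      conjAut (Matrix.GeneralLinearGroup.map (σ : F →+* F) (itGL h)) * (fieldAut σ * itAut) := by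
  rw [mul_assoc, it_conj, ← mul_assoc, field_conj, mul_assoc]

theorem gf_sq (σ : F ≃+* F) :
    (fieldAut σ * itAut : MulAut (PSLn n F)) * (fieldAut σ * itAut) = fieldAut (σ * σ) := by
  calc (fieldAut σ * itAut : MulAut (PSLn n F)) * (fieldAut σ * itAut)
      = fieldAut σ * (itAut * fieldAut σ) * itAut := by simp only [mul_assoc]
    _ = fieldAut σ * fieldAut σ * (itAut * itAut) := by rw [it_field]; simp only [mul_assoc]
    _ = fieldAut (σ * σ) := by rw [itAut_sq, ← map_mul, mul_one]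

theorem ct_coe (σ : F ≃+* F) (h : GL (Fin n) F) :
    ((Matrix.GeneralLinearGroup.map (σ : F →+* F) (itGL h⁻¹) : GL (Fin n) F) :
      Matrix (Fin n) (Fin n) F) = ((h : Matrix (Fin n) (Fin n) F).map σ).transpose := by
  ext i j
  show σ (((itGL h⁻¹ : GL (Fin n) F) : Matrix (Fin n) (Fin n) F) i j) = _
  rw [itGL_coe, inv_inv]
  rfl

theorem gl_exists_ne_zero (hn : 1 ≤ n) (g : GL (Fin n) F) :
    ∃ i j, (g : Matrix (Fin n) (Fin n) F) i j ≠ 0 := by
  by_contra hcon
  push Not at hcon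
  have h0 : (g : Matrix (Fin n) (Fin n) F) = 0 := by
    ext i j
    exact hcon i j
  have h1 : (g : Matrix (Fin n) (Fin n) F) * ((g⁻¹ : GL (Fin n) F) : Matrix (Fin n) (Fin n) F) = 1 :=
    Units.mul_inv g
  rw [h0, zero_mul] at h1
  have h2 := congrFun (congrFun h1 ⟨0, hn⟩) ⟨0, hn⟩
  simp at h2

/-- **graph-field coset conjugacy** -/
theorem graphfield_coset_conj [Fintype F] (hn : 3 ≤ n) (σ : F ≃+* F) (hσ1 : σ ≠ 1)
    (hσ2 : σ * σ = 1) (g : GL (Fin n) F)
    (hy : ((conjAut g : MulAut (PSLn n F)) * (fieldAut σ * itAut)) ^ 2 = 1) :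
    ∃ h : GL (Fin n) F, (conjAut g : MulAut (PSLn n F)) * (fieldAut σ * itAut) =
      conjAut h * (fieldAut σ * itAut) * (conjAut h)⁻¹ := by
  have hσσ : ∀ a : F, σ (σ a) = a := fun a => congrArg (fun τ : F ≃+* F => τ a) hσ2
  have hord : orderOf σ = 2 := orderOf_eq_prime (by rw [pow_two, hσ2]) hσ1
  -- the square
  have hsq : ((conjAut g : MulAut (PSLn n F)) * (fieldAut σ * itAut)) ^ 2 =
      conjAut (g * Matrix.GeneralLinearGroup.map (σ : F →+* F) (itGL g)) := by
    rw [pow_two]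
    calc (conjAut g : MulAut (PSLn n F)) * (fieldAut σ * itAut) * (conjAut g * (fieldAut σ * itAut))
        = conjAut g * ((fieldAut σ * itAut) * conjAut g) * (fieldAut σ * itAut) := by
          simp only [mul_assoc]
      _ = conjAut g * conjAut (Matrix.GeneralLinearGroup.map (σ : F →+* F) (itGL g)) *
            ((fieldAut σ * itAut) * (fieldAut σ * itAut)) := by
          rw [gf_conj]; simp only [mul_assoc]
      _ = _ := by rw [gf_sq, hσ2, map_one, mul_one, map_mul]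
  rw [hsq, conjAut_eq_one_iff (by omega), Matrix.GeneralLinearGroup.center_eq_range_scalar] at hy
  obtain ⟨lam, hlam⟩ := hy
  -- matrix form: `(Gᵀ).map σ = lam⁻¹ • G`
  obtain ⟨A, hA⟩ : ∃ A : Matrix (Fin n) (Fin n) F, A = (g : Matrix (Fin n) (Fin n) F) := ⟨_, rfl⟩
  have H1 : Matrix.GeneralLinearGroup.map (σ : F →+* F) (itGL g⁻¹) =
      Matrix.GeneralLinearGroup.scalar (Fin n) lam⁻¹ * g := by
    rw [map_inv, map_inv, map_inv, hlam, _root_.mul_inv_rev, inv_mul_cancel_right]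
  have H1m : (A.map σ).transpose = (lam : F)⁻¹ • A := by
    have := congrArg (fun u : GL (Fin n) F => (u : Matrix (Fin n) (Fin n) F)) H1
    simp only [ct_coe, Units.val_mul, Matrix.GeneralLinearGroup.coe_scalar] at this
    rw [hA, this, Matrix.scalar_apply, ← Matrix.smul_eq_diagonal_mul]
    simp
  have H1e : ∀ i j, σ (A j i) = (lam : F)⁻¹ * A i j := by
    intro i j
    have := congrFun (congrFun H1m i) j
    simpa using this
  have hlam1 : (lam : F)⁻¹ * σ ((lam : F)⁻¹) = 1 := by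
    obtain ⟨j, i, hji⟩ := gl_exists_ne_zero (by omega) g
    rw [← hA] at hji
    have e1 := H1e i j
    have e2 := H1e j i
    have e3 : A j i = σ ((lam : F)⁻¹) * ((lam : F)⁻¹ * A j i) := by
      have := congrArg σ e1
      rw [hσσ, map_mul, e2] at this
      exact this
    have e4 : ((lam : F)⁻¹ * σ ((lam : F)⁻¹) - 1) * A j i = 0 := by linear_combination -e3
    have := (mul_eq_zero.1 e4).resolve_right hji
    linear_combination this
  obtain ⟨d, hd0, hd⟩ := H90.hilbert90_scalar σ 2 (by norm_num) hord ((lam : F)⁻¹) (by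
    rw [Finset.prod_range_succ, Finset.prod_range_one, pow_zero, pow_one]
    exact hlam1)
  obtain ⟨du, hdu⟩ : ∃ du : Fˣ, (du : F) = d := ⟨Units.mk0 d hd0, rfl⟩
  have hg' : ((Matrix.GeneralLinearGroup.scalar (Fin n) du * g : GL (Fin n) F) :
      Matrix (Fin n) (Fin n) F) = d • A := by
    rw [Units.val_mul, Matrix.GeneralLinearGroup.coe_scalar, Matrix.scalar_apply,
      ← Matrix.smul_eq_diagonal_mul, hdu, hA]
  have hH : (((Matrix.GeneralLinearGroup.scalar (Fin n) du * g : GL (Fin n) F) :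
      Matrix (Fin n) (Fin n) F).map σ).transpose =
      ((Matrix.GeneralLinearGroup.scalar (Fin n) du * g : GL (Fin n) F) :
        Matrix (Fin n) (Fin n) F) := by
    rw [hg']
    ext i j
    show σ (d * A j i) = d * A i j
    rw [map_mul, H1e, ← mul_assoc, mul_comm (σ d), hd]
  obtain ⟨h, hh⟩ := H90.hermitian_decomp σ hσ1 hσσ _ hH
  refine ⟨h, ?_⟩
  have e1 : (fieldAut σ * itAut : MulAut (PSLn n F)) * (conjAut h)⁻¹ =
      conjAut (Matrix.GeneralLinearGroup.map (σ : F →+* F) (itGL h⁻¹)) * (fieldAut σ * itAut) := by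
    rw [← map_inv, gf_conj]
  have e2 : h * Matrix.GeneralLinearGroup.map (σ : F →+* F) (itGL h⁻¹) =
      Matrix.GeneralLinearGroup.scalar (Fin n) du * g := by
    apply Units.ext
    rw [Units.val_mul, ct_coe, ← hh]
  have e3 : (conjAut h : MulAut (PSLn n F)) * (fieldAut σ * itAut) * (conjAut h)⁻¹ =
      conjAut g * (fieldAut σ * itAut) := by
    rw [mul_assoc, e1, ← mul_assoc, ← map_mul, e2, conjAut_scalar_mul]
  exact e3.symm

/-! ### assembling the coset conjugacy statement -/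

theorem orderOf_conj' {G : Type*} [Group G] (a b : G) : orderOf (a * b * a⁻¹) = orderOf b := by
  rw [← MulAut.conj_apply]
  exact MulEquiv.orderOf_eq (MulAut.conj a) b

theorem coset_conj_transfer (x₀ : MulAut (PSLn n F)) (r : ℕ)
    (hcore : ∀ g : GL (Fin n) F, orderOf ((conjAut g : MulAut (PSLn n F)) * x₀) = r →
      ∃ h : GL (Fin n) F, (conjAut g : MulAut (PSLn n F)) * x₀ = conjAut h * x₀ * (conjAut h)⁻¹)
    (d e : GL (Fin n) F)
    (hord : orderOf ((conjAut e : MulAut (PSLn n F)) * (conjAut d * x₀ * (conjAut d)⁻¹)) = r) :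
    ∃ k : GL (Fin n) F, (conjAut e : MulAut (PSLn n F)) * (conjAut d * x₀ * (conjAut d)⁻¹) =
      conjAut k * (conjAut d * x₀ * (conjAut d)⁻¹) * (conjAut k)⁻¹ := by
  have e1 : (conjAut e : MulAut (PSLn n F)) * (conjAut d * x₀ * (conjAut d)⁻¹) =
      conjAut d * (conjAut (d⁻¹ * e * d) * x₀) * (conjAut d)⁻¹ := by
    rw [map_mul, map_mul, map_inv]
    group
  rw [e1, orderOf_conj'] at hord
  obtain ⟨h, hh⟩ := hcore _ hord
  refine ⟨d * h * d⁻¹, ?_⟩
  rw [e1, hh, map_mul, map_mul, map_inv]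
  group

theorem gf_order (hn : 3 ≤ n) (σ : F ≃+* F) (r : ℕ) (hr : r.Prime)
    (h : orderOf (fieldAut σ * itAut : MulAut (PSLn n F)) = r) : r = 2 ∧ σ * σ = 1 := by
  have hpow : (fieldAut σ * itAut : MulAut (PSLn n F)) ^ r = 1 := by
    rw [← h]; exact pow_orderOf_eq_one _
  have hr2 : r = 2 := by
    rcases hr.eq_two_or_odd' with h2 | hodd
    · exact h2
    · exfalso
      obtain ⟨k, rfl⟩ := hodd
      rw [pow_succ, pow_mul, pow_two, gf_sq, ← map_pow, ← mul_assoc, ← map_mul] at hpow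
      apply it_notMem_PG (F := F) hn
      refine ⟨1, ((σ * σ) ^ k * σ)⁻¹, ?_⟩
      rw [map_one, one_mul, map_inv]
      exact eq_inv_of_mul_eq_one_right hpow
  refine ⟨hr2, ?_⟩
  rw [hr2, pow_two, gf_sq] at hpow
  exact (injective_iff_map_eq_one _).1 (fieldAut_injective (by omega)) _ hpow

/-- **coset conjugacy for field and graph-field automorphisms of prime order** -/
theorem field_type_coset_conj [Fintype F] {p f : ℕ} [Fact p.Prime] (hF : Fintype.card F = p ^ f)
    (hf : 1 ≤ f) (hn : 2 ≤ n) (x δ : MulAut (PSLn n F))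
    (hx : Cfsg.IsFieldAutClassPSL x ∨ Cfsg.IsGraphFieldAutClassPSL x) {r : ℕ} (hr : r.Prime)
    (hxr : orderOf x = r) (hδ : δ ∈ Cfsg.inndiagPSL n F) :
    orderOf (δ * x) = r ↔ Cfsg.IsConjUnder (Cfsg.inndiagPSL n F) x (δ * x) := by
  constructor
  · intro hord
    obtain ⟨e, rfl⟩ := (mem_inndiag δ).1 hδ
    rcases hx with hx | hx
    · obtain ⟨d, σ, hσ, rfl⟩ := field_class_nf hF hf hn x hx
      rw [orderOf_conj'] at hxr
      have hσr : orderOf σ = r := by
        rw [← hxr]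
        exact (orderOf_injective fieldAut (fieldAut_injective hn) σ).symm
      obtain ⟨k, hk⟩ := coset_conj_transfer (fieldAut σ) r
        (fun g hg => field_coset_conj hn σ r hr.pos hσr g (by
          rw [← hg]; exact pow_orderOf_eq_one _)) d e hord
      exact ⟨conjAut k, (mem_inndiag _).2 ⟨k, rfl⟩, hk⟩
    · obtain ⟨hn3, d, σ, hσ, rfl⟩ := graphfield_class_nf hF hf x hx
      rw [orderOf_conj'] at hxr
      obtain ⟨hr2, hσ2⟩ := gf_order hn3 σ r hr hxr
      obtain ⟨k, hk⟩ := coset_conj_transfer (fieldAut σ * itAut) r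
        (fun g hg => graphfield_coset_conj hn3 σ hσ hσ2 g (by
          rw [← hr2, ← hg]; exact pow_orderOf_eq_one _)) d e hord
      exact ⟨conjAut k, (mem_inndiag _).2 ⟨k, rfl⟩, hk⟩
  · rintro ⟨h, -, heq⟩
    rw [heq, orderOf_conj', hxr]

end Cfsg.Agent.Lib.helper13.PN
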