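import Mathlib
import Cfsg.Prelude.Def_LieTypeDatum
import Cfsg.Agent.Lib.helper13.PSLnField

set_option autoImplicit false

/-!
Centralizers of field automorphisms of `PSL_n(F)` and class splitting.
-/

namespace Cfsg.Agent.Lib.helper13.PN

open Matrix

variable {F : Type*} [Field F] {n : ℕ}

/-- the fixed field of an automorphism of order `r` of a field with `p^f` elements is the image
of any field with `p^(f/r)` elements -/
theorem exists_fixed_embedding [Fintype F] {p f : ℕ} [Fact p.Prime] (hF : Fintype.card F = p ^ f)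
    (σ : F ≃+* F) (r : ℕ) (hr : 0 < r) (hσ : orderOf σ = r) (F₀ : Type*) [Field F₀] [Fintype F₀]
    (hF₀ : Fintype.card F₀ = p ^ (f / r)) :
    ∃ ι : F₀ →+* F, ∀ b : F, σ b = b ↔ ∃ a, ι a = b := by
  classical
  have hp := (Fact.out : p.Prime)
  have hfin : Finite (F ≃+* F) :=
    Finite.of_injective (fun e : F ≃+* F => (e : F → F)) DFunLike.coe_injective
  let G := Subgroup.zpowers σ
  have : Fintype G := Fintype.ofFinite G
  let K₁ := FixedPoints.subfield G F
  have hmem : ∀ b : F, b ∈ K₁ ↔ σ b = b := by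
    intro b
    constructor
    · intro hb
      exact hb ⟨σ, Subgroup.mem_zpowers σ⟩
    · intro hb g
      have h1 : Subgroup.zpowers σ ≤ MulAction.stabilizer (F ≃+* F) b := by
        rw [Subgroup.zpowers_le]
        exact hb
      exact h1 g.2
  have hfr : Module.finrank K₁ F = r := by
    rw [FixedPoints.finrank_eq_card G F, ← hσ, ← Nat.card_zpowers, Nat.card_eq_fintype_card]
  have : Fintype K₁ := Fintype.ofFinite K₁
  have hcard : Fintype.card F = Fintype.card K₁ ^ r := by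
    rw [← hfr]
    exact Module.card_eq_pow_finrank
  have hK₁ : Fintype.card K₁ = p ^ (f / r) := by
    have h1 : Fintype.card K₁ ∣ p ^ f := by
      rw [← hF, hcard]
      exact dvd_pow_self _ hr.ne'
    obtain ⟨j, -, hj⟩ := (Nat.dvd_prime_pow hp).1 h1
    rw [hj, hF, ← pow_mul] at hcard
    have h2 : f = j * r := Nat.pow_right_injective hp.two_le hcard
    rw [hj, h2, Nat.mul_div_cancel _ hr]
  let e₀ : F₀ ≃+* K₁ := FiniteField.ringEquivOfCardEq (hF₀.trans hK₁.symm)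
  refine ⟨K₁.subtype.comp (e₀ : F₀ →+* K₁), ?_⟩
  intro b
  rw [← hmem]
  constructor
  · intro hb
    exact ⟨e₀.symm ⟨b, hb⟩, by simp⟩
  · rintro ⟨a, rfl⟩
    exact (e₀ a).2

/-- class splitting through a parametrisation `ρ` of `H` and a quotient map `π` with kernel
parametrising `K` -/
theorem splitClassCount_eq {G Γ Q : Type*} [Group G] [Group Γ] [Group Q] (H K : Subgroup G) (x : G)
    (ρ : Γ →* G) (π : Γ →* Q) (hH : ∀ h, h ∈ H ↔ ∃ γ, ρ γ = h) (hπ : Function.Surjective π)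
    (hK1 : ∀ k ∈ K, ∃ κ, ρ κ = k ∧ π κ = 1) (hK2 : ∀ κ, π κ = 1 → ρ κ ∈ K) :
    Cfsg.splitClassCount H K x =
      Nat.card (Q ⧸ (Subgroup.map π ((Subgroup.centralizer {x}).comap ρ))) := by
  classical
  obtain ⟨C, hC⟩ : ∃ C : Subgroup Q, C = Subgroup.map π ((Subgroup.centralizer {x}).comap ρ) :=
    ⟨_, rfl⟩
  rw [← hC]
  have hS : ∀ s : Γ, s ∈ (Subgroup.centralizer {x}).comap ρ ↔ ρ s * x = x * ρ s := by
    intro s
    rw [Subgroup.mem_comap, Subgroup.mem_centralizer_iff]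
    constructor
    · intro h
      exact (h x rfl).symm
    · intro h y hy
      rw [Set.mem_singleton_iff] at hy
      rw [hy, h]
  have hex : ∀ y : {y : G // Cfsg.IsConjUnder H x y}, ∃ γ : Γ, y.1 = ρ γ * x * (ρ γ)⁻¹ := by
    rintro ⟨y, h, hh, rfl⟩
    obtain ⟨γ, rfl⟩ := (hH h).1 hh
    exact ⟨γ, rfl⟩
  choose gam hgam using hex
  have key : ∀ γ γ' : Γ, ρ γ * x * (ρ γ)⁻¹ = ρ γ' * x * (ρ γ')⁻¹ →
      (QuotientGroup.mk (π γ) : Q ⧸ C) = QuotientGroup.mk (π γ') := by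
    intro γ γ' h
    rw [QuotientGroup.eq, hC]
    refine ⟨γ⁻¹ * γ', ?_, by rw [map_mul, map_inv]⟩
    rw [SetLike.mem_coe, hS, map_mul, map_inv]
    have h1 : (ρ γ)⁻¹ * (ρ γ' * x * (ρ γ')⁻¹) * ρ γ = x := by
      rw [← h]; group
    calc (ρ γ)⁻¹ * ρ γ' * x = ((ρ γ)⁻¹ * (ρ γ' * x * (ρ γ')⁻¹) * ρ γ) * ((ρ γ)⁻¹ * ρ γ') := by group
      _ = x * ((ρ γ)⁻¹ * ρ γ') := by rw [h1]
  let f : {y : G // Cfsg.IsConjUnder H x y} → Q ⧸ C := fun y => QuotientGroup.mk (π (gam y))
  have hf : ∀ y z : {y : G // Cfsg.IsConjUnder H x y}, Cfsg.IsConjUnder K y.1 z.1 → f y = f z := by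
    intro y z ⟨k, hk, hz⟩
    obtain ⟨κ, rfl, hκ⟩ := hK1 k hk
    have h1 : ρ (gam z) * x * (ρ (gam z))⁻¹ = ρ (κ * gam y) * x * (ρ (κ * gam y))⁻¹ := by
      rw [← hgam z, hz, hgam y, map_mul]; group
    have h2 := key _ _ h1
    show (QuotientGroup.mk (π (gam y)) : Q ⧸ C) = QuotientGroup.mk (π (gam z))
    rw [h2, map_mul, hκ, one_mul]
  unfold Cfsg.splitClassCount
  apply Nat.card_eq_of_bijective (Quot.lift f hf)
  constructor
  · intro a b
    induction a using Quot.ind with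
    | mk y =>
    induction b using Quot.ind with
    | mk z =>
    intro hab
    apply Quot.sound
    have h1 : (QuotientGroup.mk (π (gam y)) : Q ⧸ C) = QuotientGroup.mk (π (gam z)) := hab
    rw [QuotientGroup.eq, hC] at h1
    obtain ⟨s, hs, hsπ⟩ := h1
    rw [SetLike.mem_coe, hS] at hs
    obtain ⟨κ, hκ⟩ : ∃ κ : Γ, κ = (gam y)⁻¹ * gam z * s⁻¹ := ⟨_, rfl⟩
    have hκ1 : π κ = 1 := by
      rw [hκ, map_mul, map_mul, map_inv, map_inv, hsπ]; group
    have hκ2 : π (gam y * κ * (gam y)⁻¹) = 1 := by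
      rw [map_mul, map_mul, hκ1, mul_one, map_inv, mul_inv_cancel]
    refine ⟨ρ (gam y * κ * (gam y)⁻¹), hK2 _ hκ2, ?_⟩
    have hz : gam z = gam y * κ * s := by rw [hκ]; group
    have hs' : ρ s * x * (ρ s)⁻¹ = x := by rw [hs, mul_inv_cancel_right]
    rw [hgam z, hgam y, hz, map_mul, map_mul, map_mul, map_mul, map_inv]
    calc ρ (gam y) * ρ κ * ρ s * x * (ρ (gam y) * ρ κ * ρ s)⁻¹
        = ρ (gam y) * ρ κ * (ρ s * x * (ρ s)⁻¹) * (ρ κ)⁻¹ * (ρ (gam y))⁻¹ := by group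
      _ = ρ (gam y) * ρ κ * (ρ (gam y))⁻¹ * (ρ (gam y) * x * (ρ (gam y))⁻¹) *
            (ρ (gam y) * ρ κ * (ρ (gam y))⁻¹)⁻¹ := by rw [hs']; group
  · intro q
    obtain ⟨q', rfl⟩ := QuotientGroup.mk_surjective q
    obtain ⟨γ, rfl⟩ := hπ q'
    have hy : Cfsg.IsConjUnder H x (ρ γ * x * (ρ γ)⁻¹) := ⟨ρ γ, (hH _).2 ⟨γ, rfl⟩, rfl⟩
    refine ⟨Quot.mk _ ⟨_, hy⟩, ?_⟩
    show (QuotientGroup.mk (π (gam ⟨_, hy⟩)) : Q ⧸ C) = QuotientGroup.mk (π γ)
    exact key _ _ (hgam ⟨_, hy⟩).symm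

/-- the determinant class modulo `n`-th powers -/
def detQ (n : ℕ) (F : Type*) [Field F] :
    GL (Fin n) F →* Fˣ ⧸ (powMonoidHom n : Fˣ →* Fˣ).range :=
  (QuotientGroup.mk' _).comp Matrix.GeneralLinearGroup.det

theorem detQ_apply (g : GL (Fin n) F) :
    detQ n F g = QuotientGroup.mk (Matrix.GeneralLinearGroup.det g) := rfl

theorem det_dgn (hn : 1 ≤ n) (c : Fˣ) : Matrix.GeneralLinearGroup.det (dgn n F c) = c := by
  apply Units.ext
  exact dgn_det hn c

theorem det_toGL (M : SLn n F) :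
    Matrix.GeneralLinearGroup.det (Matrix.SpecialLinearGroup.toGL M) = 1 := by
  apply Units.ext
  exact M.2

/-- class splitting of an automorphism of `PSL_n` between `Inndiag` and `Inn` -/
theorem split_psl (hn : 2 ≤ n) (x : MulAut (PSLn n F)) :
    Cfsg.splitClassCount (Cfsg.inndiagPSL n F) (Cfsg.Inn (PSLn n F)) x =
      Nat.card ((Fˣ ⧸ (powMonoidHom n : Fˣ →* Fˣ).range) ⧸
        Subgroup.map (detQ n F) ((Subgroup.centralizer {x}).comap conjAut)) := by
  apply splitClassCount_eq (Cfsg.inndiagPSL n F) (Cfsg.Inn (PSLn n F)) x conjAut (detQ n F)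
  · intro h
    rw [mem_inndiag]
    constructor
    · rintro ⟨g, rfl⟩; exact ⟨g, rfl⟩
    · rintro ⟨g, rfl⟩; exact ⟨g, rfl⟩
  · intro q
    obtain ⟨u, rfl⟩ := QuotientGroup.mk_surjective q
    exact ⟨dgn n F u, by rw [detQ_apply, det_dgn (by omega)]⟩
  · rintro _ ⟨y, rfl⟩
    obtain ⟨M, rfl⟩ := QuotientGroup.mk_surjective y
    refine ⟨Matrix.SpecialLinearGroup.toGL M, (inn_eq M).symm, ?_⟩
    rw [detQ_apply, det_toGL]
    rfl
  · intro κ hκ
    rw [detQ_apply, QuotientGroup.eq_one_iff] at hκ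
    obtain ⟨a, ha⟩ := hκ
    obtain ⟨c, M, rfl⟩ := exists_dgn_mul (by omega) κ
    rw [map_mul, det_dgn (by omega), det_toGL, mul_one] at ha
    obtain ⟨y, hy⟩ := (conjAut_dgn_inn_iff hn c).2 ⟨a, ha⟩
    rw [map_mul, ← hy, ← inn_eq, ← map_mul]
    exact ⟨_, rfl⟩

/-- an element of `GL_n` whose conjugation commutes with a field automorphism is, up to a
scalar, fixed by it -/
theorem comm_field_fixed (hn : 2 ≤ n) (σ : F ≃+* F) (r : ℕ) (hr : 0 < r) (hσ : orderOf σ = r)
    (g : GL (Fin n) F)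
    (h : (conjAut g : MulAut (PSLn n F)) * fieldAut σ = fieldAut σ * conjAut g) :
    ∃ d : Fˣ, Matrix.GeneralLinearGroup.map (σ : F →+* F)
      (Matrix.GeneralLinearGroup.scalar (Fin n) d * g) =
        Matrix.GeneralLinearGroup.scalar (Fin n) d * g := by
  rw [field_conj] at h
  have h1 : (conjAut (g⁻¹ * Matrix.GeneralLinearGroup.map (σ : F →+* F) g) : MulAut (PSLn n F)) = 1 := by
    rw [map_mul, map_inv, ← mul_right_cancel h, inv_mul_cancel]
  rw [conjAut_eq_one_iff hn, Matrix.GeneralLinearGroup.center_eq_range_scalar] at h1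
  obtain ⟨lam, hlam⟩ := h1
  have hσg : Matrix.GeneralLinearGroup.map (σ : F →+* F) g =
      Matrix.GeneralLinearGroup.scalar (Fin n) lam * g := by
    rw [Matrix.GeneralLinearGroup.scalar_commute, hlam, mul_inv_cancel_left]
  have hk : ∀ k : ℕ, Matrix.GeneralLinearGroup.map ((σ ^ k : F ≃+* F) : F →+* F) g =
      Matrix.GeneralLinearGroup.scalar (Fin n) (nm σ lam k) * g := by
    intro k
    induction k with
    | zero =>
      show _ = Matrix.GeneralLinearGroup.scalar (Fin n) 1 * g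
      rw [map_one, one_mul]
      apply Units.ext
      ext i j
      rfl
    | succ k ih =>
      have e1 : Matrix.GeneralLinearGroup.map ((σ ^ (k + 1) : F ≃+* F) : F →+* F) g =
          Matrix.GeneralLinearGroup.map (σ : F →+* F)
            (Matrix.GeneralLinearGroup.map ((σ ^ k : F ≃+* F) : F →+* F) g) := by
        apply Units.ext
        ext i j
        show (σ ^ (k + 1)) (g i j) = σ ((σ ^ k) (g i j))
        rw [pow_succ' σ k]
        rfl
      rw [e1, ih, map_mul, Matrix.GeneralLinearGroup.map_scalar, hσg, ← mul_assoc, ← map_mul]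
      congr 2
      show _ = lam * Units.map ((σ : F →+* F) : F →* F) (nm σ lam k)
      rw [mul_comm]
  have hr1 : nm σ lam r = 1 := by
    have h2 := hk r
    rw [← hσ, pow_orderOf_eq_one] at h2
    have h3 : Matrix.GeneralLinearGroup.map ((1 : F ≃+* F) : F →+* F) g = g := by
      apply Units.ext
      ext i j
      rfl
    rw [h3, hσ] at h2
    have h4 : Matrix.GeneralLinearGroup.scalar (Fin n) (nm σ lam r) =
        Matrix.GeneralLinearGroup.scalar (Fin n) 1 := by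
      rw [map_one]
      exact (mul_eq_right.1 h2.symm)
    exact scalar_inj (by omega) _ _ h4
  have hprod : ∏ i ∈ Finset.range r, (σ ^ i) (lam : F) = 1 := by
    rw [← nm_val, hr1]; rfl
  obtain ⟨d, hd0, hd⟩ := H90.hilbert90_scalar σ r hr hσ (lam : F) hprod
  refine ⟨Units.mk0 d hd0, ?_⟩
  rw [map_mul, Matrix.GeneralLinearGroup.map_scalar, hσg, ← mul_assoc, ← map_mul]
  congr 2
  apply Units.ext
  show σ d * (lam : F) = d
  rw [mul_comm]
  exact hd

/-- a matrix fixed by `σ` comes from the fixed field -/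
theorem exists_map_of_fixed {F₀ : Type*} [Field F₀] (ι : F₀ →+* F) (σ : F ≃+* F)
    (hι : ∀ b : F, σ b = b ↔ ∃ a, ι a = b) (g : GL (Fin n) F)
    (hg : Matrix.GeneralLinearGroup.map (σ : F →+* F) g = g) :
    ∃ g₀ : GL (Fin n) F₀, Matrix.GeneralLinearGroup.map ι g₀ = g := by
  have h1 : ∀ i j, ∃ a, ι a = (g : Matrix (Fin n) (Fin n) F) i j := by
    intro i j
    rw [← hι]
    exact congrFun (congrFun (congrArg (fun u : GL (Fin n) F => (u : Matrix (Fin n) (Fin n) F)) hg) i) j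
  have hg' : Matrix.GeneralLinearGroup.map (σ : F →+* F) g⁻¹ = g⁻¹ := by rw [map_inv, hg]
  have h2 : ∀ i j, ∃ a, ι a = ((g⁻¹ : GL (Fin n) F) : Matrix (Fin n) (Fin n) F) i j := by
    intro i j
    rw [← hι]
    exact congrFun (congrFun (congrArg (fun u : GL (Fin n) F => (u : Matrix (Fin n) (Fin n) F)) hg') i) j
  choose A hA using h1
  choose B hB using h2
  have hAm : (Matrix.of A).map ι = (g : Matrix (Fin n) (Fin n) F) := by
    ext i j; exact hA i j
  have hBm : (Matrix.of B).map ι = ((g⁻¹ : GL (Fin n) F) : Matrix (Fin n) (Fin n) F) := by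
    ext i j; exact hB i j
  have hinj : Function.Injective (fun M : Matrix (Fin n) (Fin n) F₀ => M.map ι) :=
    Matrix.map_injective ι.injective
  have hAB : Matrix.of A * Matrix.of B = 1 := by
    apply hinj
    show (Matrix.of A * Matrix.of B).map ι = (1 : Matrix (Fin n) (Fin n) F₀).map ι
    rw [Matrix.map_mul, hAm, hBm, Units.mul_inv, Matrix.map_one _ (map_zero ι) (map_one ι)]
  have hBA : Matrix.of B * Matrix.of A = 1 := by
    apply hinj
    show (Matrix.of B * Matrix.of A).map ι = (1 : Matrix (Fin n) (Fin n) F₀).map ι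
    rw [Matrix.map_mul, hAm, hBm, Units.inv_mul, Matrix.map_one _ (map_zero ι) (map_one ι)]
  refine ⟨⟨Matrix.of A, Matrix.of B, hAB, hBA⟩, ?_⟩
  apply Units.ext
  exact hAm

theorem mem_cent_iff (d g : GL (Fin n) F) (x₀ : MulAut (PSLn n F)) :
    conjAut g ∈ Subgroup.centralizer {conjAut d * x₀ * (conjAut d)⁻¹} ↔
      (conjAut (d⁻¹ * g * d) : MulAut (PSLn n F)) * x₀ = x₀ * conjAut (d⁻¹ * g * d) := by
  rw [Subgroup.mem_centralizer_iff, map_mul, map_mul, map_inv]
  constructor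
  · intro h
    have h1 := h _ rfl
    calc (conjAut d)⁻¹ * conjAut g * conjAut d * x₀
        = (conjAut d)⁻¹ * (conjAut g * (conjAut d * x₀ * (conjAut d)⁻¹)) * conjAut d := by group
      _ = (conjAut d)⁻¹ * ((conjAut d * x₀ * (conjAut d)⁻¹) * conjAut g) * conjAut d := by rw [h1]
      _ = x₀ * ((conjAut d)⁻¹ * conjAut g * conjAut d) := by group
  · intro h y hy
    rw [Set.mem_singleton_iff] at hy
    rw [hy]
    calc conjAut d * x₀ * (conjAut d)⁻¹ * conjAut g
        = conjAut d * (x₀ * ((conjAut d)⁻¹ * conjAut g * conjAut d)) * (conjAut d)⁻¹ := by group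
      _ = conjAut d * (((conjAut d)⁻¹ * conjAut g * conjAut d) * x₀) * (conjAut d)⁻¹ := by rw [h]
      _ = conjAut g * (conjAut d * x₀ * (conjAut d)⁻¹) := by group

theorem map_mem_center_iff {F₀ : Type*} [Field F₀] (hn : 1 ≤ n) (ι : F₀ →+* F)
    (g₀ : GL (Fin n) F₀) :
    Matrix.GeneralLinearGroup.map ι g₀ ∈ Subgroup.center (GL (Fin n) F) ↔
      g₀ ∈ Subgroup.center (GL (Fin n) F₀) := by
  rw [Matrix.GeneralLinearGroup.mem_center_iff_val_mem_range_scalar,
    Matrix.GeneralLinearGroup.mem_center_iff_val_mem_range_scalar]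
  have hval : ∀ i j, ((Matrix.GeneralLinearGroup.map ι g₀ : GL (Fin n) F) :
      Matrix (Fin n) (Fin n) F) i j = ι ((g₀ : Matrix (Fin n) (Fin n) F₀) i j) := fun i j => rfl
  constructor
  · rintro ⟨μ, hμ⟩
    refine ⟨(g₀ : Matrix (Fin n) (Fin n) F₀) ⟨0, hn⟩ ⟨0, hn⟩, ?_⟩
    ext i j
    have h1 := congrFun (congrFun hμ i) j
    have h0 := congrFun (congrFun hμ ⟨0, hn⟩) ⟨0, hn⟩
    rw [hval, Matrix.scalar_apply, Matrix.diagonal_apply] at h1 h0
    rw [Matrix.scalar_apply, Matrix.diagonal_apply]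
    rw [if_pos rfl] at h0
    apply ι.injective
    by_cases hij : i = j
    · rw [if_pos hij] at h1 ⊢
      rw [← h1, h0]
    · rw [if_neg hij] at h1 ⊢
      rw [← h1, map_zero]
  · rintro ⟨a, ha⟩
    refine ⟨ι a, ?_⟩
    ext i j
    have h1 := congrFun (congrFun ha i) j
    rw [hval, ← h1, Matrix.scalar_apply, Matrix.diagonal_apply, Matrix.scalar_apply,
      Matrix.diagonal_apply]
    by_cases hij : i = j
    · rw [if_pos hij, if_pos hij]
    · rw [if_neg hij, if_neg hij, map_zero]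

theorem map_map_fixed {F₀ : Type*} [Field F₀] (ι : F₀ →+* F) (σ : F ≃+* F)
    (hι : ∀ b : F, σ b = b ↔ ∃ a, ι a = b) (g₀ : GL (Fin n) F₀) :
    Matrix.GeneralLinearGroup.map (σ : F →+* F) (Matrix.GeneralLinearGroup.map ι g₀) =
      Matrix.GeneralLinearGroup.map ι g₀ := by
  apply Units.ext
  ext i j
  exact (hι _).2 ⟨_, rfl⟩

theorem comm_of_fixed (σ : F ≃+* F) (g : GL (Fin n) F)
    (hg : Matrix.GeneralLinearGroup.map (σ : F →+* F) g = g) :
    (conjAut g : MulAut (PSLn n F)) * fieldAut σ = fieldAut σ * conjAut g := by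
  rw [field_conj, hg]

/-- **the centralizer of a field automorphism in `Inndiag`** -/
theorem field_centralizer_iso (hn : 2 ≤ n) (d : GL (Fin n) F) (σ : F ≃+* F) (r : ℕ) (hr : 0 < r)
    (hσ : orderOf σ = r) {F₀ : Type*} [Field F₀] (ι : F₀ →+* F)
    (hι : ∀ b : F, σ b = b ↔ ∃ a, ι a = b) :
    Nonempty (↥(Cfsg.inndiagPSL n F ⊓
        Subgroup.centralizer {conjAut d * fieldAut σ * (conjAut d)⁻¹}) ≃*
      Matrix.ProjGenLinGroup (Fin n) F₀) := by
  obtain ⟨C, hC⟩ : ∃ C : Subgroup (MulAut (PSLn n F)), C = Cfsg.inndiagPSL n F ⊓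
      Subgroup.centralizer {conjAut d * fieldAut σ * (conjAut d)⁻¹} := ⟨_, rfl⟩
  rw [← hC]
  let Ψ₀ : GL (Fin n) F₀ →* MulAut (PSLn n F) :=
    conjAut.comp ((MulAut.conj d).toMonoidHom.comp (Matrix.GeneralLinearGroup.map ι))
  have hΨ₀ : ∀ g₀, Ψ₀ g₀ = conjAut (d * Matrix.GeneralLinearGroup.map ι g₀ * d⁻¹) := fun g₀ => rfl
  have hmemC : ∀ g₀, Ψ₀ g₀ ∈ C := by
    intro g₀
    rw [hC, hΨ₀]
    refine ⟨(mem_inndiag _).2 ⟨_, rfl⟩, (mem_cent_iff _ _ _).2 ?_⟩
    have e1 : d⁻¹ * (d * Matrix.GeneralLinearGroup.map ι g₀ * d⁻¹) * d =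
        Matrix.GeneralLinearGroup.map ι g₀ := by group
    rw [e1]
    exact comm_of_fixed σ _ (map_map_fixed ι σ hι g₀)
  let Ψ : GL (Fin n) F₀ →* ↥C := Ψ₀.codRestrict C hmemC
  have hΨ : ∀ g₀, (Ψ g₀ : MulAut (PSLn n F)) = Ψ₀ g₀ := fun g₀ => rfl
  have hsurj : Function.Surjective Ψ := by
    rintro ⟨β, hβ⟩
    rw [hC] at hβ
    obtain ⟨hβ1, hβ2⟩ := hβ
    obtain ⟨b, rfl⟩ := (mem_inndiag β).1 hβ1
    have hc := (mem_cent_iff d b (fieldAut σ)).1 hβ2
    obtain ⟨du, hdu⟩ := comm_field_fixed hn σ r hr hσ (d⁻¹ * b * d) hc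
    obtain ⟨g₀, hg₀⟩ := exists_map_of_fixed ι σ hι _ hdu
    refine ⟨g₀, Subtype.ext ?_⟩
    rw [hΨ, hΨ₀, hg₀]
    have e1 : d * (Matrix.GeneralLinearGroup.scalar (Fin n) du * (d⁻¹ * b * d)) * d⁻¹ =
        Matrix.GeneralLinearGroup.scalar (Fin n) du * b := by
      rw [← mul_assoc, ← Matrix.GeneralLinearGroup.scalar_commute du d]
      group
    rw [e1, conjAut_scalar_mul]
  have hker : Ψ.ker = Subgroup.center (GL (Fin n) F₀) := by
    ext g₀
    rw [MonoidHom.mem_ker, ← map_mem_center_iff (by omega) ι g₀]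
    have h1 : Ψ g₀ = 1 ↔ Ψ₀ g₀ = 1 := by
      constructor
      · intro h; rw [← hΨ, h]; rfl
      · intro h; exact Subtype.ext (by rw [hΨ, h]; rfl)
    rw [h1, hΨ₀, conjAut_eq_one_iff hn]
    constructor
    · intro h
      have := (Subgroup.center (GL (Fin n) F)).inv_mem h
      have h2 := Subgroup.Normal.conj_mem (inferInstance : (Subgroup.center (GL (Fin n) F)).Normal) _ h d⁻¹
      have e : d⁻¹ * (d * Matrix.GeneralLinearGroup.map ι g₀ * d⁻¹) * d⁻¹⁻¹ =
          Matrix.GeneralLinearGroup.map ι g₀ := by group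
      rw [e] at h2
      exact h2
    · intro h
      exact Subgroup.Normal.conj_mem (inferInstance : (Subgroup.center (GL (Fin n) F)).Normal) _ h d
  exact ⟨(QuotientGroup.quotientKerEquivOfSurjective Ψ hsurj).symm.trans
    (QuotientGroup.quotientMulEquivOfEq hker)⟩

/-! ### subgroups of cyclic groups -/

theorem cyclic_sub_eq_range {Z : Type*} [CommGroup Z] [IsCyclic Z] [Finite Z] (U : Subgroup Z)
    (k m : ℕ) (hU : Nat.card U = k) (hkm : Nat.card Z = k * m) :
    U = (powMonoidHom m : Z →* Z).range := by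
  have hN : 0 < Nat.card Z := Nat.card_pos
  have hm : 0 < m := by
    rcases Nat.eq_zero_or_pos m with h | h
    · rw [h, mul_zero] at hkm; omega
    · exact h
  have h1 : U ≤ (powMonoidHom k : Z →* Z).ker := by
    intro u hu
    rw [MonoidHom.mem_ker, powMonoidHom_apply, ← hU]
    have := pow_card_eq_one' (G := U) (x := ⟨u, hu⟩)
    exact congrArg Subtype.val this
  have h2 : Nat.card (powMonoidHom k : Z →* Z).ker = k := by
    rw [IsCyclic.card_powMonoidHom_ker, hkm]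
    exact Nat.gcd_mul_right_left m k
  have h3 : U = (powMonoidHom k : Z →* Z).ker :=
    Subgroup.eq_of_le_of_card_ge h1 (by rw [h2, hU])
  have h4 : (powMonoidHom m : Z →* Z).range ≤ (powMonoidHom k : Z →* Z).ker := by
    rintro _ ⟨z, rfl⟩
    rw [MonoidHom.mem_ker, powMonoidHom_apply, powMonoidHom_apply, ← pow_mul, mul_comm, ← hkm]
    exact pow_card_eq_one'
  have h5 : Nat.card (powMonoidHom m : Z →* Z).range = k := by
    rw [IsCyclic.card_powMonoidHom_range, hkm, Nat.gcd_mul_left_left, Nat.mul_div_cancel _ hm]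
  rw [h3]
  exact (Subgroup.eq_of_le_of_card_ge h4 (by rw [h2, h5])).symm

theorem range_pow_sup {Z : Type*} [CommGroup Z] (m n : ℕ) :
    (powMonoidHom m : Z →* Z).range ⊔ (powMonoidHom n : Z →* Z).range =
      (powMonoidHom (Nat.gcd m n) : Z →* Z).range := by
  apply le_antisymm
  · rw [sup_le_iff]
    constructor
    · rintro _ ⟨z, rfl⟩
      obtain ⟨c, hc⟩ := Nat.gcd_dvd_left m n
      refine ⟨z ^ c, ?_⟩
      rw [powMonoidHom_apply, powMonoidHom_apply, ← pow_mul, mul_comm, ← hc]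
    · rintro _ ⟨z, rfl⟩
      obtain ⟨c, hc⟩ := Nat.gcd_dvd_right m n
      refine ⟨z ^ c, ?_⟩
      rw [powMonoidHom_apply, powMonoidHom_apply, ← pow_mul, mul_comm, ← hc]
  · rintro _ ⟨z, rfl⟩
    rw [powMonoidHom_apply]
    have hb := Nat.gcd_eq_gcd_ab m n
    have e : z ^ (Nat.gcd m n) = (z ^ (Nat.gcdA m n)) ^ m * (z ^ (Nat.gcdB m n)) ^ n := by
      rw [← zpow_natCast z (Nat.gcd m n), hb, _root_.zpow_add, mul_comm (m : ℤ), mul_comm (n : ℤ),
        _root_.zpow_mul, _root_.zpow_mul, zpow_natCast, zpow_natCast]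
    rw [e]
    exact Subgroup.mul_mem _ (Subgroup.mem_sup_left ⟨z ^ (Nat.gcdA m n), rfl⟩)
      (Subgroup.mem_sup_right ⟨z ^ (Nat.gcdB m n), rfl⟩)

/-- index of `U ⊔ (n-th powers)` in a finite cyclic group -/
theorem cyclic_index_sup {Z : Type*} [CommGroup Z] [IsCyclic Z] [Finite Z] (U : Subgroup Z)
    (n : ℕ) : (U ⊔ (powMonoidHom n : Z →* Z).range).index =
      Nat.gcd n (Nat.card Z / Nat.card U) := by
  obtain ⟨m, hm⟩ := Subgroup.card_subgroup_dvd_card U
  have hU0 : 0 < Nat.card U := Nat.card_pos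
  have hm' : Nat.card Z / Nat.card U = m := by rw [hm, Nat.mul_div_cancel_left _ hU0]
  rw [hm', cyclic_sub_eq_range U (Nat.card U) m rfl hm, range_pow_sup,
    IsCyclic.index_powMonoidHom_range, Nat.gcd_comm n m]
  apply Nat.gcd_eq_right
  exact dvd_trans (Nat.gcd_dvd_left m n) ⟨Nat.card U, by rw [hm, mul_comm]⟩

/-- **class splitting of a field automorphism** -/
theorem field_split_count [Fintype F] {p f : ℕ} [Fact p.Prime] (hF : Fintype.card F = p ^ f)
    (hn : 2 ≤ n) (d : GL (Fin n) F) (σ : F ≃+* F) (r : ℕ) (hr : 0 < r) (hσ : orderOf σ = r)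
    {F₀ : Type*} [Field F₀] [Fintype F₀] (hF₀ : Fintype.card F₀ = p ^ (f / r)) (ι : F₀ →+* F)
    (hι : ∀ b : F, σ b = b ↔ ∃ a, ι a = b) :
    Cfsg.splitClassCount (Cfsg.inndiagPSL n F) (Cfsg.Inn (PSLn n F))
      (conjAut d * fieldAut σ * (conjAut d)⁻¹) =
      Nat.gcd n ((p ^ f - 1) / (p ^ (f / r) - 1)) := by
  classical
  rw [split_psl hn]
  obtain ⟨U₁, hU₁⟩ : ∃ U₁ : Subgroup Fˣ, U₁ = (Units.map (ι : F₀ →* F)).range := ⟨_, rfl⟩
  have hmap : Subgroup.map (detQ n F)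
      ((Subgroup.centralizer {conjAut d * fieldAut σ * (conjAut d)⁻¹}).comap conjAut) =
      U₁.map (QuotientGroup.mk' (powMonoidHom n : Fˣ →* Fˣ).range) := by
    ext q
    constructor
    · rintro ⟨γ, hγ, rfl⟩
      have hc := (mem_cent_iff d γ (fieldAut σ)).1 hγ
      obtain ⟨du, hdu⟩ := comm_field_fixed hn σ r hr hσ (d⁻¹ * γ * d) hc
      obtain ⟨g₀, hg₀⟩ := exists_map_of_fixed ι σ hι _ hdu
      refine ⟨Units.map (ι : F₀ →* F) (Matrix.GeneralLinearGroup.det g₀), ?_, ?_⟩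
      · rw [hU₁]; exact ⟨_, rfl⟩
      · have hdet : Units.map (ι : F₀ →* F) (Matrix.GeneralLinearGroup.det g₀) =
            du ^ n * Matrix.GeneralLinearGroup.det γ := by
          have h1 := congrArg Matrix.GeneralLinearGroup.det hg₀
          rw [Matrix.GeneralLinearGroup.map_det, map_mul, map_mul, map_mul, map_inv,
            Matrix.GeneralLinearGroup.det_scalar, Fintype.card_fin] at h1
          rw [show Units.map (ι : F₀ →* F) (Matrix.GeneralLinearGroup.det g₀) =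
            Units.map ι (Matrix.GeneralLinearGroup.det g₀) from rfl, h1]
          congr 1
          rw [mul_comm (Matrix.GeneralLinearGroup.det d)⁻¹, inv_mul_cancel_right]
        rw [detQ_apply]
        show (QuotientGroup.mk _ : Fˣ ⧸ (powMonoidHom n : Fˣ →* Fˣ).range) = QuotientGroup.mk _
        rw [QuotientGroup.eq, hdet]
        refine ⟨du⁻¹, ?_⟩
        rw [powMonoidHom_apply, inv_pow, _root_.mul_inv_rev, mul_comm]
        group
    · rintro ⟨u, hu, rfl⟩
      rw [hU₁] at hu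
      obtain ⟨u₀, rfl⟩ := hu
      refine ⟨d * Matrix.GeneralLinearGroup.map ι (dgn n F₀ u₀) * d⁻¹, ?_, ?_⟩
      · show conjAut _ ∈ Subgroup.centralizer _
        rw [mem_cent_iff]
        have e1 : d⁻¹ * (d * Matrix.GeneralLinearGroup.map ι (dgn n F₀ u₀) * d⁻¹) * d =
            Matrix.GeneralLinearGroup.map ι (dgn n F₀ u₀) := by group
        rw [e1]
        exact comm_of_fixed σ _ (map_map_fixed ι σ hι _)
      · rw [detQ_apply, map_mul, map_mul, map_inv, mul_comm, inv_mul_cancel_left,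
          Matrix.GeneralLinearGroup.map_det, det_dgn (by omega)]
        rfl
  rw [hmap]
  have hidx : Nat.card ((Fˣ ⧸ (powMonoidHom n : Fˣ →* Fˣ).range) ⧸
      U₁.map (QuotientGroup.mk' (powMonoidHom n : Fˣ →* Fˣ).range)) =
      (U₁ ⊔ (powMonoidHom n : Fˣ →* Fˣ).range).index := by
    show (U₁.map (QuotientGroup.mk' (powMonoidHom n : Fˣ →* Fˣ).range)).index = _
    rw [Subgroup.index_map, QuotientGroup.ker_mk',
      MonoidHom.range_eq_top.2 (QuotientGroup.mk'_surjective _), Subgroup.index_top, mul_one]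
  rw [hidx, cyclic_index_sup]
  have hcU : Nat.card U₁ = p ^ (f / r) - 1 := by
    rw [hU₁, ← Nat.card_congr (MonoidHom.ofInjective
      (Units.map_injective (f := (ι : F₀ →* F)) ι.injective)).toEquiv, Nat.card_units,
      Nat.card_eq_fintype_card, hF₀]
  rw [hcU, Nat.card_units, Nat.card_eq_fintype_card, hF]

/-- **field automorphisms of prime order: centralizer and class splitting** -/
theorem field_aut_centralizer [Fintype F] {p f : ℕ} [Fact p.Prime] (hF : Fintype.card F = p ^ f)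
    (hf : 1 ≤ f) (hn : 2 ≤ n) (x : MulAut (PSLn n F)) (hx : Cfsg.IsFieldAutClassPSL x) {r : ℕ}
    (hr : r.Prime) (hxr : orderOf x = r) (F₀ : Type*) [Field F₀] [Fintype F₀]
    (hF₀ : Fintype.card F₀ = p ^ (f / r)) :
    r ∣ f ∧
      Nonempty (↥(Cfsg.inndiagPSL n F ⊓ Subgroup.centralizer {x}) ≃*
        Matrix.ProjGenLinGroup (Fin n) F₀) ∧
      Cfsg.splitClassCount (Cfsg.inndiagPSL n F) (Cfsg.Inn (PSLn n F)) x =
        Nat.gcd n ((p ^ f - 1) / (p ^ (f / r) - 1)) := by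
  obtain ⟨d, σ, hσ1, rfl⟩ := field_class_nf hF hf hn x hx
  rw [orderOf_conj'] at hxr
  have hσr : orderOf σ = r := by
    rw [← hxr]
    exact (orderOf_injective fieldAut (fieldAut_injective hn) σ).symm
  obtain ⟨ι, hι⟩ := exists_fixed_embedding hF σ r hr.pos hσr F₀ hF₀
  refine ⟨?_, field_centralizer_iso hn d σ r hr.pos hσr ι hι,
    field_split_count hF hn d σ r hr.pos hσr hF₀ ι hι⟩
  obtain ⟨e⟩ := PSL2Aut.ringAut_equiv hF hf
  have hcard : Nat.card (F ≃+* F) = f := by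
    rw [Nat.card_congr e.toEquiv]
    show Nat.card (ZMod f) = f
    exact Nat.card_zmod f
  rw [← hσr, ← hcard]
  exact orderOf_dvd_natCard σ

end Cfsg.Agent.Lib.helper13.PN
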