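import Mathlib
import Cfsg.Prelude.Def_LieTypeDatum
import Cfsg.Agent.Lib.helper13.PSpSylow

set_option autoImplicit false
set_option linter.unusedSectionVars false
set_option linter.unusedVariables false
set_option linter.style.longLine false

namespace Cfsg.Agent.Lib.helper13.PS

open Matrix
open Cfsg.Agent.S0766 Cfsg.Agent.S0765 Cfsg.Agent.Lib.helper4
open Cfsg.Agent.Lib.helper25

/-- no product of two conjugates of `x` has order exactly four -/
def P4 {G : Type*} [Group G] (x : G) : Prop :=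
  ∀ g h : G, ((g * x * g⁻¹) * (h * x * h⁻¹)) ^ 4 = 1 → ((g * x * g⁻¹) * (h * x * h⁻¹)) ^ 2 = 1

theorem P4_of_map {G : Type*} [Group G] (α : MulAut G) (x : G) (h : P4 (α x)) : P4 x := by
  intro g k hk
  apply α.injective
  have := h (α g) (α k) (by
    rw [← map_inv, ← map_inv, ← map_mul, ← map_mul, ← map_mul, ← map_mul, ← map_mul, ← map_pow,
      hk, map_one])
  rw [map_pow, map_one, map_mul, map_mul, map_mul, map_mul, map_mul, map_inv, map_inv]
  exact this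

theorem P4_map {G : Type*} [Group G] (α : MulAut G) (x : G) : P4 (α x) ↔ P4 x := by
  refine ⟨P4_of_map α x, fun h => P4_of_map α⁻¹ (α x) ?_⟩
  have : α⁻¹ (α x) = x := by
    rw [← MulAut.mul_apply, inv_mul_cancel]
    rfl
  rw [this]
  exact h

variable {F : Type*} [Field F] {m : ℕ}

theorem tvb_pair_P4 (hm : 1 ≤ m) (h2 : (2 : F) = 0) (v w : Vm m F) (a : F)
    (h : (tvb v a * tvb w a) ^ 4 = 1) : (tvb v a * tvb w a) ^ 2 = 1 := by
  have haa : a + a = 0 := by rw [← two_mul, h2, zero_mul]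
  by_cases ha : a = 0
  · subst ha
    rw [tvb_zero, tvb_zero, one_mul, one_pow]
  by_cases hc : Cfsg.sympForm m F v w = 0
  · have hcomm : tvb v a * tvb w a = tvb w a * tvb v a := by
      show (QuotientGroup.mk (tv v a) : Cfsg.PSp m F) * QuotientGroup.mk (tv w a) =
        QuotientGroup.mk (tv w a) * QuotientGroup.mk (tv v a)
      rw [← QuotientGroup.mk_mul, ← QuotientGroup.mk_mul, tv_conj (tv v a) w a, tv_mulVec,
        sf_anti w v, hc, neg_zero, mul_zero, zero_smul, add_zero]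
    rw [pow_two]
    calc tvb v a * tvb w a * (tvb v a * tvb w a)
        = tvb v a * (tvb w a * tvb v a) * tvb w a := by group
      _ = tvb v a * (tvb v a * tvb w a) * tvb w a := by rw [hcomm]
      _ = (tvb v a * tvb v a) * (tvb w a * tvb w a) := by group
      _ = 1 := by rw [← tvb_add, ← tvb_add, haa, tvb_zero, tvb_zero, one_mul]
  · exfalso
    obtain ⟨c, hcdef⟩ : ∃ c, c = Cfsg.sympForm m F v w := ⟨_, rfl⟩
    rw [← hcdef] at hc
    obtain ⟨k, hk⟩ : ∃ k, k = a * c := ⟨_, rfl⟩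
    obtain ⟨N, hNdef⟩ : ∃ N : Spm m F, N = tv v a * tv w a := ⟨_, rfl⟩
    have hN : ∀ x y : F, N.1 *ᵥ (x • v + y • w) =
        ((1 - k ^ 2) * x - k * y) • v + (k * x + y) • w := by
      intro x y
      rw [hNdef]
      show ((tv v a).1 * (tv w a).1) *ᵥ _ = _
      rw [← Matrix.mulVec_mulVec]
      have s1 : (tv w a).1 *ᵥ (x • v + y • w) = x • v + (y + a * x * c) • w := by
        rw [tv_mulVec, sf_add_left, sf_smul_left, sf_smul_left, sf_self, mul_zero, add_zero,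
          ← hcdef]
        module
      have s2 : (tv v a).1 *ᵥ (x • v + (y + a * x * c) • w) =
          ((1 - k ^ 2) * x - k * y) • v + (k * x + y) • w := by
        rw [tv_mulVec, sf_add_left, sf_smul_left, sf_smul_left, sf_self, mul_zero, zero_add,
          sf_anti w v, ← hcdef, hk]
        module
      rw [s1, s2]
    have h4 : ∃ X : F, (N ^ 4 : Spm m F).1 *ᵥ v =
        X • v + (4 * k - 10 * k ^ 3 + 6 * k ^ 5 - k ^ 7) • w := by
      have hpow : N ^ 4 = N * N * N * N := by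
        simp only [pow_succ, pow_zero, one_mul]
      have h0 : v = (1 : F) • v + (0 : F) • w := by rw [one_smul, zero_smul, add_zero]
      refine ⟨((1 - k ^ 2) *
          ((1 - k ^ 2) * ((1 - k ^ 2) * ((1 - k ^ 2) * 1 - k * 0) - k * (k * 1 + 0)) -
            k * (k * ((1 - k ^ 2) * 1 - k * 0) + (k * 1 + 0))) -
        k *
          (k * ((1 - k ^ 2) * ((1 - k ^ 2) * 1 - k * 0) - k * (k * 1 + 0)) +
            (k * ((1 - k ^ 2) * 1 - k * 0) + (k * 1 + 0)))), ?_⟩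
      rw [hpow]
      show (N.1 * N.1 * N.1 * N.1) *ᵥ v = _
      rw [← Matrix.mulVec_mulVec, ← Matrix.mulVec_mulVec, ← Matrix.mulVec_mulVec]
      nth_rewrite 1 [h0]
      rw [hN, hN, hN, hN]
      refine congrArg₂ (· + ·) rfl ?_
      congr 1
      ring
    obtain ⟨X, hX⟩ := h4
    have h' : (QuotientGroup.mk (N ^ 4) : Cfsg.PSp m F) = QuotientGroup.mk (1 : Spm m F) := by
      rw [QuotientGroup.mk_pow, hNdef, QuotientGroup.mk_mul]
      exact h
    have hY : (4 * k - 10 * k ^ 3 + 6 * k ^ 5 - k ^ 7) * c = 0 := by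
      have e1 : Cfsg.sympForm m F ((N ^ 4 : Spm m F).1 *ᵥ v) v = 0 := by
        rcases (mk_eq_iff hm _ _).1 h' with h1 | h1
        · rw [h1]
          show Cfsg.sympForm m F ((1 : Mm m F) *ᵥ v) v = 0
          rw [Matrix.one_mulVec, sf_self]
        · rw [h1]
          show Cfsg.sympForm m F ((-(1 : Mm m F)) *ᵥ v) v = 0
          rw [Matrix.neg_mulVec, Matrix.one_mulVec, ← neg_one_smul F v, sf_smul_left, sf_self,
            mul_zero]
      rw [hX, sf_add_left, sf_smul_left, sf_smul_left, sf_self, mul_zero, zero_add, sf_anti w v,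
        ← hcdef] at e1
      linear_combination -e1
    have hY' : 4 * k - 10 * k ^ 3 + 6 * k ^ 5 - k ^ 7 = 0 := (mul_eq_zero.1 hY).resolve_right hc
    have hk7 : k ^ 7 = 0 := by
      linear_combination (-1 : F) * hY' + (2 * k - 5 * k ^ 3 + 3 * k ^ 5) * h2
    have hk0 : k = 0 := pow_eq_zero_iff (by norm_num) |>.1 hk7
    rw [hk] at hk0
    rcases mul_eq_zero.1 hk0 with h1 | h1
    · exact ha h1
    · exact hc h1

theorem tvb_P4 (hm : 1 ≤ m) (h2 : (2 : F) = 0) (v : Vm m F) (a : F) : P4 (tvb v a) := by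
  intro g h hgh
  obtain ⟨g₀, rfl⟩ := exists_rep g
  obtain ⟨h₀, rfl⟩ := exists_rep h
  rw [conj_tvb, conj_tvb] at hgh ⊢
  exact tvb_pair_P4 hm h2 _ _ a hgh

theorem uu_single_eq_tv' (i : Fin m) (t : F)
    (hs : (Matrix.single i i t)ᵀ = Matrix.single i i t) :
    SpUni.uu (Matrix.single i i t) hs = tv (bv (Sum.inl i)) t := by
  apply sp_ext
  intro x
  rw [SpUni.uu_val, tv_mulVec, sf_e]
  rw [Matrix.fromBlocks_mulVec]
  funext k
  rcases k with l | l
  · show (((1 : Matrix (Fin m) (Fin m) F) *ᵥ (x ∘ Sum.inl) +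
        Matrix.single i i t *ᵥ (x ∘ Sum.inr) : Fin m → F)) l =
      x (Sum.inl l) + ((t * x (Sum.inr i)) • (bv (Sum.inl i) : Vm m F)) (Sum.inl l)
    rw [Matrix.one_mulVec]
    by_cases hi : l = i
    · subst hi
      simp [Matrix.mulVec, dotProduct, Matrix.single_apply, bv_apply]
    · simp [Matrix.mulVec, dotProduct, Matrix.single_apply, bv_apply, hi, Ne.symm hi]
  · show (((0 : Matrix (Fin m) (Fin m) F) *ᵥ (x ∘ Sum.inl) +
        (1 : Matrix (Fin m) (Fin m) F) *ᵥ (x ∘ Sum.inr) : Fin m → F)) l =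
      x (Sum.inr l) + ((t * x (Sum.inr i)) • (bv (Sum.inl i) : Vm m F)) (Sum.inr l)
    rw [Matrix.one_mulVec, Matrix.zero_mulVec]
    simp [bv_apply]

theorem wj_fix_e (i j : Fin m) (hij : i ≠ j) :
    (SpUni.wj j : Spm m F).1 *ᵥ (bv (Sum.inl i) : Vm m F) = bv (Sum.inl i) := by
  funext k
  unfold bv
  rw [Matrix.mulVec_single_one, SpUni.wj_val]
  rcases k with k | k
  · show (1 - Matrix.single j j 1 : Matrix (Fin m) (Fin m) F) k i = _
    simp [Matrix.sub_apply, Matrix.single_apply, Matrix.one_apply, Pi.single_apply, hij.symm]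
  · show (-Matrix.single j j 1 : Matrix (Fin m) (Fin m) F) k i = _
    simp [Matrix.single_apply, Pi.single_apply, hij.symm]

theorem not_P4_short [Finite F] (h2 : (2 : F) = 0) {n : ℕ} (j : Fin (n + 2)) (hj0 : j ≠ 0) (hj1 : j ≠ 1)
    (t t' : F) (ht' : t' ≠ 0)
    (hs : (Matrix.single (0 : Fin (n + 2)) 0 t + (Matrix.single 0 1 t' + Matrix.single 1 0 t'))ᵀ =
      Matrix.single (0 : Fin (n + 2)) 0 t + (Matrix.single 0 1 t' + Matrix.single 1 0 t')) :
    ¬ P4 (QuotientGroup.mk (SpUni.uu _ hs) : Cfsg.PSp (n + 2) F) := by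
  intro hP
  have h01 : (0 : Fin (n + 2)) ≠ 1 := Fin.zero_ne_one
  obtain ⟨A, hA⟩ : ∃ A : Spm (n + 2) F, A = SpUni.lv (1 + Matrix.single j 0 1)
      (1 - Matrix.single 0 j 1) (SpUni.tv_transpose_mul hj0 1) := ⟨_, rfl⟩
  obtain ⟨L, hL⟩ : ∃ L : Spm (n + 2) F, L = SpUni.lv (1 + Matrix.single 0 1 t')
      (1 - Matrix.single 1 0 t') (SpUni.tv_transpose_mul h01 t') := ⟨_, rfl⟩
  have hz : SpUni.uu _ hs = SpUni.uu (Matrix.single (0 : Fin (n + 2)) 0 t) (SpUni.sym_single 0 t) *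
      SpUni.uu (Matrix.single 0 1 t' + Matrix.single 1 0 t') (SpUni.sym_pair 0 1 t') := by
    rw [SpUni.uu_mul]
  have e1 := SpUni.lv_conj_uu (1 + Matrix.single j 0 (1 : F)) (1 - Matrix.single 0 j 1)
    (SpUni.tv_transpose_mul hj0 1) _ hs
  rw [← hA] at e1
  have c1 : SpUni.wj 1 * SpUni.uu (Matrix.single (0 : Fin (n + 2)) 0 t) (SpUni.sym_single 0 t) =
      SpUni.uu (Matrix.single (0 : Fin (n + 2)) 0 t) (SpUni.sym_single 0 t) * SpUni.wj 1 := by
    rw [uu_single_eq_tv', tv_conj, wj_fix_e 0 1 h01]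
  have c2 : SpUni.wj 1 * SpUni.uu (Matrix.single (0 : Fin (n + 2)) 1 t' + Matrix.single 1 0 t')
      (SpUni.sym_pair 0 1 t') = L * SpUni.wj 1 := by
    rw [hL]
    exact SpUni.wj_mul_uu h01 t'
  have e2 : SpUni.wj 1 * SpUni.uu _ hs * (SpUni.wj 1)⁻¹ =
      SpUni.uu (Matrix.single (0 : Fin (n + 2)) 0 t) (SpUni.sym_single 0 t) * L := by
    rw [hz]
    calc SpUni.wj 1 * (SpUni.uu (Matrix.single (0 : Fin (n + 2)) 0 t) (SpUni.sym_single 0 t) *
          SpUni.uu (Matrix.single 0 1 t' + Matrix.single 1 0 t') (SpUni.sym_pair 0 1 t')) *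
          (SpUni.wj 1)⁻¹
        = (SpUni.wj 1 * SpUni.uu (Matrix.single (0 : Fin (n + 2)) 0 t) (SpUni.sym_single 0 t)) *
          SpUni.uu (Matrix.single 0 1 t' + Matrix.single 1 0 t') (SpUni.sym_pair 0 1 t') *
          (SpUni.wj 1)⁻¹ := by group
      _ = SpUni.uu (Matrix.single (0 : Fin (n + 2)) 0 t) (SpUni.sym_single 0 t) *
          (SpUni.wj 1 * SpUni.uu (Matrix.single 0 1 t' + Matrix.single 1 0 t')
            (SpUni.sym_pair 0 1 t')) * (SpUni.wj 1)⁻¹ := by rw [c1]; group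
      _ = _ := by rw [c2]; group
  obtain ⟨S, hSdef⟩ : ∃ S : Matrix (Fin (n + 2)) (Fin (n + 2)) F,
      S = (1 + Matrix.single j 0 1) * (Matrix.single (0 : Fin (n + 2)) 0 t +
        (Matrix.single 0 1 t' + Matrix.single 1 0 t')) * (1 + Matrix.single j 0 1)ᵀ +
        Matrix.single 0 0 t := ⟨_, rfl⟩
  have hS : Sᵀ = S := by
    rw [hSdef, Matrix.transpose_add, Matrix.transpose_mul, Matrix.transpose_mul,
      Matrix.transpose_transpose, hs, Matrix.mul_assoc, SpUni.sym_single]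
  have e3 : A * SpUni.uu _ hs * A⁻¹ * (SpUni.wj 1 * SpUni.uu _ hs * (SpUni.wj 1)⁻¹) =
      SpUni.uu S hS * L := by
    rw [e1, e2, ← mul_assoc, SpUni.uu_mul]
    congr 1
    exact SpUni.uu_congr hSdef.symm _ _
  have hLL : L * L = 1 := by
    rw [hL]
    apply Subtype.ext
    rw [SpUni.val_mul', SpUni.lv_val, Matrix.fromBlocks_multiply]
    have a1 : (1 + Matrix.single (0 : Fin (n + 2)) (1 : Fin (n + 2)) t') *
        (1 + Matrix.single (0 : Fin (n + 2)) (1 : Fin (n + 2)) t') = 1 := by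
      rw [mul_add, add_mul, add_mul, one_mul, mul_one, one_mul,
        Matrix.single_mul_single_of_ne _ _ _ _ h01.symm, add_zero, add_assoc,
        ← Matrix.single_add, ← two_mul, h2, zero_mul, Matrix.single_zero, add_zero]
    have a2 : (1 - Matrix.single (1 : Fin (n + 2)) (0 : Fin (n + 2)) t') *
        (1 - Matrix.single (1 : Fin (n + 2)) (0 : Fin (n + 2)) t') = 1 := by
      rw [mul_sub, sub_mul, sub_mul, one_mul, mul_one, one_mul,
        Matrix.single_mul_single_of_ne _ _ _ _ h01, sub_zero, sub_sub,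
        ← Matrix.single_add, ← two_mul, h2, zero_mul, Matrix.single_zero, sub_zero]
    simp only [a1, a2, mul_zero, zero_mul, add_zero, zero_add]
    exact Matrix.fromBlocks_one
  have hLu := SpUni.lv_mul_uu (1 + Matrix.single (0 : Fin (n + 2)) (1 : Fin (n + 2)) t')
    (1 - Matrix.single (1 : Fin (n + 2)) (0 : Fin (n + 2)) t') (SpUni.tv_transpose_mul h01 t') S hS
  rw [← hL] at hLu
  obtain ⟨R, hRdef⟩ : ∃ R : Matrix (Fin (n + 2)) (Fin (n + 2)) F,
      R = S + (1 + Matrix.single (0 : Fin (n + 2)) (1 : Fin (n + 2)) t') * S *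
        (1 + Matrix.single (0 : Fin (n + 2)) (1 : Fin (n + 2)) t')ᵀ := ⟨_, rfl⟩
  have hR : Rᵀ = R := by
    rw [hRdef, Matrix.transpose_add, Matrix.transpose_mul, Matrix.transpose_mul,
      Matrix.transpose_transpose, hS, Matrix.mul_assoc]
  have hQ2 : (SpUni.uu S hS * L) ^ 2 = SpUni.uu R hR := by
    rw [pow_two]
    have g1 : SpUni.uu S hS * L * (SpUni.uu S hS * L) =
        SpUni.uu S hS * (L * SpUni.uu S hS) * L := by group
    have g2 : ∀ a b c : Spm (n + 2) F, a * (b * c) * c = a * b * (c * c) := fun a b c => by group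
    rw [g1, hLu, g2, hLL, mul_one, SpUni.uu_mul]
    exact SpUni.uu_congr hRdef.symm _ _
  have hQ4 : (SpUni.uu S hS * L) ^ 4 = 1 := by
    have : (SpUni.uu S hS * L) ^ 4 = ((SpUni.uu S hS * L) ^ 2) ^ 2 := by
      rw [← pow_mul]
    rw [this, hQ2, pow_two, SpUni.uu_mul]
    have hRR : R + R = 0 := by rw [← two_smul F R, h2, zero_smul]
    rw [SpUni.uu_congr hRR _ (by rw [Matrix.transpose_zero])]
    exact SpUni.uu_zero _
  have h5 := hP (QuotientGroup.mk A) (QuotientGroup.mk (SpUni.wj 1))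
  rw [← QuotientGroup.mk_inv, ← QuotientGroup.mk_inv, ← QuotientGroup.mk_mul, ← QuotientGroup.mk_mul,
    ← QuotientGroup.mk_mul, ← QuotientGroup.mk_mul, ← QuotientGroup.mk_mul, e3,
    ← QuotientGroup.mk_pow, ← QuotientGroup.mk_pow, hQ4, hQ2] at h5
  have h6 := h5 rfl
  rw [QuotientGroup.eq_one_iff] at h6
  have h7 := SpUni.UUs_inf_center (by omega) (SpUni.uu R hR)
    (SpUni.QQ_le_UUs (SpUni.uu_mem_QQ _ _)) h6
  have h8 := congrArg (fun x : Spm (n + 2) F => x.1 (Sum.inl 0) (Sum.inr j)) h7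
  simp only [SpUni.uu_val, Matrix.fromBlocks_apply₁₂] at h8
  have h9 : (1 : Spm (n + 2) F).1 (Sum.inl 0) (Sum.inr j) = 0 := by
    show (1 : Mm (n + 2) F) (Sum.inl 0) (Sum.inr j) = 0
    rw [Matrix.one_apply_ne (by simp)]
  rw [h9, hRdef, hSdef] at h8
  rw [Matrix.transpose_add, Matrix.transpose_one, Matrix.transpose_single,
    Matrix.transpose_add, Matrix.transpose_one, Matrix.transpose_single] at h8
  simp [Matrix.add_mul, Matrix.mul_add, hj0, hj1, Ne.symm hj0, Ne.symm hj1] at h8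
  have h10 : t' * t' = 0 := by linear_combination h8 - t * h2
  exact ht' (mul_self_eq_zero.1 h10)

variable [Fintype F]

theorem tg_base_even (p : ℕ) [Fact p.Prime] [CharP F p] (h2 : (2 : F) = 0) {n : ℕ} (hn : 1 ≤ n)
    (β : MulAut (Cfsg.PSp (n + 2) F)) : ∃ w, TG β (bv (Sum.inl 0)) w := by
  obtain ⟨hP, hidx⟩ := Ub_sylow (m := n + 2) (F := F) p (by omega)
  obtain ⟨g, hg⟩ := aut_sylow_conj p (Ub (n + 2) F) hP hidx β
  obtain ⟨g₀, rfl⟩ := QuotientGroup.mk_surjective g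
  have hZ : β '' PN.Zc (Ub (n + 2) F) =
      (MulAut.conj (QuotientGroup.mk g₀ : Cfsg.PSp (n + 2) F)) '' PN.Zc (Ub (n + 2) F) := by
    rw [← PN.Zc_map, ← PN.Zc_map, hg]
  have hTS : ∀ t : F, tvb (bv (Sum.inl (0 : Fin (n + 2))) : Vm (n + 2) F) t ∈ PN.Zc (Ub (n + 2) F) := by
    intro t
    refine ⟨⟨tv (bv (Sum.inl 0)) t, tv_e0_mem t, rfl⟩, ?_⟩
    rintro _ ⟨u, hu, rfl⟩
    show (QuotientGroup.mk (tv (bv (Sum.inl 0)) t) : Cfsg.PSp (n + 2) F) * QuotientGroup.mk u =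
      QuotientGroup.mk u * QuotientGroup.mk (tv (bv (Sum.inl 0)) t)
    rw [← QuotientGroup.mk_mul, ← QuotientGroup.mk_mul, tv_conj u, UUs_fix_e0 u hu]
  obtain ⟨j, hj0, hj1⟩ : ∃ j : Fin (n + 2), j ≠ 0 ∧ j ≠ 1 := by
    refine ⟨⟨2, by omega⟩, ?_, ?_⟩
    · intro h
      have := congrArg Fin.val h
      simp at this
    · intro h
      have := congrArg Fin.val h
      simp at this
  have hST : ∀ z ∈ PN.Zc (Ub (n + 2) F), P4 z →
      z ∈ Set.range (tvb (bv (Sum.inl (0 : Fin (n + 2))) : Vm (n + 2) F)) := by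
    rintro z ⟨⟨z₀, hz₀, rfl⟩, hc⟩ hP4
    have hzc : ∀ u ∈ SpUni.UUs (n + 2) F, u * z₀ = z₀ * u := by
      intro u hu
      have := hc (QuotientGroup.mk u) ⟨u, hu, rfl⟩
      apply mk_injOn_UUs (by omega) (mul_mem hu hz₀) (mul_mem hz₀ hu)
      show QuotientGroup.mk' _ (u * z₀) = QuotientGroup.mk' _ (z₀ * u)
      rw [map_mul, map_mul]
      exact this.symm
    obtain ⟨t, t', hs, rfl⟩ := SpUni.central_form z₀ hz₀ hzc
    have ht' : t' = 0 := by
      by_contra ht'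
      exact not_P4_short h2 j hj0 hj1 t t' ht' hs hP4
    subst ht'
    refine ⟨t, ?_⟩
    show (QuotientGroup.mk (tv (bv (Sum.inl 0)) t) : Cfsg.PSp (n + 2) F) = QuotientGroup.mk _
    rw [← uu_single_eq_tv t (SpUni.sym_single 0 t)]
    congr 1
    exact SpUni.uu_congr (by simp) _ _
  have hm1 : 1 ≤ n + 2 := by omega
  refine ⟨g₀.1 *ᵥ bv (Sum.inl 0), bv_ne _, sp_mulVec_ne g₀ (bv_ne _), ?_⟩
  rw [range_conj]
  ext y
  constructor
  · rintro ⟨_, ⟨t, rfl⟩, rfl⟩
    have h1 : β (tvb (bv (Sum.inl 0)) t) ∈ β '' PN.Zc (Ub (n + 2) F) := ⟨_, hTS t, rfl⟩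
    rw [hZ] at h1
    obtain ⟨z, hz, hzeq⟩ := h1
    have h3 : P4 z := by
      rw [← P4_map (MulAut.conj (QuotientGroup.mk g₀ : Cfsg.PSp (n + 2) F)) z, hzeq, P4_map]
      exact tvb_P4 hm1 h2 _ _
    exact ⟨z, hST z hz h3, hzeq⟩
  · rintro ⟨_, ⟨t, rfl⟩, rfl⟩
    have h1 : (MulAut.conj (QuotientGroup.mk g₀ : Cfsg.PSp (n + 2) F)) (tvb (bv (Sum.inl 0)) t) ∈
        (MulAut.conj (QuotientGroup.mk g₀ : Cfsg.PSp (n + 2) F)) '' PN.Zc (Ub (n + 2) F) :=
      ⟨_, hTS t, rfl⟩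
    rw [← hZ] at h1
    obtain ⟨z, hz, hzeq⟩ := h1
    have h3 : P4 z := by
      rw [← P4_map β z, hzeq, P4_map]
      exact tvb_P4 hm1 h2 _ _
    exact ⟨z, hST z hz h3, hzeq⟩

/-- the automorphisms of `PSp_{2m}(q)`, `q` even, `m ≥ 3` -/
theorem aut_decomp_even (p : ℕ) [Fact p.Prime] [CharP F p] (h2 : (2 : F) = 0) (hm : 3 ≤ m)
    (α : MulAut (Cfsg.PSp m F)) :
    ∃ (g : ↥(Cfsg.GSp m F)) (σ : F ≃+* F), α = conjAut g * fieldAut σ := by
  obtain ⟨n, rfl⟩ : ∃ n, m = n + 2 := ⟨m - 2, by omega⟩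
  exact aut_decomp_of_good (by omega) (tg_of_Zc p (tg_base_even p h2 (by omega))) α

/-- the automorphisms of `PSp_{2m}(q)`, `m ≥ 2`, `(m, p) ≠ (2, 2)` -/
theorem aut_decomp (p : ℕ) [Fact p.Prime] [CharP F p] (hm : 2 ≤ m) (h4 : m = 2 → p ≠ 2)
    (α : MulAut (Cfsg.PSp m F)) :
    ∃ (g : ↥(Cfsg.GSp m F)) (σ : F ≃+* F), α = conjAut g * fieldAut σ := by
  by_cases h2 : (2 : F) = 0
  · have hp2 : p = 2 := by
      have h3 : ((2 : ℕ) : F) = 0 := by exact_mod_cast h2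
      have h5 := (CharP.cast_eq_zero_iff F p 2).1 h3
      exact ((Nat.prime_dvd_prime_iff_eq (Fact.out : p.Prime) Nat.prime_two).1 h5)
    have hm3 : 3 ≤ m := by
      by_contra hcon
      exact h4 (by omega) hp2
    exact aut_decomp_even p h2 hm3 α
  · exact aut_decomp_odd p h2 hm α
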