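import Mathlib
import Cfsg.Prelude.Def_LieTypeDatum
import Cfsg.Agent.Lib.helper13.PSpEven

set_option autoImplicit false
set_option linter.unusedSectionVars false
set_option linter.unusedVariables false
set_option linter.style.longLine false

namespace Cfsg.Agent.Lib.helper13.PS

open Matrix
open Cfsg.Agent.S0766 Cfsg.Agent.S0765 Cfsg.Agent.Lib.helper4

variable {F : Type*} [Field F] {m : ℕ}

theorem induced_conj_field (g : ↥(Cfsg.GSp m F)) (σ : F ≃+* F) :
    Cfsg.IsInducedBySemilinearPSp (g : GLm m F) σ (conjAut g * fieldAut σ) := by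
  intro s s' h
  rw [MulAut.mul_apply, fieldAut_mk, conjAut_mk]
  congr 1
  apply Subtype.ext
  rw [h, conjSp_coe, fieldSp_coe]

/-- an automorphism induced by `(g, σ)` is `conjAut g * fieldAut σ` -/
theorem induced_unique (g : ↥(Cfsg.GSp m F)) (σ : F ≃+* F) (β : MulAut (Cfsg.PSp m F))
    (h : Cfsg.IsInducedBySemilinearPSp (g : GLm m F) σ β) : β = conjAut g * fieldAut σ := by
  apply MulEquiv.ext
  intro x
  obtain ⟨s, rfl⟩ := exists_rep x
  rw [h s (conjSp g (fieldSp σ s)) (by rw [conjSp_coe, fieldSp_coe])]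
  rfl

theorem gamma_eq_top [Fintype F] (p : ℕ) [Fact p.Prime] [CharP F p] (hm : 2 ≤ m)
    (h4 : m = 2 → p ≠ 2) : Cfsg.gammaPSp m F = ⊤ := by
  rw [eq_top_iff]
  intro α _
  obtain ⟨g, σ, rfl⟩ := aut_decomp p hm h4 α
  apply Subgroup.subset_closure
  exact ⟨(g : GLm m F), σ, g.2, induced_conj_field g σ⟩

end Cfsg.Agent.Lib.helper13.PS
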