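import Mathlib
import Cfsg.Prelude.Def_LieTypeDatum
import Cfsg.Agent.Lib.helper13.PSpOut
import Cfsg.Agent.Lib.helper13.Hilbert90
import Cfsg.Agent.Lib.helper13.Embed

set_option autoImplicit false
set_option linter.unusedSectionVars false
set_option linter.unusedVariables false
set_option linter.style.longLine false

namespace Cfsg.Agent.Lib.helper13.PS

open Matrix
open Cfsg.Agent.S0766 Cfsg.Agent.S0765 Cfsg.Agent.Lib.helper4

variable {F : Type*} [Field F] {m : ℕ}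

theorem map_mem_gsp (σ : F ≃+* F) (g : ↥(Cfsg.GSp m F)) :
    Matrix.GeneralLinearGroup.map (σ : F →+* F) (g : GLm m F) ∈ Cfsg.GSp m F := by
  refine ⟨Units.mk0 (σ (mult g)) (by simpa using mult_ne g), fun u v => ?_⟩
  show Cfsg.sympForm m F ((((g : GLm m F) : Mm m F).map σ) *ᵥ u)
    ((((g : GLm m F) : Mm m F).map σ) *ᵥ v) = σ (mult g) * Cfsg.sympForm m F u v
  rw [map_mulVec, map_mulVec, sf_map, mult_spec, map_mul, ← sf_map]
  simp

/-- a field automorphism acting on similitudes -/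
def mapG (σ : F ≃+* F) : ↥(Cfsg.GSp m F) →* ↥(Cfsg.GSp m F) where
  toFun g := ⟨Matrix.GeneralLinearGroup.map (σ : F →+* F) (g : GLm m F), map_mem_gsp σ g⟩
  map_one' := Subtype.ext (map_one _)
  map_mul' a b := Subtype.ext (map_mul _ _ _)

theorem mapG_coe (σ : F ≃+* F) (g : ↥(Cfsg.GSp m F)) :
    ((mapG σ g : ↥(Cfsg.GSp m F)) : GLm m F) =
      Matrix.GeneralLinearGroup.map (σ : F →+* F) (g : GLm m F) := rfl

theorem field_conj (σ : F ≃+* F) (g : ↥(Cfsg.GSp m F)) :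
    (fieldAut σ : MulAut (Cfsg.PSp m F)) * conjAut g = conjAut (mapG σ g) * fieldAut σ := by
  apply MulEquiv.ext
  intro x
  induction x using QuotientGroup.induction_on with
  | H M =>
    rw [MulAut.mul_apply, MulAut.mul_apply, conjAut_mk, fieldAut_mk, fieldAut_mk, conjAut_mk]
    congr 1
    apply Subtype.ext
    rw [fieldSp_coe, conjSp_coe, conjSp_coe, fieldSp_coe, mapG_coe, ← map_inv]
    show (σ : F →+* F).mapMatrix (_ * _ * _) = _
    rw [map_mul, map_mul]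
    rfl

theorem conjAut_scalar (g : ↥(Cfsg.GSp m F)) (a : F)
    (h : ((g : GLm m F) : Mm m F) = a • (1 : Mm m F)) : conjAut g = 1 := by
  apply MulEquiv.ext
  intro x
  induction x using QuotientGroup.induction_on with
  | H M =>
    rw [conjAut_mk, MulAut.one_apply]
    congr 1
    apply Subtype.ext
    rw [conjSp_coe]
    have h1 : ((g : GLm m F) : Mm m F) * M.1 = M.1 * ((g : GLm m F) : Mm m F) := by
      rw [h, Matrix.smul_mul, Matrix.mul_smul, one_mul, mul_one]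
    rw [h1, mul_assoc, Units.mul_inv, mul_one]

/-- `conjAut g * fieldAut σ = 1` forces `σ = 1` and `g` scalar -/
theorem conj_field_eq_one (hm : 1 ≤ m) (g : ↥(Cfsg.GSp m F)) (σ : F ≃+* F)
    (h : conjAut g * fieldAut σ = (1 : MulAut (Cfsg.PSp m F))) :
    σ = 1 ∧ ∃ a : F, ((g : GLm m F) : Mm m F) = a • (1 : Mm m F) := by
  classical
  have key : ∀ (v : Vm m F) (c : F), tvb (((g : GLm m F) : Mm m F) *ᵥ (fun i => σ (v i)))
      (σ c / mult g) = tvb v c := by
    intro v c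
    have := congrArg (fun β : MulAut (Cfsg.PSp m F) => β (tvb v c)) h
    simp only [MulAut.mul_apply, MulAut.one_apply] at this
    rw [fieldAut_tvb, conjAut_tvb] at this
    exact this
  have hpar : ∀ v : Vm m F, v ≠ 0 → (fun i => σ (v i)) = v →
      ∃ a : F, ((g : GLm m F) : Mm m F) *ᵥ v = a • v ∧ ∀ c, a * a * (σ c / mult g) = c := by
    intro v hv hσv
    have hgv : ((g : GLm m F) : Mm m F) *ᵥ v ≠ 0 := gsp_mulVec_ne g hv
    have k1 := key v 1
    rw [hσv, tvb_eq_iff hm hgv] at k1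
    have hne : σ 1 / mult g ≠ 0 := by
      rw [map_one]
      exact div_ne_zero one_ne_zero (mult_ne g)
    obtain ⟨d, hd, hvd⟩ := tv_par hgv hne k1
    have e1 : ((g : GLm m F) : Mm m F) *ᵥ v = d⁻¹ • v := by
      have h9 := congrArg (fun x : Vm m F => d⁻¹ • x) hvd
      simp only [smul_smul, inv_mul_cancel₀ hd, one_smul] at h9
      exact h9.symm
    refine ⟨d⁻¹, e1, fun c => ?_⟩
    · have k2 := key v c
      rw [hσv] at k2
      rw [e1] at k2
      have k3 : tvb v (d⁻¹ * d⁻¹ * (σ c / mult g)) = tvb v c := by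
        rw [← k2]
        show (QuotientGroup.mk (tv v _) : Cfsg.PSp m F) = QuotientGroup.mk (tv (d⁻¹ • v) _)
        rw [tv_smul]
      exact tvb_inj hm hv k3
  have hσ : σ = 1 := by
    obtain ⟨a, -, ha⟩ := hpar (bv (Sum.inl ⟨0, hm⟩)) (bv_ne _) (map_bv σ _)
    apply RingEquiv.ext
    intro c
    have h1 := ha 1
    have hc := ha c
    rw [map_one] at h1
    have hμ := mult_ne g
    show σ c = c
    field_simp at h1 hc
    rw [h1] at hc
    exact mul_left_cancel₀ hμ (by linear_combination hc)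
  subst hσ
  refine ⟨rfl, ?_⟩
  have hall : ∀ v : Vm m F, v ≠ 0 → ∃ a : F, ((g : GLm m F) : Mm m F) *ᵥ v = a • v := by
    intro v hv
    obtain ⟨a, ha, -⟩ := hpar v hv rfl
    exact ⟨a, ha⟩
  choose! a ha using hall
  obtain ⟨k₀, -⟩ : ∃ k₀ : Fin m ⊕ Fin m, k₀ = Sum.inl ⟨0, hm⟩ := ⟨_, rfl⟩
  have heq : ∀ k, a (bv k) = a (bv k₀) := by
    intro k
    by_cases hk : k = k₀
    · rw [hk]
    · have hne : (bv k + bv k₀ : Vm m F) ≠ 0 := by
        intro h0
        have := congrFun h0 k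
        rw [Pi.add_apply, bv_self, bv_apply, if_neg hk, add_zero] at this
        exact one_ne_zero this
      have h1 := ha _ hne
      rw [Matrix.mulVec_add, ha _ (bv_ne k), ha _ (bv_ne k₀)] at h1
      have h2 := congrFun h1 k
      have h3 := congrFun h1 k₀
      simp only [Pi.add_apply, Pi.smul_apply, smul_eq_mul, bv_self, bv_apply, if_neg hk,
        if_neg (Ne.symm hk), mul_zero, mul_one, add_zero, zero_add] at h2 h3
      rw [h2, h3]
  refine ⟨a (bv k₀), ?_⟩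
  ext i k
  have h1 := congrFun (ha _ (bv_ne k)) i
  have h2 : (((g : GLm m F) : Mm m F) *ᵥ (bv k : Vm m F)) i = ((g : GLm m F) : Mm m F) i k := by
    unfold bv
    rw [Matrix.mulVec_single_one]
    rfl
  rw [h2, heq] at h1
  rw [h1, Pi.smul_apply, Matrix.smul_apply, bv_apply, Matrix.one_apply]

theorem conjAut_eq_one_iff (hm : 1 ≤ m) (g : ↥(Cfsg.GSp m F)) :
    (conjAut g : MulAut (Cfsg.PSp m F)) = 1 ↔
      ∃ a : F, ((g : GLm m F) : Mm m F) = a • (1 : Mm m F) := by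
  constructor
  · intro h
    have h1 : conjAut g * fieldAut (1 : F ≃+* F) = (1 : MulAut (Cfsg.PSp m F)) := by
      rw [map_one, mul_one, h]
    exact (conj_field_eq_one hm g 1 h1).2
  · rintro ⟨a, ha⟩
    exact conjAut_scalar g a ha

theorem fieldAut_injective (hm : 1 ≤ m) :
    Function.Injective (fieldAut : (F ≃+* F) →* MulAut (Cfsg.PSp m F)) := by
  rw [injective_iff_map_eq_one]
  intro σ h
  have h1 : conjAut (1 : ↥(Cfsg.GSp m F)) * fieldAut σ = (1 : MulAut (Cfsg.PSp m F)) := by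
    rw [map_one, one_mul, h]
  exact (conj_field_eq_one hm 1 σ h1).1

/-! ### twisted norms -/

/-- twisted norm `g σ(g) ⋯ σ^{k-1}(g)` on `GL` -/
def NmI (σ : F ≃+* F) (g : GLm m F) : ℕ → GLm m F
  | 0 => 1
  | k + 1 => g * Matrix.GeneralLinearGroup.map (σ : F →+* F) (NmI σ g k)

theorem NmI_zero (σ : F ≃+* F) (g : GLm m F) : NmI σ g 0 = 1 := rfl

theorem NmI_succ (σ : F ≃+* F) (g : GLm m F) (k : ℕ) :
    NmI σ g (k + 1) = g * Matrix.GeneralLinearGroup.map (σ : F →+* F) (NmI σ g k) := rfl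

/-- twisted norm on `GSp` -/
def NmS (σ : F ≃+* F) (g : ↥(Cfsg.GSp m F)) : ℕ → ↥(Cfsg.GSp m F)
  | 0 => 1
  | k + 1 => g * mapG σ (NmS σ g k)

theorem NmS_zero (σ : F ≃+* F) (g : ↥(Cfsg.GSp m F)) : NmS σ g 0 = 1 := rfl

theorem NmS_succ (σ : F ≃+* F) (g : ↥(Cfsg.GSp m F)) (k : ℕ) :
    NmS σ g (k + 1) = g * mapG σ (NmS σ g k) := rfl

theorem NmS_coe (σ : F ≃+* F) (g : ↥(Cfsg.GSp m F)) (k : ℕ) :
    ((NmS σ g k : ↥(Cfsg.GSp m F)) : GLm m F) = NmI σ (g : GLm m F) k := by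
  induction k with
  | zero => rfl
  | succ k ih =>
    rw [NmS_succ, NmI_succ, ← ih]
    rfl

theorem conj_field_pow (σ : F ≃+* F) (g : ↥(Cfsg.GSp m F)) (k : ℕ) :
    ((conjAut g : MulAut (Cfsg.PSp m F)) * fieldAut σ) ^ k =
      conjAut (NmS σ g k) * fieldAut (σ ^ k) := by
  induction k with
  | zero => rw [pow_zero, pow_zero, NmS_zero, map_one, map_one, mul_one]
  | succ k ih =>
    rw [pow_succ', ih, NmS_succ, pow_succ' σ k, map_mul, map_mul]
    calc conjAut g * fieldAut σ * (conjAut (NmS σ g k) * fieldAut (σ ^ k))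
        = conjAut g * (fieldAut σ * conjAut (NmS σ g k)) * fieldAut (σ ^ k) := by
          simp only [mul_assoc]
      _ = _ := by rw [field_conj]; simp only [mul_assoc]

/-- scalar twisted norm -/
def nmI (σ : F ≃+* F) (μ : Fˣ) : ℕ → Fˣ
  | 0 => 1
  | k + 1 => μ * Units.map ((σ : F →+* F) : F →* F) (nmI σ μ k)

theorem nmI_val (σ : F ≃+* F) (μ : Fˣ) (k : ℕ) :
    ((nmI σ μ k : Fˣ) : F) = ∏ i ∈ Finset.range k, (σ ^ i) (μ : F) := by
  induction k with
  | zero => simp [nmI]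
  | succ k ih =>
    show (μ : F) * σ ((nmI σ μ k : Fˣ) : F) = _
    rw [ih, map_prod, Finset.prod_range_succ']
    have e1 : ∀ i, σ ((σ ^ i) (μ : F)) = (σ ^ (i + 1)) (μ : F) := by
      intro i
      rw [pow_succ' σ i]
      rfl
    simp only [e1]
    have e3 : (σ ^ 0) (μ : F) = (μ : F) := by rw [pow_zero]; rfl
    rw [e3, mul_comm]

theorem NmI_scalar_mul (σ : F ≃+* F) (μ : Fˣ) (g : GLm m F) (k : ℕ) :
    NmI σ (Matrix.GeneralLinearGroup.scalar (Fin m ⊕ Fin m) μ * g) k =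
      Matrix.GeneralLinearGroup.scalar (Fin m ⊕ Fin m) (nmI σ μ k) * NmI σ g k := by
  induction k with
  | zero =>
    rw [NmI_zero, NmI_zero]
    show _ = Matrix.GeneralLinearGroup.scalar (Fin m ⊕ Fin m) 1 * 1
    rw [map_one, one_mul]
  | succ k ih =>
    rw [NmI_succ, ih, NmI_succ, map_mul, Matrix.GeneralLinearGroup.map_scalar]
    show _ = Matrix.GeneralLinearGroup.scalar (Fin m ⊕ Fin m)
      (μ * Units.map ((σ : F →+* F) : F →* F) (nmI σ μ k)) * _
    rw [map_mul]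
    have hc := Matrix.GeneralLinearGroup.scalar_commute
      (Units.map ((σ : F →+* F) : F →* F) (nmI σ μ k)) g
    calc Matrix.GeneralLinearGroup.scalar (Fin m ⊕ Fin m) μ * g *
          (Matrix.GeneralLinearGroup.scalar (Fin m ⊕ Fin m)
            (Units.map ((σ : F →+* F) : F →* F) (nmI σ μ k)) *
            Matrix.GeneralLinearGroup.map (σ : F →+* F) (NmI σ g k))
        = Matrix.GeneralLinearGroup.scalar (Fin m ⊕ Fin m) μ *
          (g * Matrix.GeneralLinearGroup.scalar (Fin m ⊕ Fin m)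
            (Units.map ((σ : F →+* F) : F →* F) (nmI σ μ k))) *
            Matrix.GeneralLinearGroup.map (σ : F →+* F) (NmI σ g k) := by
          simp only [mul_assoc]
      _ = _ := by rw [← hc]; simp only [mul_assoc]

theorem NmI_succ_right (σ : F ≃+* F) (g : GLm m F) (k : ℕ) :
    NmI σ g (k + 1) =
      NmI σ g k * Matrix.GeneralLinearGroup.map ((σ ^ k : F ≃+* F) : F →+* F) g := by
  induction k with
  | zero =>
    rw [NmI_succ, NmI_zero, map_one, mul_one, one_mul]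
    apply Units.ext
    ext i j
    rfl
  | succ k ih =>
    rw [NmI_succ, ih, map_mul, ← mul_assoc, ← NmI_succ]
    congr 1
    apply Units.ext
    ext i j
    show σ ((σ ^ k) (g i j)) = (σ ^ (k + 1)) (g i j)
    rw [pow_succ' σ k]
    rfl

theorem map_mulVecI (σ : F ≃+* F) (M : Mm m F) (w : Vm m F) :
    (fun a => σ ((M *ᵥ w) a)) = (M.map σ) *ᵥ (fun a => σ (w a)) := by
  funext a
  simp [Matrix.mulVec, dotProduct, map_sum]

/-- **Hilbert 90 for `GL`** (index type `Fin m ⊕ Fin m`) -/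
theorem hilbert90I (σ : F ≃+* F) (r : ℕ) (hr : 0 < r) (hσ : orderOf σ = r) (g : GLm m F)
    (hN : NmI σ g r = 1) :
    ∃ h : GLm m F, g = h * (Matrix.GeneralLinearGroup.map (σ : F →+* F) h)⁻¹ := by
  classical
  let T : (Vm m F) →+ (Vm m F) :=
    { toFun := fun v => (g : Mm m F) *ᵥ (fun a => σ (v a))
      map_zero' := by
        have : (fun a : Fin m ⊕ Fin m => σ ((0 : Vm m F) a)) = 0 := by funext a; simp
        rw [this, Matrix.mulVec_zero]
      map_add' := by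
        intro x y
        have : (fun a : Fin m ⊕ Fin m => σ ((x + y) a)) =
            (fun a => σ (x a)) + (fun a => σ (y a)) := by
          funext a; simp
        rw [this, Matrix.mulVec_add] }
  have hTapp : ∀ v, T v = (g : Mm m F) *ᵥ (fun a => σ (v a)) := fun v => rfl
  have hTi : ∀ (k : ℕ) (v : Vm m F), T^[k] v =
      ((NmI σ g k : GLm m F) : Mm m F) *ᵥ (fun a => (σ ^ k) (v a)) := by
    intro k
    induction k with
    | zero =>
      intro v
      rw [NmI_zero, Units.val_one, Function.iterate_zero, id_eq]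
      have : (fun a : Fin m ⊕ Fin m => (σ ^ 0) (v a)) = v := by funext a; rw [pow_zero]; rfl
      rw [this, Matrix.one_mulVec]
    | succ k ih =>
      intro v
      rw [Function.iterate_succ_apply', ih, hTapp, map_mulVecI, Matrix.mulVec_mulVec, NmI_succ,
        Units.val_mul]
      have : (fun a : Fin m ⊕ Fin m => σ ((σ ^ k) (v a))) = (fun a => (σ ^ (k + 1)) (v a)) := by
        funext a
        rw [pow_succ' σ k]
        rfl
      rw [this]
      rfl
  have hT : ∀ (c : F) (v : Vm m F), T (c • v) = σ c • T v := by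
    intro c v
    rw [hTapp, hTapp, ← Matrix.mulVec_smul]
    congr 1
    funext a
    simp
  have hTr : ∀ v, T^[r] v = v := by
    intro v
    rw [hTi, hN, Units.val_one, Matrix.one_mulVec, ← hσ, pow_orderOf_eq_one]
    rfl
  have hspan := H90.span_fixed σ r hr (H90.pow_inj_of_orderOf σ r hσ) T hT hTr
  have hfr : Module.finrank F (Vm m F) = m + m := by
    rw [Module.finrank_fintype_fun_eq_card, Fintype.card_sum, Fintype.card_fin]
  obtain ⟨b₀, hb₀⟩ := exists_basis_of_span_eq_top {v : Vm m F | T v = v} hspan hfr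
  obtain ⟨b, hb⟩ : ∃ b : Module.Basis (Fin m ⊕ Fin m) F (Vm m F), ∀ j, T (b j) = b j := by
    refine ⟨b₀.reindex finSumFinEquiv.symm, fun j => ?_⟩
    rw [Module.Basis.reindex_apply]
    exact hb₀ _
  obtain ⟨e, he⟩ : ∃ e : Module.Basis (Fin m ⊕ Fin m) F (Vm m F),
      e = Pi.basisFun F (Fin m ⊕ Fin m) := ⟨_, rfl⟩
  obtain ⟨h, hh⟩ : ∃ h : GLm m F, (h : Mm m F) = e.toMatrix b :=
    ⟨⟨e.toMatrix b, b.toMatrix e, e.toMatrix_mul_toMatrix_flip b, b.toMatrix_mul_toMatrix_flip e⟩,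
      rfl⟩
  have hentry : ∀ a j, (h : Mm m F) a j = b j a := by
    intro a j
    rw [hh, Module.Basis.toMatrix_apply, he, Pi.basisFun_repr]
  refine ⟨h, ?_⟩
  apply eq_mul_inv_of_mul_eq
  apply Units.ext
  rw [Units.val_mul]
  ext a j
  have h1 : T (b j) = b j := hb j
  have h2 := congrFun h1 a
  rw [hTapp] at h2
  rw [hentry, ← h2, Matrix.mul_apply]
  simp only [Matrix.mulVec, dotProduct]
  apply Finset.sum_congr rfl
  intro c _
  congr 1
  show σ ((h : Mm m F) c j) = σ (b j c)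
  rw [hentry]

/-! ### Hilbert 90 for `GSp` -/

theorem gsp_gram (g : ↥(Cfsg.GSp m F)) :
    ((g : GLm m F) : Mm m F)ᵀ * J (Fin m) F * ((g : GLm m F) : Mm m F) =
      mult g • J (Fin m) F := by
  ext a b
  rw [Cfsg.Agent.S0776.gram_apply, Matrix.smul_apply, smul_eq_mul, ← sf_single]
  have hcol : ∀ c, (fun i => ((g : GLm m F) : Mm m F) i c) =
      ((g : GLm m F) : Mm m F) *ᵥ Pi.single c 1 := by
    intro c
    funext i
    rw [Matrix.mulVec_single_one]
    rfl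
  rw [hcol, hcol, mult_spec]

theorem sf_gram (M : Mm m F) (u v : Vm m F) :
    Cfsg.sympForm m F (M *ᵥ u) (M *ᵥ v) = u ⬝ᵥ ((Mᵀ * J (Fin m) F * M) *ᵥ v) := by
  unfold Cfsg.sympForm
  rw [← Matrix.mulVec_mulVec, ← Matrix.mulVec_mulVec, Matrix.dotProduct_mulVec u,
    Matrix.vecMul_transpose]

theorem gsp_of_gram (h : GLm m F) (d : F) (hd : d ≠ 0)
    (hg : (h : Mm m F)ᵀ * J (Fin m) F * (h : Mm m F) = d • J (Fin m) F) : h ∈ Cfsg.GSp m F := by
  refine ⟨Units.mk0 d hd, fun u v => ?_⟩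
  show Cfsg.sympForm m F ((h : Mm m F) *ᵥ u) ((h : Mm m F) *ᵥ v) = d * Cfsg.sympForm m F u v
  rw [sf_gram, hg, Matrix.smul_mulVec, dotProduct_smul, smul_eq_mul]
  rfl

theorem J_map (σ : F ≃+* F) : (J (Fin m) F).map σ = J (Fin m) F := by
  ext a b
  rw [Matrix.map_apply, J_apply']
  split_ifs
  · rcases a with a | a <;> simp
  · simp

/-- the fixed field of a field automorphism -/
def fixF (σ : F ≃+* F) : Subfield F where
  carrier := {x | σ x = x}
  mul_mem' := by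
    intro a b ha hb
    show σ (a * b) = a * b
    rw [map_mul, ha, hb]
  one_mem' := map_one σ
  add_mem' := by
    intro a b ha hb
    show σ (a + b) = a + b
    rw [map_add, ha, hb]
  zero_mem' := map_zero σ
  neg_mem' := by
    intro a ha
    show σ (-a) = -a
    rw [map_neg, ha]
  inv_mem' := by
    intro a ha
    show σ a⁻¹ = a⁻¹
    rw [map_inv₀, ha]

theorem mem_fixF (σ : F ≃+* F) (x : F) : x ∈ fixF σ ↔ σ x = x := Iff.rfl

theorem J_coe (σ : F ≃+* F) (a b : Fin m ⊕ Fin m) :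
    ((J (Fin m) ↥(fixF σ) a b : ↥(fixF σ)) : F) = J (Fin m) F a b := by
  rw [J_apply', J_apply']
  split_ifs
  · rcases a with a | a <;> simp
  · simp

/-- entrywise inclusion of vectors over the fixed field -/
def upv (σ : F ≃+* F) (x : Fin m ⊕ Fin m → ↥(fixF σ)) : Vm m F := fun k => (x k : F)

theorem upv_single (σ : F ≃+* F) (k : Fin m ⊕ Fin m) :
    upv σ (Pi.single k (1 : ↥(fixF σ))) = Pi.single k (1 : F) := by
  classical
  funext l
  unfold upv
  rw [Pi.single_apply, Pi.single_apply]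
  split_ifs <;> simp

theorem upv_mulVec (σ : F ≃+* F) (M : Matrix (Fin m ⊕ Fin m) (Fin m ⊕ Fin m) ↥(fixF σ))
    (x : Fin m ⊕ Fin m → ↥(fixF σ)) :
    upv σ (M *ᵥ x) = (M.map (fixF σ).subtype) *ᵥ upv σ x := by
  funext k
  simp [upv, Matrix.mulVec, dotProduct]

theorem upv_dot (σ : F ≃+* F) (x y : Fin m ⊕ Fin m → ↥(fixF σ)) :
    ((x ⬝ᵥ y : ↥(fixF σ)) : F) = upv σ x ⬝ᵥ upv σ y := by
  simp [upv, dotProduct]

/-- **Hilbert 90 for `GSp`** -/
theorem hilbert90_gsp (hm : 1 ≤ m) (σ : F ≃+* F) (r : ℕ) (hr : 0 < r) (hσ : orderOf σ = r)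
    (g : ↥(Cfsg.GSp m F)) (hN : NmI σ (g : GLm m F) r = 1) :
    ∃ h : ↥(Cfsg.GSp m F), (g : GLm m F) =
      (h : GLm m F) * (Matrix.GeneralLinearGroup.map (σ : F →+* F) (h : GLm m F))⁻¹ := by
  classical
  obtain ⟨h₁, hh₁⟩ := hilbert90I σ r hr hσ (g : GLm m F) hN
  have e0 : ((g : GLm m F) : Mm m F) * (h₁ : Mm m F).map σ = (h₁ : Mm m F) := by
    have e : (g : GLm m F) * Matrix.GeneralLinearGroup.map (σ : F →+* F) h₁ = h₁ := by
      nth_rewrite 1 [hh₁]
      rw [inv_mul_cancel_right]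
    exact congrArg (fun x : GLm m F => (x : Mm m F)) e
  obtain ⟨K, hKdef⟩ : ∃ K : Mm m F, K = (h₁ : Mm m F)ᵀ * J (Fin m) F * (h₁ : Mm m F) := ⟨_, rfl⟩
  have hμ := mult_ne g
  have hKσ : K = mult g • K.map σ := by
    calc K = (((g : GLm m F) : Mm m F) * (h₁ : Mm m F).map σ)ᵀ * J (Fin m) F *
          (((g : GLm m F) : Mm m F) * (h₁ : Mm m F).map σ) := by rw [e0, hKdef]
      _ = ((h₁ : Mm m F).map σ)ᵀ * (((g : GLm m F) : Mm m F)ᵀ * J (Fin m) F *
          ((g : GLm m F) : Mm m F)) * (h₁ : Mm m F).map σ := by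
          rw [Matrix.transpose_mul]
          simp only [Matrix.mul_assoc]
      _ = mult g • (((h₁ : Mm m F).map σ)ᵀ * J (Fin m) F * (h₁ : Mm m F).map σ) := by
          rw [gsp_gram, Matrix.mul_smul, Matrix.smul_mul]
      _ = mult g • K.map σ := by
          rw [hKdef, Matrix.map_mul, Matrix.map_mul, Matrix.transpose_map, J_map]
  have hKab : ∀ a b, K a b = mult g * σ (K a b) := by
    intro a b
    have := congrFun (congrFun hKσ a) b
    rw [Matrix.smul_apply, Matrix.map_apply, smul_eq_mul] at this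
    exact this
  have hdetJ : (J (Fin m) F).det ≠ 0 := by
    intro h0
    have := Matrix.J_det_mul_J_det (Fin m) F
    rw [h0, mul_zero] at this
    exact zero_ne_one this
  have hdetK : K.det ≠ 0 := by
    rw [hKdef, Matrix.det_mul, Matrix.det_mul, Matrix.det_transpose]
    have h1 : (h₁ : Mm m F).det ≠ 0 := by
      have := (Matrix.isUnit_iff_isUnit_det _).1 h₁.isUnit
      exact this.ne_zero
    exact mul_ne_zero (mul_ne_zero h1 hdetJ) h1
  obtain ⟨a₀, b₀, hab⟩ : ∃ a b, K a b ≠ 0 := by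
    by_contra hcon
    push Not at hcon
    apply hdetK
    have : K = 0 := by
      ext a b
      exact hcon a b
    rw [this]
    have hne : Nonempty (Fin m ⊕ Fin m) := ⟨Sum.inl ⟨0, hm⟩⟩
    exact Matrix.det_zero
  obtain ⟨d, hddef⟩ : ∃ d : F, d = K a₀ b₀ := ⟨_, rfl⟩
  have hd0 : d ≠ 0 := by rw [hddef]; exact hab
  have hdσ : d = mult g * σ d := by rw [hddef]; exact hKab a₀ b₀
  have hfix : ∀ a b, σ (d⁻¹ * K a b) = d⁻¹ * K a b := by
    intro a b
    have e1 : σ d = d / mult g := by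
      rw [eq_div_iff hμ, mul_comm]
      exact hdσ.symm
    have e2 : σ (K a b) = K a b / mult g := by
      rw [eq_div_iff hμ, mul_comm]
      exact (hKab a b).symm
    rw [map_mul, map_inv₀, e1, e2]
    field_simp
  obtain ⟨K₀, hK₀⟩ : ∃ K₀ : Matrix (Fin m ⊕ Fin m) (Fin m ⊕ Fin m) ↥(fixF σ),
      ∀ a b, ((K₀ a b : ↥(fixF σ)) : F) = d⁻¹ * K a b :=
    ⟨fun a b => ⟨d⁻¹ * K a b, hfix a b⟩, fun a b => rfl⟩
  have hK₀map : K₀.map (fixF σ).subtype = d⁻¹ • K := by
    ext a b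
    rw [Matrix.map_apply, Matrix.smul_apply, smul_eq_mul]
    exact hK₀ a b
  obtain ⟨B, hBdef⟩ : ∃ B : LinearMap.BilinForm ↥(fixF σ) (Fin m ⊕ Fin m → ↥(fixF σ)),
      B = Matrix.toBilin' K₀ := ⟨_, rfl⟩
  have hBup : ∀ x y, ((B x y : ↥(fixF σ)) : F) = d⁻¹ * Cfsg.sympForm m F
      ((h₁ : Mm m F) *ᵥ upv σ x) ((h₁ : Mm m F) *ᵥ upv σ y) := by
    intro x y
    rw [hBdef, Matrix.toBilin'_apply', upv_dot, upv_mulVec, hK₀map, sf_gram, ← hKdef,
      Matrix.smul_mulVec, dotProduct_smul, smul_eq_mul]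
  have hA : B.IsAlt := by
    intro x
    apply Subtype.ext
    rw [hBup, sf_self, mul_zero]
    rfl
  have hBnd : B.Nondegenerate := by
    rw [hBdef]
    apply LinearMap.BilinForm.nondegenerate_toBilin'_iff_det_ne_zero.2
    intro h0
    have h1 := congrArg (fixF σ).subtype h0
    rw [RingHom.map_det, map_zero] at h1
    have h2 : (fixF σ).subtype.mapMatrix K₀ = d⁻¹ • K := hK₀map
    rw [h2, Matrix.det_smul] at h1
    exact mul_ne_zero (pow_ne_zero _ (inv_ne_zero hd0)) hdetK h1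
  have hV : Module.finrank ↥(fixF σ) (Fin m ⊕ Fin m → ↥(fixF σ)) = 2 * m := by
    rw [Module.finrank_fintype_fun_eq_card, Fintype.card_sum, Fintype.card_fin, two_mul]
  obtain ⟨e, he⟩ := symp_basis_equiv B hA hBnd hV
  obtain ⟨P₀, hP₀⟩ : ∃ P₀ : Matrix (Fin m ⊕ Fin m) (Fin m ⊕ Fin m) ↥(fixF σ),
      P₀ = LinearMap.toMatrix' (e.symm : (Fin m ⊕ Fin m → ↥(fixF σ)) →ₗ[↥(fixF σ)]
        (Fin m ⊕ Fin m → ↥(fixF σ))) := ⟨_, rfl⟩
  obtain ⟨Q₀, hQ₀⟩ : ∃ Q₀ : Matrix (Fin m ⊕ Fin m) (Fin m ⊕ Fin m) ↥(fixF σ),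
      Q₀ = LinearMap.toMatrix' (e : (Fin m ⊕ Fin m → ↥(fixF σ)) →ₗ[↥(fixF σ)]
        (Fin m ⊕ Fin m → ↥(fixF σ))) := ⟨_, rfl⟩
  have hPQ : P₀ * Q₀ = 1 := by
    rw [hP₀, hQ₀, ← LinearMap.toMatrix'_comp]
    have : (e.symm : (Fin m ⊕ Fin m → ↥(fixF σ)) →ₗ[↥(fixF σ)] (Fin m ⊕ Fin m → ↥(fixF σ))) ∘ₗ
        (e : (Fin m ⊕ Fin m → ↥(fixF σ)) →ₗ[↥(fixF σ)] (Fin m ⊕ Fin m → ↥(fixF σ))) =
        LinearMap.id := by
      ext x
      simp
    rw [this, LinearMap.toMatrix'_id]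
  have hQP : Q₀ * P₀ = 1 := by
    rw [hP₀, hQ₀, ← LinearMap.toMatrix'_comp]
    have : (e : (Fin m ⊕ Fin m → ↥(fixF σ)) →ₗ[↥(fixF σ)] (Fin m ⊕ Fin m → ↥(fixF σ))) ∘ₗ
        (e.symm : (Fin m ⊕ Fin m → ↥(fixF σ)) →ₗ[↥(fixF σ)] (Fin m ⊕ Fin m → ↥(fixF σ))) =
        LinearMap.id := by
      ext x
      simp
    rw [this, LinearMap.toMatrix'_id]
  obtain ⟨P, hP⟩ : ∃ P : GLm m F, (P : Mm m F) = P₀.map (fixF σ).subtype :=
    ⟨⟨P₀.map (fixF σ).subtype, Q₀.map (fixF σ).subtype, by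
      rw [← Matrix.map_mul, hPQ, Matrix.map_one _ (map_zero _) (map_one _)], by
      rw [← Matrix.map_mul, hQP, Matrix.map_one _ (map_zero _) (map_one _)]⟩, rfl⟩
  have hPσ : Matrix.GeneralLinearGroup.map (σ : F →+* F) P = P := by
    apply Units.ext
    ext i j
    show σ ((P : Mm m F) i j) = (P : Mm m F) i j
    rw [hP, Matrix.map_apply]
    exact (P₀ i j).2
  have hcol : ∀ k, (P : Mm m F) *ᵥ (Pi.single k 1) = upv σ (e.symm (Pi.single k 1)) := by
    intro k
    rw [hP, ← upv_single σ k, ← upv_mulVec, hP₀, LinearMap.toMatrix'_mulVec]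
    rfl
  have hgram : ((h₁ * P : GLm m F) : Mm m F)ᵀ * J (Fin m) F * ((h₁ * P : GLm m F) : Mm m F) =
      (-d) • J (Fin m) F := by
    ext k l
    rw [Cfsg.Agent.S0776.gram_apply, Matrix.smul_apply, smul_eq_mul]
    have hc : ∀ c, (fun i => ((h₁ * P : GLm m F) : Mm m F) i c) =
        (h₁ : Mm m F) *ᵥ upv σ (e.symm (Pi.single c 1)) := by
      intro c
      rw [← hcol, Matrix.mulVec_mulVec, ← Units.val_mul]
      funext i
      rw [Matrix.mulVec_single_one]
      rfl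
    rw [hc, hc]
    have h1 := hBup (e.symm (Pi.single k 1)) (e.symm (Pi.single l 1))
    rw [he, LinearEquiv.apply_symm_apply, LinearEquiv.apply_symm_apply, sf_single] at h1
    have h2 : Cfsg.sympForm m F ((h₁ : Mm m F) *ᵥ upv σ (e.symm (Pi.single k 1)))
        ((h₁ : Mm m F) *ᵥ upv σ (e.symm (Pi.single l 1))) =
        d * ((-(J (Fin m) ↥(fixF σ) k l) : ↥(fixF σ)) : F) := by
      rw [h1]
      field_simp
    rw [h2]
    push_cast
    rw [J_coe]
    ring
  refine ⟨⟨h₁ * P, gsp_of_gram _ (-d) (neg_ne_zero.2 hd0) hgram⟩, ?_⟩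
  show (g : GLm m F) = (h₁ * P) * (Matrix.GeneralLinearGroup.map (σ : F →+* F) (h₁ * P))⁻¹
  rw [map_mul, hPσ, _root_.mul_inv_rev, mul_assoc, mul_inv_cancel_left]
  exact hh₁

/-! ### coset conjugacy -/

theorem scalar_mulVec (μ : Fˣ) (u : Vm m F) :
    ((Matrix.GeneralLinearGroup.scalar (Fin m ⊕ Fin m) μ : GLm m F) : Mm m F) *ᵥ u =
      (μ : F) • u := by
  rw [Matrix.GeneralLinearGroup.coe_scalar, Matrix.scalar_apply]
  funext k
  rw [Matrix.mulVec_diagonal, Pi.smul_apply, smul_eq_mul]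

/-- scalars as similitudes -/
def scG (μ : Fˣ) : ↥(Cfsg.GSp m F) :=
  ⟨Matrix.GeneralLinearGroup.scalar (Fin m ⊕ Fin m) μ, ⟨μ * μ, fun u v => by
    rw [scalar_mulVec, scalar_mulVec, sf_smul_left, sf_smul_right, Units.val_mul, mul_assoc]⟩⟩

theorem scG_coe (μ : Fˣ) : ((scG μ : ↥(Cfsg.GSp m F)) : GLm m F) =
    Matrix.GeneralLinearGroup.scalar (Fin m ⊕ Fin m) μ := rfl

theorem conjAut_scG (μ : Fˣ) : (conjAut (scG μ) : MulAut (Cfsg.PSp m F)) = 1 := by
  apply conjAut_scalar _ (μ : F)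
  rw [scG_coe, Matrix.GeneralLinearGroup.coe_scalar, Matrix.scalar_apply,
    Matrix.smul_one_eq_diagonal]

theorem scalar_injI (hm : 1 ≤ m) (a b : Fˣ)
    (h : Matrix.GeneralLinearGroup.scalar (Fin m ⊕ Fin m) a =
      Matrix.GeneralLinearGroup.scalar (Fin m ⊕ Fin m) b) : a = b := by
  have h1 := congrArg (fun u : GLm m F => (u : Mm m F) (Sum.inl ⟨0, hm⟩) (Sum.inl ⟨0, hm⟩)) h
  simp only [Matrix.GeneralLinearGroup.coe_scalar, Matrix.scalar_apply,
    Matrix.diagonal_apply_eq] at h1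
  exact Units.ext h1

/-- **field coset conjugacy for `PSp`** -/
theorem field_coset_conj [Fintype F] (hm : 1 ≤ m) (σ : F ≃+* F) (r : ℕ) (hr : 0 < r)
    (hσ : orderOf σ = r) (g : ↥(Cfsg.GSp m F))
    (hy : ((conjAut g : MulAut (Cfsg.PSp m F)) * fieldAut σ) ^ r = 1) :
    ∃ h : ↥(Cfsg.GSp m F), (conjAut g : MulAut (Cfsg.PSp m F)) * fieldAut σ =
      conjAut h * fieldAut σ * (conjAut h)⁻¹ := by
  have hσr : σ ^ r = 1 := by rw [← hσ, pow_orderOf_eq_one]
  rw [conj_field_pow, hσr, map_one, mul_one, conjAut_eq_one_iff hm] at hy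
  obtain ⟨lam0, hlam0⟩ := hy
  have hlam_ne : lam0 ≠ 0 := by
    intro h0
    rw [h0, zero_smul] at hlam0
    have h1 : ((NmS σ g r : ↥(Cfsg.GSp m F)) : GLm m F).1 *
        (((NmS σ g r : ↥(Cfsg.GSp m F)) : GLm m F)⁻¹ : GLm m F).1 = 1 := Units.mul_inv _
    rw [hlam0, zero_mul] at h1
    have h2 := congrFun (congrFun h1 (Sum.inl ⟨0, hm⟩)) (Sum.inl ⟨0, hm⟩)
    rw [Matrix.zero_apply, Matrix.one_apply_eq] at h2
    exact zero_ne_one h2
  obtain ⟨lam, hlamdef⟩ : ∃ lam : Fˣ, (lam : F) = lam0 := ⟨Units.mk0 lam0 hlam_ne, rfl⟩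
  have hlam : Matrix.GeneralLinearGroup.scalar (Fin m ⊕ Fin m) lam = NmI σ (g : GLm m F) r := by
    apply Units.ext
    rw [← NmS_coe, hlam0, Matrix.GeneralLinearGroup.coe_scalar, Matrix.scalar_apply,
      Matrix.smul_one_eq_diagonal, hlamdef]
  have hfix : σ (lam : F) = lam := by
    have h1 := NmI_succ_right σ (g : GLm m F) r
    rw [NmI_succ, hσr] at h1
    have h2 : Matrix.GeneralLinearGroup.map ((1 : F ≃+* F) : F →+* F) (g : GLm m F) = g := by
      apply Units.ext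
      ext i j
      rfl
    rw [h2, ← hlam, Matrix.GeneralLinearGroup.map_scalar,
      Matrix.GeneralLinearGroup.scalar_commute lam (g : GLm m F)] at h1
    have h3 := mul_left_cancel h1
    have h4 := scalar_injI hm _ _ h3
    exact congrArg (fun u : Fˣ => (u : F)) h4
  obtain ⟨c, hc0, hc⟩ := H90.norm_surj σ r hr hσ ((lam : F)⁻¹) (by rw [map_inv₀, hfix])
    (inv_ne_zero lam.ne_zero)
  obtain ⟨μ, hμ⟩ : ∃ μ : Fˣ, (μ : F) = c := ⟨Units.mk0 c hc0, rfl⟩
  have hnm : nmI σ μ r = lam⁻¹ := by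
    apply Units.ext
    rw [nmI_val, hμ, hc, Units.val_inv_eq_inv_val]
  have hN1 : NmI σ ((scG μ * g : ↥(Cfsg.GSp m F)) : GLm m F) r = 1 := by
    show NmI σ (Matrix.GeneralLinearGroup.scalar (Fin m ⊕ Fin m) μ * (g : GLm m F)) r = 1
    rw [NmI_scalar_mul, hnm, ← hlam, ← map_mul, inv_mul_cancel, map_one]
  obtain ⟨h, hh⟩ := hilbert90_gsp hm σ r hr hσ (scG μ * g) hN1
  refine ⟨h, ?_⟩
  have hh' : scG μ * g = h * (mapG σ h)⁻¹ := Subtype.ext hh
  have e1 : (fieldAut σ : MulAut (Cfsg.PSp m F)) * (conjAut h)⁻¹ =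
      (conjAut (mapG σ h))⁻¹ * fieldAut σ := by
    rw [← map_inv, field_conj, map_inv, map_inv]
  have e2 : (conjAut g : MulAut (Cfsg.PSp m F)) = conjAut h * (conjAut (mapG σ h))⁻¹ := by
    rw [← map_inv, ← map_mul, ← hh', map_mul, conjAut_scG, one_mul]
  rw [mul_assoc, e1, ← mul_assoc, ← e2]

/-! ### the predicates -/

theorem isInnerDiag_iff (δ : MulAut (Cfsg.PSp m F)) :
    Cfsg.IsInnerDiagonalAutPSp δ ↔ ∃ g : ↥(Cfsg.GSp m F), δ = conjAut g := by
  constructor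
  · rintro ⟨g, hg, h⟩
    refine ⟨⟨g, hg⟩, ?_⟩
    have := induced_unique ⟨g, hg⟩ (RingEquiv.refl F) δ h
    rw [this]
    have e : (fieldAut (RingEquiv.refl F) : MulAut (Cfsg.PSp m F)) = 1 := map_one _
    rw [e, mul_one]
  · rintro ⟨g, rfl⟩
    refine ⟨g, g.2, ?_⟩
    have := induced_conj_field g (RingEquiv.refl F)
    have e : (fieldAut (RingEquiv.refl F) : MulAut (Cfsg.PSp m F)) = 1 := map_one _
    rwa [e, mul_one] at this

theorem inndiag_eq :
    Cfsg.inndiagPSp m F = (conjAut : ↥(Cfsg.GSp m F) →* MulAut (Cfsg.PSp m F)).range := by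
  unfold Cfsg.inndiagPSp Cfsg.autSubgroupOf
  have : {β : MulAut (Cfsg.PSp m F) | Cfsg.IsInnerDiagonalAutPSp β} =
      ((conjAut : ↥(Cfsg.GSp m F) →* MulAut (Cfsg.PSp m F)).range : Set (MulAut (Cfsg.PSp m F))) := by
    ext β
    show Cfsg.IsInnerDiagonalAutPSp β ↔ _
    rw [isInnerDiag_iff]
    constructor
    · rintro ⟨g, rfl⟩; exact ⟨g, rfl⟩
    · rintro ⟨g, rfl⟩; exact ⟨g, rfl⟩
  rw [this, Subgroup.closure_eq]

theorem mem_inndiag (δ : MulAut (Cfsg.PSp m F)) :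
    δ ∈ Cfsg.inndiagPSp m F ↔ ∃ g : ↥(Cfsg.GSp m F), δ = conjAut g := by
  rw [inndiag_eq]
  constructor
  · rintro ⟨g, rfl⟩; exact ⟨g, rfl⟩
  · rintro ⟨g, rfl⟩; exact ⟨g, rfl⟩

theorem isStdField_iff (σ : F ≃+* F) (φ : MulAut (Cfsg.PSp m F)) :
    Cfsg.IsStdFieldAutPSp σ φ ↔ φ = fieldAut σ := by
  constructor
  · intro h
    apply MulEquiv.ext
    intro x
    obtain ⟨s, rfl⟩ := exists_rep x
    rw [h s (fieldSp σ s) rfl]
    rfl
  · rintro rfl s s' h
    rw [fieldAut_mk]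
    congr 1
    apply Subtype.ext
    rw [h]
    rfl

/-! ### normality of the inner-diagonal group -/

theorem conjAut_spToGSp (A : Spm m F) :
    (conjAut (spToGSp A) : MulAut (Cfsg.PSp m F)) = MulAut.conj (QuotientGroup.mk A) := by
  apply MulEquiv.ext
  intro x
  obtain ⟨M, rfl⟩ := exists_rep x
  rw [conjAut_mk, MulAut.conj_apply, ← QuotientGroup.mk_inv, ← QuotientGroup.mk_mul,
    ← QuotientGroup.mk_mul]
  congr 1

/-- in characteristic two every similitude is a scalar times a symplectic matrix -/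
theorem even_inner [Finite F] (h2 : (2 : F) = 0) (g : ↥(Cfsg.GSp m F)) :
    ∃ s : Spm m F, (conjAut g : MulAut (Cfsg.PSp m F)) = MulAut.conj (QuotientGroup.mk s) := by
  have hc : CharP F 2 := CharTwo.of_one_ne_zero_of_two_eq_zero one_ne_zero h2
  obtain ⟨c, hcs⟩ := FiniteField.isSquare_of_char_two (ringChar.eq F 2) (mult g)
  have hμ := mult_ne g
  have hc0 : c ≠ 0 := by
    intro h0
    rw [h0, mul_zero] at hcs
    exact hμ hcs
  have hmem : c⁻¹ • ((g : GLm m F) : Mm m F) ∈ Matrix.symplecticGroup (Fin m) F := by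
    apply mem_sp_of_pres
    intro u v
    rw [Matrix.smul_mulVec, Matrix.smul_mulVec, sf_smul_left, sf_smul_right, mult_spec, hcs]
    field_simp
  obtain ⟨s, hs⟩ : ∃ s : Spm m F, s.1 = c⁻¹ • ((g : GLm m F) : Mm m F) := ⟨⟨_, hmem⟩, rfl⟩
  refine ⟨s, ?_⟩
  rw [← conjAut_spToGSp]
  have e : g = scG (Units.mk0 c hc0) * spToGSp s := by
    apply Subtype.ext
    apply Units.ext
    show ((g : GLm m F) : Mm m F) =
      ((Matrix.GeneralLinearGroup.scalar (Fin m ⊕ Fin m) (Units.mk0 c hc0) : GLm m F) : Mm m F) *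
        s.1
    rw [Matrix.GeneralLinearGroup.coe_scalar, Matrix.scalar_apply, ← Matrix.smul_one_eq_diagonal,
      Matrix.smul_mul, one_mul, hs, smul_smul, Units.val_mk0, mul_inv_cancel₀ hc0, one_smul]
  rw [e, map_mul, conjAut_scG, one_mul]

theorem conj_range_normal [Fintype F] (hm : 2 ≤ m) (α : MulAut (Cfsg.PSp m F))
    (g : ↥(Cfsg.GSp m F)) :
    ∃ g' : ↥(Cfsg.GSp m F), α * conjAut g * α⁻¹ = conjAut g' := by
  by_cases h2 : (2 : F) = 0
  · obtain ⟨s, hs⟩ := even_inner h2 g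
    obtain ⟨s', hs'⟩ := exists_rep (α (QuotientGroup.mk s))
    refine ⟨spToGSp s', ?_⟩
    rw [hs, conjAut_spToGSp, ← hs']
    apply MulEquiv.ext
    intro x
    simp only [MulAut.mul_apply, MulAut.conj_apply, map_mul, map_inv]
    have : α (α⁻¹ x) = x := by
      rw [← MulAut.mul_apply, mul_inv_cancel]
      rfl
    rw [this]
  · obtain ⟨p, hp⟩ := CharP.exists F
    have : Fact p.Prime := ⟨CharP.char_is_prime F p⟩
    obtain ⟨a, τ, rfl⟩ := aut_decomp_odd p h2 hm α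
    refine ⟨a * mapG τ g * a⁻¹, ?_⟩
    have e2 : fieldAut τ * conjAut g * (fieldAut τ)⁻¹ =
        (conjAut (mapG τ g) : MulAut (Cfsg.PSp m F)) := by
      rw [field_conj, mul_inv_cancel_right]
    calc conjAut a * fieldAut τ * conjAut g * (conjAut a * fieldAut τ)⁻¹
        = conjAut a * (fieldAut τ * conjAut g * (fieldAut τ)⁻¹) * (conjAut a)⁻¹ := by
          simp only [_root_.mul_inv_rev, mul_assoc]
      _ = conjAut (a * mapG τ g * a⁻¹) := by
          rw [e2, map_mul, map_mul, map_inv]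

theorem orderOf_conj' {G : Type*} [Group G] (a b : G) : orderOf (a * b * a⁻¹) = orderOf b := by
  rw [← MulAut.conj_apply]
  exact MulEquiv.orderOf_eq (MulAut.conj a) b

/-- **coset conjugacy for field automorphisms of prime order of `PSp`** -/
theorem field_type_coset_conj [Fintype F] (hm : 2 ≤ m) (x δ : MulAut (Cfsg.PSp m F))
    (hx : Cfsg.IsFieldAutClassPSp x) {r : ℕ} (hr : r.Prime)
    (hxr : orderOf x = r) (hδ : δ ∈ Cfsg.inndiagPSp m F) :
    orderOf (δ * x) = r ↔ Cfsg.IsConjUnder (Cfsg.inndiagPSp m F) x (δ * x) := by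
  obtain ⟨α, σ, hσ, hstd⟩ := hx
  have hαx : α * x * α⁻¹ = fieldAut σ := (isStdField_iff σ _).1 hstd
  have hxeq : x = α⁻¹ * fieldAut σ * α := by
    rw [← hαx]
    group
  constructor
  · intro hord
    obtain ⟨e, rfl⟩ := (mem_inndiag δ).1 hδ
    have hσr : orderOf σ = r := by
      rw [← hxr, ← orderOf_conj' α x, hαx]
      exact (orderOf_injective fieldAut (fieldAut_injective (by omega)) σ).symm
    obtain ⟨e', he'⟩ := conj_range_normal hm α e
    have h1 : α * (conjAut e * x) * α⁻¹ = conjAut e' * fieldAut σ := by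
      rw [← he', ← hαx]
      group
    have hord' : orderOf (conjAut e' * fieldAut σ) = r := by
      rw [← h1, orderOf_conj']
      exact hord
    obtain ⟨h, hh⟩ := field_coset_conj (by omega) σ r hr.pos hσr e' (by
      rw [← hord']; exact pow_orderOf_eq_one _)
    obtain ⟨k, hk⟩ := conj_range_normal hm α⁻¹ h
    rw [inv_inv] at hk
    refine ⟨conjAut k, (mem_inndiag _).2 ⟨k, rfl⟩, ?_⟩
    have h2 : conjAut e * x = α⁻¹ * (conjAut e' * fieldAut σ) * α := by
      rw [← h1]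
      group
    rw [h2, hh, ← hk, hxeq]
    group
  · rintro ⟨h, -, heq⟩
    rw [heq, orderOf_conj', hxr]

end Cfsg.Agent.Lib.helper13.PS
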