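import Mathlib
import Cfsg.Prelude.Def_LieTypeDatum
import Cfsg.Prelude.Def_KGroupFacts
import Cfsg.Agent.Lib.helper13.PSpField
import Cfsg.Agent.Lib.helper13.PSLnCent

set_option autoImplicit false
set_option linter.unusedSectionVars false
set_option linter.unusedVariables false
set_option linter.style.longLine false

namespace Cfsg.Agent.Lib.helper13.PS

open Matrix
open Cfsg.Agent.S0766 Cfsg.Agent.S0765 Cfsg.Agent.Lib.helper4

variable {F : Type*} [Field F] {m : ℕ}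

/-! ### the multiplier -/

theorem mult_eq (hm : 1 ≤ m) (g : ↥(Cfsg.GSp m F)) (c : F)
    (hc : ∀ u v : Vm m F, Cfsg.sympForm m F (((g : GLm m F) : Mm m F) *ᵥ u)
      (((g : GLm m F) : Mm m F) *ᵥ v) = c * Cfsg.sympForm m F u v) : mult g = c := by
  have h1 := mult_spec g (bv (Sum.inr ⟨0, hm⟩)) (bv (Sum.inl ⟨0, hm⟩))
  rw [hc, sf_e, bv_self, mul_one, mul_one] at h1
  exact h1.symm

theorem mult_one (hm : 1 ≤ m) : mult (1 : ↥(Cfsg.GSp m F)) = 1 := by
  apply mult_eq hm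
  intro u v
  show Cfsg.sympForm m F ((1 : Mm m F) *ᵥ u) ((1 : Mm m F) *ᵥ v) = _
  rw [Matrix.one_mulVec, Matrix.one_mulVec, one_mul]

theorem mult_mul (hm : 1 ≤ m) (g h : ↥(Cfsg.GSp m F)) : mult (g * h) = mult g * mult h := by
  apply mult_eq hm
  intro u v
  show Cfsg.sympForm m F ((((g : GLm m F) : Mm m F) * ((h : GLm m F) : Mm m F)) *ᵥ u)
    ((((g : GLm m F) : Mm m F) * ((h : GLm m F) : Mm m F)) *ᵥ v) = _
  rw [← Matrix.mulVec_mulVec, ← Matrix.mulVec_mulVec, mult_spec, mult_spec, mul_assoc]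

/-- the multiplier as a homomorphism -/
noncomputable def multU (hm : 1 ≤ m) : ↥(Cfsg.GSp m F) →* Fˣ where
  toFun g := Units.mk0 (mult g) (mult_ne g)
  map_one' := Units.ext (mult_one hm)
  map_mul' g h := Units.ext (mult_mul hm g h)

theorem multU_coe (hm : 1 ≤ m) (g : ↥(Cfsg.GSp m F)) : ((multU hm g : Fˣ) : F) = mult g := rfl

theorem mult_spToGSp (hm : 1 ≤ m) (A : Spm m F) : mult (spToGSp A) = 1 := by
  apply mult_eq hm
  intro u v
  rw [one_mul]
  exact sp_pres A u v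

theorem mult_dc (hm : 1 ≤ m) (c : F) (hc : c ≠ 0) : mult (dc c hc : ↥(Cfsg.GSp m F)) = c :=
  mult_eq hm _ c (dc_spec c hc)

theorem mult_scG (hm : 1 ≤ m) (μ : Fˣ) : mult (scG μ : ↥(Cfsg.GSp m F)) = μ * μ := by
  apply mult_eq hm
  intro u v
  rw [scG_coe, scalar_mulVec, scalar_mulVec, sf_smul_left, sf_smul_right, mul_assoc]

theorem mult_mapG (hm : 1 ≤ m) (σ : F ≃+* F) (g : ↥(Cfsg.GSp m F)) :
    mult (mapG σ g) = σ (mult g) := by
  apply mult_eq hm
  intro u v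
  show Cfsg.sympForm m F ((((g : GLm m F) : Mm m F).map σ) *ᵥ u)
    ((((g : GLm m F) : Mm m F).map σ) *ᵥ v) = σ (mult g) * Cfsg.sympForm m F u v
  rw [map_mulVec, map_mulVec, sf_map, mult_spec, map_mul, ← sf_map]
  simp

/-- multiplier one: symplectic -/
theorem exists_sp_of_mult_one (g : ↥(Cfsg.GSp m F)) (h : mult g = 1) :
    ∃ s : Spm m F, g = spToGSp s := by
  have hmem : ((g : GLm m F) : Mm m F) ∈ Matrix.symplecticGroup (Fin m) F := by
    apply mem_sp_of_pres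
    intro u v
    rw [mult_spec, h, one_mul]
  refine ⟨⟨_, hmem⟩, ?_⟩
  apply Subtype.ext
  apply Units.ext
  rfl

/-! ### elements commuting with a field automorphism -/

theorem scalar_of_smul_one (hm : 1 ≤ m) (G : GLm m F) (a : F)
    (h : (G : Mm m F) = a • (1 : Mm m F)) :
    ∃ lam : Fˣ, G = Matrix.GeneralLinearGroup.scalar (Fin m ⊕ Fin m) lam := by
  have ha : a ≠ 0 := by
    intro h0
    rw [h0, zero_smul] at h
    have h1 : (G : Mm m F) * ((G⁻¹ : GLm m F) : Mm m F) = 1 := Units.mul_inv _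
    rw [h, zero_mul] at h1
    have h2 := congrFun (congrFun h1 (Sum.inl ⟨0, hm⟩)) (Sum.inl ⟨0, hm⟩)
    rw [Matrix.zero_apply, Matrix.one_apply_eq] at h2
    exact zero_ne_one h2
  refine ⟨Units.mk0 a ha, Units.ext ?_⟩
  rw [h, Matrix.GeneralLinearGroup.coe_scalar, Matrix.scalar_apply, Matrix.smul_one_eq_diagonal]
  rfl

/-- an element of `GSp` whose conjugation commutes with a field automorphism is, up to a scalar,
fixed by it -/
theorem comm_field_fixed (hm : 1 ≤ m) (σ : F ≃+* F) (r : ℕ) (hr : 0 < r) (hσ : orderOf σ = r)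
    (g : ↥(Cfsg.GSp m F))
    (h : (conjAut g : MulAut (Cfsg.PSp m F)) * fieldAut σ = fieldAut σ * conjAut g) :
    ∃ d : Fˣ, mapG σ (scG d * g) = scG d * g := by
  rw [field_conj] at h
  have h1 : (conjAut (g⁻¹ * mapG σ g) : MulAut (Cfsg.PSp m F)) = 1 := by
    rw [map_mul, map_inv, ← mul_right_cancel h, inv_mul_cancel]
  rw [conjAut_eq_one_iff hm] at h1
  obtain ⟨lam0, hlam0⟩ := h1
  obtain ⟨lam, hlam⟩ := scalar_of_smul_one hm _ lam0 hlam0
  have hlam' : ((g : GLm m F))⁻¹ * Matrix.GeneralLinearGroup.map (σ : F →+* F) (g : GLm m F) =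
      Matrix.GeneralLinearGroup.scalar (Fin m ⊕ Fin m) lam := hlam
  have hσg : Matrix.GeneralLinearGroup.map (σ : F →+* F) (g : GLm m F) =
      Matrix.GeneralLinearGroup.scalar (Fin m ⊕ Fin m) lam * (g : GLm m F) := by
    rw [Matrix.GeneralLinearGroup.scalar_commute, ← hlam', mul_inv_cancel_left]
  have hk : ∀ k : ℕ, Matrix.GeneralLinearGroup.map ((σ ^ k : F ≃+* F) : F →+* F) (g : GLm m F) =
      Matrix.GeneralLinearGroup.scalar (Fin m ⊕ Fin m) (nmI σ lam k) * (g : GLm m F) := by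
    intro k
    induction k with
    | zero =>
      show _ = Matrix.GeneralLinearGroup.scalar (Fin m ⊕ Fin m) 1 * (g : GLm m F)
      rw [map_one, one_mul]
      apply Units.ext
      ext i j
      rfl
    | succ k ih =>
      have e1 : Matrix.GeneralLinearGroup.map ((σ ^ (k + 1) : F ≃+* F) : F →+* F) (g : GLm m F) =
          Matrix.GeneralLinearGroup.map (σ : F →+* F)
            (Matrix.GeneralLinearGroup.map ((σ ^ k : F ≃+* F) : F →+* F) (g : GLm m F)) := by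
        apply Units.ext
        ext i j
        show (σ ^ (k + 1)) ((g : GLm m F) i j) = σ ((σ ^ k) ((g : GLm m F) i j))
        rw [pow_succ' σ k]
        rfl
      rw [e1, ih, map_mul, Matrix.GeneralLinearGroup.map_scalar, hσg, ← mul_assoc, ← map_mul]
      congr 2
      show _ = lam * Units.map ((σ : F →+* F) : F →* F) (nmI σ lam k)
      rw [mul_comm]
  have hr1 : nmI σ lam r = 1 := by
    have h2 := hk r
    rw [← hσ, pow_orderOf_eq_one] at h2
    have h3 : Matrix.GeneralLinearGroup.map ((1 : F ≃+* F) : F →+* F) (g : GLm m F) = g := by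
      apply Units.ext
      ext i j
      rfl
    rw [h3, hσ] at h2
    have h4 : Matrix.GeneralLinearGroup.scalar (Fin m ⊕ Fin m) (nmI σ lam r) =
        Matrix.GeneralLinearGroup.scalar (Fin m ⊕ Fin m) 1 := by
      rw [map_one]
      exact (mul_eq_right.1 h2.symm)
    exact scalar_injI hm _ _ h4
  have hprod : ∏ i ∈ Finset.range r, (σ ^ i) (lam : F) = 1 := by
    rw [← nmI_val, hr1]; rfl
  obtain ⟨d, hd0, hd⟩ := H90.hilbert90_scalar σ r hr hσ (lam : F) hprod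
  refine ⟨Units.mk0 d hd0, ?_⟩
  apply Subtype.ext
  show Matrix.GeneralLinearGroup.map (σ : F →+* F)
    (Matrix.GeneralLinearGroup.scalar (Fin m ⊕ Fin m) (Units.mk0 d hd0) * (g : GLm m F)) =
      Matrix.GeneralLinearGroup.scalar (Fin m ⊕ Fin m) (Units.mk0 d hd0) * (g : GLm m F)
  rw [map_mul, Matrix.GeneralLinearGroup.map_scalar, hσg, ← mul_assoc, ← map_mul]
  congr 2
  apply Units.ext
  show σ d * (lam : F) = d
  rw [mul_comm]
  exact hd

theorem comm_of_fixed (σ : F ≃+* F) (g : ↥(Cfsg.GSp m F)) (hg : mapG σ g = g) :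
    (conjAut g : MulAut (Cfsg.PSp m F)) * fieldAut σ = fieldAut σ * conjAut g := by
  rw [field_conj, hg]

/-! ### descent to the fixed field -/

theorem J_mapι {F₀ : Type*} [Field F₀] (ι : F₀ →+* F) :
    (J (Fin m) F₀).map ι = J (Fin m) F := by
  ext a b
  rw [Matrix.map_apply, J_apply', J_apply']
  split_ifs
  · rcases a with a | a <;> simp
  · simp

theorem map_mem_gspι {F₀ : Type*} [Field F₀] (ι : F₀ →+* F) (g₀ : ↥(Cfsg.GSp m F₀)) :
    Matrix.GeneralLinearGroup.map ι (g₀ : GLm m F₀) ∈ Cfsg.GSp m F := by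
  apply gsp_of_gram _ (ι (mult g₀)) (by
    rw [Ne, map_eq_zero]
    exact mult_ne g₀)
  have h := congrArg (fun M : Mm m F₀ => M.map ι) (gsp_gram g₀)
  simp only [Matrix.map_mul, Matrix.transpose_map, J_mapι] at h
  show (((g₀ : GLm m F₀) : Mm m F₀).map ι)ᵀ * J (Fin m) F * ((g₀ : GLm m F₀) : Mm m F₀).map ι = _
  rw [h]
  ext a b
  rw [Matrix.map_apply, Matrix.smul_apply, Matrix.smul_apply, smul_eq_mul, smul_eq_mul, map_mul,
    ← J_mapι ι, Matrix.map_apply]

/-- extension of scalars on similitudes -/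
def mapι {F₀ : Type*} [Field F₀] (ι : F₀ →+* F) : ↥(Cfsg.GSp m F₀) →* ↥(Cfsg.GSp m F) where
  toFun g₀ := ⟨Matrix.GeneralLinearGroup.map ι (g₀ : GLm m F₀), map_mem_gspι ι g₀⟩
  map_one' := Subtype.ext (map_one _)
  map_mul' a b := Subtype.ext (map_mul _ _ _)

theorem mapι_coe {F₀ : Type*} [Field F₀] (ι : F₀ →+* F) (g₀ : ↥(Cfsg.GSp m F₀)) :
    ((mapι ι g₀ : ↥(Cfsg.GSp m F)) : GLm m F) =
      Matrix.GeneralLinearGroup.map ι (g₀ : GLm m F₀) := rfl

theorem mapι_fixed {F₀ : Type*} [Field F₀] (ι : F₀ →+* F) (σ : F ≃+* F)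
    (hι : ∀ b : F, σ b = b ↔ ∃ a, ι a = b) (g₀ : ↥(Cfsg.GSp m F₀)) :
    mapG σ (mapι ι g₀) = mapι ι g₀ := by
  apply Subtype.ext
  apply Units.ext
  ext i j
  exact (hι _).2 ⟨_, rfl⟩

/-- a similitude fixed by `σ` comes from the fixed field -/
theorem exists_gsp_of_fixed {F₀ : Type*} [Field F₀] (hm : 1 ≤ m) (ι : F₀ →+* F) (σ : F ≃+* F)
    (hι : ∀ b : F, σ b = b ↔ ∃ a, ι a = b) (g : ↥(Cfsg.GSp m F)) (hg : mapG σ g = g) :
    ∃ g₀ : ↥(Cfsg.GSp m F₀), mapι ι g₀ = g := by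
  have hgG : Matrix.GeneralLinearGroup.map (σ : F →+* F) (g : GLm m F) = g :=
    congrArg (fun x : ↥(Cfsg.GSp m F) => (x : GLm m F)) hg
  have h1 : ∀ i j, ∃ a, ι a = ((g : GLm m F) : Mm m F) i j := by
    intro i j
    rw [← hι]
    exact congrFun (congrFun (congrArg (fun u : GLm m F => (u : Mm m F)) hgG) i) j
  have hg' : Matrix.GeneralLinearGroup.map (σ : F →+* F) ((g : GLm m F))⁻¹ = (g : GLm m F)⁻¹ := by
    rw [map_inv, hgG]
  have h2 : ∀ i j, ∃ a, ι a = (((g : GLm m F)⁻¹ : GLm m F) : Mm m F) i j := by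
    intro i j
    rw [← hι]
    exact congrFun (congrFun (congrArg (fun u : GLm m F => (u : Mm m F)) hg') i) j
  choose A hA using h1
  choose B hB using h2
  have hAm : (Matrix.of A).map ι = ((g : GLm m F) : Mm m F) := by
    ext i j; exact hA i j
  have hBm : (Matrix.of B).map ι = (((g : GLm m F)⁻¹ : GLm m F) : Mm m F) := by
    ext i j; exact hB i j
  have hinj : Function.Injective (fun M : Mm m F₀ => M.map ι) :=
    Matrix.map_injective ι.injective
  have hAB : Matrix.of A * Matrix.of B = 1 := by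
    apply hinj
    show (Matrix.of A * Matrix.of B).map ι = (1 : Mm m F₀).map ι
    rw [Matrix.map_mul, hAm, hBm, Units.mul_inv, Matrix.map_one _ (map_zero ι) (map_one ι)]
  have hBA : Matrix.of B * Matrix.of A = 1 := by
    apply hinj
    show (Matrix.of B * Matrix.of A).map ι = (1 : Mm m F₀).map ι
    rw [Matrix.map_mul, hAm, hBm, Units.inv_mul, Matrix.map_one _ (map_zero ι) (map_one ι)]
  have hμfix : σ (mult g) = mult g := by
    rw [← mult_mapG hm, hg]
  obtain ⟨d₀, hd₀⟩ := (hι _).1 hμfix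
  have hd₀ne : d₀ ≠ 0 := by
    intro h0
    rw [h0, map_zero] at hd₀
    exact mult_ne g hd₀.symm
  have hgram : (Matrix.of A)ᵀ * J (Fin m) F₀ * Matrix.of A = d₀ • J (Fin m) F₀ := by
    apply hinj
    show ((Matrix.of A)ᵀ * J (Fin m) F₀ * Matrix.of A).map ι = (d₀ • J (Fin m) F₀).map ι
    rw [Matrix.map_mul, Matrix.map_mul, Matrix.transpose_map, hAm, J_mapι, gsp_gram, ← hd₀]
    ext a b
    rw [Matrix.map_apply, Matrix.smul_apply, Matrix.smul_apply, smul_eq_mul, smul_eq_mul, map_mul,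
      ← J_mapι ι, Matrix.map_apply]
  refine ⟨⟨⟨Matrix.of A, Matrix.of B, hAB, hBA⟩, gsp_of_gram _ d₀ hd₀ne hgram⟩, ?_⟩
  apply Subtype.ext
  apply Units.ext
  exact hAm

theorem mapι_scalar_iff {F₀ : Type*} [Field F₀] (hm : 1 ≤ m) (ι : F₀ →+* F)
    (g₀ : ↥(Cfsg.GSp m F₀)) :
    (∃ a : F, (((mapι ι g₀ : ↥(Cfsg.GSp m F)) : GLm m F) : Mm m F) = a • (1 : Mm m F)) ↔
      (g₀ : GLm m F₀) ∈ Cfsg.Geo.scalars (Fin m ⊕ Fin m) F₀ := by
  rw [Cfsg.Geo.mem_scalars_iff]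
  have hval : ∀ i j, (((mapι ι g₀ : ↥(Cfsg.GSp m F)) : GLm m F) : Mm m F) i j =
      ι (((g₀ : GLm m F₀) : Mm m F₀) i j) := fun i j => rfl
  constructor
  · rintro ⟨a, ha⟩
    have h0 := congrFun (congrFun ha (Sum.inl ⟨0, hm⟩)) (Sum.inl ⟨0, hm⟩)
    rw [hval, Matrix.smul_apply, Matrix.one_apply_eq, smul_eq_mul, mul_one] at h0
    have hform : ((g₀ : GLm m F₀) : Mm m F₀) =
        (((g₀ : GLm m F₀) : Mm m F₀) (Sum.inl ⟨0, hm⟩) (Sum.inl ⟨0, hm⟩)) • (1 : Mm m F₀) := by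
      ext i j
      have h1 := congrFun (congrFun ha i) j
      rw [hval, Matrix.smul_apply, smul_eq_mul] at h1
      rw [Matrix.smul_apply, smul_eq_mul]
      apply ι.injective
      rw [h1, map_mul, h0, Matrix.one_apply, Matrix.one_apply]
      split_ifs <;> simp
    have hne : ((g₀ : GLm m F₀) : Mm m F₀) (Sum.inl ⟨0, hm⟩) (Sum.inl ⟨0, hm⟩) ≠ 0 := by
      intro h0'
      rw [h0', zero_smul] at hform
      have h1 : ((g₀ : GLm m F₀) : Mm m F₀) * (((g₀ : GLm m F₀)⁻¹ : GLm m F₀) : Mm m F₀) = 1 :=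
        Units.mul_inv _
      rw [hform, zero_mul] at h1
      have h2 := congrFun (congrFun h1 (Sum.inl ⟨0, hm⟩)) (Sum.inl ⟨0, hm⟩)
      rw [Matrix.zero_apply, Matrix.one_apply_eq] at h2
      exact zero_ne_one h2
    exact ⟨Units.mk0 _ hne, hform⟩
  · rintro ⟨c, hc⟩
    refine ⟨ι (c : F₀), ?_⟩
    ext i j
    rw [hval, hc, Matrix.smul_apply, Matrix.smul_apply, smul_eq_mul, smul_eq_mul, map_mul,
      Matrix.one_apply, Matrix.one_apply]
    split_ifs <;> simp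

/-! ### the centralizer -/

theorem mem_cent_iff' (α β x₀ : MulAut (Cfsg.PSp m F)) :
    β ∈ Subgroup.centralizer {α⁻¹ * x₀ * α} ↔ (α * β * α⁻¹) * x₀ = x₀ * (α * β * α⁻¹) := by
  rw [Subgroup.mem_centralizer_iff]
  constructor
  · intro h
    have h1 := h _ rfl
    calc α * β * α⁻¹ * x₀ = α * (β * (α⁻¹ * x₀ * α)) * α⁻¹ := by group
      _ = α * ((α⁻¹ * x₀ * α) * β) * α⁻¹ := by rw [h1]
      _ = x₀ * (α * β * α⁻¹) := by group
  · intro h y hy
    rw [Set.mem_singleton_iff] at hy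
    rw [hy]
    calc α⁻¹ * x₀ * α * β = α⁻¹ * (x₀ * (α * β * α⁻¹)) * α := by group
      _ = α⁻¹ * ((α * β * α⁻¹) * x₀) * α := by rw [h]
      _ = β * (α⁻¹ * x₀ * α) := by group

/-- **the centralizer of a field automorphism in `Inndiag(PSp)`** -/
theorem field_centralizer_iso [Fintype F] (hm : 2 ≤ m) (α : MulAut (Cfsg.PSp m F)) (σ : F ≃+* F)
    (r : ℕ) (hr : 0 < r) (hσ : orderOf σ = r) {F₀ : Type*} [Field F₀] (ι : F₀ →+* F)
    (hι : ∀ b : F, σ b = b ↔ ∃ a, ι a = b) :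
    Nonempty (↥(Cfsg.inndiagPSp m F ⊓ Subgroup.centralizer {α⁻¹ * fieldAut σ * α}) ≃*
      Cfsg.PGSp m F₀) := by
  obtain ⟨C, hC⟩ : ∃ C : Subgroup (MulAut (Cfsg.PSp m F)), C = Cfsg.inndiagPSp m F ⊓
      Subgroup.centralizer {α⁻¹ * fieldAut σ * α} := ⟨_, rfl⟩
  rw [← hC]
  let Ψ₀ : ↥(Cfsg.GSp m F₀) →* MulAut (Cfsg.PSp m F) :=
    (MulAut.conj α⁻¹).toMonoidHom.comp (conjAut.comp (mapι ι))
  have hΨ₀ : ∀ g₀, Ψ₀ g₀ = α⁻¹ * conjAut (mapι ι g₀) * α := by
    intro g₀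
    show α⁻¹ * conjAut (mapι ι g₀) * α⁻¹⁻¹ = _
    rw [inv_inv]
  have hmemC : ∀ g₀, Ψ₀ g₀ ∈ C := by
    intro g₀
    rw [hC, hΨ₀]
    constructor
    · obtain ⟨k, hk⟩ := conj_range_normal hm α⁻¹ (mapι ι g₀)
      rw [inv_inv] at hk
      rw [hk]
      exact (mem_inndiag _).2 ⟨k, rfl⟩
    · show _ ∈ Subgroup.centralizer _
      rw [mem_cent_iff']
      have e : α * (α⁻¹ * conjAut (mapι ι g₀) * α) * α⁻¹ = conjAut (mapι ι g₀) := by group
      rw [e]
      exact comm_of_fixed σ _ (mapι_fixed ι σ hι g₀)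
  let Ψ : ↥(Cfsg.GSp m F₀) →* ↥C := Ψ₀.codRestrict C hmemC
  have hΨ : ∀ g₀, (Ψ g₀ : MulAut (Cfsg.PSp m F)) = Ψ₀ g₀ := fun g₀ => rfl
  have hsurj : Function.Surjective Ψ := by
    rintro ⟨β, hβ⟩
    rw [hC] at hβ
    obtain ⟨hβ1, hβ2⟩ := hβ
    obtain ⟨b, rfl⟩ := (mem_inndiag β).1 hβ1
    obtain ⟨b', hb'⟩ := conj_range_normal hm α b
    have hc := (mem_cent_iff' α (conjAut b) (fieldAut σ)).1 hβ2
    rw [hb'] at hc
    obtain ⟨du, hdu⟩ := comm_field_fixed (by omega) σ r hr hσ b' hc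
    obtain ⟨g₀, hg₀⟩ := exists_gsp_of_fixed (by omega) ι σ hι _ hdu
    refine ⟨g₀, Subtype.ext ?_⟩
    rw [hΨ, hΨ₀, hg₀, map_mul, conjAut_scG, one_mul, ← hb']
    group
  have hker : Ψ.ker = (Cfsg.Geo.scalars (Fin m ⊕ Fin m) F₀).subgroupOf (Cfsg.GSp m F₀) := by
    ext g₀
    rw [MonoidHom.mem_ker, Subgroup.mem_subgroupOf, ← mapι_scalar_iff (by omega) ι g₀,
      ← conjAut_eq_one_iff (by omega)]
    have h1 : Ψ g₀ = 1 ↔ Ψ₀ g₀ = 1 := by
      constructor
      · intro h; rw [← hΨ, h]; rfl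
      · intro h; exact Subtype.ext (by rw [hΨ, h]; rfl)
    rw [h1, hΨ₀]
    constructor
    · intro h
      have e : conjAut (mapι ι g₀) = α * (α⁻¹ * conjAut (mapι ι g₀) * α) * α⁻¹ := by group
      rw [e, h]
      group
    · intro h
      rw [h]
      group
  exact ⟨(QuotientGroup.quotientKerEquivOfSurjective Ψ hsurj).symm.trans
    (QuotientGroup.quotientMulEquivOfEq hker)⟩

/-! ### class splitting -/

/-- the multiplier class modulo squares -/
noncomputable def multQ (hm : 1 ≤ m) :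
    ↥(Cfsg.GSp m F) →* Fˣ ⧸ (powMonoidHom 2 : Fˣ →* Fˣ).range :=
  (QuotientGroup.mk' _).comp (multU hm)

theorem multQ_apply (hm : 1 ≤ m) (g : ↥(Cfsg.GSp m F)) :
    multQ hm g = QuotientGroup.mk (multU hm g) := rfl

theorem conj_conj_aut {G : Type*} [Group G] (α : MulAut G) (y : G) :
    α * MulAut.conj y * α⁻¹ = MulAut.conj (α y) := by
  apply MulEquiv.ext
  intro z
  simp only [MulAut.mul_apply, MulAut.conj_apply, map_mul, map_inv]
  have : α (α⁻¹ z) = z := by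
    rw [← MulAut.mul_apply, mul_inv_cancel]
    rfl
  rw [this]

theorem split_psp [Fintype F] (hm : 2 ≤ m) (α x₀ : MulAut (Cfsg.PSp m F)) :
    Cfsg.splitClassCount (Cfsg.inndiagPSp m F) (Cfsg.Inn (Cfsg.PSp m F)) (α⁻¹ * x₀ * α) =
      Nat.card ((Fˣ ⧸ (powMonoidHom 2 : Fˣ →* Fˣ).range) ⧸
        Subgroup.map (multQ (F := F) (m := m) (by omega))
          ((Subgroup.centralizer {x₀}).comap conjAut)) := by
  have hm1 : 1 ≤ m := by omega
  obtain ⟨ρ, hρ⟩ : ∃ ρ : ↥(Cfsg.GSp m F) →* MulAut (Cfsg.PSp m F),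
      ∀ γ, ρ γ = α⁻¹ * conjAut γ * α := by
    refine ⟨(MulAut.conj α⁻¹).toMonoidHom.comp conjAut, fun γ => ?_⟩
    show α⁻¹ * conjAut γ * α⁻¹⁻¹ = _
    rw [inv_inv]
  have hcomap : (Subgroup.centralizer {α⁻¹ * x₀ * α}).comap ρ =
      (Subgroup.centralizer {x₀}).comap conjAut := by
    ext γ
    rw [Subgroup.mem_comap, Subgroup.mem_comap, hρ, mem_cent_iff', Subgroup.mem_centralizer_iff]
    have e : α * (α⁻¹ * conjAut γ * α) * α⁻¹ = conjAut γ := by group
    rw [e]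
    constructor
    · intro h y hy
      rw [Set.mem_singleton_iff] at hy
      rw [hy, h]
    · intro h
      exact (h _ rfl).symm
  rw [← hcomap]
  apply PN.splitClassCount_eq (Cfsg.inndiagPSp m F) (Cfsg.Inn (Cfsg.PSp m F)) _ ρ (multQ hm1)
  · intro h
    rw [mem_inndiag]
    constructor
    · rintro ⟨b, rfl⟩
      obtain ⟨b', hb'⟩ := conj_range_normal hm α b
      refine ⟨b', ?_⟩
      rw [hρ, ← hb']
      group
    · rintro ⟨γ, rfl⟩
      obtain ⟨k, hk⟩ := conj_range_normal hm α⁻¹ γ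
      rw [inv_inv] at hk
      exact ⟨k, by rw [hρ, hk]⟩
  · intro q
    obtain ⟨u, rfl⟩ := QuotientGroup.mk_surjective q
    refine ⟨dc (u : F) u.ne_zero, ?_⟩
    rw [multQ_apply]
    congr 1
    exact Units.ext (mult_dc hm1 _ _)
  · rintro _ ⟨y, rfl⟩
    obtain ⟨s, hs⟩ := exists_rep (α y)
    refine ⟨spToGSp s, ?_, ?_⟩
    · rw [hρ, conjAut_spToGSp, ← hs, ← conj_conj_aut]
      group
    · rw [multQ_apply]
      have : multU hm1 (spToGSp s) = 1 := Units.ext (mult_spToGSp hm1 s)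
      rw [this]
      rfl
  · intro κ hκ
    rw [multQ_apply, QuotientGroup.eq_one_iff] at hκ
    obtain ⟨a, ha⟩ := hκ
    rw [powMonoidHom_apply] at ha
    have h1 : mult (scG a⁻¹ * κ) = 1 := by
      rw [mult_mul hm1, mult_scG hm1]
      have h2 : (((a ^ 2 : Fˣ)) : F) = mult κ := by rw [ha]; rfl
      rw [← h2]
      push_cast
      have := a.ne_zero
      field_simp
    obtain ⟨s, hs⟩ := exists_sp_of_mult_one _ h1
    have h3 : (conjAut κ : MulAut (Cfsg.PSp m F)) = MulAut.conj (QuotientGroup.mk s) := by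
      rw [← conjAut_spToGSp, ← hs, map_mul, conjAut_scG, one_mul]
    rw [hρ, h3]
    refine ⟨α⁻¹ (QuotientGroup.mk s), ?_⟩
    have := conj_conj_aut α⁻¹ (QuotientGroup.mk s : Cfsg.PSp m F)
    rw [inv_inv] at this
    exact this.symm

theorem mapG_dc (σ : F ≃+* F) (c : F) (hc : c ≠ 0) (hσc : σ c = c) :
    mapG σ (dc c hc : ↥(Cfsg.GSp m F)) = dc c hc := by
  apply Subtype.ext
  apply Units.ext
  show (Matrix.diagonal (Sum.elim (fun _ => c) (fun _ => 1)) : Mm m F).map σ =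
    Matrix.diagonal (Sum.elim (fun _ => c) (fun _ => 1))
  ext i j
  rw [Matrix.map_apply, Matrix.diagonal_apply]
  split_ifs with h
  · rcases i with i | i
    · exact hσc
    · exact map_one σ
  · exact map_zero σ

/-- **class splitting of a field automorphism** -/
theorem field_split_count [Fintype F] {p f : ℕ} [Fact p.Prime] (hF : Fintype.card F = p ^ f)
    (hm : 2 ≤ m) (α : MulAut (Cfsg.PSp m F)) (σ : F ≃+* F) (r : ℕ) (hr : 0 < r)
    (hσ : orderOf σ = r)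
    {F₀ : Type*} [Field F₀] [Fintype F₀] (hF₀ : Fintype.card F₀ = p ^ (f / r)) (ι : F₀ →+* F)
    (hι : ∀ b : F, σ b = b ↔ ∃ a, ι a = b) :
    Cfsg.splitClassCount (Cfsg.inndiagPSp m F) (Cfsg.Inn (Cfsg.PSp m F))
      (α⁻¹ * fieldAut σ * α) =
      Nat.gcd 2 ((p ^ f - 1) / (p ^ (f / r) - 1)) := by
  classical
  have hm1 : 1 ≤ m := by omega
  rw [split_psp hm]
  obtain ⟨U₁, hU₁⟩ : ∃ U₁ : Subgroup Fˣ, U₁ = (Units.map (ι : F₀ →* F)).range := ⟨_, rfl⟩
  have hmap : Subgroup.map (multQ (F := F) (m := m) (by omega))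
      ((Subgroup.centralizer {fieldAut σ}).comap conjAut) =
      U₁.map (QuotientGroup.mk' (powMonoidHom 2 : Fˣ →* Fˣ).range) := by
    ext q
    constructor
    · rintro ⟨γ, hγ, rfl⟩
      have hγ' : (conjAut γ : MulAut (Cfsg.PSp m F)) ∈ Subgroup.centralizer {fieldAut σ} := hγ
      rw [Subgroup.mem_centralizer_iff] at hγ'
      have hc : (conjAut γ : MulAut (Cfsg.PSp m F)) * fieldAut σ = fieldAut σ * conjAut γ :=
        (hγ' _ rfl).symm
      obtain ⟨du, hdu⟩ := comm_field_fixed hm1 σ r hr hσ γ hc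
      have hfix : σ (mult (scG du * γ)) = mult (scG du * γ) := by
        rw [← mult_mapG hm1, hdu]
      obtain ⟨u₀, hu₀⟩ := (hι _).1 hfix
      have hu₀ne : u₀ ≠ 0 := by
        rintro rfl
        rw [map_zero] at hu₀
        exact mult_ne _ hu₀.symm
      refine ⟨Units.map (ι : F₀ →* F) (Units.mk0 u₀ hu₀ne), ?_, ?_⟩
      · rw [hU₁]; exact ⟨_, rfl⟩
      · have hval : Units.map (ι : F₀ →* F) (Units.mk0 u₀ hu₀ne) = du ^ 2 * multU hm1 γ := by
          apply Units.ext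
          show ι u₀ = _
          rw [hu₀, mult_mul hm1, mult_scG hm1]
          push_cast
          rw [multU_coe]
          ring
        rw [multQ_apply]
        show (QuotientGroup.mk _ : Fˣ ⧸ (powMonoidHom 2 : Fˣ →* Fˣ).range) = QuotientGroup.mk _
        rw [QuotientGroup.eq, hval]
        refine ⟨du⁻¹, ?_⟩
        rw [powMonoidHom_apply, inv_pow, _root_.mul_inv_rev, mul_comm]
        group
    · rintro ⟨u, hu, rfl⟩
      rw [hU₁] at hu
      obtain ⟨u₀, rfl⟩ := hu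
      have hne : ι (u₀ : F₀) ≠ 0 := by
        rw [Ne, map_eq_zero]
        exact u₀.ne_zero
      refine ⟨dc (ι (u₀ : F₀)) hne, ?_, ?_⟩
      · show conjAut _ ∈ Subgroup.centralizer _
        rw [Subgroup.mem_centralizer_iff]
        intro y hy
        rw [Set.mem_singleton_iff] at hy
        rw [hy]
        exact (comm_of_fixed σ _ (mapG_dc σ _ hne ((hι _).2 ⟨_, rfl⟩))).symm
      · rw [multQ_apply]
        show (QuotientGroup.mk _ : Fˣ ⧸ (powMonoidHom 2 : Fˣ →* Fˣ).range) = QuotientGroup.mk _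
        congr 1
        apply Units.ext
        rw [multU_coe, mult_dc hm1]
        rfl
  rw [hmap]
  have hidx : Nat.card ((Fˣ ⧸ (powMonoidHom 2 : Fˣ →* Fˣ).range) ⧸
      U₁.map (QuotientGroup.mk' (powMonoidHom 2 : Fˣ →* Fˣ).range)) =
      (U₁ ⊔ (powMonoidHom 2 : Fˣ →* Fˣ).range).index := by
    show (U₁.map (QuotientGroup.mk' (powMonoidHom 2 : Fˣ →* Fˣ).range)).index = _
    rw [Subgroup.index_map, QuotientGroup.ker_mk',
      MonoidHom.range_eq_top.2 (QuotientGroup.mk'_surjective _), Subgroup.index_top, mul_one]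
  rw [hidx, PN.cyclic_index_sup]
  have hcU : Nat.card U₁ = p ^ (f / r) - 1 := by
    rw [hU₁, ← Nat.card_congr (MonoidHom.ofInjective
      (Units.map_injective (f := (ι : F₀ →* F)) ι.injective)).toEquiv, Nat.card_units,
      Nat.card_eq_fintype_card, hF₀]
  rw [hcU, Nat.card_units, Nat.card_eq_fintype_card, hF]

/-- the parity computation -/
theorem gcd_two_quot (p f r : ℕ) (hp : p.Prime) (hf : 1 ≤ f) (hr : 0 < r) (hrf : r ∣ f) :
    Nat.gcd 2 ((p ^ f - 1) / (p ^ (f / r) - 1)) = Nat.gcd (Nat.gcd 2 (p ^ f - 1)) r := by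
  obtain ⟨k, rfl⟩ := hrf
  have hk : 0 < k := by
    rcases Nat.eq_zero_or_pos k with h | h
    · rw [h] at hf; omega
    · exact h
  rw [Nat.mul_div_cancel_left _ hr]
  obtain ⟨q, hq⟩ : ∃ q, q = p ^ k := ⟨_, rfl⟩
  have hq2 : 2 ≤ q := by
    rw [hq]
    calc 2 ≤ p := hp.two_le
      _ = p ^ 1 := (pow_one p).symm
      _ ≤ p ^ k := Nat.pow_le_pow_right hp.pos hk
  have hpow : p ^ (r * k) = q ^ r := by rw [hq, ← pow_mul, mul_comm]
  rw [hpow, ← hq]
  have hgeo : (q ^ r - 1) / (q - 1) = ∑ i ∈ Finset.range r, q ^ i := by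
    rw [Nat.geomSum_eq hq2]
  rw [hgeo]
  have hqr : 1 ≤ q ^ r := Nat.one_le_pow _ _ (by omega)
  rcases Nat.even_or_odd q with hev | hodd
  · -- q even: sum is odd, q^r - 1 odd
    have h1 : (∑ i ∈ Finset.range r, q ^ i) % 2 = 1 := by
      obtain ⟨r', rfl⟩ : ∃ r', r = r' + 1 := ⟨r - 1, by omega⟩
      rw [Finset.sum_range_succ', pow_zero, Nat.add_mod]
      have : (∑ i ∈ Finset.range r', q ^ (i + 1)) % 2 = 0 := by
        rw [Finset.sum_nat_mod]
        have : ∀ i ∈ Finset.range r', q ^ (i + 1) % 2 = 0 := by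
          intro i _
          rw [pow_succ, Nat.mul_mod, Nat.even_iff.1 hev, Nat.mul_zero]
        rw [Finset.sum_eq_zero this]
        rfl
      omega
    have h2 : (q ^ r - 1) % 2 = 1 := by
      have : q ^ r % 2 = 0 := by
        obtain ⟨r', rfl⟩ : ∃ r', r = r' + 1 := ⟨r - 1, by omega⟩
        rw [pow_succ, Nat.mul_mod, Nat.even_iff.1 hev, Nat.mul_zero]
      omega
    have g1 : Nat.gcd 2 (∑ i ∈ Finset.range r, q ^ i) = 1 := by
      rw [Nat.gcd_rec, h1]; rfl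
    have g2 : Nat.gcd 2 (q ^ r - 1) = 1 := by
      rw [Nat.gcd_rec, h2]; rfl
    rw [g1, g2, Nat.gcd_one_left]
  · -- q odd: sum ≡ r mod 2, q^r - 1 even
    have h1 : (∑ i ∈ Finset.range r, q ^ i) % 2 = r % 2 := by
      rw [Finset.sum_nat_mod]
      have : ∀ i ∈ Finset.range r, q ^ i % 2 = 1 := by
        intro i _
        rw [Nat.pow_mod, Nat.odd_iff.1 hodd, one_pow]
        rfl
      rw [Finset.sum_congr rfl this, Finset.sum_const, Finset.card_range, smul_eq_mul, mul_one]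
    have h2 : (q ^ r - 1) % 2 = 0 := by
      have : q ^ r % 2 = 1 := by
        rw [Nat.pow_mod, Nat.odd_iff.1 hodd, one_pow]
        rfl
      omega
    have g2 : Nat.gcd 2 (q ^ r - 1) = 2 := by
      rw [Nat.gcd_rec, h2]; rfl
    rw [g2, Nat.gcd_rec 2 (∑ i ∈ Finset.range r, q ^ i), h1, ← Nat.gcd_rec]

/-- **field automorphisms of prime order of `PSp`: centralizer and class splitting** -/
theorem field_aut_centralizer [Fintype F] {p f : ℕ} [Fact p.Prime] (hF : Fintype.card F = p ^ f)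
    (hf : 1 ≤ f) (hm : 2 ≤ m) (x : MulAut (Cfsg.PSp m F)) (hx : Cfsg.IsFieldAutClassPSp x) {r : ℕ}
    (hr : r.Prime) (hxr : orderOf x = r) (F₀ : Type*) [Field F₀] [Fintype F₀]
    (hF₀ : Fintype.card F₀ = p ^ (f / r)) :
    r ∣ f ∧
      Nonempty (↥(Cfsg.inndiagPSp m F ⊓ Subgroup.centralizer {x}) ≃* Cfsg.PGSp m F₀) ∧
      Cfsg.splitClassCount (Cfsg.inndiagPSp m F) (Cfsg.Inn (Cfsg.PSp m F)) x =
        Nat.gcd (Nat.gcd 2 (p ^ f - 1)) r := by
  obtain ⟨α, σ, hσ, hstd⟩ := hx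
  have hαx : α * x * α⁻¹ = fieldAut σ := (isStdField_iff σ _).1 hstd
  have hxeq : x = α⁻¹ * fieldAut σ * α := by
    rw [← hαx]
    group
  have hσr : orderOf σ = r := by
    rw [← hxr, ← orderOf_conj' α x, hαx]
    exact (orderOf_injective fieldAut (fieldAut_injective (by omega)) σ).symm
  obtain ⟨ι, hι⟩ := PN.exists_fixed_embedding hF σ r hr.pos hσr F₀ hF₀
  have hrf : r ∣ f := by
    obtain ⟨e⟩ := PSL2Aut.ringAut_equiv hF hf
    have hcard : Nat.card (F ≃+* F) = f := by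
      rw [Nat.card_congr e.toEquiv]
      show Nat.card (ZMod f) = f
      exact Nat.card_zmod f
    rw [← hσr, ← hcard]
    exact orderOf_dvd_natCard σ
  refine ⟨hrf, ?_, ?_⟩
  · rw [hxeq]
    exact field_centralizer_iso hm α σ r hr.pos hσr ι hι
  · rw [hxeq, field_split_count hF hm α σ r hr.pos hσr hF₀ ι hι]
    exact gcd_two_quot p f r Fact.out hf hr.pos hrf

end Cfsg.Agent.Lib.helper13.PS
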