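import Mathlib
import Cfsg.Prelude.Def_LieTypeDatum
import Cfsg.Agent.Lib.helper13.PSpEven

set_option autoImplicit false
set_option linter.unusedSectionVars false
set_option linter.unusedVariables false
set_option linter.style.longLine false

namespace Cfsg.Agent.Lib.helper13.PS

open Matrix
open Cfsg.Agent.S0766 Cfsg.Agent.S0765 Cfsg.Agent.Lib.helper4
open Cfsg.Agent.Lib.helper25

variable {F : Type*} [Field F] {m : ℕ}

/-- `β` permutes the transvection groups -/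
def Good (β : MulAut (Cfsg.PSp m F)) : Prop := ∀ v : Vm m F, v ≠ 0 → ∃ w, TG β v w

theorem Good.mul {α β : MulAut (Cfsg.PSp m F)} (hα : Good α) (hβ : Good β) : Good (β * α) := by
  intro v hv
  obtain ⟨w, hw⟩ := hα v hv
  obtain ⟨u, hu⟩ := hβ w hw.2.1
  exact ⟨u, TG.mul hw hu⟩

theorem good_conjAut (g : ↥(Cfsg.GSp m F)) : Good (conjAut g : MulAut (Cfsg.PSp m F)) :=
  fun v hv => ⟨_, TG_conjAut g hv⟩

theorem good_fieldAut (σ : F ≃+* F) : Good (fieldAut σ : MulAut (Cfsg.PSp m F)) :=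
  fun v hv => ⟨_, TG_fieldAut σ hv⟩

theorem good_conjAut_inv (g : ↥(Cfsg.GSp m F)) : Good (conjAut g : MulAut (Cfsg.PSp m F))⁻¹ := by
  rw [← map_inv]
  exact good_conjAut _

theorem good_fieldAut_inv (σ : F ≃+* F) : Good (fieldAut σ : MulAut (Cfsg.PSp m F))⁻¹ := by
  rw [← map_inv]
  exact good_fieldAut _

/-- an automorphism permuting the transvection groups is a similitude conjugation times a field
automorphism -/
theorem aut_decomp_good [Fintype F] (hm : 1 ≤ m)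
    (α : MulAut (Cfsg.PSp m F)) (hα : Good α) :
    ∃ (g : ↥(Cfsg.GSp m F)) (σ : F ≃+* F), α = conjAut g * fieldAut σ := by
  classical
  obtain ⟨A, hA⟩ := frame_norm hm α hα
  obtain ⟨α₁, hα₁⟩ : ∃ α₁, α₁ = (conjAut (spToGSp A))⁻¹ * α := ⟨_, rfl⟩
  have h1 : ∀ k, TG α₁ (bv k) (bv k) := by
    intro k
    rw [hα₁]
    exact TG.mul (hA k) (TG_conjSp A (bv_ne k)).inv
  have hα₁g : Good α₁ := by
    rw [hα₁]
    exact Good.mul hα (good_conjAut_inv _)
  obtain ⟨w, hw⟩ := hα₁g (es Finset.univ) (es_univ_ne hm)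
  have hwl : ∀ i, w (Sum.inl i) ≠ 0 := by
    intro i h
    have := (TG.perp hm hw (h1 (Sum.inr i))).2 (by rw [sf_f, h, neg_zero])
    rw [sf_f, es_inl, if_pos (Finset.mem_univ _)] at this
    exact one_ne_zero (neg_eq_zero.1 this)
  have hwr : ∀ i, w (Sum.inr i) = 0 := by
    intro i
    have := (TG.perp hm hw (h1 (Sum.inl i))).1 (by rw [sf_e, es_inr])
    rwa [sf_e] at this
  obtain ⟨d, hddef⟩ : ∃ d : Fin m ⊕ Fin m → F,
      d = fun k => Sum.elim (fun i => w (Sum.inl i)) (fun i => (w (Sum.inl i))⁻¹) k := ⟨_, rfl⟩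
  have hd : ∀ i, d (Sum.inl i) * d (Sum.inr i) = 1 := by
    intro i
    rw [hddef]
    exact mul_inv_cancel₀ (hwl i)
  have hdne : ∀ k, d k ≠ 0 := by
    intro k
    rw [hddef]
    rcases k with i | i
    · exact hwl i
    · exact inv_ne_zero (hwl i)
  obtain ⟨D, hDdef⟩ : ∃ D : Spm m F, D = ⟨Matrix.diagonal d, diag_mem d hd⟩ := ⟨_, rfl⟩
  have hDs : D.1 *ᵥ (es Finset.univ : Vm m F) = w := by
    rw [hDdef]
    funext k
    rw [Matrix.mulVec_diagonal]
    rcases k with i | i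
    · rw [hddef, es_inl, if_pos (Finset.mem_univ _), mul_one]
      rfl
    · rw [es_inr, mul_zero, hwr]
  have hDb : ∀ k, D.1 *ᵥ (bv k : Vm m F) = d k • bv k := by
    intro k
    rw [hDdef]
    funext l
    rw [Matrix.mulVec_diagonal, Pi.smul_apply, smul_eq_mul, bv_apply]
    split_ifs with h
    · rw [h]
    · rw [mul_zero, mul_zero]
  obtain ⟨α₂, hα₂⟩ : ∃ α₂, α₂ = (conjAut (spToGSp D))⁻¹ * α₁ := ⟨_, rfl⟩
  have h2 : ∀ k, TG α₂ (bv k) (bv k) := by
    intro k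
    rw [hα₂]
    have t1 := (TG_conjSp D (bv_ne k)).inv
    rw [hDb] at t1
    exact TG.mul ((h1 k).of_smul (hdne k)) t1
  have h2s : TG α₂ (es Finset.univ) (es Finset.univ) := by
    rw [hα₂]
    have t1 := (TG_conjSp D (es_univ_ne hm)).inv
    rw [hDs] at t1
    exact TG.mul hw t1
  have h3 : ∀ i, ∃ (c : F) (τ : F ≃+* F), c ≠ 0 ∧
      (∀ a, α₂ (tvb (bv (Sum.inl i)) a) = tvb (bv (Sum.inl i)) (c * τ a)) ∧
      (∀ a, α₂ (tvb (bv (Sum.inr i)) a) = tvb (bv (Sum.inr i)) (τ a / c)) := fun i =>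
    pair_rigid hm α₂ _ _ (by rw [sf_e, bv_self]) (h2 _) (h2 _)
  choose c τ hc hce hcf using h3
  obtain ⟨i₀, -⟩ : ∃ i₀ : Fin m, i₀ = ⟨0, hm⟩ := ⟨_, rfl⟩
  have hlink : ∀ i a, τ i a / c i = τ i₀ a / c i₀ := fun i a =>
    link hm α₂ h2s (fun i a => τ i a / c i) hcf i i₀ a
  have hceq : ∀ i, c i = c i₀ := by
    intro i
    have := hlink i 1
    rw [map_one, map_one] at this
    have h1 := hc i
    have h2 := hc i₀
    field_simp at this
    exact this.symm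
  have hτeq : ∀ i a, τ i a = τ i₀ a := by
    intro i a
    have := hlink i a
    rw [hceq i] at this
    have h2 := hc i₀
    field_simp at this
    exact this
  obtain ⟨γ, hγ⟩ : ∃ γ, γ = conjAut (dc (c i₀) (hc i₀) : ↥(Cfsg.GSp m F)) * fieldAut (τ i₀) :=
    ⟨_, rfl⟩
  have hγe : ∀ i a, γ (tvb (bv (Sum.inl i)) a) = tvb (bv (Sum.inl i)) (c i₀ * τ i₀ a) := by
    intro i a
    rw [hγ, MulAut.mul_apply, fieldAut_tvb, map_bv, conjAut_dc_tvb, dc_bv_inl]
    show (QuotientGroup.mk (tv (c i₀ • bv (Sum.inl i)) (τ i₀ a / c i₀)) : Cfsg.PSp m F) =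
      QuotientGroup.mk (tv (bv (Sum.inl i)) (c i₀ * τ i₀ a))
    rw [tv_smul]
    have h2 := hc i₀
    have e : c i₀ * c i₀ * (τ i₀ a / c i₀) = c i₀ * τ i₀ a := by field_simp
    rw [e]
  have hγf : ∀ i a, γ (tvb (bv (Sum.inr i)) a) = tvb (bv (Sum.inr i)) (τ i₀ a / c i₀) := by
    intro i a
    rw [hγ, MulAut.mul_apply, fieldAut_tvb, map_bv, conjAut_dc_tvb, dc_bv_inr]
  have hγs : TG γ (es Finset.univ) (es Finset.univ) := by
    have t1 := TG_fieldAut (m := m) (τ i₀) (es_univ_ne hm)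
    rw [map_es] at t1
    have t2 := TG_conjAut (dc (c i₀) (hc i₀) : ↥(Cfsg.GSp m F)) (es_univ_ne (F := F) hm)
    rw [dc_es] at t2
    have t3 := TG.mul t1 t2
    have t4 := t3.of_smul (inv_ne_zero (hc i₀))
    rw [smul_smul, inv_mul_cancel₀ (hc i₀), one_smul] at t4
    rw [hγ]
    exact t4
  have hinv : ∀ x, γ⁻¹ (γ x) = x := by
    intro x
    rw [← MulAut.mul_apply, inv_mul_cancel]
    rfl
  have hβfix : ∀ (k : Fin m ⊕ Fin m) (a : F), (γ⁻¹ * α₂) (tvb (bv k) a) = tvb (bv k) a := by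
    intro k a
    rw [MulAut.mul_apply]
    rcases k with i | i
    · rw [hce, hceq, hτeq, ← hγe, hinv]
    · rw [hcf, hceq, hτeq, ← hγf, hinv]
  have hβs : TG (γ⁻¹ * α₂) (es Finset.univ) (es Finset.univ) := TG.mul h2s hγs.inv
  have hα₂g : Good α₂ := by
    rw [hα₂]
    exact Good.mul hα₁g (good_conjAut_inv _)
  have hγg : Good γ⁻¹ := by
    rw [hγ, _root_.mul_inv_rev]
    exact Good.mul (good_conjAut_inv _) (good_fieldAut_inv _)
  have hβ1 : γ⁻¹ * α₂ = 1 := fix_all hm _ hβfix hβs (Good.mul hα₂g hγg)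
  refine ⟨spToGSp A * spToGSp D * dc (c i₀) (hc i₀), τ i₀, ?_⟩
  rw [map_mul, map_mul, mul_assoc, ← hγ]
  have e1 : α₂ = γ := by
    rw [inv_mul_eq_one] at hβ1
    exact hβ1.symm
  rw [← e1, hα₂, hα₁]
  group

/-- an automorphism mapping one transvection group to a transvection group permutes them all -/
theorem good_of_base {n : ℕ} (β : MulAut (Cfsg.PSp (n + 2) F))
    (h : ∃ w, TG β (bv (Sum.inl 0)) w) : Good β := by
  intro v hv
  obtain ⟨w, hw⟩ := h
  obtain ⟨A, hA⟩ := Cfsg.Agent.S0271.result (n + 2) (bv (Sum.inl 0) : Vm (n + 2) F) v (bv_ne _) hv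
  obtain ⟨B, hB⟩ := exists_rep (β (QuotientGroup.mk A))
  refine ⟨B.1 *ᵥ w, ?_⟩
  have := hw.conj A B hB
  rw [← hA]
  exact this

end Cfsg.Agent.Lib.helper13.PS
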