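import Mathlib
import Cfsg.Prelude.Def_LieTypeDatum
import Cfsg.Agent.Lib.helper13.PSpGood

set_option autoImplicit false
set_option linter.unusedSectionVars false
set_option linter.unusedVariables false
set_option linter.style.longLine false

namespace Cfsg.Agent.Lib.helper13.PS

open Matrix
open Cfsg.Agent.S0766 Cfsg.Agent.S0765 Cfsg.Agent.Lib.helper4
open Cfsg.Agent.Lib.helper25

variable {F : Type*} [Field F] {m : ℕ}

/-! ### instance shortcuts (instance search over `Fin (n + 2)` is slow) -/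

instance pspGroupAdd {n : ℕ} : Group (Cfsg.PSp (n + 2) F) :=
  QuotientGroup.Quotient.group (Subgroup.center (Spm (n + 2) F))

instance pspInvAdd {n : ℕ} : Inv (Cfsg.PSp (n + 2) F) := pspGroupAdd.toInv

instance pspOneAdd {n : ℕ} : One (Cfsg.PSp (n + 2) F) := pspGroupAdd.toOne

theorem not_P4_mixed [Finite F] (h2 : (2 : F) = 0) {n : ℕ}
    (t t' : F) (ht : t ≠ 0) (ht' : t' ≠ 0)
    (hs : (Matrix.single (0 : Fin (n + 2)) 0 t + (Matrix.single 0 1 t' + Matrix.single 1 0 t'))ᵀ =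
      Matrix.single (0 : Fin (n + 2)) 0 t + (Matrix.single 0 1 t' + Matrix.single 1 0 t')) :
    ¬ P4 (QuotientGroup.mk (SpUni.uu _ hs) : Cfsg.PSp (n + 2) F) := by
  intro hP
  have h01 : (0 : Fin (n + 2)) ≠ 1 := Fin.zero_ne_one
  have hj0 : (1 : Fin (n + 2)) ≠ 0 := h01.symm
  obtain ⟨A, hA⟩ : ∃ A : Spm (n + 2) F, A = SpUni.lv (1 + Matrix.single (1 : Fin (n + 2)) 0 1)
      (1 - Matrix.single 0 (1 : Fin (n + 2)) 1) (SpUni.tv_transpose_mul hj0 1) := ⟨_, rfl⟩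
  obtain ⟨L, hL⟩ : ∃ L : Spm (n + 2) F, L = SpUni.lv (1 + Matrix.single 0 1 t')
      (1 - Matrix.single 1 0 t') (SpUni.tv_transpose_mul h01 t') := ⟨_, rfl⟩
  have hz : SpUni.uu _ hs = SpUni.uu (Matrix.single (0 : Fin (n + 2)) 0 t) (SpUni.sym_single 0 t) *
      SpUni.uu (Matrix.single 0 1 t' + Matrix.single 1 0 t') (SpUni.sym_pair 0 1 t') := by
    rw [SpUni.uu_mul]
  have e1 := SpUni.lv_conj_uu (1 + Matrix.single (1 : Fin (n + 2)) 0 (1 : F)) (1 - Matrix.single 0 (1 : Fin (n + 2)) 1)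
    (SpUni.tv_transpose_mul hj0 1) _ hs
  rw [← hA] at e1
  have c1 : SpUni.wj 1 * SpUni.uu (Matrix.single (0 : Fin (n + 2)) 0 t) (SpUni.sym_single 0 t) =
      SpUni.uu (Matrix.single (0 : Fin (n + 2)) 0 t) (SpUni.sym_single 0 t) * SpUni.wj 1 := by
    rw [uu_single_eq_tv', tv_conj, wj_fix_e 0 1 h01]
  have c2 : SpUni.wj 1 * SpUni.uu (Matrix.single (0 : Fin (n + 2)) 1 t' + Matrix.single 1 0 t')
      (SpUni.sym_pair 0 1 t') = L * SpUni.wj 1 := by
    rw [hL]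
    exact SpUni.wj_mul_uu h01 t'
  have e2 : SpUni.wj 1 * SpUni.uu _ hs * (SpUni.wj 1)⁻¹ =
      SpUni.uu (Matrix.single (0 : Fin (n + 2)) 0 t) (SpUni.sym_single 0 t) * L := by
    rw [hz]
    calc SpUni.wj 1 * (SpUni.uu (Matrix.single (0 : Fin (n + 2)) 0 t) (SpUni.sym_single 0 t) *
          SpUni.uu (Matrix.single 0 1 t' + Matrix.single 1 0 t') (SpUni.sym_pair 0 1 t')) *
          (SpUni.wj 1)⁻¹
        = (SpUni.wj 1 * SpUni.uu (Matrix.single (0 : Fin (n + 2)) 0 t) (SpUni.sym_single 0 t)) *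
          SpUni.uu (Matrix.single 0 1 t' + Matrix.single 1 0 t') (SpUni.sym_pair 0 1 t') *
          (SpUni.wj 1)⁻¹ := by group
      _ = SpUni.uu (Matrix.single (0 : Fin (n + 2)) 0 t) (SpUni.sym_single 0 t) *
          (SpUni.wj 1 * SpUni.uu (Matrix.single 0 1 t' + Matrix.single 1 0 t')
            (SpUni.sym_pair 0 1 t')) * (SpUni.wj 1)⁻¹ := by rw [c1]; group
      _ = _ := by rw [c2]; group
  obtain ⟨S, hSdef⟩ : ∃ S : Matrix (Fin (n + 2)) (Fin (n + 2)) F,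
      S = (1 + Matrix.single (1 : Fin (n + 2)) 0 1) * (Matrix.single (0 : Fin (n + 2)) 0 t +
        (Matrix.single 0 1 t' + Matrix.single 1 0 t')) * (1 + Matrix.single (1 : Fin (n + 2)) 0 1)ᵀ +
        Matrix.single 0 0 t := ⟨_, rfl⟩
  have hS : Sᵀ = S := by
    rw [hSdef, Matrix.transpose_add, Matrix.transpose_mul, Matrix.transpose_mul,
      Matrix.transpose_transpose, hs, Matrix.mul_assoc, SpUni.sym_single]
  have e3 : A * SpUni.uu _ hs * A⁻¹ * (SpUni.wj 1 * SpUni.uu _ hs * (SpUni.wj 1)⁻¹) =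
      SpUni.uu S hS * L := by
    rw [e1, e2, ← mul_assoc, SpUni.uu_mul]
    congr 1
    exact SpUni.uu_congr hSdef.symm _ _
  have hLL : L * L = 1 := by
    rw [hL]
    apply Subtype.ext
    rw [SpUni.val_mul', SpUni.lv_val, Matrix.fromBlocks_multiply]
    have a1 : (1 + Matrix.single (0 : Fin (n + 2)) (1 : Fin (n + 2)) t') *
        (1 + Matrix.single (0 : Fin (n + 2)) (1 : Fin (n + 2)) t') = 1 := by
      rw [mul_add, add_mul, add_mul, one_mul, mul_one, one_mul,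
        Matrix.single_mul_single_of_ne _ _ _ _ h01.symm, add_zero, add_assoc,
        ← Matrix.single_add, ← two_mul, h2, zero_mul, Matrix.single_zero, add_zero]
    have a2 : (1 - Matrix.single (1 : Fin (n + 2)) (0 : Fin (n + 2)) t') *
        (1 - Matrix.single (1 : Fin (n + 2)) (0 : Fin (n + 2)) t') = 1 := by
      rw [mul_sub, sub_mul, sub_mul, one_mul, mul_one, one_mul,
        Matrix.single_mul_single_of_ne _ _ _ _ h01, sub_zero, sub_sub,
        ← Matrix.single_add, ← two_mul, h2, zero_mul, Matrix.single_zero, sub_zero]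
    simp only [a1, a2, mul_zero, zero_mul, add_zero, zero_add]
    exact Matrix.fromBlocks_one
  have hLu := SpUni.lv_mul_uu (1 + Matrix.single (0 : Fin (n + 2)) (1 : Fin (n + 2)) t')
    (1 - Matrix.single (1 : Fin (n + 2)) (0 : Fin (n + 2)) t') (SpUni.tv_transpose_mul h01 t') S hS
  rw [← hL] at hLu
  obtain ⟨R, hRdef⟩ : ∃ R : Matrix (Fin (n + 2)) (Fin (n + 2)) F,
      R = S + (1 + Matrix.single (0 : Fin (n + 2)) (1 : Fin (n + 2)) t') * S *
        (1 + Matrix.single (0 : Fin (n + 2)) (1 : Fin (n + 2)) t')ᵀ := ⟨_, rfl⟩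
  have hR : Rᵀ = R := by
    rw [hRdef, Matrix.transpose_add, Matrix.transpose_mul, Matrix.transpose_mul,
      Matrix.transpose_transpose, hS, Matrix.mul_assoc]
  have hQ2 : (SpUni.uu S hS * L) ^ 2 = SpUni.uu R hR := by
    rw [pow_two]
    have g1 : SpUni.uu S hS * L * (SpUni.uu S hS * L) =
        SpUni.uu S hS * (L * SpUni.uu S hS) * L := by group
    have g2 : ∀ a b c : Spm (n + 2) F, a * (b * c) * c = a * b * (c * c) := fun a b c => by group
    rw [g1, hLu, g2, hLL, mul_one, SpUni.uu_mul]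
    exact SpUni.uu_congr hRdef.symm _ _
  have hQ4 : (SpUni.uu S hS * L) ^ 4 = 1 := by
    have : (SpUni.uu S hS * L) ^ 4 = ((SpUni.uu S hS * L) ^ 2) ^ 2 := by
      rw [← pow_mul]
    rw [this, hQ2, pow_two, SpUni.uu_mul]
    have hRR : R + R = 0 := by rw [← two_smul F R, h2, zero_smul]
    rw [SpUni.uu_congr hRR _ (by rw [Matrix.transpose_zero])]
    exact SpUni.uu_zero _
  have h5 := hP (QuotientGroup.mk A) (QuotientGroup.mk (SpUni.wj 1))
  rw [← QuotientGroup.mk_inv, ← QuotientGroup.mk_inv, ← QuotientGroup.mk_mul, ← QuotientGroup.mk_mul,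
    ← QuotientGroup.mk_mul, ← QuotientGroup.mk_mul, ← QuotientGroup.mk_mul, e3,
    ← QuotientGroup.mk_pow, ← QuotientGroup.mk_pow, hQ4, hQ2] at h5
  have h6 := h5 rfl
  rw [QuotientGroup.eq_one_iff] at h6
  have h7 := SpUni.UUs_inf_center (by omega) (SpUni.uu R hR)
    (SpUni.QQ_le_UUs (SpUni.uu_mem_QQ _ _)) h6
  have h8 := congrArg (fun x : Spm (n + 2) F => x.1 (Sum.inl 0) (Sum.inr 1)) h7
  simp only [SpUni.uu_val, Matrix.fromBlocks_apply₁₂] at h8
  have h9 : (1 : Spm (n + 2) F).1 (Sum.inl 0) (Sum.inr 1) = 0 := by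
    show (1 : Mm (n + 2) F) (Sum.inl 0) (Sum.inr 1) = 0
    rw [Matrix.one_apply_ne (by simp)]
  rw [h9, hRdef, hSdef] at h8
  rw [Matrix.transpose_add, Matrix.transpose_one, Matrix.transpose_single,
    Matrix.transpose_add, Matrix.transpose_one, Matrix.transpose_single] at h8
  simp [Matrix.add_mul, Matrix.mul_add, h01, h01.symm] at h8
  have h10 : t' * t = 0 := by linear_combination h8 - (t' + t + t' * t') * h2
  rcases mul_eq_zero.1 h10 with h | h
  · exact ht' h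
  · exact ht h

/-- the short root elements in the centre of the Sylow subgroup -/
noncomputable def shb {n : ℕ} (s : F) : Cfsg.PSp (n + 2) F :=
  QuotientGroup.mk (SpUni.uu (Matrix.single (0 : Fin (n + 2)) 1 s + Matrix.single 1 0 s)
    (SpUni.sym_pair 0 1 s))

theorem sym_mixed {n : ℕ} (t s : F) :
    (Matrix.single (0 : Fin (n + 2)) 0 t + (Matrix.single 0 1 s + Matrix.single 1 0 s))ᵀ =
      Matrix.single (0 : Fin (n + 2)) 0 t + (Matrix.single 0 1 s + Matrix.single 1 0 s) := by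
  rw [Matrix.transpose_add, SpUni.sym_single, SpUni.sym_pair]

theorem tvb_mul_shb [Fintype F] {n : ℕ} (t s : F)
    (hs : (Matrix.single (0 : Fin (n + 2)) 0 t + (Matrix.single 0 1 s + Matrix.single 1 0 s))ᵀ =
      Matrix.single (0 : Fin (n + 2)) 0 t + (Matrix.single 0 1 s + Matrix.single 1 0 s)) :
    (tvb (bv (Sum.inl 0)) t : Cfsg.PSp (n + 2) F) * shb s = QuotientGroup.mk (SpUni.uu _ hs) := by
  show (QuotientGroup.mk (tv (bv (Sum.inl 0)) t) : Cfsg.PSp (n + 2) F) * QuotientGroup.mk _ = _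
  rw [← QuotientGroup.mk_mul, ← uu_single_eq_tv t (SpUni.sym_single 0 t), SpUni.uu_mul]

theorem not_P4_mixed' [Fintype F] (h2 : (2 : F) = 0) {n : ℕ} (t s : F) (ht : t ≠ 0) (hs : s ≠ 0) :
    ¬ P4 ((tvb (bv (Sum.inl 0)) t : Cfsg.PSp (n + 2) F) * shb s) := by
  rw [tvb_mul_shb t s (sym_mixed t s)]
  exact not_P4_mixed h2 t s ht hs _

theorem shb_zero {n : ℕ} : (shb (0 : F) : Cfsg.PSp (n + 2) F) = 1 := by
  unfold shb
  have h0 : Matrix.single (0 : Fin (n + 2)) (1 : Fin (n + 2)) (0 : F) +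
      Matrix.single (1 : Fin (n + 2)) (0 : Fin (n + 2)) 0 = 0 := by
    rw [Matrix.single_zero, Matrix.single_zero, add_zero]
  rw [SpUni.uu_congr h0 _ (Matrix.transpose_zero), SpUni.uu_zero]
  rfl

theorem Zc_form [Fintype F] {n : ℕ} (z : Cfsg.PSp (n + 2) F) (hz : z ∈ PN.Zc (Ub (n + 2) F)) :
    ∃ t s : F, z = tvb (bv (Sum.inl 0)) t * shb s := by
  obtain ⟨⟨z₀, hz₀, rfl⟩, hc⟩ := hz
  have hzc : ∀ u ∈ SpUni.UUs (n + 2) F, u * z₀ = z₀ * u := by
    intro u hu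
    have := hc (QuotientGroup.mk u) ⟨u, hu, rfl⟩
    apply mk_injOn_UUs (by omega) (mul_mem hu hz₀) (mul_mem hz₀ hu)
    show QuotientGroup.mk' _ (u * z₀) = QuotientGroup.mk' _ (z₀ * u)
    rw [map_mul, map_mul]
    exact this.symm
  obtain ⟨t, t', hs, rfl⟩ := SpUni.central_form z₀ hz₀ hzc
  exact ⟨t, t', (tvb_mul_shb t t' hs).symm⟩

/-- a conjugate of a non-trivial short root element is not a transvection (characteristic two) -/
theorem shb_conj_ne_tvb (h2 : (2 : F) = 0) {n : ℕ} (s : F) (hs : s ≠ 0) (k : Cfsg.PSp (n + 2) F)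
    (v : Vm (n + 2) F) (c : F) : k * shb s * k⁻¹ ≠ tvb v c := by
  intro h
  obtain ⟨k₀, rfl⟩ := exists_rep k
  have h1 : (shb s : Cfsg.PSp (n + 2) F) = tvb ((k₀⁻¹ : Spm (n + 2) F).1 *ᵥ v) c := by
    rw [← conj_tvb k₀⁻¹ v c, ← h, QuotientGroup.mk_inv]
    group
  obtain ⟨w, hw⟩ : ∃ w, w = (k₀⁻¹ : Spm (n + 2) F).1 *ᵥ v := ⟨_, rfl⟩
  rw [← hw] at h1
  have hneg : ∀ y : F, -y = y := by
    intro y
    have : y + y = 0 := by rw [← two_mul, h2, zero_mul]
    exact neg_eq_of_add_eq_zero_left this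
  have h3 : (SpUni.uu (Matrix.single (0 : Fin (n + 2)) 1 s + Matrix.single 1 0 s)
      (SpUni.sym_pair 0 1 s) : Spm (n + 2) F).1 = (tv w c).1 := by
    rcases (mk_eq_iff (by omega) _ _).1 h1 with h | h
    · exact h
    · rw [h]
      ext i j
      rw [Matrix.neg_apply, hneg]
  rw [SpUni.uu_val, tv_val] at h3
  have h01 : (0 : Fin (n + 2)) ≠ 1 := Fin.zero_ne_one
  have e01 := congrFun (congrFun h3 (Sum.inl 0)) (Sum.inr 1)
  have e10 := congrFun (congrFun h3 (Sum.inl 1)) (Sum.inr 0)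
  have e00 := congrFun (congrFun h3 (Sum.inl 0)) (Sum.inr 0)
  have e11 := congrFun (congrFun h3 (Sum.inl 1)) (Sum.inr 1)
  simp [Cfsg.sympTransvection, Matrix.vecMulVec_apply, h01, h01.symm] at e01 e10 e00 e11
  rcases e00 with hc | hw0 | hJ0
  · rw [hc, zero_mul] at e01
    exact hs e01
  · rw [hw0, zero_mul, mul_zero] at e01
    exact hs e01
  · rw [hJ0, mul_zero, mul_zero] at e10
    exact hs e10

theorem shb_eq_one (h2 : (2 : F) = 0) {n : ℕ} {s : F} (h : (shb s : Cfsg.PSp (n + 2) F) = 1) :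
    s = 0 := by
  by_contra hs
  apply shb_conj_ne_tvb h2 s hs (1 : Cfsg.PSp (n + 2) F) (bv (Sum.inl 0)) 0
  rw [one_mul, inv_one, mul_one, h, tvb_zero]

theorem tvb_eq_shb (h2 : (2 : F) = 0) {n : ℕ} {t s : F}
    (h : (tvb (bv (Sum.inl 0)) t : Cfsg.PSp (n + 2) F) = shb s) : t = 0 ∧ s = 0 := by
  have hs : s = 0 := by
    by_contra hs
    apply shb_conj_ne_tvb h2 s hs (1 : Cfsg.PSp (n + 2) F) (bv (Sum.inl 0)) t
    rw [one_mul, inv_one, mul_one, h]
  subst hs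
  rw [shb_zero] at h
  exact ⟨tvb_eq_one (by omega) (bv_ne _) h, rfl⟩

/-- an automorphism stabilising the centre of the Sylow subgroup either stabilises the long root
group or swaps it with the short root group -/
theorem zc_dichotomy [Fintype F] (h2 : (2 : F) = 0) {n : ℕ} (γ : MulAut (Cfsg.PSp (n + 2) F))
    (hγ : ∀ z ∈ PN.Zc (Ub (n + 2) F), γ z ∈ PN.Zc (Ub (n + 2) F)) :
    (∀ t : F, ∃ s : F, γ (tvb (bv (Sum.inl 0)) t) = tvb (bv (Sum.inl 0)) s) ∨
    ((∀ t : F, ∃ s : F, γ (tvb (bv (Sum.inl 0)) t) = shb s) ∧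
     (∀ s : F, ∃ t : F, γ (shb s) = tvb (bv (Sum.inl 0)) t)) := by
  have hm1 : 1 ≤ n + 2 := by omega
  have hTS : ∀ t : F, tvb (bv (Sum.inl (0 : Fin (n + 2))) : Vm (n + 2) F) t ∈ PN.Zc (Ub (n + 2) F) := by
    intro t
    refine ⟨⟨tv (bv (Sum.inl 0)) t, tv_e0_mem t, rfl⟩, ?_⟩
    rintro _ ⟨u, hu, rfl⟩
    show (QuotientGroup.mk (tv (bv (Sum.inl 0)) t) : Cfsg.PSp (n + 2) F) * QuotientGroup.mk u =
      QuotientGroup.mk u * QuotientGroup.mk (tv (bv (Sum.inl 0)) t)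
    rw [← QuotientGroup.mk_mul, ← QuotientGroup.mk_mul, tv_conj u, UUs_fix_e0 u hu]
  have key : ∀ z ∈ PN.Zc (Ub (n + 2) F), P4 z →
      (∃ t : F, z = tvb (bv (Sum.inl 0)) t) ∨ (∃ s : F, z = shb s) := by
    intro z hz hP
    obtain ⟨t, s, rfl⟩ := Zc_form z hz
    by_cases ht : t = 0
    · right
      exact ⟨s, by rw [ht, tvb_zero, one_mul]⟩
    · by_cases hs : s = 0
      · left
        exact ⟨t, by rw [hs, shb_zero, mul_one]⟩
      · exact absurd hP (not_P4_mixed' h2 t s ht hs)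
  have hPT : ∀ t : F, P4 (γ (tvb (bv (Sum.inl (0 : Fin (n + 2))) : Vm (n + 2) F) t)) :=
    fun t => (P4_map γ _).2 (tvb_P4 hm1 h2 _ _)
  by_cases hall : ∀ t : F, ∃ s : F, γ (tvb (bv (Sum.inl 0)) t) = tvb (bv (Sum.inl 0)) s
  · exact Or.inl hall
  · right
    push Not at hall
    obtain ⟨t₁, ht₁⟩ := hall
    obtain ⟨b₁, hb₁⟩ : ∃ b₁ : F, γ (tvb (bv (Sum.inl 0)) t₁) = shb b₁ := by
      rcases key _ (hγ _ (hTS t₁)) (hPT t₁) with ⟨s, hs⟩ | h
      · exact absurd hs (ht₁ s)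
      · exact h
    have hb₁0 : b₁ ≠ 0 := by
      rintro rfl
      rw [shb_zero] at hb₁
      exact ht₁ 0 (by rw [hb₁, tvb_zero])
    have hA : ∀ t : F, ∃ s : F, γ (tvb (bv (Sum.inl 0)) t) = shb s := by
      intro t
      rcases key _ (hγ _ (hTS t)) (hPT t) with ⟨a, ha⟩ | h
      · by_cases ha0 : a = 0
        · exact ⟨0, by rw [ha, ha0, tvb_zero, shb_zero]⟩
        · exfalso
          have h1 : γ (tvb (bv (Sum.inl 0)) (t + t₁)) = tvb (bv (Sum.inl 0)) a * shb b₁ := by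
            rw [tvb_add, map_mul, ha, hb₁]
          have h3 := hPT (t + t₁)
          rw [h1] at h3
          exact not_P4_mixed' h2 a b₁ ha0 hb₁0 h3
      · exact h
    refine ⟨hA, ?_⟩
    choose f hf using hA
    have hfinj : Function.Injective f := by
      intro a b hab
      have : γ (tvb (bv (Sum.inl 0)) a) = γ (tvb (bv (Sum.inl 0)) b) := by rw [hf, hf, hab]
      exact tvb_inj hm1 (bv_ne _) (γ.injective this)
    have hfsurj : Function.Surjective f := Finite.injective_iff_surjective.1 hfinj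
    intro s
    obtain ⟨t, rfl⟩ := hfsurj s
    have hz : (shb (f t) : Cfsg.PSp (n + 2) F) ∈ PN.Zc (Ub (n + 2) F) := by
      rw [← hf]
      exact hγ _ (hTS t)
    have hP : P4 (γ (shb (f t) : Cfsg.PSp (n + 2) F)) := by
      rw [← hf]
      exact (P4_map γ _).2 (hPT t)
    rcases key _ (hγ _ hz) hP with h | ⟨b, hb⟩
    · exact h
    · obtain ⟨t'', rfl⟩ := hfsurj b
      rw [← hf t''] at hb
      have h3 := γ.injective hb
      obtain ⟨h4, h5⟩ := tvb_eq_shb h2 h3.symm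
      refine ⟨0, ?_⟩
      rw [h5, shb_zero, map_one, tvb_zero]


/-- in characteristic two, an automorphism of odd order, or one fixing a transvection, maps the
long root group to a transvection group -/
theorem base_of_special [Fintype F] (p : ℕ) [Fact p.Prime] [CharP F p] (h2 : (2 : F) = 0) {n : ℕ}
    (β : MulAut (Cfsg.PSp (n + 2) F))
    (hβ : (∃ k : ℕ, Odd k ∧ β ^ k = 1) ∨
      β (tvb (bv (Sum.inl 0)) 1) = tvb (bv (Sum.inl 0)) 1) :
    ∃ w, TG β (bv (Sum.inl 0)) w := by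
  have hm1 : 1 ≤ n + 2 := by omega
  obtain ⟨hP, hidx⟩ := Ub_sylow (m := n + 2) (F := F) p (by omega)
  obtain ⟨g, hg⟩ := aut_sylow_conj p (Ub (n + 2) F) hP hidx β
  obtain ⟨g₀, rfl⟩ := QuotientGroup.mk_surjective g
  have hZ : β '' PN.Zc (Ub (n + 2) F) =
      (MulAut.conj (QuotientGroup.mk g₀ : Cfsg.PSp (n + 2) F)) '' PN.Zc (Ub (n + 2) F) := by
    rw [← PN.Zc_map, ← PN.Zc_map, hg]
  obtain ⟨γ, hγdef⟩ : ∃ γ : MulAut (Cfsg.PSp (n + 2) F),
      γ = (MulAut.conj (QuotientGroup.mk g₀ : Cfsg.PSp (n + 2) F))⁻¹ * β := ⟨_, rfl⟩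
  have hβγ : ∀ y, β y = QuotientGroup.mk g₀ * γ y * (QuotientGroup.mk g₀ : Cfsg.PSp (n + 2) F)⁻¹ := by
    intro y
    rw [hγdef, MulAut.mul_apply, MulAut.conj_inv_apply]
    group
  have hγZ : ∀ z ∈ PN.Zc (Ub (n + 2) F), γ z ∈ PN.Zc (Ub (n + 2) F) := by
    intro z hz
    have h1 : β z ∈ β '' PN.Zc (Ub (n + 2) F) := ⟨z, hz, rfl⟩
    rw [hZ] at h1
    obtain ⟨z', hz', e⟩ := h1
    have e2 : γ z = z' := by
      rw [hγdef, MulAut.mul_apply, ← e, MulAut.conj_inv_apply, MulAut.conj_apply]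
      group
    rw [e2]
    exact hz'
  rcases zc_dichotomy h2 γ hγZ with hT | ⟨hTS, hST⟩
  · refine ⟨g₀.1 *ᵥ bv (Sum.inl 0), bv_ne _, sp_mulVec_ne g₀ (bv_ne _), ?_⟩
    rw [range_conj]
    choose f hf using hT
    have hfinj : Function.Injective f := by
      intro a b hab
      have : γ (tvb (bv (Sum.inl 0)) a) = γ (tvb (bv (Sum.inl 0)) b) := by rw [hf, hf, hab]
      exact tvb_inj hm1 (bv_ne _) (γ.injective this)
    have hfsurj : Function.Surjective f := Finite.injective_iff_surjective.1 hfinj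
    ext y
    constructor
    · rintro ⟨_, ⟨t, rfl⟩, rfl⟩
      exact ⟨tvb (bv (Sum.inl 0)) (f t), ⟨_, rfl⟩, by rw [hβγ, hf]⟩
    · rintro ⟨_, ⟨s, rfl⟩, rfl⟩
      obtain ⟨t, rfl⟩ := hfsurj s
      exact ⟨tvb (bv (Sum.inl 0)) t, ⟨_, rfl⟩, by rw [hβγ, hf]⟩
  · exfalso
    rcases hβ with ⟨k, hk, hβk⟩ | hfix
    · have hTtoS : ∀ y : Cfsg.PSp (n + 2) F,
          (∃ (u : Cfsg.PSp (n + 2) F) (t : F), t ≠ 0 ∧ y = u * (tvb (bv (Sum.inl 0)) t : Cfsg.PSp (n + 2) F) * u⁻¹) →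
          ∃ (u : Cfsg.PSp (n + 2) F) (s : F), s ≠ 0 ∧ β y = u * (shb s : Cfsg.PSp (n + 2) F) * u⁻¹ := by
        rintro _ ⟨u, t, ht, rfl⟩
        obtain ⟨s, hs⟩ := hTS t
        refine ⟨β u * QuotientGroup.mk g₀, s, ?_, ?_⟩
        · rintro rfl
          rw [shb_zero] at hs
          have h1 : tvb (bv (Sum.inl 0)) t = (1 : Cfsg.PSp (n + 2) F) :=
            γ.injective (by rw [hs, map_one])
          exact ht (tvb_eq_one hm1 (bv_ne _) h1)
        · rw [map_mul, map_mul, map_inv, hβγ (tvb (bv (Sum.inl 0)) t), hs]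
          group
      have hStoT : ∀ y : Cfsg.PSp (n + 2) F,
          (∃ (u : Cfsg.PSp (n + 2) F) (s : F), s ≠ 0 ∧ y = u * (shb s : Cfsg.PSp (n + 2) F) * u⁻¹) →
          ∃ (u : Cfsg.PSp (n + 2) F) (t : F), t ≠ 0 ∧ β y = u * (tvb (bv (Sum.inl 0)) t : Cfsg.PSp (n + 2) F) * u⁻¹ := by
        rintro _ ⟨u, s, hs, rfl⟩
        obtain ⟨t, ht⟩ := hST s
        refine ⟨β u * QuotientGroup.mk g₀, t, ?_, ?_⟩
        · rintro rfl
          rw [tvb_zero] at ht
          have h1 : (shb s : Cfsg.PSp (n + 2) F) = 1 := γ.injective (by rw [ht, map_one])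
          exact hs (shb_eq_one h2 h1)
        · rw [map_mul, map_mul, map_inv, hβγ (shb s), ht]
          group
      have hiter : ∀ (j : ℕ) (y : Cfsg.PSp (n + 2) F),
          (∃ (u : Cfsg.PSp (n + 2) F) (t : F), t ≠ 0 ∧ y = u * (tvb (bv (Sum.inl 0)) t : Cfsg.PSp (n + 2) F) * u⁻¹) →
          ∃ (u : Cfsg.PSp (n + 2) F) (t : F), t ≠ 0 ∧
            (β ^ (2 * j)) y = u * (tvb (bv (Sum.inl 0)) t : Cfsg.PSp (n + 2) F) * u⁻¹ := by
        intro j
        induction j with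
        | zero =>
          intro y hy
          rw [mul_zero, pow_zero]
          exact hy
        | succ j ih =>
          intro y hy
          have e : β ^ (2 * (j + 1)) = β * (β * β ^ (2 * j)) := by
            rw [← pow_succ', ← pow_succ']
            congr 1
          rw [e, MulAut.mul_apply, MulAut.mul_apply]
          exact hStoT _ (hTtoS _ (ih y hy))
      obtain ⟨j, rfl⟩ := hk
      have h1 := hTtoS _ (hiter j (tvb (bv (Sum.inl 0)) 1) ⟨1, 1, one_ne_zero, by group⟩)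
      rw [← MulAut.mul_apply, ← pow_succ', hβk, MulAut.one_apply] at h1
      obtain ⟨u, s, hs, e⟩ := h1
      exact shb_conj_ne_tvb h2 s hs u _ _ e.symm
    · obtain ⟨s, hs⟩ := hTS 1
      have hs0 : s ≠ 0 := by
        rintro rfl
        rw [shb_zero] at hs
        have h1 : tvb (bv (Sum.inl 0)) (1 : F) = (1 : Cfsg.PSp (n + 2) F) :=
          γ.injective (by rw [hs, map_one])
        exact one_ne_zero (tvb_eq_one hm1 (bv_ne _) h1)
      have e := hβγ (tvb (bv (Sum.inl 0)) 1)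
      rw [hfix, hs] at e
      exact shb_conj_ne_tvb h2 s hs0 _ _ _ e.symm

/-- automorphisms of odd order, or fixing a transvection, lie in `PΓSp` (any `m ≥ 2`) -/
theorem aut_decomp_special [Fintype F] (p : ℕ) [Fact p.Prime] [CharP F p] {n : ℕ}
    (β : MulAut (Cfsg.PSp (n + 2) F))
    (hβ : (∃ k : ℕ, Odd k ∧ β ^ k = 1) ∨
      β (tvb (bv (Sum.inl 0)) 1) = tvb (bv (Sum.inl 0)) 1) :
    ∃ (g : ↥(Cfsg.GSp (n + 2) F)) (σ : F ≃+* F), β = conjAut g * fieldAut σ := by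
  by_cases h2 : (2 : F) = 0
  · exact aut_decomp_good (by omega) β (good_of_base β (base_of_special p h2 β hβ))
  · exact aut_decomp_odd p h2 (by omega) β

end Cfsg.Agent.Lib.helper13.PS
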