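import Mathlib
import Cfsg.Prelude.Def_LieTypeDatum
import Cfsg.Prelude.Def_KGroupFacts
import Cfsg.Agent.Lib.helper13.PSpCent
import Cfsg.Agent.Lib.helper13.PSpFour
import Cfsg.Agent.Lib.helper4.SpSimple

set_option autoImplicit false
set_option linter.unusedSectionVars false
set_option linter.unusedVariables false
set_option linter.style.longLine false

namespace Cfsg.Agent.Lib.helper13.PS

open Matrix
open Cfsg.Agent.S0766 Cfsg.Agent.S0765 Cfsg.Agent.Lib.helper4

variable {F : Type*} [Field F] {m : ℕ}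

/-! ### extension of scalars on `Sp` -/

/-- extension of scalars on symplectic matrices -/
def spι {F₀ : Type*} [Field F₀] (ι : F₀ →+* F) : Spm m F₀ →* Spm m F where
  toFun s := ⟨s.1.map ι, by
    rw [SymplecticGroup.mem_iff]
    have h := congrArg (fun M : Mm m F₀ => M.map ι) (SymplecticGroup.mem_iff.1 s.2)
    simp only [Matrix.map_mul, Matrix.transpose_map, J_mapι] at h
    exact h⟩
  map_one' := Subtype.ext (Matrix.map_one _ (map_zero ι) (map_one ι))
  map_mul' a b := Subtype.ext (Matrix.map_mul)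

theorem spι_coe {F₀ : Type*} [Field F₀] (ι : F₀ →+* F) (s : Spm m F₀) :
    (spι ι s).1 = s.1.map ι := rfl

theorem mapι_spToGSp {F₀ : Type*} [Field F₀] (ι : F₀ →+* F) (s : Spm m F₀) :
    mapι ι (spToGSp s) = spToGSp (spι ι s) := by
  apply Subtype.ext
  apply Units.ext
  rfl

theorem spι_tv {F₀ : Type*} [Field F₀] (ι : F₀ →+* F) (v : Vm m F₀) (c : F₀) :
    spι ι (tv v c) = tv (fun i => ι (v i)) (ι c) := by
  apply Subtype.ext
  show (Cfsg.sympTransvection m v c).map ι = Cfsg.sympTransvection m (fun i => ι (v i)) (ι c)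
  unfold Cfsg.sympTransvection
  ext i j
  rw [Matrix.map_apply, Matrix.add_apply, Matrix.add_apply, Matrix.smul_apply, Matrix.smul_apply,
    Matrix.vecMulVec_apply, Matrix.vecMulVec_apply, map_add, smul_eq_mul, smul_eq_mul, map_mul,
    map_mul, RingHom.map_mulVec, J_mapι, Matrix.one_apply, Matrix.one_apply]
  congr 1
  split_ifs <;> simp

theorem spι_injective {F₀ : Type*} [Field F₀] (ι : F₀ →+* F) :
    Function.Injective (spι ι : Spm m F₀ →* Spm m F) := by
  intro a b h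
  apply Subtype.ext
  have h1 : a.1.map ι = b.1.map ι := congrArg Subtype.val h
  ext i j
  have h2 := congrFun (congrFun h1 i) j
  exact ι.injective h2

theorem exists_sp_of_fixed {F₀ : Type*} [Field F₀] (ι : F₀ →+* F) (σ : F ≃+* F)
    (hι : ∀ b : F, σ b = b ↔ ∃ a, ι a = b) (s : Spm m F) (hs : s.1.map σ = s.1) :
    ∃ s₀ : Spm m F₀, spι ι s₀ = s := by
  have h1 : ∀ i j, ∃ a, ι a = s.1 i j := by
    intro i j
    rw [← hι]
    exact congrFun (congrFun hs i) j
  choose A hA using h1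
  have hAm : (Matrix.of A : Mm m F₀).map ι = s.1 := by
    ext i j
    exact hA i j
  have hmem : (Matrix.of A : Mm m F₀) ∈ Matrix.symplecticGroup (Fin m) F₀ := by
    rw [SymplecticGroup.mem_iff]
    have hinj : Function.Injective (fun M : Mm m F₀ => M.map ι) := Matrix.map_injective ι.injective
    apply hinj
    show ((Matrix.of A : Mm m F₀) * J (Fin m) F₀ * (Matrix.of A : Mm m F₀)ᵀ).map ι =
      (J (Fin m) F₀).map ι
    rw [Matrix.map_mul, Matrix.map_mul, Matrix.transpose_map, hAm, J_mapι]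
    exact SymplecticGroup.mem_iff.1 s.2
  exact ⟨⟨_, hmem⟩, Subtype.ext hAm⟩

theorem fieldSp_spι {F₀ : Type*} [Field F₀] (ι : F₀ →+* F) (σ : F ≃+* F)
    (hι : ∀ b : F, σ b = b ↔ ∃ a, ι a = b) (s₀ : Spm m F₀) :
    fieldSp σ (spι ι s₀) = spι ι s₀ := by
  apply Subtype.ext
  ext i j
  exact (hι _).2 ⟨_, rfl⟩

theorem fieldAut_spι {F₀ : Type*} [Field F₀] (ι : F₀ →+* F) (σ : F ≃+* F)
    (hι : ∀ b : F, σ b = b ↔ ∃ a, ι a = b) (s₀ : Spm m F₀) :
    fieldAut σ (QuotientGroup.mk (spι ι s₀) : Cfsg.PSp m F) = QuotientGroup.mk (spι ι s₀) := by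
  rw [fieldAut_mk, fieldSp_spι ι σ hι]

/-- a power of a fixed point of a field automorphism comes from the fixed field -/
theorem fixed_pow {F₀ : Type*} [Field F₀] (hm : 1 ≤ m) (ι : F₀ →+* F) (σ : F ≃+* F)
    (hι : ∀ b : F, σ b = b ↔ ∃ a, ι a = b) (e : ℕ) (he : Even e ∨ (2 : F) = 0)
    (k : Cfsg.PSp m F) (hk : fieldAut σ k = k) :
    ∃ s₀ : Spm m F₀, k ^ e = QuotientGroup.mk (spι ι s₀) := by
  obtain ⟨s, rfl⟩ := exists_rep k
  rw [fieldAut_mk] at hk
  have h1 : (s ^ e).1.map σ = (s ^ e).1 := by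
    have e1 : (s ^ e).1.map σ = ((fieldSp σ s) ^ e).1 := by
      rw [← map_pow]
      rfl
    rw [e1, SubmonoidClass.coe_pow, SubmonoidClass.coe_pow]
    rcases (mk_eq_iff hm _ _).1 hk with h | h
    · rw [h]
    · rcases he with he | h2
      · rw [h, he.neg_pow]
      · have hneg : -s.1 = s.1 := by
          ext i j
          rw [Matrix.neg_apply]
          have : s.1 i j + s.1 i j = 0 := by rw [← two_mul, h2, zero_mul]
          exact neg_eq_of_add_eq_zero_left this
        rw [h, hneg]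
  obtain ⟨s₀, hs₀⟩ := exists_sp_of_fixed ι σ hι (s ^ e) h1
  exact ⟨s₀, by rw [hs₀]; rfl⟩

theorem conj_eq_one (hm : 1 ≤ m) (k : Cfsg.PSp m F) (h : MulAut.conj k = 1) : k = 1 := by
  obtain ⟨s, rfl⟩ := exists_rep k
  rw [← conjAut_spToGSp, conjAut_eq_one_iff hm] at h
  obtain ⟨a, ha⟩ := h
  have ha' : s.1 = a • (1 : Mm m F) := ha
  have h1 := sp_pres s (bv (Sum.inr ⟨0, hm⟩)) (bv (Sum.inl ⟨0, hm⟩))
  rw [ha', Matrix.smul_mulVec, Matrix.smul_mulVec, Matrix.one_mulVec, Matrix.one_mulVec,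
    sf_smul_left, sf_smul_right, sf_e, bv_self, mul_one] at h1
  show (QuotientGroup.mk s : Cfsg.PSp m F) = QuotientGroup.mk (1 : Spm m F)
  rw [mk_eq_iff hm, ha']
  rcases mul_self_eq_one_iff.1 h1 with h | h
  · left
    rw [h, one_smul]
    rfl
  · right
    rw [h, neg_smul, one_smul]
    rfl

theorem conj_inj (hm : 1 ≤ m) (k k' : Cfsg.PSp m F) (h : MulAut.conj k = MulAut.conj k') :
    k = k' := by
  have h1 : MulAut.conj (k * k'⁻¹) = 1 := by
    rw [map_mul, map_inv, h, mul_inv_cancel]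
  have := conj_eq_one hm _ h1
  exact mul_inv_eq_one.1 this


/-! ### quotients of `Sp` by non-central normal subgroups -/

theorem tv_pow (z : Vm m F) (c : F) (k : ℕ) : (tv z c) ^ k = tv z (k • c) := by
  induction k with
  | zero => rw [pow_zero, zero_smul, tv_zero_right]
  | succ k ih => rw [pow_succ, ih, tv_add, succ_nsmul]

/-- a quotient of `Sp_{2m}(F)` by a non-central normal subgroup has exponent the characteristic -/
theorem sp_quot_exponent (p : ℕ) [CharP F p] (hm : 1 ≤ m)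
    (N : Subgroup (Spm m F)) [hN : N.Normal]
    (hNZ : ¬ N ≤ Subgroup.center (Spm m F)) (g : Spm m F) : g ^ p ∈ N := by
  classical
  obtain ⟨n, hn, hnZ⟩ : ∃ n ∈ N, n ∉ Subgroup.center (Spm m F) := by
    by_contra hcon
    push Not at hcon
    exact hNZ hcon
  obtain ⟨u, hu⟩ : ∃ u : Vm m F, ∀ c : F, n.1 *ᵥ u ≠ c • u := by
    by_contra hcon
    push Not at hcon
    exact hnZ ((mem_center_sp_iff hm n).mpr (scalar_of_eigen hm n hcon))
  have htrans := normal_transitive hm N n hn u hu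
  have h1 : ∀ (w : Vm m F) (c : F), ∃ c' : F,
      QuotientGroup.mk' N (tv w c) = QuotientGroup.mk' N (tv u c') := by
    intro w c
    by_cases hw : w = 0
    · refine ⟨0, ?_⟩
      rw [hw, tv_zero_left, tv_zero_right]
    · obtain ⟨n', hn', c₀, hc₀, hn'u⟩ := htrans w hw
      refine ⟨c₀⁻¹ * c₀⁻¹ * c, ?_⟩
      have h2 : w = c₀⁻¹ • (n'.1 *ᵥ u) := by
        rw [hn'u, smul_smul, inv_mul_cancel₀ hc₀, one_smul]
      have h3 : tv w c = n' * tv u (c₀⁻¹ * c₀⁻¹ * c) * n'⁻¹ := by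
        rw [tv_conj, mul_inv_cancel_right, ← tv_smul, ← h2]
      have h4 : QuotientGroup.mk' N n' = 1 := (QuotientGroup.eq_one_iff n').mpr hn'
      rw [h3, map_mul, map_mul, map_inv, h4, one_mul, inv_one, mul_one]
  have hcomm : ∀ a b : Spm m F, QuotientGroup.mk' N a * QuotientGroup.mk' N b =
      QuotientGroup.mk' N b * QuotientGroup.mk' N a := by
    have hgen : ∀ c c' : F, QuotientGroup.mk' N (tv u c) * QuotientGroup.mk' N (tv u c')
        = QuotientGroup.mk' N (tv u c') * QuotientGroup.mk' N (tv u c) := by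
      intro c c'
      rw [← map_mul, ← map_mul, tv_add, tv_add, add_comm]
    have hall : ∀ a : Spm m F, ∀ c : F, QuotientGroup.mk' N a * QuotientGroup.mk' N (tv u c) =
        QuotientGroup.mk' N (tv u c) * QuotientGroup.mk' N a := by
      intro a
      have hmem : a ∈ Subgroup.closure {A : Spm m F |
          ∃ (w : Vm m F) (c : F), (A : Mm m F) = Cfsg.sympTransvection m w c} := by
        rw [Cfsg.Agent.S0765.result m]
        exact Subgroup.mem_top a
      induction hmem using Subgroup.closure_induction with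
      | mem x hx =>
        obtain ⟨w, c, hA⟩ := hx
        have hAtv : x = tv w c := Subtype.ext hA
        obtain ⟨c', hc'⟩ := h1 w c
        intro d
        rw [hAtv, hc']
        exact hgen c' d
      | one =>
        intro d
        rw [map_one, one_mul, mul_one]
      | mul x y _ _ hx hy =>
        intro d
        rw [map_mul, mul_assoc, hy d, ← mul_assoc, hx d, mul_assoc]
      | inv x _ hx =>
        intro d
        rw [map_inv]
        have := hx d
        calc (QuotientGroup.mk' N x)⁻¹ * QuotientGroup.mk' N (tv u d)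
            = (QuotientGroup.mk' N x)⁻¹ * (QuotientGroup.mk' N (tv u d) * QuotientGroup.mk' N x) *
              (QuotientGroup.mk' N x)⁻¹ := by group
          _ = (QuotientGroup.mk' N x)⁻¹ * (QuotientGroup.mk' N x * QuotientGroup.mk' N (tv u d)) *
              (QuotientGroup.mk' N x)⁻¹ := by rw [this]
          _ = QuotientGroup.mk' N (tv u d) * (QuotientGroup.mk' N x)⁻¹ := by group
    intro a b
    have hmem : b ∈ Subgroup.closure {A : Spm m F |
        ∃ (w : Vm m F) (c : F), (A : Mm m F) = Cfsg.sympTransvection m w c} := by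
      rw [Cfsg.Agent.S0765.result m]
      exact Subgroup.mem_top b
    induction hmem using Subgroup.closure_induction with
    | mem x hx =>
      obtain ⟨w, c, hA⟩ := hx
      have hAtv : x = tv w c := Subtype.ext hA
      obtain ⟨c', hc'⟩ := h1 w c
      rw [hAtv, hc']
      exact hall a c'
    | one => rw [map_one, one_mul, mul_one]
    | mul x y _ _ hx hy => rw [map_mul, ← mul_assoc, hx, mul_assoc, hy, ← mul_assoc]
    | inv x _ hx =>
      rw [map_inv]
      calc QuotientGroup.mk' N a * (QuotientGroup.mk' N x)⁻¹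
          = (QuotientGroup.mk' N x)⁻¹ * (QuotientGroup.mk' N x * QuotientGroup.mk' N a) *
            (QuotientGroup.mk' N x)⁻¹ := by group
        _ = (QuotientGroup.mk' N x)⁻¹ * (QuotientGroup.mk' N a * QuotientGroup.mk' N x) *
            (QuotientGroup.mk' N x)⁻¹ := by rw [hx]
        _ = (QuotientGroup.mk' N x)⁻¹ * QuotientGroup.mk' N a := by group
  have hp0 : ((p : ℕ) : F) = 0 := CharP.cast_eq_zero F p
  have hpow : QuotientGroup.mk' N g ^ p = 1 := by
    have hmem : g ∈ Subgroup.closure {A : Spm m F |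
        ∃ (w : Vm m F) (c : F), (A : Mm m F) = Cfsg.sympTransvection m w c} := by
      rw [Cfsg.Agent.S0765.result m]
      exact Subgroup.mem_top g
    induction hmem using Subgroup.closure_induction with
    | mem x hx =>
      obtain ⟨w, c, hA⟩ := hx
      have hAtv : x = tv w c := Subtype.ext hA
      rw [hAtv, ← map_pow, tv_pow, nsmul_eq_mul, hp0, zero_mul, tv_zero_right, map_one]
    | one => rw [map_one, one_pow]
    | mul x y _ _ hx hy =>
      rw [map_mul, (show Commute (QuotientGroup.mk' N x) (QuotientGroup.mk' N y) from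
        hcomm x y).mul_pow, hx, hy, one_mul]
    | inv x _ hx => rw [map_inv, inv_pow, hx, inv_one]
  rw [← map_pow] at hpow
  exact (QuotientGroup.eq_one_iff _).1 hpow

/-! ### the Galois correspondence for a cyclic group of field automorphisms -/

theorem mem_zpowers_of_fix [Finite F] (σ τ : F ≃+* F) (h : ∀ b : F, σ b = b → τ b = b) :
    τ ∈ Subgroup.zpowers σ := by
  classical
  have hfin : Finite (F ≃+* F) :=
    Finite.of_injective (fun e : F ≃+* F => (e : F → F)) DFunLike.coe_injective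
  let G := Subgroup.zpowers σ
  let K₁ := FixedPoints.subfield G F
  have hmem : ∀ b : F, b ∈ K₁ → σ b = b := by
    intro b hb
    exact hb ⟨σ, Subgroup.mem_zpowers σ⟩
  let τA : F →ₐ[K₁] F :=
    { (τ : F →+* F) with
      commutes' := fun r => h _ (hmem _ r.2) }
  obtain ⟨g, hg⟩ := (FixedPoints.toAlgHom_bijective G F).2 τA
  have h2 : (g : F ≃+* F) = τ := by
    ext x
    have h3 := congrArg (fun f : F →ₐ[K₁] F => f x) hg
    exact h3
  rw [← h2]
  exact g.2


/-! ### automorphisms fixing the rational transvections -/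

theorem conj_field_fix (hm : 1 ≤ m) (g : ↥(Cfsg.GSp m F)) (τ : F ≃+* F) (P : F → Prop)
    (Q : Vm m F → Prop) (hP1 : P 1) (hQ1 : ∀ k, Q (bv k)) (hQ2 : ∀ k l, Q (bv k + bv l))
    (key' : ∀ (v : Vm m F) (c : F), Q v → P c →
      (conjAut g * fieldAut τ : MulAut (Cfsg.PSp m F)) (tvb v c) = tvb v c) :
    (∀ c, P c → τ c = c) ∧ ∃ a : F, ((g : GLm m F) : Mm m F) = a • (1 : Mm m F) := by
  classical
  have key : ∀ (v : Vm m F) (c : F), Q v → P c →
      tvb (((g : GLm m F) : Mm m F) *ᵥ (fun i => τ (v i))) (τ c / mult g) = tvb v c := by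
    intro v c hv hc
    have := key' v c hv hc
    rw [MulAut.mul_apply, fieldAut_tvb, conjAut_tvb] at this
    exact this
  have hpar : ∀ v : Vm m F, v ≠ 0 → Q v → (fun i => τ (v i)) = v →
      ∃ a : F, ((g : GLm m F) : Mm m F) *ᵥ v = a • v ∧
        ∀ c, P c → a * a * (τ c / mult g) = c := by
    intro v hv hQv hσv
    have hgv : ((g : GLm m F) : Mm m F) *ᵥ v ≠ 0 := gsp_mulVec_ne g hv
    have k1 := key v 1 hQv hP1
    rw [hσv, tvb_eq_iff hm hgv] at k1
    have hne : τ 1 / mult g ≠ 0 := by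
      rw [map_one]
      exact div_ne_zero one_ne_zero (mult_ne g)
    obtain ⟨d, hd, hvd⟩ := tv_par hgv hne k1
    have e1 : ((g : GLm m F) : Mm m F) *ᵥ v = d⁻¹ • v := by
      have h9 := congrArg (fun x : Vm m F => d⁻¹ • x) hvd
      simp only [smul_smul, inv_mul_cancel₀ hd, one_smul] at h9
      exact h9.symm
    refine ⟨d⁻¹, e1, fun c hc => ?_⟩
    · have k2 := key v c hQv hc
      rw [hσv] at k2
      rw [e1] at k2
      have k3 : tvb v (d⁻¹ * d⁻¹ * (τ c / mult g)) = tvb v c := by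
        rw [← k2]
        show (QuotientGroup.mk (tv v _) : Cfsg.PSp m F) = QuotientGroup.mk (tv (d⁻¹ • v) _)
        rw [tv_smul]
      exact tvb_inj hm hv k3
  have hτb : ∀ k : Fin m ⊕ Fin m, (fun i => τ ((bv k : Vm m F) i)) = bv k := fun k => map_bv τ k
  have hτb2 : ∀ k l : Fin m ⊕ Fin m, (fun i => τ ((bv k + bv l : Vm m F) i)) = bv k + bv l := by
    intro k l
    funext i
    rw [Pi.add_apply, map_add]
    have h1 : τ ((bv k : Vm m F) i) = bv k i := congrFun (hτb k) i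
    have h2 : τ ((bv l : Vm m F) i) = bv l i := congrFun (hτb l) i
    rw [h1, h2]
  refine ⟨?_, ?_⟩
  · obtain ⟨a, -, ha⟩ := hpar (bv (Sum.inl ⟨0, hm⟩)) (bv_ne _) (hQ1 _) (hτb _)
    intro c hcP
    have h1 := ha 1 hP1
    have hc := ha c hcP
    rw [map_one] at h1
    have hμ := mult_ne g
    field_simp at h1 hc
    rw [h1] at hc
    exact mul_left_cancel₀ hμ (by linear_combination hc)
  · have hall : ∀ v : Vm m F, v ≠ 0 → Q v → (fun i => τ (v i)) = v →
        ∃ a : F, ((g : GLm m F) : Mm m F) *ᵥ v = a • v := by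
      intro v hv hQv hτv
      obtain ⟨a, ha, -⟩ := hpar v hv hQv hτv
      exact ⟨a, ha⟩
    choose! a ha using hall
    obtain ⟨k₀, -⟩ : ∃ k₀ : Fin m ⊕ Fin m, k₀ = Sum.inl ⟨0, hm⟩ := ⟨_, rfl⟩
    have heq : ∀ k, a (bv k) = a (bv k₀) := by
      intro k
      by_cases hk : k = k₀
      · rw [hk]
      · have hne : (bv k + bv k₀ : Vm m F) ≠ 0 := by
          intro h0
          have := congrFun h0 k
          rw [Pi.add_apply, bv_self, bv_apply, if_neg hk, add_zero] at this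
          exact one_ne_zero this
        have h1 := ha _ hne (hQ2 k k₀) (hτb2 k k₀)
        rw [Matrix.mulVec_add, ha _ (bv_ne k) (hQ1 k) (hτb k),
          ha _ (bv_ne k₀) (hQ1 k₀) (hτb k₀)] at h1
        have h2 := congrFun h1 k
        have h3 := congrFun h1 k₀
        simp only [Pi.add_apply, Pi.smul_apply, smul_eq_mul, bv_self, bv_apply, if_neg hk,
          if_neg (Ne.symm hk), mul_zero, mul_one, add_zero, zero_add] at h2 h3
        rw [h2, h3]
    refine ⟨a (bv k₀), ?_⟩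
    ext i k
    have h1 := congrFun (ha _ (bv_ne k) (hQ1 k) (hτb k)) i
    have h2 : (((g : GLm m F) : Mm m F) *ᵥ (bv k : Vm m F)) i = ((g : GLm m F) : Mm m F) i k := by
      unfold bv
      rw [Matrix.mulVec_single_one]
      rfl
    rw [h2, heq] at h1
    rw [h1, Pi.smul_apply, Matrix.smul_apply, bv_apply, Matrix.one_apply]

/-- an automorphism in `PΓSp` fixing the image of `Sp(F₀)` pointwise is a field automorphism
from the Galois group of `F` over `F₀` -/
theorem cent_field [Finite F] {F₀ : Type*} [Field F₀] (hm : 1 ≤ m) (ι : F₀ →+* F) (σ : F ≃+* F)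
    (hι : ∀ b : F, σ b = b ↔ ∃ a, ι a = b) (β : MulAut (Cfsg.PSp m F))
    (hPG : ∃ (g : ↥(Cfsg.GSp m F)) (τ : F ≃+* F), β = conjAut g * fieldAut τ)
    (hfix : ∀ s₀ : Spm m F₀, β (QuotientGroup.mk (spι ι s₀)) = QuotientGroup.mk (spι ι s₀)) :
    ∃ τ ∈ Subgroup.zpowers σ, β = fieldAut τ := by
  obtain ⟨g, τ, rfl⟩ := hPG
  have h1 := conj_field_fix hm g τ (fun c => ∃ c₀ : F₀, ι c₀ = c)
    (fun v => ∃ v₀ : Vm m F₀, v = fun i => ι (v₀ i)) ⟨1, map_one ι⟩
    (fun k => ⟨bv k, by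
      funext i
      rw [bv_apply, bv_apply]
      split_ifs <;> simp⟩)
    (fun k l => ⟨bv k + bv l, by
      funext i
      rw [Pi.add_apply, Pi.add_apply, map_add, bv_apply, bv_apply, bv_apply, bv_apply]
      split_ifs <;> simp⟩)
    (by
      rintro v c ⟨v₀, rfl⟩ ⟨c₀, rfl⟩
      have := hfix (tv v₀ c₀)
      rw [spι_tv] at this
      exact this)
  obtain ⟨hτ, a, ha⟩ := h1
  refine ⟨τ, mem_zpowers_of_fix σ τ (fun b hb => ?_), ?_⟩
  · obtain ⟨b₀, rfl⟩ := (hι b).1 hb
    exact hτ _ ⟨b₀, rfl⟩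
  · rw [conjAut_scalar g a ha, one_mul]


/-! ### abstract group theory -/

/-- conjugations by the fixed points of `x` form a normal subgroup of the centraliser of `x` -/
theorem core_ne_bot {K : Type*} [Group K] (A : Subgroup (MulAut K))
    (hinn : ∀ k : K, MulAut.conj k ∈ A) (p : ℕ) (x : MulAut K)
    (hcop : Nat.Coprime p (Nat.card ↥(MonoidHom.eqLocus x.toMonoidHom (MonoidHom.id K))))
    (k₀ : K) (hk₀ : x k₀ = k₀) (hk₀' : MulAut.conj k₀ ≠ 1) :
    Cfsg.pPrimeCore p ↥(A ⊓ Subgroup.centralizer {x}) ≠ ⊥ := by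
  obtain ⟨E, hE⟩ : ∃ E : Subgroup K, E = MonoidHom.eqLocus x.toMonoidHom (MonoidHom.id K) :=
    ⟨_, rfl⟩
  rw [← hE] at hcop
  have hEmem : ∀ k : K, k ∈ E ↔ x k = k := by
    intro k
    rw [hE]
    exact Iff.rfl
  have hcomm : ∀ k : K, x k = k → x * MulAut.conj k = MulAut.conj k * x := by
    intro k hk
    have h1 := conj_conj_aut x k
    rw [hk] at h1
    calc x * MulAut.conj k = (x * MulAut.conj k * x⁻¹) * x := by group
      _ = MulAut.conj k * x := by rw [h1]
  let θ : ↥E →* ↥(A ⊓ Subgroup.centralizer {x}) :=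
    { toFun := fun k => ⟨MulAut.conj k.1, ⟨hinn k.1, by
        show MulAut.conj k.1 ∈ Subgroup.centralizer {x}
        rw [Subgroup.mem_centralizer_iff]
        intro y hy
        rw [Set.mem_singleton_iff] at hy
        rw [hy]
        exact hcomm k.1 ((hEmem _).1 k.2)⟩⟩
      map_one' := Subtype.ext (map_one _)
      map_mul' := fun a b => Subtype.ext (map_mul _ _ _) }
  have hθ : ∀ k : ↥E, (θ k).1 = MulAut.conj k.1 := fun k => rfl
  have hN : (θ.range).Normal := by
    constructor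
    rintro _ ⟨k, rfl⟩ c
    have hc : x * c.1 = c.1 * x := by
      have h1 := (Subgroup.mem_centralizer_iff.1 c.2.2) x rfl
      exact h1
    have hck : c.1 k.1 ∈ E := by
      rw [hEmem]
      have h2 := congrArg (fun f : MulAut K => f k.1) hc
      simp only [MulAut.mul_apply] at h2
      rw [h2, (hEmem _).1 k.2]
    refine ⟨⟨c.1 k.1, hck⟩, ?_⟩
    apply Subtype.ext
    rw [hθ]
    show MulAut.conj (c.1 k.1) = c.1 * (θ k).1 * c.1⁻¹
    rw [hθ, conj_conj_aut]
  have hcard : (Nat.card θ.range).Coprime p :=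
    Nat.Coprime.coprime_dvd_left (Subgroup.card_range_dvd θ) hcop.symm
  have hle : θ.range ≤ Cfsg.pPrimeCore p ↥(A ⊓ Subgroup.centralizer {x}) :=
    le_sSup ⟨hN, hcard⟩
  intro hbot
  rw [hbot, le_bot_iff] at hle
  have h1 : θ ⟨k₀, (hEmem _).2 hk₀⟩ ∈ θ.range := ⟨_, rfl⟩
  rw [hle, Subgroup.mem_bot] at h1
  apply hk₀'
  have h2 := congrArg Subtype.val h1
  rw [hθ] at h2
  exact h2

/-- the `p'`-core of `C` is trivial when `C` normalises a subgroup `L` without normal
`p'`-subgroups whose centraliser in `C` has exponent `p` -/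
theorem core_eq_bot {Γ : Type*} [Group Γ] (C L : Subgroup Γ) (p : ℕ) (hp : p.Prime) (hLC : L ≤ C)
    (ha : ∀ c ∈ C, ∀ l ∈ L, c * l * c⁻¹ ∈ L)
    (hb : ∀ M : Subgroup Γ, M ≤ L → (∀ l ∈ L, ∀ n ∈ M, l * n * l⁻¹ ∈ M) →
      (Nat.card M).Coprime p → M = ⊥)
    (hc : ∀ c ∈ C, (∀ l ∈ L, c * l = l * c) → c ^ p = 1) :
    Cfsg.pPrimeCore p ↥C = ⊥ := by
  unfold Cfsg.pPrimeCore
  rw [sSup_eq_bot]
  rintro N ⟨hN, hcop⟩
  obtain ⟨N', hN'⟩ : ∃ N' : Subgroup Γ, N' = N.map C.subtype := ⟨_, rfl⟩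
  have hN'mem : ∀ y : Γ, y ∈ N' ↔ ∃ hy : y ∈ C, (⟨y, hy⟩ : ↥C) ∈ N := by
    intro y
    rw [hN']
    constructor
    · rintro ⟨n, hn, rfl⟩
      exact ⟨n.2, hn⟩
    · rintro ⟨hy, hn⟩
      exact ⟨⟨y, hy⟩, hn, rfl⟩
  have hcard : Nat.card N' = Nat.card N := by
    rw [hN']
    exact Subgroup.card_map_of_injective (Subgroup.subtype_injective C)
  have hM : N' ⊓ L = ⊥ := by
    apply hb _ inf_le_right
    · rintro l hl n ⟨hn1, hn2⟩
      refine ⟨?_, L.mul_mem (L.mul_mem hl hn2) (L.inv_mem hl)⟩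
      obtain ⟨hnC, hnN⟩ := (hN'mem n).1 hn1
      show l * n * l⁻¹ ∈ N'
      rw [hN'mem]
      refine ⟨C.mul_mem (C.mul_mem (hLC hl) hnC) (C.inv_mem (hLC hl)), ?_⟩
      exact hN.conj_mem _ hnN ⟨l, hLC hl⟩
    · have h1 : Nat.card ↥(N' ⊓ L) ∣ Nat.card N' := Subgroup.card_dvd_of_le inf_le_left
      rw [hcard] at h1
      exact Nat.Coprime.coprime_dvd_left h1 hcop
  rw [Subgroup.eq_bot_iff_forall]
  intro n₀ hn₀
  have hnC : n₀.1 ∈ C := n₀.2
  have hnN' : n₀.1 ∈ N' := (hN'mem _).2 ⟨hnC, hn₀⟩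
  have hcomm : ∀ l ∈ L, n₀.1 * l = l * n₀.1 := by
    intro l hl
    have h1 : n₀.1 * l * n₀.1⁻¹ * l⁻¹ ∈ N' ⊓ L := by
      refine ⟨?_, L.mul_mem (ha _ hnC l hl) (L.inv_mem hl)⟩
      have h2 : l * n₀.1⁻¹ * l⁻¹ ∈ N' := by
        rw [hN'mem]
        refine ⟨C.mul_mem (C.mul_mem (hLC hl) (C.inv_mem hnC)) (C.inv_mem (hLC hl)), ?_⟩
        exact hN.conj_mem _ (N.inv_mem hn₀) ⟨l, hLC hl⟩
      have h3 : n₀.1 * l * n₀.1⁻¹ * l⁻¹ = n₀.1 * (l * n₀.1⁻¹ * l⁻¹) := by group
      rw [h3]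
      exact N'.mul_mem hnN' h2
    rw [hM, Subgroup.mem_bot] at h1
    calc n₀.1 * l = (n₀.1 * l * n₀.1⁻¹ * l⁻¹) * (l * n₀.1) := by group
      _ = l * n₀.1 := by rw [h1, one_mul]
  have hpow : n₀ ^ p = 1 := by
    apply Subtype.ext
    rw [SubmonoidClass.coe_pow]
    exact hc _ hnC hcomm
  have h1 : orderOf (⟨n₀, hn₀⟩ : ↥N) ∣ p := by
    apply orderOf_dvd_of_pow_eq_one
    apply Subtype.ext
    rw [SubmonoidClass.coe_pow]
    exact hpow
  have h2 : orderOf (⟨n₀, hn₀⟩ : ↥N) ∣ Nat.card N := orderOf_dvd_natCard _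
  have h3 : orderOf (⟨n₀, hn₀⟩ : ↥N) = 1 := by
    have := Nat.dvd_gcd h2 h1
    rw [Nat.Coprime.gcd_eq_one hcop] at this
    exact Nat.dvd_one.1 this
  rw [orderOf_eq_one_iff] at h3
  exact congrArg Subtype.val h3

/-- the image of a group whose non-central quotients have exponent `r` has no non-trivial
normal `p'`-subgroups as soon as it contains an element of order `p` -/
theorem no_normal_pprime {S Γ : Type*} [Group S] [Group Γ] (Ψ : S →* Γ) (p r : ℕ) (hp : p.Prime)
    (hpr : Nat.Coprime r p)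
    (hE : ∀ M₀ : Subgroup S, M₀.Normal → M₀ ≤ Subgroup.center S ∨ ∀ s, s ^ r ∈ M₀)
    (hK : ∀ s ∈ Subgroup.center S, Ψ s = 1)
    (y : Γ) (hy : y ∈ Ψ.range) (hyp : orderOf y = p)
    (M : Subgroup Γ) (hML : M ≤ Ψ.range) (hMn : ∀ l ∈ Ψ.range, ∀ n ∈ M, l * n * l⁻¹ ∈ M)
    (hcop : (Nat.card M).Coprime p) : M = ⊥ := by
  have hnorm : (M.comap Ψ).Normal := by
    constructor
    intro n hn g
    rw [Subgroup.mem_comap, map_mul, map_mul, map_inv]
    exact hMn _ ⟨g, rfl⟩ _ hn
  rcases hE _ hnorm with h | h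
  · rw [Subgroup.eq_bot_iff_forall]
    intro n hn
    obtain ⟨s, rfl⟩ := hML hn
    exact hK s (h hn)
  · exfalso
    obtain ⟨sy, rfl⟩ := hy
    have h1 : Ψ sy ^ r ∈ M := by
      rw [← map_pow]
      exact h sy
    obtain ⟨k, hk⟩ := exists_pow_eq_self_of_coprime (x := Ψ sy) (n := r) (by rw [hyp]; exact hpr)
    have h2 : Ψ sy ∈ M := by
      rw [← hk]
      exact M.pow_mem h1 k
    have h3 : orderOf (⟨Ψ sy, h2⟩ : ↥M) = p := by
      rw [← Subgroup.orderOf_coe]
      exact hyp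
    have h4 : p ∣ Nat.card M := by
      rw [← h3]
      exact orderOf_dvd_natCard _
    have h5 := Nat.dvd_gcd h4 (dvd_refl p)
    rw [Nat.Coprime.gcd_eq_one hcop] at h5
    exact hp.one_lt.ne' (Nat.dvd_one.1 h5)

/-! ### local balance -/

theorem comm_conj_of_fix {K : Type*} [Group K] (x : MulAut K) (k : K) (hk : x k = k) :
    x * MulAut.conj k = MulAut.conj k * x := by
  have h1 := conj_conj_aut x k
  rw [hk] at h1
  calc x * MulAut.conj k = (x * MulAut.conj k * x⁻¹) * x := by group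
    _ = MulAut.conj k * x := by rw [h1]

set_option maxHeartbeats 1600000 in
theorem local_balance_aux [Fintype F] {r : ℕ} [Fact r.Prime] [CharP F r] {n : ℕ}
    (A : Subgroup (MulAut (Cfsg.PSp (n + 2) F)))
    (hinn : ∀ k : Cfsg.PSp (n + 2) F, MulAut.conj k ∈ A) {p : ℕ} [Fact p.Prime] (hpr : p ≠ r)
    (α : MulAut (Cfsg.PSp (n + 2) F)) (σ : F ≃+* F) (hσord : orderOf σ = p)
    (x : MulAut (Cfsg.PSp (n + 2) F)) (hxdef : x = α⁻¹ * fieldAut σ * α) :
    Cfsg.pPrimeCore p ↥(A ⊓ Subgroup.centralizer {x}) ≠ ⊥ ↔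
      Nat.Coprime p (Nat.card ↥(MonoidHom.eqLocus x.toMonoidHom
        (MonoidHom.id (Cfsg.PSp (n + 2) F)))) := by
  classical
  have hm1 : 1 ≤ n + 2 := by omega
  have hp : p.Prime := Fact.out
  have hr : r.Prime := Fact.out
  have hσp : σ ^ p = 1 := by rw [← hσord]; exact pow_orderOf_eq_one σ
  obtain ⟨F₀, hF₀⟩ : ∃ F₀ : Subfield F, F₀ = (σ : F →+* F).eqLocusField (RingHom.id F) :=
    ⟨_, rfl⟩
  obtain ⟨ι, hιdef⟩ : ∃ ι : ↥F₀ →+* F, ι = F₀.subtype := ⟨_, rfl⟩
  have hF₀mem : ∀ b : F, b ∈ F₀ ↔ σ b = b := by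
    intro b
    rw [hF₀]
    exact Iff.rfl
  have hι : ∀ b : F, σ b = b ↔ ∃ a : ↥F₀, ι a = b := by
    intro b
    constructor
    · intro hb
      refine ⟨⟨b, (hF₀mem b).2 hb⟩, ?_⟩
      rw [hιdef]
      rfl
    · rintro ⟨a, rfl⟩
      rw [hιdef]
      exact (hF₀mem _).1 a.2
  have hαinv : ∀ y : Cfsg.PSp (n + 2) F, α (α⁻¹ y) = y := fun y => MulAut.apply_inv_self _ α y
  have hinvα : ∀ y : Cfsg.PSp (n + 2) F, α⁻¹ (α y) = y := fun y => MulAut.inv_apply_self _ α y
  have hxα : ∀ y : Cfsg.PSp (n + 2) F, x (α⁻¹ y) = α⁻¹ (fieldAut σ y) := by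
    intro y
    rw [hxdef]
    simp only [MulAut.mul_apply]
    rw [hαinv]
  have hαx : ∀ k : Cfsg.PSp (n + 2) F, fieldAut σ (α k) = α (x k) := by
    intro k
    rw [hxdef]
    simp only [MulAut.mul_apply]
    rw [hαinv]
  obtain ⟨Ψ, hΨ⟩ : ∃ Ψ : Spm (n + 2) ↥F₀ →* MulAut (Cfsg.PSp (n + 2) F),
      ∀ s₀, Ψ s₀ = MulAut.conj (α⁻¹ (QuotientGroup.mk (spι ι s₀))) :=
    ⟨(MulAut.conj).comp ((α⁻¹ : MulAut (Cfsg.PSp (n + 2) F)).toMonoidHom.comp
      ((QuotientGroup.mk' _).comp (spι ι))), fun s₀ => rfl⟩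
  have hfixΨ : ∀ s₀ : Spm (n + 2) ↥F₀, x (α⁻¹ (QuotientGroup.mk (spι ι s₀))) =
      α⁻¹ (QuotientGroup.mk (spι ι s₀)) := by
    intro s₀
    rw [hxα, fieldAut_spι ι σ hι]
  obtain ⟨C, hC⟩ : ∃ C : Subgroup (MulAut (Cfsg.PSp (n + 2) F)),
      C = A ⊓ Subgroup.centralizer {x} := ⟨_, rfl⟩
  rw [← hC]
  have hCmem : ∀ c : MulAut (Cfsg.PSp (n + 2) F), c ∈ C ↔ c ∈ A ∧ x * c = c * x := by
    intro c
    rw [hC, Subgroup.mem_inf, Subgroup.mem_centralizer_iff]
    constructor
    · rintro ⟨h1, h2⟩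
      exact ⟨h1, h2 x rfl⟩
    · rintro ⟨h1, h2⟩
      refine ⟨h1, fun y hy => ?_⟩
      rw [Set.mem_singleton_iff] at hy
      rw [hy, h2]
  have hΨC : ∀ s₀ : Spm (n + 2) ↥F₀, Ψ s₀ ∈ C := by
    intro s₀
    rw [hCmem, hΨ]
    exact ⟨hinn _, comm_conj_of_fix x _ (hfixΨ s₀)⟩
  obtain ⟨e, he⟩ : ∃ e : ℕ, e = if (2 : F) = 0 then 1 else 2 := ⟨_, rfl⟩
  have he1 : Even e ∨ (2 : F) = 0 := by
    by_cases h2 : (2 : F) = 0
    · exact Or.inr h2
    · left
      rw [he, if_neg h2]
      exact even_two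
  have he0 : ((e : ℕ) : F) ≠ 0 := by
    by_cases h2 : (2 : F) = 0
    · rw [he, if_pos h2, Nat.cast_one]
      exact one_ne_zero
    · rw [he, if_neg h2]
      exact_mod_cast h2
  have h1 : ∀ k : Cfsg.PSp (n + 2) F, x k = k → ∃ s₀, MulAut.conj k ^ e = Ψ s₀ := by
    intro k hk
    have hk' : fieldAut σ (α k) = α k := by rw [hαx, hk]
    obtain ⟨s₀, hs₀⟩ := fixed_pow hm1 ι σ hι e he1 (α k) hk'
    refine ⟨s₀, ?_⟩
    rw [hΨ, ← hs₀, ← map_pow, ← map_pow, hinvα]
  obtain ⟨L', hL'⟩ : ∃ L' : Subgroup (MulAut (Cfsg.PSp (n + 2) F)),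
      L' = Subgroup.closure {y | ∃ k : Cfsg.PSp (n + 2) F, x k = k ∧ y = MulAut.conj k ^ e} :=
    ⟨_, rfl⟩
  have hL'le : L' ≤ Ψ.range := by
    rw [hL', Subgroup.closure_le]
    rintro _ ⟨k, hk, rfl⟩
    obtain ⟨s₀, h⟩ := h1 k hk
    exact ⟨s₀, h.symm⟩
  have hLle : Ψ.range ≤ L' := by
    rintro _ ⟨s₀, rfl⟩
    have hcl : Subgroup.closure {A : Spm (n + 2) ↥F₀ |
        ∃ (w : Vm (n + 2) ↥F₀) (c : ↥F₀), (A : Mm (n + 2) ↥F₀) = Cfsg.sympTransvection (n + 2) w c} ≤
        L'.comap Ψ := by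
      rw [Subgroup.closure_le]
      rintro B ⟨w, c, hB⟩
      have hBtv : B = tv w c := Subtype.ext hB
      show Ψ B ∈ L'
      have he0' : ((e : ℕ) : ↥F₀) ≠ 0 := by
        intro h0
        apply he0
        have := congrArg ι h0
        rw [map_natCast, map_zero] at this
        exact this
      have h3 : tv w c = (tv w (c / ((e : ℕ) : ↥F₀))) ^ e := by
        rw [tv_pow, nsmul_eq_mul, mul_div_cancel₀ _ he0']
      rw [hBtv, h3, map_pow, hL']
      exact Subgroup.subset_closure ⟨_, hfixΨ _, by rw [hΨ]⟩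
    rw [Cfsg.Agent.S0765.result] at hcl
    exact hcl (Subgroup.mem_top _)
  have hnorm' : ∀ c ∈ C, ∀ l ∈ L', c * l * c⁻¹ ∈ L' := by
    intro c hc l hl
    have hcx : x * c = c * x := ((hCmem c).1 hc).2
    rw [hL'] at hl
    induction hl using Subgroup.closure_induction with
    | mem y hy =>
      obtain ⟨k, hk, rfl⟩ := hy
      rw [hL']
      apply Subgroup.subset_closure
      refine ⟨c k, ?_, ?_⟩
      · have h2 := congrArg (fun f : MulAut (Cfsg.PSp (n + 2) F) => f k) hcx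
        simp only [MulAut.mul_apply] at h2
        rw [h2, hk]
      · rw [← conj_conj_aut c k, conj_pow]
    | one =>
      rw [mul_one, mul_inv_cancel]
      exact L'.one_mem
    | mul a b _ _ ha hb =>
      have e1 : c * (a * b) * c⁻¹ = (c * a * c⁻¹) * (c * b * c⁻¹) := by group
      rw [e1]
      exact L'.mul_mem ha hb
    | inv a _ ha =>
      have e1 : c * a⁻¹ * c⁻¹ = (c * a * c⁻¹)⁻¹ := by group
      rw [e1]
      exact L'.inv_mem ha
  have he0tv : (tvb (bv (Sum.inl 0)) 1 : Cfsg.PSp (n + 2) F) =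
      QuotientGroup.mk (spι ι (tv (bv (Sum.inl 0)) 1)) := by
    rw [spι_tv, map_one]
    have hb : (fun i => ι ((bv (Sum.inl 0) : Vm (n + 2) ↥F₀) i)) = (bv (Sum.inl 0) : Vm (n + 2) F) := by
      funext i
      rw [bv_apply, bv_apply]
      split_ifs <;> simp
    rw [hb]
    rfl
  constructor
  · intro hne
    by_contra hncop
    apply hne
    have hdvd : p ∣ Nat.card ↥(MonoidHom.eqLocus x.toMonoidHom
        (MonoidHom.id (Cfsg.PSp (n + 2) F))) := by
      by_contra h
      exact hncop ((Nat.Prime.coprime_iff_not_dvd hp).2 h)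
    apply core_eq_bot C Ψ.range p hp
    · rintro _ ⟨s₀, rfl⟩
      exact hΨC s₀
    · intro c hc l hl
      exact hL'le (hnorm' c hc l (hLle hl))
    · intro M hML hMn hcop
      have hcharF₀ : CharP ↥F₀ r := RingHom.charP ι ι.injective r
      have hK : ∀ s ∈ Subgroup.center (Spm (n + 2) ↥F₀), Ψ s = 1 := by
        intro s hs
        rw [hΨ]
        have h3 : (QuotientGroup.mk (spι ι s) : Cfsg.PSp (n + 2) F) = 1 := by
          show (QuotientGroup.mk (spι ι s) : Cfsg.PSp (n + 2) F) = QuotientGroup.mk (1 : Spm (n + 2) F)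
          rw [mk_eq_iff hm1, spι_coe]
          rcases (mem_center_sp_iff hm1 s).1 hs with h | h
          · left
            rw [h]
            exact Matrix.map_one _ (map_zero ι) (map_one ι)
          · right
            rw [h]
            ext i j
            show ι ((-1 : Mm (n + 2) ↥F₀) i j) = (-(1 : Mm (n + 2) F)) i j
            rw [Matrix.neg_apply, Matrix.neg_apply, map_neg, Matrix.one_apply, Matrix.one_apply]
            split_ifs <;> simp
        rw [h3, map_one, map_one]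
      have hE : ∀ M₀ : Subgroup (Spm (n + 2) ↥F₀), M₀.Normal →
          M₀ ≤ Subgroup.center (Spm (n + 2) ↥F₀) ∨ ∀ s, s ^ r ∈ M₀ := by
        intro M₀ hM₀
        by_cases h : M₀ ≤ Subgroup.center (Spm (n + 2) ↥F₀)
        · exact Or.inl h
        · exact Or.inr (fun s => sp_quot_exponent r hm1 M₀ h s)
      obtain ⟨y, hy, hyp⟩ : ∃ y ∈ Ψ.range, orderOf y = p := by
        by_cases hp2 : p = 2
        · have h2F : (2 : F) ≠ 0 := by
            intro h2
            have h3 : ((2 : ℕ) : F) = 0 := by exact_mod_cast h2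
            have h5 := (CharP.cast_eq_zero_iff F r 2).1 h3
            have h6 := (Nat.prime_dvd_prime_iff_eq hr Nat.prime_two).1 h5
            exact hpr (hp2.trans h6.symm)
          obtain ⟨sJ, hsJ⟩ : ∃ sJ : Spm (n + 2) ↥F₀, sJ.1 = J (Fin (n + 2)) ↥F₀ :=
            ⟨⟨_, SymplecticGroup.J_mem _ _⟩, rfl⟩
          refine ⟨Ψ sJ, ⟨sJ, rfl⟩, ?_⟩
          rw [hp2]
          apply orderOf_eq_prime
          · rw [← map_pow]
            apply hK
            rw [mem_center_sp_iff hm1]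
            right
            rw [pow_two]
            show sJ.1 * sJ.1 = -1
            rw [hsJ, Matrix.J_squared]
          · intro h
            rw [hΨ] at h
            have h3 := conj_eq_one hm1 _ h
            have h4 : (QuotientGroup.mk (spι ι sJ) : Cfsg.PSp (n + 2) F) =
                QuotientGroup.mk (1 : Spm (n + 2) F) := by
              have h5 := congrArg α h3
              rw [hαinv, map_one] at h5
              exact h5
            rw [mk_eq_iff hm1, spι_coe, hsJ, J_mapι] at h4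
            have h6 : J (Fin (n + 2)) F (Sum.inl 0) (Sum.inl 0) = 0 := by
              rw [J_apply']
              simp
            rcases h4 with h4 | h4
            · have h7 := congrFun (congrFun h4 (Sum.inl 0)) (Sum.inl 0)
              rw [h6] at h7
              have h8 : (1 : Spm (n + 2) F).1 (Sum.inl 0) (Sum.inl 0) = 1 := by
                show (1 : Mm (n + 2) F) (Sum.inl 0) (Sum.inl 0) = 1
                rw [Matrix.one_apply_eq]
              rw [h8] at h7
              exact zero_ne_one h7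
            · have h7 := congrFun (congrFun h4 (Sum.inl 0)) (Sum.inl 0)
              rw [h6, Matrix.neg_apply] at h7
              have h8 : (1 : Spm (n + 2) F).1 (Sum.inl 0) (Sum.inl 0) = 1 := by
                show (1 : Mm (n + 2) F) (Sum.inl 0) (Sum.inl 0) = 1
                rw [Matrix.one_apply_eq]
              rw [h8] at h7
              exact one_ne_zero (neg_eq_zero.1 h7.symm)
        · obtain ⟨k, hk⟩ := exists_prime_orderOf_dvd_card' p hdvd
          have hkfix : x k.1 = k.1 := k.2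
          obtain ⟨s₀, hs₀⟩ := h1 k.1 hkfix
          refine ⟨_, ⟨s₀, rfl⟩, ?_⟩
          rw [← hs₀]
          have ho : orderOf (MulAut.conj k.1) = p := by
            rw [orderOf_injective (MulAut.conj : Cfsg.PSp (n + 2) F →* MulAut (Cfsg.PSp (n + 2) F))
              (fun a b hab => conj_inj hm1 a b hab) k.1, Subgroup.orderOf_coe, hk]
          have hpe : Nat.Coprime p e := by
            rw [Nat.Prime.coprime_iff_not_dvd hp]
            intro hd
            by_cases h2 : (2 : F) = 0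
            · rw [he, if_pos h2] at hd
              exact hp.one_lt.ne' (Nat.dvd_one.1 hd)
            · rw [he, if_neg h2] at hd
              exact hp2 ((Nat.prime_dvd_prime_iff_eq hp Nat.prime_two).1 hd)
          rw [Nat.Coprime.orderOf_pow (by rw [ho]; exact hpe), ho]
      have hrp : Nat.Coprime r p := by
        rw [Nat.coprime_primes hr hp]
        exact hpr.symm
      exact no_normal_pprime Ψ p r hp hrp hE hK y hy hyp M hML hMn hcop
    · intro c hc hcl
      obtain ⟨c', hc'⟩ : ∃ c' : MulAut (Cfsg.PSp (n + 2) F), c' = α * c * α⁻¹ := ⟨_, rfl⟩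
      have hc'app : ∀ y : Cfsg.PSp (n + 2) F, c' y = α (c (α⁻¹ y)) := by
        intro y
        rw [hc']
        rfl
      have hfix' : ∀ s₀ : Spm (n + 2) ↥F₀,
          c' (QuotientGroup.mk (spι ι s₀)) = QuotientGroup.mk (spι ι s₀) := by
        intro s₀
        have h2 := hcl (Ψ s₀) ⟨s₀, rfl⟩
        rw [hΨ] at h2
        have h3 : MulAut.conj (c (α⁻¹ (QuotientGroup.mk (spι ι s₀)))) =
            MulAut.conj (α⁻¹ (QuotientGroup.mk (spι ι s₀))) := by
          rw [← conj_conj_aut c, h2]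
          group
        have h4 := conj_inj hm1 _ _ h3
        rw [hc'app, h4, hαinv]
      have hPG : ∃ (g : ↥(Cfsg.GSp (n + 2) F)) (τ : F ≃+* F), c' = conjAut g * fieldAut τ := by
        apply aut_decomp_special r c'
        right
        rw [he0tv]
        exact hfix' _
      obtain ⟨τ, hτ, hc'τ⟩ := cent_field hm1 ι σ hι c' hPG hfix'
      have hτp : τ ^ p = 1 := by
        obtain ⟨j, rfl⟩ := Subgroup.mem_zpowers_iff.1 hτ
        rw [← zpow_natCast, ← _root_.zpow_mul, mul_comm, _root_.zpow_mul, zpow_natCast, hσp, _root_.one_zpow]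
      have hc'p : c' ^ p = 1 := by
        rw [hc'τ, ← map_pow, hτp, map_one]
      rw [hc', conj_pow] at hc'p
      calc c ^ p = α⁻¹ * (α * c ^ p * α⁻¹) * α := by group
        _ = 1 := by rw [hc'p]; group
  · intro hcop
    have hk₀ : x (α⁻¹ (tvb (bv (Sum.inl 0)) 1)) = α⁻¹ (tvb (bv (Sum.inl 0)) 1) := by
      rw [he0tv]
      exact hfixΨ _
    rw [hC]
    apply core_ne_bot A hinn p x hcop _ hk₀
    intro h
    have h1 := conj_eq_one hm1 _ h
    have h2 : (tvb (bv (Sum.inl 0)) 1 : Cfsg.PSp (n + 2) F) = 1 := by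
      have h3 := congrArg α h1
      rw [hαinv, map_one] at h3
      exact h3
    exact one_ne_zero (tvb_eq_one hm1 (bv_ne _) h2)


/-- **local balance for `PSp_{2m}(q)`: non-inner-diagonal automorphisms of prime order** -/
theorem local_balance [Fintype F] {r : ℕ} [Fact r.Prime] [CharP F r] (hm : 2 ≤ m)
    (A : Subgroup (MulAut (Cfsg.PSp m F)))
    (hinn : ∀ k : Cfsg.PSp m F, MulAut.conj k ∈ A) {p : ℕ} [Fact p.Prime] (hpr : p ≠ r)
    (x : MulAut (Cfsg.PSp m F)) (hxA : x ∈ A) (hord : orderOf x = p)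
    (hnot : ¬ Cfsg.IsInnerDiagonalAutPSp x) :
    Cfsg.pPrimeCore p ↥(A ⊓ Subgroup.centralizer {x}) ≠ ⊥ ↔
      (Cfsg.IsFieldAutClassPSp x ∧ Nat.Coprime p
        (Nat.card ↥(MonoidHom.eqLocus x.toMonoidHom (MonoidHom.id (Cfsg.PSp m F))))) := by
  classical
  obtain ⟨n, rfl⟩ : ∃ n, m = n + 2 := ⟨m - 2, by omega⟩
  have hm1 : 1 ≤ n + 2 := by omega
  have hp : p.Prime := Fact.out
  have hr : r.Prime := Fact.out
  have hxp : x ^ p = 1 := by rw [← hord]; exact pow_orderOf_eq_one x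
  have hxPG : ∃ (g : ↥(Cfsg.GSp (n + 2) F)) (σ : F ≃+* F), x = conjAut g * fieldAut σ := by
    by_cases h2 : (2 : F) = 0
    · apply aut_decomp_special r x
      left
      refine ⟨p, ?_, hxp⟩
      have h3 : ((2 : ℕ) : F) = 0 := by exact_mod_cast h2
      have h5 := (CharP.cast_eq_zero_iff F r 2).1 h3
      have h6 := (Nat.prime_dvd_prime_iff_eq hr Nat.prime_two).1 h5
      exact hp.odd_of_ne_two (fun hp2 => hpr (hp2.trans h6.symm))
    · exact aut_decomp_odd r h2 (by omega) x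
  obtain ⟨g, σ, hx⟩ := hxPG
  have hσ1 : σ ≠ 1 := by
    rintro rfl
    apply hnot
    rw [isInnerDiag_iff]
    exact ⟨g, by rw [hx, map_one, mul_one]⟩
  have hσp : σ ^ p = 1 := by
    have h1 := hxp
    rw [hx, conj_field_pow] at h1
    exact (conj_field_eq_one hm1 _ _ h1).1
  have hσord : orderOf σ = p := orderOf_eq_prime hσp hσ1
  obtain ⟨h, hh⟩ := field_coset_conj hm1 σ p hp.pos hσord g (by rw [← hx]; exact hxp)
  obtain ⟨α, hα⟩ : ∃ α : MulAut (Cfsg.PSp (n + 2) F), α = (conjAut h)⁻¹ := ⟨_, rfl⟩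
  have hxeq : x = α⁻¹ * fieldAut σ * α := by rw [hx, hh, hα, inv_inv]
  have hfc : Cfsg.IsFieldAutClassPSp x := by
    refine ⟨α, σ, hσ1, (isStdField_iff σ _).2 ?_⟩
    rw [hxeq]
    group
  rw [local_balance_aux A hinn hpr α σ hσord x hxeq]
  exact ⟨fun h => ⟨hfc, h⟩, fun h => h.2⟩

end Cfsg.Agent.Lib.helper13.PS
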