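import Mathlib
import Cfsg.Prelude.Def_LieTypeDatum
import Cfsg.Agent.Lib.helper13.SLSimple

set_option autoImplicit false
set_option linter.unusedSectionVars false
set_option linter.unusedVariables false
set_option linter.style.longLine false

/-! Sign of the permutation of the vectors induced by an invertible matrix over a finite field
of odd order, and a consequence for determinants of certain 2-elements. -/

namespace Cfsg.Agent.Lib.helper13.SG

open Matrix

/-- All cycles of a permutation `σ` with `σ ^ 2 ^ b = 1` whose power `σ ^ 2 ^ (b-1)` fixes only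
`z` have length `2 ^ b`. -/
theorem cyc_len {α : Type*} [Fintype α] [DecidableEq α] (σ : Equiv.Perm α) (b : ℕ) (hb : 1 ≤ b)
    (z : α) (hσ : ∀ a, (σ ^ 2 ^ (b - 1)) a = a → a = z) (hσ2 : σ ^ 2 ^ b = 1) (hz : σ z = z) :
    ∀ k ∈ σ.cycleType, k = 2 ^ b := by
  intro k hk
  rw [Equiv.Perm.cycleType_def, Multiset.mem_map] at hk
  obtain ⟨p, hp, rfl⟩ := hk
  have hp' : p ∈ σ.cycleFactorsFinset := hp
  rw [Equiv.Perm.mem_cycleFactorsFinset_iff] at hp'
  obtain ⟨hcyc, hag⟩ := hp'
  obtain ⟨a, ha, -⟩ := id hcyc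
  have hpow : ∀ j : ℕ, (p ^ j) a = (σ ^ j) a := by
    intro j
    induction j with
    | zero => simp
    | succ j ih =>
      rw [pow_succ', pow_succ', Equiv.Perm.mul_apply, Equiv.Perm.mul_apply, ← ih]
      apply hag
      rw [Equiv.Perm.pow_apply_mem_support]
      exact Equiv.Perm.mem_support.2 ha
  have h1 : p ^ 2 ^ b = 1 := by
    rw [hcyc.pow_eq_one_iff' ha, hpow, hσ2]; rfl
  have h2 : orderOf p ∣ 2 ^ b := orderOf_dvd_of_pow_eq_one h1
  rw [hcyc.orderOf] at h2
  obtain ⟨j, hj, hj2⟩ := (Nat.dvd_prime_pow Nat.prime_two).1 h2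
  show p.support.card = 2 ^ b
  rw [hj2]
  rcases Nat.lt_or_ge j b with h | h
  · exfalso
    have h3 : p ^ 2 ^ (b - 1) = 1 := by
      apply orderOf_dvd_iff_pow_eq_one.1
      rw [hcyc.orderOf, hj2]
      exact pow_dvd_pow 2 (by omega)
    have h4 : (σ ^ 2 ^ (b - 1)) a = a := by rw [← hpow, h3]; rfl
    have h5 := hσ a h4
    have h6 : p a = σ a := hag a (Equiv.Perm.mem_support.2 ha)
    rw [h5] at h6 ha
    exact ha (h6.trans hz)
  · have : j = b := by omega
    rw [this]

/-- Such a permutation is odd when the number of moved points is an odd multiple of `2 ^ b`. -/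
theorem sign_neg {α : Type*} [Fintype α] [DecidableEq α] (σ : Equiv.Perm α) (b c : ℕ)
    (hb : 1 ≤ b) (z : α) (hσ : ∀ a, (σ ^ 2 ^ (b - 1)) a = a → a = z) (hσ2 : σ ^ 2 ^ b = 1)
    (hz : σ z = z) (hcard : Fintype.card α = 2 ^ b * c + 1) (hc : Odd c) :
    Equiv.Perm.sign σ = -1 := by
  have hlen := cyc_len σ b hb z hσ hσ2 hz
  have hrep : σ.cycleType = Multiset.replicate (Multiset.card σ.cycleType) (2 ^ b) :=
    Multiset.eq_replicate.2 ⟨rfl, hlen⟩
  have hsupp : σ.support = Finset.univ.erase z := by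
    ext a
    simp only [Equiv.Perm.mem_support, Finset.mem_erase, Finset.mem_univ, and_true]
    constructor
    · intro h1 h2
      exact h1 (h2 ▸ hz)
    · intro h1 h2
      apply h1
      apply hσ
      have : ∀ j : ℕ, (σ ^ j) a = a := by
        intro j
        induction j with
        | zero => simp
        | succ j ih => rw [pow_succ', Equiv.Perm.mul_apply, ih, h2]
      exact this _
  have hsum : σ.cycleType.sum = 2 ^ b * c := by
    rw [Equiv.Perm.sum_cycleType, hsupp, Finset.card_erase_of_mem (Finset.mem_univ z),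
      Finset.card_univ, hcard]
    simp
  have hcnt : Multiset.card σ.cycleType = c := by
    have h1 := hsum
    rw [hrep, Multiset.sum_replicate, smul_eq_mul, mul_comm] at h1
    exact Nat.eq_of_mul_eq_mul_left (by positivity) h1
  rw [Equiv.Perm.sign_of_cycleType, hsum, hcnt]
  apply Odd.neg_one_pow
  have he : Even (2 ^ b * c) := by
    apply Even.mul_right
    exact (Nat.even_pow' (by omega)).2 even_two
  exact he.add_odd hc

variable {F : Type*} [Field F] [Fintype F] [DecidableEq F] {n : ℕ}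

/-- the permutation of the vectors induced by an invertible matrix -/
def rho (n : ℕ) (F : Type*) [Field F] : GL (Fin n) F →* Equiv.Perm (Fin n → F) where
  toFun g := ⟨fun v => g.1 *ᵥ v, fun v => (g⁻¹).1 *ᵥ v,
    fun v => by simp [Matrix.mulVec_mulVec], fun v => by simp [Matrix.mulVec_mulVec]⟩
  map_one' := by ext v; simp
  map_mul' g h := by ext v; simp [Matrix.mulVec_mulVec]

theorem rho_apply (g : GL (Fin n) F) (v : Fin n → F) : rho n F g v = g.1 *ᵥ v := rfl

theorem sign_sl (hn : 3 ≤ n) (g : GL (Fin n) F) (hg : g.1.det = 1) :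
    Equiv.Perm.sign (rho n F g) = 1 := by
  let φ : SpecialLinearGroup (Fin n) F →* ℤˣ :=
    Equiv.Perm.sign.comp ((rho n F).comp SpecialLinearGroup.toGL)
  have h1 : commutator (SpecialLinearGroup (Fin n) F) ≤ φ.ker :=
    Abelianization.commutator_subset_ker φ
  rw [SLSimple.commutator_eq_top (by simpa using hn)] at h1
  have h2 : (⟨g.1, hg⟩ : SpecialLinearGroup (Fin n) F) ∈ φ.ker := h1 (Subgroup.mem_top _)
  have h3 : SpecialLinearGroup.toGL (⟨g.1, hg⟩ : SpecialLinearGroup (Fin n) F) = g :=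
    Units.ext rfl
  have h4 : φ ⟨g.1, hg⟩ = 1 := MonoidHom.mem_ker.1 h2
  have h5 : φ ⟨g.1, hg⟩ = Equiv.Perm.sign (rho n F (SpecialLinearGroup.toGL (⟨g.1, hg⟩ : SpecialLinearGroup (Fin n) F))) := rfl
  rw [h5, h3] at h4
  exact h4

theorem det_nonsq (hn : 3 ≤ n) (g : GL (Fin n) F) (h : Equiv.Perm.sign (rho n F g) = -1) :
    ¬ IsSquare g.1.det := by
  rintro ⟨μ, hμ⟩
  have hdet0 : g.1.det ≠ 0 := by
    have := g.isUnit.map (Matrix.detMonoidHom (n := Fin n) (R := F))
    exact (Matrix.isUnit_iff_isUnit_det _).1 g.isUnit |>.ne_zero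
  have hμ0 : μ ≠ 0 := by
    rintro rfl
    rw [mul_zero] at hμ
    exact hdet0 hμ
  have hDdet : (Matrix.diagonal (Function.update (fun _ : Fin n => (1 : F)) ⟨0, by omega⟩ μ)).det = μ := by
    rw [Matrix.det_diagonal, Finset.prod_update_of_mem (Finset.mem_univ _)]
    simp
  obtain ⟨M, hM⟩ : ∃ M : Matrix (Fin n) (Fin n) F, M.det = μ := ⟨_, hDdet⟩
  obtain ⟨D, hD⟩ : ∃ D : GL (Fin n) F, D.1.det = μ :=
    ⟨Matrix.GeneralLinearGroup.mkOfDetNeZero M (by rw [hM]; exact hμ0), hM⟩
  have h1 : ((D * D)⁻¹ * g).1.det = 1 := by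
    have h2 : ((D * D) * ((D * D)⁻¹ * g)).1.det = g.1.det := by
      rw [mul_inv_cancel_left]
    rw [Units.val_mul, Matrix.det_mul, Units.val_mul, Matrix.det_mul, hD, hμ] at h2
    have h3 : μ * μ ≠ 0 := mul_ne_zero hμ0 hμ0
    exact mul_left_cancel₀ h3 (h2.trans (mul_one _).symm)
  have h4 := sign_sl hn _ h1
  have h5 : g = D * D * ((D * D)⁻¹ * g) := by rw [mul_inv_cancel_left]
  rw [h5, map_mul, map_mul, map_mul, map_mul, h4, mul_one, Int.units_mul_self] at h
  exact absurd h (by decide)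

/-- A matrix whose `2^(b-1)`-th power is `-1`, where `2^b` is the exact power of two dividing
`q^n - 1`, has nonsquare determinant. -/
theorem nonsq_of_pow (hn : 3 ≤ n) (h2 : (2 : F) ≠ 0) (g : GL (Fin n) F) (b c : ℕ) (hb : 1 ≤ b)
    (hg : (g ^ 2 ^ (b - 1) : GL (Fin n) F).1 = -1)
    (hcard : Fintype.card F ^ n = 2 ^ b * c + 1) (hc : Odd c) : ¬ IsSquare g.1.det := by
  apply det_nonsq hn
  apply sign_neg (rho n F g) b c hb 0
  · intro v hv
    rw [← map_pow, rho_apply, hg, Matrix.neg_mulVec, Matrix.one_mulVec] at hv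
    have h3 : (2 : F) • v = 0 := by
      rw [two_smul]
      nth_rewrite 1 [← hv]
      exact neg_add_cancel v
    exact (smul_eq_zero.1 h3).resolve_left h2
  · rw [← map_pow]
    have h3 : g ^ 2 ^ b = 1 := by
      have h4 : 2 ^ b = 2 ^ (b - 1) * 2 := by
        rw [← pow_succ]; congr 1; omega
      rw [h4, pow_mul]
      apply Units.ext
      rw [Units.val_pow_eq_pow_val, hg]
      simp
    rw [h3, map_one]
  · rw [rho_apply, Matrix.mulVec_zero]
  · rw [Fintype.card_fun, Fintype.card_fin, hcard]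
  · exact hc

end Cfsg.Agent.Lib.helper13.SG
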